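import Cfsg.Agent.JR.J1
import Cfsg.Agent.H2.OutL2

/-! Piece J2a: the Sylow `2`-normaliser. -/

set_option autoImplicit false
set_option linter.unusedSectionVars false

namespace Cfsg.Agent.JR

open Subgroup Cfsg.Agent.FT Cfsg.Agent.H1
open scoped commutatorElement

universe u
variable {G : Type u} [Group G] [Finite G]

theorem a_orbit (X : Subgroup G) (t : G) : 𝐂[t].relIndex X = {x | ∃ g ∈ X, g * t * g⁻¹ = x}.ncard := by
  letI : MulAction X G := MulAction.compHom G ((MulAut.conj (G := G)).comp X.subtype)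
  have h := MulAction.index_stabilizer X t
  have a : MulAction.stabilizer X t = 𝐂[t].subgroupOf X := by
    ext g
    rw [MulAction.mem_stabilizer_iff, mem_subgroupOf, mem_cent1_iff, ← mul_inv_eq_iff_eq_mul]
    rfl
  have b : MulAction.orbit X t = {x | ∃ g ∈ X, g * t * g⁻¹ = x} := by
    ext x
    exact ⟨fun ⟨g, e⟩ => ⟨g, g.2, e⟩, fun ⟨g, c, e⟩ => ⟨⟨g, c⟩, e⟩⟩
  rwa [a, b] at h

theorem b_shift {V : Subgroup G} (hc : V ≤ 𝐂(V)) {v g : G} (hv : v ∈ V) (hg : g ∈ 𝐍(V)) :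
    v * g * (v * g) ∈ 𝐂(V) ↔ g * g ∈ 𝐂(V) := by
  rw [show v * g * (v * g) = v * (g * v * g⁻¹) * (g * g) by group,
    mul_mem_cancel_left (hc (V.mul_mem hv (conj_mem_of_mem_normalizer hg hv)))]

theorem a_L {L : Subgroup G} {F : Type} [Field F] [Fintype F] (i : L ≃* L2 F) (h3 : 3 < Fintype.card F)
    (h8 : Fintype.card F % 8 = 3 ∨ Fintype.card F % 8 = 5) :
    ∃ u ∈ L, ∃ v ∈ L, ∃ τ ∈ L, FG u v ∧ orderOf τ = 3 ∧ τ * u * τ⁻¹ = v ∧ τ * v * τ⁻¹ = u * v ∧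
      (∃ c, Odd c ∧ ♯L = 4 * c) ∧ (∀ x ∈ L, x ∈ 𝐂[u] → x ∈ 𝐂[v] → Odd (orderOf x) → x = 1) ∧
      (∀ x ∈ L, x * x ≠ 1 → ∀ a ∈ L, ∀ b ∈ L, a * x = x * a → b * x = x * b → a * b = b * a) ∧
      ∀ x ∈ L, x ∈ 𝐂(L) → x = 1 := by
  obtain ⟨p, n, m, k, e, ar, hF⟩ := exAr h3 h8
  let φ : L2 F →* G := L.subtype.comp i.symm.toMonoidHom
  have φi : Function.Injective φ := L.subtype_injective.comp i.symm.injective
  have φ1 : ∀ x ∈ L, ∃ a, φ a = x := fun x hx => ⟨i ⟨x, hx⟩, by simp [φ]⟩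
  have φ2 : ∀ a, φ a ∈ L := fun a => (i.symm a).2
  have cm : ∀ a b, φ a * φ b = φ b * φ a ↔ a * b = b * a := fun a b => by
    rw [← map_mul, ← map_mul, φi.eq_iff]
  obtain ⟨u, v, τ, f, t3, c1, c2⟩ := j0_a4 (j0_odd ar hF)
  refine ⟨φ u, φ2 u, φ v, φ2 v, φ τ, φ2 τ, ⟨(orderOf_injective φ φi u).trans f.t2,
    (orderOf_injective φ φi v).trans f.u2, (cm u v).2 f.comm, φi.ne f.ne⟩, (orderOf_injective φ φi τ).trans t3,
    by rw [← map_inv, ← map_mul, ← map_mul, c1], by rw [← map_inv, ← map_mul, ← map_mul, c2, map_mul],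
    ⟨p ^ n * m * k, ((hF ▸ j0_odd ar hF).mul ar.odd).mul ar.facts.1, by
      rw [Nat.card_congr i.toEquiv, j0_card ar hF]; ring⟩, fun x x1 x2 x3 x4 => ?_, fun x x1 x2 a a1 b b1 => ?_,
    fun x x1 x2 => ?_⟩
  · obtain ⟨x, rfl⟩ := φ1 x x1
    rw [orderOf_injective φ φi] at x4
    rw [mem_cent1_iff, cm] at x2 x3
    obtain ⟨R, s, r1, r2, r3, r4, r5, r6, r7, r8, r9⟩ := j0_R ar hF f.t2
    have oR : Odd ♯R := r2 ▸ ar.odd
    have cR := comm_iff_le_cent.1 (comm_of_isCyclic r1)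
    obtain ⟨r, c, w, d, g⟩ := r8 v f.comm.symm
    have w1 : ∀ g, g * u = u * g → w ∈ 𝐂[g] := fun g c =>
      d.elim (fun e => e ▸ one_mem _) fun e => e ▸ mem_cent1_iff.2 c.symm
    have xR := mem_of_sq_mem' x4 (r9 x x2)
    rcases g with g | g
    · exfalso
      have a : r * r = 1 := by
        have := f.uu
        rw [g, mul_assoc, ← mul_assoc w, mem_cent1_iff.1 (w1 r (r3 r c)), mul_assoc r w w] at this
        rwa [show w * w = 1 from d.elim (fun e => by rw [e, one_mul]) fun e => e ▸ f.tt, mul_one] at this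
      rw [eq_one_of_odd (odd_orderOf oR c) a, one_mul] at g
      exact d.elim (fun e => ne_one_of_two f.u2 (g.trans e)) fun e => f.ne (g.trans e).symm
    · have a : s ∈ 𝐂[x] := (mul_mem_cancel_left (mul_mem (cent_le_cent1 xR (cR c)) (w1 x x2))).1
        (g ▸ mem_cent1_iff.2 x3.symm)
      have b := r7 x xR
      rw [mem_cent1_iff.1 a, mul_inv_cancel_right] at b
      rw [eq_one_of_odd x4 (mul_eq_one_iff_eq_inv.2 b), map_one]
  · obtain ⟨x, rfl⟩ := φ1 x x1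
    obtain ⟨a, rfl⟩ := φ1 a a1
    obtain ⟨b, rfl⟩ := φ1 b b1
    rw [cm, cm, cm]
    exact MC.F1 fun c => x2 (by rw [← map_mul, c, map_one])
  · obtain ⟨x, rfl⟩ := φ1 x x1
    obtain ⟨s, a, b, c⟩ := MC.F0_simple (F := F) h3
    have d : x ∈ center (L2 F) := mem_center_iff.2 fun y => (cm y x).1 (mem_cent_iff.1 x2 _ (φ2 y))
    rcases (inferInstance : (center (L2 F)).Normal).eq_bot_or_eq_top with g | g
    · rw [g, mem_bot] at d
      rw [d, map_one]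
    · exact absurd (mem_center_iff.1 (g ▸ mem_top b) a) c

theorem J2a {t : G} {L : Subgroup G} {F : Type} [Field F] [Fintype F] (h : Ent t L F) :
    (∀ u : G, orderOf u = 2 → IsConj t u) ∧ t ∉ L ∧
    ∃ S Φ : Subgroup G, Syl 2 S ⊤ ∧ ♯S = 8 ∧ t ∈ S ∧ (∀ x ∈ S, x * x = 1) ∧
      (∀ x ∈ S, x ≠ 1 → ∃ g ∈ 𝐍(S), g * t * g⁻¹ = x) ∧ (𝐂(S)).relIndex 𝐍(S) = 21 ∧
      IsCyclic Φ ∧ Odd ♯Φ ∧ 𝐂(S) = S ⊔ Φ ∧ 𝐍(S) ≤ 𝐂(Φ) ∧ 𝐂[t] = zpowers t ⊔ L ⊔ Φ ∧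
      (♯Φ).Coprime ♯L ∧ 12 ∣ ♯L ∧
      ∀ O ≤ 𝐂[t], Odd ♯O → 𝐂[t] ⊓ 𝐍(S) ≤ 𝐍(O) → O ≤ Φ := by
  haveI : Fact (Nat.Prime 2) := ⟨Nat.prime_two⟩
  haveI := h.simple
  obtain ⟨i⟩ := h.iso
  obtain ⟨u, uL, v, vL, τ, τL, f, t3, c1, c2, ⟨c, oc, cL⟩, l1, l2, l3⟩ := a_L i h.q3 h.q8
  have t1 := ne_one_of_two h.t2
  have tt := sq_of_two h.t2
  have LC := h.nrm.le
  have tL : t ∉ L := fun a => t1 (l3 t a (le_cent1_iff.1 LC))
  have tC := mem_cent1_self t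
  have two : ∀ X ≤ L, zpowers t ≤ 𝐍(X) ∧ (∀ x, x ∈ zpowers t ⊔ X ↔ x ∈ X ∨ x * t ∈ X) ∧
      ♯(zpowers t ⊔ X : Subgroup G) = 2 * ♯X := fun X a => by
    have b : zpowers t ≤ 𝐍(X) := zpowers_le.2 (cent_le_norm _ (le_cent1_iff.1 (a.trans LC)))
    have d : ∀ x, x ∈ zpowers t ⊔ X ↔ x ∈ X ∨ x * t ∈ X := fun x => by
      refine ⟨fun hx => ?_, fun hx => hx.elim (fun e => mem_sup_right e) fun e =>
        (mul_mem_cancel_right (mem_sup_left (mem_zpowers t))).1 (mem_sup_right e)⟩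
      rw [sup_comm] at hx
      obtain ⟨l, l1, x, x1, rfl⟩ := (sdp_sup b (le_bot_iff.1 fun y ⟨b', c⟩ => by
        rcases (mem_zpowers_two h.t2).1 c with e | e
        exacts [e ▸ one_mem _, absurd (e ▸ a b') tL])).mem_iff.1 hx
      rcases (mem_zpowers_two h.t2).1 x1 with rfl | rfl
      · exact Or.inl (by simpa using l1)
      · exact Or.inr (by rwa [mul_assoc, tt, mul_one])
    exact ⟨b, d, card_two le_sup_right (mem_sup_left (mem_zpowers t)) (fun e => tL (a e)) fun g hg => (d g).1 hg⟩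
  set V := V4 u v with hV
  have VL : V ≤ L := V4_le.2 ⟨uL, vL⟩
  obtain ⟨-, mS, s8⟩ := two V VL
  obtain ⟨-, mM, cM⟩ := two L le_rfl
  set S := zpowers t ⊔ V with hS
  set M := zpowers t ⊔ L with hM
  rw [card_V4 f] at s8
  have tS : t ∈ S := mem_sup_left (mem_zpowers t)
  have VS : V ≤ S := le_sup_right
  have zn : zpowers t ⊴ 𝐂[t] := nrm_of_le_cent (zpowers_le.2 tC) (cent_symm (cent_zpowers t).ge)
  have MC : M ⊴ 𝐂[t] := zn.sup h.nrm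
  have SM : S ≤ M := sup_le_sup_left VL _
  have S2 : IsPGroup 2 S := isPGroup_of_card (n := 3) s8
  have sM : Syl 2 S M := ⟨SM, S2, fun a => by
    have b := H2.card_mul_relIndex SM
    rw [s8, cM, cL] at b
    obtain ⟨d, hd⟩ := a
    obtain ⟨c', hc⟩ := oc
    omega⟩
  have sS : Syl 2 S ⊤ := AG.syl h.ag Nat.prime_two (two_zpowers h.t2) (cent_zpowers t).le
    (sM.trans MC.le fun a => Nat.not_even_iff_odd.2 h.odd (even_iff_two_dvd.2 a))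
  have SS : S ≤ 𝐂(S) := AG.le_cent h.ag Nat.prime_two S2
  have sq : ∀ x ∈ S, x * x = 1 := fun x hx => ((mS x).1 hx).elim (V4_sq f) fun a => by
    have := V4_sq f a
    rwa [mul_assoc, ← mul_assoc t, mem_cent_iff.1 (SS hx) t tS, mul_assoc x t t, tt, mul_one] at this
  have St := cent_le_cent1 tS
  have pn := Burnside_normal_complement (sS.of_le SS le_top) inf_le_left
  set Φ := core {2}ᶜ 𝐂(S) with hΦ
  have oΦ : Odd ♯Φ := Nat.not_even_iff_odd.1 fun e => piG_compl_singleton.1 (core_piG {2}ᶜ _) e.two_dvd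
  have ΦS : Φ ≤ 𝐂(S) := core_le _ _
  have Φt := ΦS.trans St
  have cS : 𝐂(S) = S ⊔ Φ := by rw [sup_comm, (pn.sdp (sS.of_le SS le_top)).sup]
  have nΦ : 𝐍(S) ≤ 𝐍(Φ) := le_normalizer_core _ (normalizer_le_normalizer_centralizer S)
  have ΦM : ∀ x ∈ Φ, x ∈ M → x = 1 := fun x a b => by
    have o := odd_orderOf oΦ a
    refine l1 x (((mM x).1 b).elim id fun d => mem_of_sq_mem' o ?_) (cent_le_cent1 (VS (left_mem_V4 u v)) (ΦS a))
      (cent_le_cent1 (VS (right_mem_V4 u v)) (ΦS a)) o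
    have := L.mul_mem d d
    rwa [mul_assoc, ← mul_assoc t, ← mem_cent1_iff.1 (Φt a), mul_assoc x t t, tt, mul_one] at this
  have inn : ∀ x ∈ Φ, ∀ l ∈ L, l⁻¹ * x ∈ 𝐂(L) → x = 1 := fun x a l b d => ΦM x a
    ((mul_mem_cancel_left (M.inv_mem (mem_sup_right b))).1 (mem_sup_left
      (h.cen.le ⟨𝐂[t].mul_mem (𝐂[t].inv_mem (LC b)) (Φt a), d⟩)))
  have cyc : IsCyclic Φ := by
    obtain ⟨p, n, m, k, e, ar, hF⟩ := exAr h.q3 h.q8
    obtain ⟨ψ, hψ⟩ := a_out ar hF (Φt.trans h.nrm.norm) i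
    refine isCyclic_of_injective ψ ((injective_iff_map_eq_one ψ).2 fun x a => ?_)
    obtain ⟨l, b, d⟩ := hψ x a (by rw [← Subgroup.orderOf_coe]; exact odd_orderOf oΦ x.2)
    exact Subtype.ext (inn x x.2 l b d)
  have od : ∀ g ∈ 𝐍(S), g * g ∈ 𝐂(S) → g ∈ 𝐂(S) := fun g a b => by
    obtain ⟨x, y, rfl, x1, y1, x2, y2⟩ := exists_piPart {2} g
    have xS : x ∈ S := (Syl.hall (sS.of_le le_normalizer le_top)).mem_of_nrm le_rfl (zpowers_le.2 a x1) x2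
    refine mul_mem (SS xS) (mem_of_sq_mem' (Nat.not_even_iff_odd.1 fun e =>
      (piNum_compl_singleton Nat.prime_two).1 y2 e.two_dvd) ?_)
    exact (b_shift SS xS (zpowers_le.2 a y1)).1 b
  have τV : τ ∈ 𝐍(V) := mem_normalizer_of_cj_le (by
    rw [hV, cj_V4, c1, c2]
    exact V4_le.2 ⟨right_mem_V4 u v, mul_mem (left_mem_V4 u v) (right_mem_V4 u v)⟩)
  have τS : τ ∈ 𝐍(S) := normalizer_inf_le_sup _ _ ⟨zn.norm (LC τL), τV⟩
  have τu : τ ∉ 𝐂[u] := fun a => f.ne (by rw [← c1, mem_cent1_iff.1 a, mul_inv_cancel_right])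
  have c3 : τ⁻¹ * u * τ⁻¹⁻¹ = u * v := by
    have : τ * (u * v) * τ⁻¹ = u := by
      rw [← conj_mul, c1, c2, ← mul_assoc, ← f.comm, mul_assoc, f.uu, mul_one]
    calc τ⁻¹ * u * τ⁻¹⁻¹ = τ⁻¹ * (τ * (u * v) * τ⁻¹) * τ⁻¹⁻¹ := by rw [this]
      _ = _ := by group
  have trV : ∀ x ∈ V, x ≠ 1 → ∃ g ∈ zpowers τ, g * u * g⁻¹ = x := fun x a b => by
    rcases (mem_V4 f).1 a with rfl | rfl | rfl | rfl
    exacts [absurd rfl b, ⟨1, one_mem _, by simp⟩, ⟨τ, mem_zpowers τ, c1⟩, ⟨τ⁻¹, inv_mem (mem_zpowers τ), c3⟩]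
  have zτ : zpowers τ ≤ 𝐂[t] ⊓ 𝐍(S) := zpowers_le.2 ⟨LC τL, τS⟩
  have SL : S ⊓ L = V := le_antisymm (fun x ⟨a, b⟩ => ((mS x).1 a).elim id fun d =>
    absurd ((L.mul_mem_cancel_left b).1 (VL d)) tL) (le_inf VS VL)
  have N1 : 𝐂[t] ⊓ 𝐍(S) = 𝐂(S) ⊔ zpowers τ := by
    refine le_antisymm (fun g ⟨a, b⟩ => ?_) (sup_le (le_inf St (cent_le_norm S)) zτ)
    have n : ∀ g ∈ 𝐂[t] ⊓ 𝐍(S), g ∈ 𝐍(V) := fun g d => SL ▸ normalizer_inf_le _ _ ⟨d.2, h.nrm.norm d.1⟩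
    obtain ⟨k, k1, k2⟩ := trV _ (conj_mem_of_mem_normalizer (n g ⟨a, b⟩) (left_mem_V4 u v))
      (conj_ne_one (ne_one_of_two f.t2))
    have d : k⁻¹ * g ∈ 𝐂[t] ⊓ 𝐍(S) := mul_mem (inv_mem (zτ k1)) ⟨a, b⟩
    have d1 : k⁻¹ * g * u * (k⁻¹ * g)⁻¹ = u := by
      calc _ = k⁻¹ * (g * u * g⁻¹) * k := by group
        _ = u := by rw [← k2]; group
    refine (mul_mem_cancel_left (inv_mem (mem_sup_right k1))).1 (mem_sup_left (od _ d.2 ?_))
    have d2 := n _ d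
    generalize k⁻¹ * g = y at d d1 d2
    rw [hS, cent_sup, cent_zpowers, hV, cent_V4]
    have yu : y ∈ 𝐂[u] := mem_cent1_iff.2 (mul_inv_eq_iff_eq_mul.1 d1)
    refine ⟨mul_mem d.1 d.1, mul_mem yu yu, mem_cent1_iff.2 (mul_inv_eq_iff_eq_mul.1 ?_)⟩
    rw [show y * y * v * (y * y)⁻¹ = y * (y * v * y⁻¹) * y⁻¹ by group]
    rcases (mem_V4 f).1 (conj_mem_of_mem_normalizer d2 (right_mem_V4 u v)) with e | e | e | e
    · exact absurd e (conj_ne_one (ne_one_of_two f.u2))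
    · exact absurd (by simpa using d1.trans e.symm) f.ne
    · rw [e, e]
    · rw [e, ← conj_mul, d1, e, ← mul_assoc, f.tt, one_mul]
  have i3 : 𝐂(S).relIndex (𝐂[t] ⊓ 𝐍(S)) = 3 := by
    have a := H2.card_mul_relIndex (N1 ▸ le_sup_left : 𝐂(S) ≤ 𝐂[t] ⊓ 𝐍(S))
    have p3 : (♯(zpowers τ)).Prime := by rw [Nat.card_zpowers, t3]; norm_num
    nth_rewrite 2 [N1] at a
    rw [card_sup_of_inf_eq_bot ((zτ.trans inf_le_right).trans (normalizer_le_normalizer_centralizer S))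
      ((inf_comm _ _).trans ((inf_eq_bot_or_le_of_card_prime p3 _).resolve_right fun b =>
        τu (cent_le_cent1 (VS (left_mem_V4 u v)) (b (mem_zpowers τ))))), Nat.card_zpowers, t3] at a
    exact Nat.eq_of_mul_eq_mul_left (card_pos' _) a
  have perf : (⊤ : Subgroup G) ≤ ⁅(⊤ : Subgroup G), (⊤ : Subgroup G)⁆ := by
    rcases (nrm_top_iff.1 (der_nrm (⊤ : Subgroup G))).eq_bot_or_eq_top with a | a
    · exact absurd (cent_le_cent1 (mem_top u) (comm_iff_le_cent.1 (comm_iff_der.2 a) (mem_top τ))) τu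
    · exact a.ge
  have orb := a_orbit 𝐍(S) t
  set O := {x | ∃ g ∈ 𝐍(S), g * t * g⁻¹ = x} with hO
  have O1 : ∀ x ∈ O, ∀ g ∈ 𝐍(S), g * x * g⁻¹ ∈ O := by
    rintro _ ⟨k, k1, rfl⟩ g g1
    exact ⟨g * k, mul_mem g1 k1, by group⟩
  have O3 : ∀ x, ∀ g ∈ 𝐍(S), g * x * g⁻¹ ∈ O ↔ x ∈ O := fun x g a =>
    ⟨fun b => by simpa [mul_assoc] using O1 _ b g⁻¹ (inv_mem a), fun b => O1 x b g a⟩
  have tO : t ∈ O := ⟨1, one_mem _, by simp⟩
  have OS : ∀ x ∈ O, x ∈ S ∧ x ≠ 1 := by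
    rintro _ ⟨k, k1, rfl⟩
    exact ⟨conj_mem_of_mem_normalizer k1 tS, conj_ne_one t1⟩
  have A1 : ∀ x ∈ V, x ≠ 1 → (x ∈ O ↔ u ∈ O) := fun x a b => by
    obtain ⟨g, g1, rfl⟩ := trV x a b
    exact O3 u g (zτ g1).2
  have A2 : ∀ x, x * t ∈ V → x ≠ t → (x ∈ O ↔ u * t ∈ O) := fun x a b => by
    obtain ⟨g, g1, e⟩ := trV _ a fun e => b (by rw [eq_inv_of_mul_eq_one_left e, inv_of_two h.t2])
    rw [← O3 (u * t) g (zτ g1).2, ← conj_mul, e, mem_cent1_iff.1 (zτ g1).1, mul_inv_cancel_right, mul_assoc, tt,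
      mul_one]
  have V4c : (V : Set G).ncard = 4 := by rw [← Nat.card_coe_set_eq]; exact card_V4 f
  have n4 : O.ncard ≠ 4 := fun a => (sS.of_le le_normalizer le_top).not_dvd
    (Dvd.dvd.trans (by rw [orb, a]; norm_num) (relIndex_dvd_of_le_left _ (SS.trans St)))
  have tV : t ∉ V := fun a => tL (VL a)
  have tr : ∀ x ∈ S, x ≠ 1 → x ∈ O := by
    by_cases a1 : u ∈ O <;> by_cases a2 : u * t ∈ O
    · intro x a b
      by_cases d : x = t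
      · exact d ▸ tO
      · exact ((mS x).1 a).elim (fun e => (A1 x e b).2 a1) fun e => (A2 x e d).2 a2
    · refine absurd ?_ n4
      have : O = insert t ((V : Set G) \ {1}) := by
        ext x
        refine ⟨fun a => (em (x = t)).imp id fun d => ⟨((mS x).1 (OS x a).1).elim id fun e =>
          absurd ((A2 x e d).1 a) a2, (OS x a).2⟩, fun a => a.elim (fun e => e ▸ tO) fun e => (A1 x e.1 e.2).2 a1⟩
      rw [this, Set.ncard_insert_of_notMem (fun e => tV e.1), Set.ncard_diff_singleton_of_mem V.one_mem, V4c]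
    · refine absurd ?_ n4
      have : O = (· * t) ⁻¹' (V : Set G) := by
        ext x
        refine ⟨fun a => ((mS x).1 (OS x a).1).elim (fun e => absurd ((A1 x e (OS x a).2).1 a) a1) id,
          fun a => (em (x = t)).elim (fun e => e ▸ tO) fun e => (A2 x a e).2 a2⟩
      rw [this, Set.ncard_preimage_of_injective_subset_range (mul_left_injective t)
        (by rw [(mul_right_surjective t).range_eq]; exact Set.subset_univ _), V4c]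
    · exfalso
      refine t1 (mem_bot.1 ((b_noZ sS SS perf).le ⟨tS, mem_cent_iff.2 fun g hg => mul_inv_eq_iff_eq_mul.1 ?_⟩))
      have a := O1 t tO g hg.2
      by_contra d
      exact ((mS _).1 (OS _ a).1).elim (fun e => a1 ((A1 _ e (OS _ a).2).1 a)) fun e => a2 ((A2 _ e d).1 a)
  have i7 : (𝐂[t] ⊓ 𝐍(S)).relIndex 𝐍(S) = 7 := by
    have : O = (S : Set G) \ {1} := Set.ext fun x => ⟨OS x, fun a => tr x a.1 a.2⟩
    rw [inf_relIndex_right, orb, this, Set.ncard_diff_singleton_of_mem S.one_mem, ← Nat.card_coe_set_eq]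
    exact congrArg (· - 1) s8
  have ΦΦ := comm_iff_le_cent.1 (comm_of_isCyclic cyc)
  have nS : 𝐍(S) ≤ 𝐂(Φ) := by
    have a : 𝐂[t] ⊓ 𝐍(S) ≤ 𝐍(S) ⊓ 𝐂(Φ) := le_inf inf_le_right (by
      rw [N1, cS]
      refine sup_le (sup_le (cent_symm ΦS) ΦΦ) (zpowers_le.2 (mem_cent_iff.2 fun x hx => ?_))
      rw [← mul_inv_eq_iff_eq_mul, ← mul_inv_eq_one]
      refine ΦM _ ?_ (mem_sup_right (L.mul_mem (h.nrm.conj_mem (Φt hx) τL) (L.inv_mem τL)))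
      rw [mul_assoc, mul_assoc, ← mul_assoc τ]
      exact Φ.mul_mem hx (conj_mem_of_mem_normalizer (nΦ τS) (Φ.inv_mem hx)))
    have b := relIndex_mul_relIndex _ _ _ a inf_le_left
    rw [i7] at b
    rcases (Nat.dvd_prime (by norm_num : Nat.Prime 7)).1 (Dvd.intro _ b) with d | d
    · obtain ⟨g, g1, g2⟩ := tr u (VS (left_mem_V4 u v)) (ne_one_of_two f.t2)
      exact absurd (g2 ▸ cj_mem_cent1.2 (relIndex_eq_one.1 d
        ((nrm_inf_centralizer nΦ).conj_mem' g1 (a ⟨LC τL, τS⟩))).1) τu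
    · rw [d] at b
      exact (relIndex_eq_one.1 (by omega : (𝐍(S) ⊓ 𝐂(Φ)).relIndex 𝐍(S) = 1)).trans inf_le_right
  refine ⟨fun j j2 => ?_, tL, S, Φ, sS, s8, tS, sq, tr, ?_, cyc, oΦ, cS, nS, ?_, ?_, ?_, fun D d1 d2 d3 => ?_⟩
  · obtain ⟨g, -, g2⟩ := sS.exists_cj_le (two_zpowers j2) le_top
    obtain ⟨k, -, k2⟩ := tr _ (g2 (conj_mem_cj (mem_zpowers j))) (conj_ne_one (ne_one_of_two j2))
    exact (isConj_iff.2 ⟨k, k2⟩).trans (isConj_iff.2 ⟨g, rfl⟩).symm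
  · rw [← relIndex_mul_relIndex _ _ _ (N1 ▸ le_sup_left : 𝐂(S) ≤ 𝐂[t] ⊓ 𝐍(S)) inf_le_right, i3, i7]
  · refine le_antisymm ?_ (sup_le MC.le Φt)
    rw [← sM.frattini' MC, N1, cS]
    exact sup_le le_sup_left (sup_le (sup_le_sup_right SM _)
      (zpowers_le.2 (mem_sup_left (mem_sup_right τL))))
  · refine Nat.coprime_of_dvd fun r hr a b => ?_
    haveI := Fact.mk hr
    obtain ⟨x, x1, x2⟩ := exists_orderOf_eq_prime hr a
    obtain ⟨R, hR, xR⟩ := exists_syl_ge (isPGroup_of_card_prime (by rw [Nat.card_zpowers, x2]))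
      (zpowers_le.2 (Φt x1))
    let α := L.normalizerMonoidHom ⟨x, h.nrm.norm (Φt x1)⟩
    obtain ⟨k, -, hk⟩ := (Nat.dvd_prime_pow hr (m := 1)).1 (show orderOf α ∣ r ^ 1 by
      rw [pow_one, ← x2]
      exact (orderOf_map_dvd _ _).trans (Subgroup.orderOf_coe _).symm.dvd)
    obtain ⟨g, hg⟩ := OutL2.inner_of_iso h.q3 (Or.inr h.q8) i r b α k hk (hR.inf_of_nrm h.nrm).toSylow
      (AG.sub h.ag L r hr _) fun y hy => Subtype.ext (mul_inv_eq_iff_eq_mul.2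
        (AG.comm h.ag hr hR.isPGroup x (xR (mem_zpowers x)) y hy.1))
    have := inn x x1 g g.2 (mem_cent_iff.2 fun y hy => by
      have c : x * y * x⁻¹ = g * y * (g : G)⁻¹ := congrArg Subtype.val (hg ⟨y, hy⟩)
      calc y * ((g : G)⁻¹ * x) = (g : G)⁻¹ * (g * y * (g : G)⁻¹) * x := by group
        _ = _ := by rw [← c]; group)
    rw [this, orderOf_one] at x2
    exact hr.one_lt.ne x2
  · exact Nat.Coprime.mul_dvd_of_dvd_of_dvd (m := 3) (n := 4) (by norm_num) (t3 ▸ orderOf_dvd_card' τL) ⟨c, cL⟩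
  have e1 : 𝐂[t] ⊓ 𝐍(S) ≤ 𝐍(D ⊓ L) := (le_inf d3 (inf_le_left.trans h.nrm.norm)).trans (normalizer_inf_le _ _)
  have e2 : V ≤ 𝐂[t] ⊓ 𝐍(S) := le_inf (VL.trans LC) (VS.trans le_normalizer)
  have oE : Odd ♯(D ⊓ L : Subgroup G) := odd_of_le inf_le_left d2
  have E0 : D ⊓ L = ⊥ := by
    by_contra a
    generalize hE : D ⊓ L = E at e1 oE a
    have EL : E ≤ L := hE ▸ inf_le_right
    have b := BR oE f (e1 (e2 (left_mem_V4 u v))) (e1 (e2 (right_mem_V4 u v)))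
    have k : ∀ w, ♯(E ⊓ 𝐂[τ * w * τ⁻¹] : Subgroup G) = ♯(E ⊓ 𝐂[w] : Subgroup G) := fun w => by
      rw [← card_cj τ (E ⊓ 𝐂[w]), cj_inf, cj_cent1, cj_eq_iff_mem_normalizer.2 (e1 ⟨LC τL, τS⟩)]
    rw [show E ⊓ 𝐂[u] ⊓ 𝐂[v] = ⊥ from le_bot_iff.1 fun x hx => l1 x (EL hx.1.1) hx.1.2 hx.2
      (odd_orderOf oE hx.1.1), card_bot, one_pow, mul_one, ← c2, k, ← c1, k] at b
    obtain ⟨r, hr, d⟩ := exists_prime_dvd_card a
    haveI := Fact.mk hr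
    have d' : r ∣ ♯(E ⊓ 𝐂[u] : Subgroup G) := hr.dvd_of_dvd_pow (n := 3) (by rwa [pow_three', ← b])
    obtain ⟨x, x1, x2⟩ := exists_orderOf_eq_prime hr d'
    obtain ⟨Q, hQ, xQ⟩ := exists_syl_ge (isPGroup_of_card_prime (by rw [Nat.card_zpowers, x2]))
      (zpowers_le.2 x1.1)
    have QD : Q ≤ E ⊓ 𝐂[u] := fun y hy => ⟨hQ.le hy, mem_cent1_iff.2 (l2 x (EL x1.1) (fun e => by
      rw [eq_one_of_odd (odd_orderOf oE x1.1) e, orderOf_one] at x2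
      exact hr.one_lt.ne x2) y (EL (hQ.le hy)) u uL (AG.comm h.ag hr hQ.isPGroup y hy x (xQ (mem_zpowers x)))
      (mem_cent1_iff.1 x1.2).symm)⟩
    refine hQ.not_dvd (Dvd.dvd.trans ?_ (relIndex_dvd_of_le_left _ QD))
    rw [← H2.card_mul_relIndex (inf_le_left : E ⊓ 𝐂[u] ≤ E), mul_assoc] at b
    exact Nat.eq_of_mul_eq_mul_left (card_pos' _) b ▸ d'.mul_right _
  refine Hall.le_core pn ?_ (piG_compl_singleton.2 fun a => Nat.not_even_iff_odd.2 d2 (even_iff_two_dvd.2 a))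
  rw [hS, cent_sup, cent_zpowers]
  refine le_inf d1 fun x hx => mem_cent_iff.2 fun y hy => ?_
  rw [← mul_inv_eq_iff_eq_mul, ← mul_inv_eq_one]
  refine mem_bot.1 (E0.le ⟨D.mul_mem (conj_mem_of_mem_normalizer (d3 (e2 hy)) hx) (D.inv_mem hx), ?_⟩)
  rw [mul_assoc, mul_assoc, ← mul_assoc x]
  exact L.mul_mem (VL hy) (h.nrm.conj_mem (d1 hx) (L.inv_mem (VL hy)))

end Cfsg.Agent.JR
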