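import Cfsg.Agent.JR.B
import Cfsg.Agent.S0217
import Cfsg.Agent.SF.D
import Cfsg.Agent.H3.Misc
import Cfsg.Agent.MC.R1

/-! Janko-Ree case: general lemmas. -/

set_option autoImplicit false
set_option linter.unusedSectionVars false

namespace Cfsg.Agent.JR

open Subgroup Cfsg.Agent.FT
open scoped commutatorElement

universe u
variable {G : Type u} [Group G] [Finite G] {p n m k : ℕ} {e : ℤ}

theorem AG.sub (h : AG G) (H : Subgroup G) : AG H := fun r hr P =>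
  ⟨⟨fun a b => Subtype.ext (Subtype.ext (h.comm hr (P.isPGroup'.map H.subtype) _
    (mem_map_of_mem _ a.2) _ (mem_map_of_mem _ b.2)))⟩⟩

theorem AG.quo (h : AG G) {H : Type u} [Group H] (f : G →* H) (hf : Function.Surjective f) : AG H := by
  intro r hr P
  haveI := Fact.mk hr
  obtain ⟨Q, rfl⟩ := Sylow.mapSurjective_surjective hf r P
  refine ⟨⟨fun a b => Subtype.ext ?_⟩⟩
  obtain ⟨x, hx, e1⟩ := mem_map.1 (show a.1 ∈ (Q : Subgroup G).map f from a.2)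
  obtain ⟨y, hy, e2⟩ := mem_map.1 (show b.1 ∈ (Q : Subgroup G).map f from b.2)
  show a.1 * b.1 = b.1 * a.1
  rw [← e1, ← e2, ← map_mul, ← map_mul, h.comm hr Q.isPGroup' x hx y hy]

theorem AG.bar (h : AG G) (N H : Subgroup G) : AG (bar N H) :=
  ((h.sub 𝐍(N)).quo (qmk N) (qmk_surjective N)).sub _

/-- Burnside's fusion lemma -/
theorem FUS {r : ℕ} (hr : r.Prime) {Q X Y : Subgroup G} (hQ : Syl r Q X)
    (hc : ∀ x ∈ Q, ∀ y ∈ Q, x * y = y * x) (hY : Y ≤ Q) {g : G} (hg : g ∈ X) (h : cj g Y ≤ Q) :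
    ∃ a ∈ X, a ∈ 𝐍(Q) ∧ ∀ y ∈ Y, a * y * a⁻¹ = g * y * g⁻¹ := by
  haveI := Fact.mk hr
  obtain ⟨a, ha, c, hc', rfl⟩ := hQ.fusion_of_weaklyClosed le_rfl
    (fun y hy => mem_cent_iff.2 fun x hx => hc x hx y hy)
    (fun g _ h1 => eq_of_le_of_card_le h1 (card_cj _ _).ge) hY hg h
  refine ⟨a, ha.1, ha.2, fun y hy => ?_⟩
  rw [mul_assoc a c, ← mem_cent_iff.1 hc'.2 y hy]; group

theorem g1_syl {X : Subgroup G} (h : ¬ 4 ∣ ♯X) {t : G} (ht : orderOf t = 2) (htX : t ∈ X) :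
    Syl 2 (zpowers t) X := ⟨zpowers_le.2 htX, two_zpowers ht, fun h1 => h (by
  rw [← card_mul_relIndex (zpowers_le.2 htX), Nat.card_zpowers, ht]
  exact mul_dvd_mul_left 2 h1)⟩

theorem g1_pNil {X : Subgroup G} (h : ¬ 4 ∣ ♯X) {t : G} (ht : orderOf t = 2) (htX : t ∈ X) :
    PNil 2 X := by
  refine Burnside_normal_complement (g1_syl h ht htX) fun g hg => ?_
  rw [cent_zpowers, mem_cent1_iff]
  rcases (mem_zpowers_two ht).1 ((mem_normalizer_iff.1 hg.2 t).1 (mem_zpowers t)) with e | e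
  · exact absurd e (ne_one_of_two (two_conj ht g))
  · exact mul_inv_eq_iff_eq_mul.1 e

theorem sol4 {X : Subgroup G} (h : ¬ 4 ∣ ♯X) : Group.IsSolvable X := by
  by_cases h2 : 2 ∣ ♯X
  · obtain ⟨t, htX, ht⟩ := exists_orderOf_eq_prime Nat.prime_two h2
    exact MC.r_sol_pNil (g1_pNil h ht htX)
  · exact MC.r_sol_odd h2

theorem OD {X : Subgroup G} (h : ¬ 4 ∣ ♯X) {t : G} (ht : orderOf t = 2) (htX : t ∈ X) :
    ∃ K ≤ X, Odd ♯K ∧ 𝐍(X) ≤ 𝐍(K) ∧ (∀ g ∈ X, g ∈ K ∨ g * t ∈ K) ∧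
      (∀ g ∈ X, Odd (orderOf g) → g ∈ K) ∧ ∀ j ∈ X, orderOf j = 2 → ∃ a ∈ K, a * t * a⁻¹ = j := by
  have h1 := g1_pNil h ht htX
  have h2 := h1.sdp (g1_syl h ht htX)
  refine ⟨core {2}ᶜ X, core_le _ _, Nat.not_even_iff_odd.1 fun e =>
    piG_compl_singleton.1 (core_piG _ X) e.two_dvd, normalizer_le_normalizer_core _ _, fun g hg => ?_,
    fun g hg ho => Hall.mem_of_nrm h1 (core_nrm _ _).norm hg
      ((piNum_compl_singleton Nat.prime_two).2 ho.not_two_dvd_nat), fun j hj hj2 => ?_⟩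
  · obtain ⟨a, ha, b, hb, rfl⟩ := h2.mem_iff.1 hg
    rcases (mem_zpowers_two ht).1 hb with rfl | rfl
    · exact Or.inl (by simpa using ha)
    · exact Or.inr (by rw [mul_assoc, sq_of_two ht, mul_one]; exact ha)
  · obtain ⟨g, hg, e⟩ := (g1_syl h hj2 hj).exists_cj_eq (g1_syl h ht htX)
    obtain ⟨a, ha, b, hb, rfl⟩ := h2.mem_iff.1 hg
    rw [cj_zpowers] at e
    have h3 : a * b * t * (a * b)⁻¹ = a * t * a⁻¹ := by
      rcases (mem_zpowers_two ht).1 hb with rfl | rfl <;> group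
    rw [h3] at e
    rcases (mem_zpowers_two hj2).1 (e ▸ mem_zpowers _) with e1 | e1
    · exact absurd e1 (ne_one_of_two (two_conj ht a))
    · exact ⟨a, ha, e1⟩

theorem g1_cop {K : Subgroup G} (hK : Odd ♯K) {t w : G} (h : FG t w) : (♯(V4 t w)).Coprime ♯K := by
  rw [card_V4 h]; exact Nat.Coprime.pow_left 2 (Nat.coprime_two_left.2 hK)

/-- Brauer's formula for a four-group -/
theorem BR {K : Subgroup G} (hK : Odd ♯K) {t w : G} (h : FG t w) (h1 : t ∈ 𝐍(K)) (h2 : w ∈ 𝐍(K)) :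
    ♯K * ♯(K ⊓ 𝐂[t] ⊓ 𝐂[w] : Subgroup G) ^ 2 =
      ♯(K ⊓ 𝐂[t] : Subgroup G) * ♯(K ⊓ 𝐂[w] : Subgroup G) * ♯(K ⊓ 𝐂[t * w] : Subgroup G) := by
  classical
  have h3 := SF.wielandt (r := 2) (comm_iff_le_cent.2 (V4_comm h)) (fun b hb => by rw [sq, V4_sq h hb])
    (card_V4 h) K (V4_le.2 ⟨h1, h2⟩) hK.not_two_dvd_nat (odd_order_solvable hK)
  have h4 : SF.nz (V4 t w) = {t, w, t * w} := by
    ext x
    simp only [SF.mem_nz, mem_V4 h, Finset.mem_insert, Finset.mem_singleton]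
    refine ⟨fun e => e.1.resolve_left e.2, fun e => ⟨Or.inr e, ?_⟩⟩
    rcases e with rfl | rfl | rfl
    exacts [ne_one_of_two h.t2, ne_one_of_two h.u2, ne_one_of_two h.mul.u2]
  have h5 : w ≠ t * w := fun e => ne_one_of_two h.t2 (by simpa using e.symm)
  rw [h4, Finset.prod_insert (by simp [h.ne, h.mul.ne]), Finset.prod_pair h5] at h3
  rw [inf_assoc, ← cent_V4, mul_assoc, h3, pow_one]

theorem GEN {K : Subgroup G} (hK : Odd ♯K) {t w : G} (h : FG t w) (h1 : t ∈ 𝐍(K)) (h2 : w ∈ 𝐍(K)) :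
    K ≤ (K ⊓ 𝐂[t]) ⊔ (K ⊓ 𝐂[w]) ⊔ (K ⊓ 𝐂[t * w]) := by
  refine H2.le_of_forall_centralizer_le (comm_iff_le_cent.2 (V4_comm h)) (fun hc => ?_)
    (V4_le.2 ⟨h1, h2⟩) (g1_cop hK h) fun a ha h0 => ?_
  · have := eq_of_card_eq_of_le_cyclic hc (zpowers_le.2 (left_mem_V4 t w)) (zpowers_le.2 (right_mem_V4 t w))
      (by rw [Nat.card_zpowers, Nat.card_zpowers, h.t2, h.u2])
    rcases (mem_zpowers_two h.u2).1 (this ▸ mem_zpowers t) with e | e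
    exacts [ne_one_of_two h.t2 e, h.ne e]
  · rcases ((mem_V4 h).1 ha).resolve_left h0 with rfl | rfl | rfl
    exacts [le_sup_left.trans le_sup_left, le_sup_right.trans le_sup_left, le_sup_right]

/-- a fixed-point-free involution inverts -/
theorem INV {K : Subgroup G} (hK : Odd ♯K) {t : G} (ht : t * t = 1) (h1 : t ∈ 𝐍(K))
    (h : K ⊓ 𝐂[t] = ⊥) : (∀ x ∈ K, t * x * t⁻¹ = x⁻¹) ∧ ∀ x ∈ K, ∀ y ∈ K, x * y = y * x := by
  have h2 : ∀ x ∈ K, t * x * t⁻¹ = x⁻¹ := fun x hx => H3.inverts_of_fixedPointFree ht h1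
    (fun n hn e => mem_bot.1 (h ▸ mem_inf.2 ⟨hn, mem_cent1_iff.2 e.symm⟩)) hx
  refine ⟨h2, fun x hx y hy => inv_injective ?_⟩
  rw [← h2 _ (mul_mem hx hy), mul_inv_rev, ← h2 x hx, ← h2 y hy]; group

/-- invariant Sylow subgroups -/
theorem ISY {r : ℕ} (hr : r.Prime) {A K Y : Subgroup G} (hA : A ≤ 𝐍(K)) (hc : (♯A).Coprime ♯K)
    (hs : Group.IsSolvable K) (hY : Y ≤ K) (hYp : IsPGroup r Y) (hAY : A ≤ 𝐍(Y)) :
    ∃ Q, Syl r Q K ∧ Y ≤ Q ∧ A ≤ 𝐍(Q) :=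
  haveI := Fact.mk hr
  exists_invariant_syl_ge hA hc (Or.inr hs) hYp hY hAY

/-- `p`-length one -/
theorem OP {r : ℕ} (hr : r.Prime) {X Q : Subgroup G} (hs : Group.IsSolvable X) (hQ : Syl r Q X)
    (hc : ∀ x ∈ Q, ∀ y ∈ Q, x * y = y * x) :
    ∀ g ∈ X, ∃ a ∈ core {r}ᶜ X, ∃ b ∈ X, b ∈ 𝐍(Q) ∧ g = a * b := by
  haveI := Fact.mk hr
  have h1 := Syl.inf_of_nrm hQ (core2_nrm {r}ᶜ {r} X)
  have h2 : Q ≤ core2 {r}ᶜ {r} X := fun y hy => solvable_p_constrained hs h1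
    ⟨hQ.le hy, mem_cent_iff.2 fun x hx => hc x hx.1 y hy⟩
  rw [inf_of_le_left h2] at h1
  have h3 := Syl.frattini' h1 (core2_nrm _ _ X)
  rw [core2_eq_sup (Syl.hall hQ), inf_of_le_left h2, sup_assoc,
    sup_of_le_right (le_inf hQ.le le_normalizer)] at h3
  intro g hg
  rw [← h3] at hg
  obtain ⟨a, ha, b, hb, rfl⟩ := (mem_sup_of_le_normalizer' (inf_le_left.trans (core_nrm _ X).norm)).1 hg
  exact ⟨a, ha, b, hb.1, hb.2, rfl⟩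

/-- the signalizer lemma -/
theorem SIG {r : ℕ} (hr : r.Prime) {Q A : Subgroup G} (hQ : Syl r Q ⊤)
    (hc : ∀ x ∈ Q, ∀ y ∈ Q, x * y = y * x) (hA : ∀ x, x ∈ A ↔ x ∈ Q ∧ x ^ r = 1) (h3 : r ^ 3 ≤ ♯A)
    (hs : ∀ a ∈ A, a ≠ 1 → Group.IsSolvable 𝐂[a]) :
    ∃ M : Subgroup G, ¬ r ∣ ♯M ∧ 𝐍(Q) ≤ 𝐍(M) ∧
      ∀ a ∈ A, a ≠ 1 → ∀ g ∈ 𝐂[a], ∃ x ∈ M, ∃ b ∈ 𝐍(Q), g = x * b := by
  haveI := Fact.mk hr
  have hq : ∀ a ∈ A, Q ≤ 𝐂[a] := fun a ha x hx => mem_cent1_iff.2 (hc x hx a ((hA a).1 ha).1)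
  have h1 := (S0217.result A (fun a ha b hb => hc a ((hA a).1 ha).1 b ((hA b).1 hb).1)
    (fun a ha => ((hA a).1 ha).2) h3 (fun a => core {r}ᶜ 𝐂[a]) (fun a _ _ => core_le _ _)
    (fun a _ _ => piG_compl_singleton.1 (core_piG _ _))
    (fun a ha _ b hb x hx => (core_nrm _ _).conj_mem (hq a ha ((hA b).1 hb).1) hx)
    (fun a ha h0 => isSolvable_of_le (core_le _ _) (hs a ha h0)) (fun a ha _ b hb h0 => by
      have h4 := p'core_cent_pgroup (p := r) (R := zpowers a) (H := 𝐂[b])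
        (isPGroup_of_le (zpowers_le.2 ((hA a).1 ha).1) hQ.isPGroup)
        (zpowers_le.2 (hq b hb ((hA a).1 ha).1)) (hs b hb h0)
      rw [cent_zpowers] at h4
      exact le_trans (le_inf inf_le_left (le_inf inf_le_right (inf_le_left.trans (core_le _ _))))
        ((core_inf_le inf_le_right).trans h4))).1
  refine ⟨_, h1, fun g hg => ?_, fun a ha h0 g hg => ?_⟩
  · rw [← cj_eq_iff_mem_normalizer]
    refine eq_of_le_of_card_le ?_ (card_cj _ _).ge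
    rw [cj_le_iff_le_cj_inv]
    refine iSup_le fun a => ?_
    rw [← cj_le_iff_le_cj_inv, cj_core, cj_cent1]
    exact le_iSup (fun a : {a : G // a ∈ A ∧ a ≠ 1} => core {r}ᶜ 𝐂[a.1]) ⟨g * a * g⁻¹,
      (hA _).2 ⟨(mem_normalizer_iff.1 hg _).1 ((hA _).1 a.2.1).1, by
        rw [conj_pow, ((hA _).1 a.2.1).2, mul_one, mul_inv_cancel]⟩, conj_ne_one a.2.2⟩
  · obtain ⟨x, hx, b, -, hb, e⟩ := OP hr (hs a ha h0) (hQ.of_le (hq a ha) le_top) hc g hg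
    exact ⟨x, le_iSup (fun a : {a : G // a ∈ A ∧ a ≠ 1} => core {r}ᶜ 𝐂[a.1]) ⟨a, ha, h0⟩ hx, b, hb, e⟩

theorem g1_ax0 {D : Subgroup G} (hD : IsCyclic D) {g j : G} (hg : g ∈ 𝐍(D)) (hj : j ∈ 𝐍(D))
    (ho : Odd (orderOf g)) (h : j * g * j⁻¹ = g⁻¹) : g ∈ 𝐂(D) := by
  refine mem_of_sq_mem' ho ?_
  have := comm_quotient_cent_cyclic hD le_rfl (commutator_mem_commutator hg hj)
  rwa [commutatorElement_def, show g * j * g⁻¹ * j⁻¹ = g * (j * g * j⁻¹)⁻¹ by group, h, inv_inv] at this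

theorem g1_nz {g j : G} (h : j * g * j⁻¹ = g ∨ j * g * j⁻¹ = g⁻¹) : j ∈ 𝐍(zpowers g) := by
  rw [← cj_eq_iff_mem_normalizer, cj_zpowers]
  rcases h with h | h <;> rw [h]
  exact zpowers_inv

theorem g1_ax1 {l : ℕ} (hl : l.Prime) {V : Subgroup G} (hV : IsPGroup l V) (ho : Odd l)
    (hc : ∀ x ∈ V, ∀ y ∈ V, x * y = y * x) {t w g : G} (hf : FG t w) (h1 : t ∈ 𝐍(V)) (h2 : w ∈ 𝐍(V))
    (c2 : IsCyclic (V ⊓ 𝐂[w] : Subgroup G)) (c3 : IsCyclic (V ⊓ 𝐂[t * w] : Subgroup G))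
    (hg : g ∈ 𝐍(V)) (og : (orderOf g).Coprime (2 * l)) (g1 : g ∈ 𝐂(V ⊓ 𝐂[t])) (g2 : t * g = g * t)
    (g3 : w * g * w⁻¹ = g⁻¹) (h0 : g ∉ 𝐂(V)) : V ⊓ 𝐂[g] ⊓ 𝐂[w] = ⊥ ∧ V ⊓ 𝐂[w] ≠ ⊥ := by
  haveI := Fact.mk hl
  obtain ⟨a, ha⟩ := hV.exists_card_eq
  have hd := dp_of_coprime_comm (zpowers_le_normalizer hg) (by
    rw [Nat.card_zpowers, ha]; exact (Nat.Coprime.coprime_mul_left_right og).pow_right a)
    (comm_iff_le_cent.2 fun y hy => mem_cent_iff.2 fun x hx => hc x hx y hy)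
  rw [cent_zpowers] at hd
  have hn : ∀ j ∈ 𝐍(V), j ∈ 𝐍(zpowers g) → j ∈ 𝐍(⁅V, zpowers g⁆) := fun j e1 e2 =>
    le_normalizer_commutator (zpowers_le.2 e1) (zpowers_le.2 e2) (mem_zpowers j)
  have n2 := hn w h2 (g1_nz (Or.inr g3))
  have h3 : ⁅V, zpowers g⁆ ⊓ 𝐂[w] ≠ ⊥ := fun e => h0 (by
    have h4 := GEN (odd_of_le hd.le_right (ha ▸ ho.pow)) hf
      (hn t h1 (g1_nz (Or.inl (by rw [g2, mul_inv_cancel_right])))) n2
    have h5 : ⁅V, zpowers g⁆ ⊓ 𝐂[t] = ⊥ := eq_bot_iff.2 (le_trans (le_inf (le_inf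
      (inf_le_left.trans hd.le_right) ((inf_le_inf_right _ hd.le_right).trans (le_cent1_iff.2 g1)))
      inf_le_left) hd.inf.le)
    rw [e, h5, bot_sup_eq, bot_sup_eq] at h4
    have h6 := g1_ax0 (isCyclic_of_le' (h4.trans (inf_le_inf_right _ hd.le_right)) c3)
      (hn g hg (le_normalizer (mem_zpowers g))) n2 (Nat.coprime_two_right.1
        (Nat.Coprime.coprime_mul_right_right og)) g3
    refine zpowers_le.1 (le_cent_iff_commutator'.2 (eq_bot_iff.2 (le_trans ?_ hd.inf.le)))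
    exact le_inf (le_inf hd.le_right (le_cent1_iff.2 h6)) le_rfl)
  refine ⟨by_contra fun e => ?_, ne_bot_of_le (inf_le_inf_right _ hd.le_right) h3⟩
  have i1 : V ⊓ 𝐂[g] ⊓ 𝐂[w] ≤ V ⊓ 𝐂[w] := inf_le_inf_right _ inf_le_left
  have i2 : ⁅V, zpowers g⁆ ⊓ 𝐂[w] ≤ V ⊓ 𝐂[w] := inf_le_inf_right _ hd.le_right
  obtain ⟨X, hX, e1⟩ := exists_card_eq_prime hl
    (dvd_card_of_isPGroup (isPGroup_of_le (i1.trans inf_le_left) hV) e)
  obtain ⟨Y, hY, e2⟩ := exists_card_eq_prime hl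
    (dvd_card_of_isPGroup (isPGroup_of_le (i2.trans inf_le_left) hV) h3)
  have := eq_of_card_eq_of_le_cyclic c2 (hX.trans i1) (hY.trans i2) (e1.trans e2.symm)
  exact ne_bot_of_card_prime hl e1 (eq_bot_iff.2 ((le_inf (hX.trans inf_le_left)
    (this.le.trans (hY.trans inf_le_left))).trans hd.inf.le))

/-- the axis lemma -/
theorem AX {l : ℕ} (hl : l.Prime) {V : Subgroup G} (hV : IsPGroup l V) (ho : Odd l)
    (hc : ∀ x ∈ V, ∀ y ∈ V, x * y = y * x) {t w g h : G} (hf : FG t w) (h1 : t ∈ 𝐍(V)) (h2 : w ∈ 𝐍(V))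
    (h0 : V ⊓ 𝐂[t] ⊓ 𝐂[w] = ⊥) (c1 : IsCyclic (V ⊓ 𝐂[t] : Subgroup G))
    (c2 : IsCyclic (V ⊓ 𝐂[w] : Subgroup G)) (c3 : IsCyclic (V ⊓ 𝐂[t * w] : Subgroup G))
    (hg : g ∈ 𝐍(V)) (hh : h ∈ 𝐍(V)) (hgh : g * h = h * g) (og : (orderOf g).Coprime (2 * l))
    (oh : (orderOf h).Coprime (2 * l)) (g1 : g ∈ 𝐂(V ⊓ 𝐂[t])) (g2 : t * g = g * t)
    (g3 : w * g * w⁻¹ = g⁻¹) (k1 : h ∈ 𝐂(V ⊓ 𝐂[w])) (k2 : w * h = h * w)
    (k3 : t * h * t⁻¹ = h⁻¹) : g ∈ 𝐂(V) ∨ h ∈ 𝐂(V) := by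
  haveI := Fact.mk hl
  by_contra h3
  rw [not_or] at h3
  obtain ⟨a, ha⟩ := hV.exists_card_eq
  have a1 := g1_ax1 hl hV ho hc hf h1 h2 c2 c3 hg og g1 g2 g3 h3.1
  have a2 := (g1_ax1 hl hV ho hc hf.symm h2 h1 c1 (hf.comm ▸ c3) hh oh k1 k2 k3 h3.2).1
  have a3 := (g1_ax1 hl hV ho hc hf.symm.mul h2 (mul_mem h2 h1) (hf.comm ▸ c3)
    (by rw [← mul_assoc, hf.uu, one_mul]; exact c1) hh oh k1 k2 (by
      rw [show w * t * h * (w * t)⁻¹ = w * (t * h * t⁻¹) * w⁻¹ by group, k3,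
        show w * h⁻¹ * w⁻¹ = (w * h * w⁻¹)⁻¹ by group, k2, mul_inv_cancel_right]) h3.2).1
  have hn : ∀ j ∈ 𝐍(V), j ∈ 𝐍(zpowers h) → j ∈ 𝐍(V ⊓ 𝐂[h]) := fun j e1 e2 => by
    rw [← cent_zpowers]
    exact le_normalizer_inf (zpowers_le.2 e1) (le_normalizer_centralizer (zpowers_le.2 e2)) (mem_zpowers j)
  have n2 := hn w h2 (g1_nz (Or.inl (by rw [k2, mul_inv_cancel_right])))
  have h4 := GEN (odd_of_le (inf_le_left : V ⊓ 𝐂[h] ≤ V) (ha ▸ ho.pow)) hf.symm n2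
    (hn t h1 (g1_nz (Or.inr k3)))
  rw [a2, a3, sup_bot_eq, sup_bot_eq] at h4
  have h5 : V ⊓ 𝐂[h] = V ⊓ 𝐂[w] := le_antisymm (h4.trans (inf_le_inf_right _ inf_le_left))
    (le_inf inf_le_left (le_cent1_iff.2 k1))
  have h6 := g1_ax0 (h5 ▸ c2) (hn g hg (g1_nz (Or.inl (by rw [hgh, mul_inv_cancel_right])))) n2
    (Nat.coprime_two_right.1 (Nat.Coprime.coprime_mul_right_right og)) g3
  rw [h5] at h6
  exact a1.2 (eq_bot_iff.2 (le_trans (le_inf (le_inf inf_le_left (le_cent1_iff.2 h6)) inf_le_right)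
    a1.1.le))

end Cfsg.Agent.JR
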