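import Cfsg.Agent.JR.J5h

/-! Piece G2: triality, the centraliser of `P`, the Sylow `p`-subgroup for `e = 1`. -/

set_option autoImplicit false
set_option linter.unusedSectionVars false
set_option linter.unusedVariables false

namespace Cfsg.Agent.JR

open Subgroup Cfsg.Agent.FT Cfsg.Agent.JR.J5

universe u
variable {G : Type u} [Group G] [Finite G] {p n m k : ℕ} {e : ℤ}

theorem TRI (h : JR G p n m k e) (h3 : ¬ 3 ∣ m) {r : ℕ} (hr : r.Prime) {Q Y0 Y : Subgroup G}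
    (hQ : Syl r Q ⊤) {t w g : G} (hf : FG t w) (h1 : t ∈ 𝐍(Q)) (h2 : w ∈ 𝐍(Q)) (hY0 : Y0 ≤ Q ⊓ 𝐂[t])
    (hY : Y ≤ Q ⊓ 𝐂[w]) (hg : cj g Y0 = Y) (h4 : ¬ 4 ∣ ♯𝐂(Y)) (h8 : ¬ 8 ∣ ♯𝐍(Q)) :
    ∃ τ s : G, orderOf τ = 3 ∧ τ ∈ 𝐍(Q) ∧ τ * t * τ⁻¹ = w ∧ τ * w * τ⁻¹ = t * w ∧
      orderOf s = 2 ∧ s * τ = τ * s := by
  obtain ⟨a, -, a1, a2⟩ := FUS hr hQ (h.ag.comm hr hQ.isPGroup) (hY0.trans inf_le_left) (mem_top g)
    (hg ▸ hY.trans inf_le_left)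
  obtain ⟨K, k1, -, -, -, -, k2⟩ := OD (X := 𝐂(Y) ⊓ 𝐍(Q)) (fun d => h4 (d.trans (card_dvd_of_le' inf_le_left)))
    hf.u2 ⟨le_cent1_iff.1 (hY.trans inf_le_right), h2⟩
  obtain ⟨b, b1, b2⟩ := k2 (a * t * a⁻¹) ⟨mem_cent_iff.2 (by
    rw [← hg]
    rintro _ ⟨y, hy, rfl⟩
    rw [MulEquiv.coe_toMonoidHom, MulAut.conj_apply, ← a2 y hy, conj_mul, conj_mul,
      mem_cent1_iff.1 (hY0 hy).2]), (𝐍(Q)).mul_mem (mul_mem a1 h1) ((𝐍(Q)).inv_mem a1)⟩ (two_conj hf.t2 a)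
  have WN : V4 t w ≤ 𝐍(Q) := J5.V4_le h1 h2
  have c1 : b⁻¹ * a * t * (b⁻¹ * a)⁻¹ = w := by
    calc _ = b⁻¹ * (a * t * a⁻¹) * b := by group
      _ = _ := by rw [← b2]; group
  obtain ⟨x, x1, x2, x3⟩ := FUS (Q := V4 t w) (Y := zpowers t) Nat.prime_two ⟨WN, V4_two hf, fun d => h8 (by
      rw [← card_mul_relIndex WN, card_V4 hf]; exact Nat.mul_dvd_mul_left 4 d)⟩
    (fun x hx y hy => mem_cent_iff.1 (V4_comm hf hy) x hx) (zpowers_le.2 (t_mem t w))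
    (mul_mem (inv_mem (k1 b1).2) a1) (by rw [cj_zpowers, c1]; exact zpowers_le.2 (w_mem t w))
  have x4 := (x3 t (mem_zpowers t)).trans c1
  obtain ⟨s, τ, hs⟩ := h.st hf
  have act : ∀ {c v}, c ∈ 𝐂(V4 t w) → v ∈ V4 t w → c * v * c⁻¹ = v := fun hc hv => by
    rw [← mem_cent_iff.1 hc _ hv, mul_inv_cancel_right]
  have x5 : x * τ⁻¹ ∈ 𝐂(V4 t w) := by
    rcases h.nW hs x x2 with d | d | d
    · exact absurd ((act d (t_mem t w)).symm.trans x4) hf.ne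
    · have := act d (mul_mem (t_mem t w) (w_mem t w))
      rw [show x * τ * (t * w) * (x * τ)⁻¹ = x * (τ * (t * w) * τ⁻¹) * x⁻¹ by group, hs.c3, x4] at this
      exact absurd (right_eq_mul.1 this) (ne_one_of_two hf.t2)
    · exact d
  have x6 : x * w * x⁻¹ = t * w := by
    rw [← act x5 (mul_mem (t_mem t w) (w_mem t w)), ← hs.c2]; group
  have x7 : x ^ 3 ∈ 𝐂(V4 t w) := by
    have e3 : x * (t * w) * x⁻¹ = t := by rw [← conj_mul, x4, x6, hf.comm, ← mul_assoc, hf.uu, one_mul]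
    rw [cent_V4]
    refine ⟨mem_cent1_iff.2 (mul_inv_eq_iff_eq_mul.1 ?_), mem_cent1_iff.2 (mul_inv_eq_iff_eq_mul.1 ?_)⟩
    · calc _ = x * (x * (x * t * x⁻¹) * x⁻¹) * x⁻¹ := by rw [pow_three']; group
        _ = _ := by rw [x4, x6, e3]
    · calc _ = x * (x * (x * w * x⁻¹) * x⁻¹) * x⁻¹ := by rw [pow_three']; group
        _ = _ := by rw [x6, e3, x4]
  obtain ⟨i, hi⟩ : ∃ i, 8 * m * (8 * m) = 3 * i + 1 := by
    have : m % 3 = 1 ∨ m % 3 = 2 := by omega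
    refine ⟨8 * m * (8 * m) / 3, ?_⟩
    have : 8 * m * (8 * m) % 3 = 1 := by rcases this with d | d <;> simp [Nat.mul_mod, d]
    omega
  have y1 : ∀ v ∈ V4 t w, x ^ (3 * i + 1) * v * (x ^ (3 * i + 1))⁻¹ = x * v * x⁻¹ := fun v hv => by
    rw [pow_succ', pow_mul, mul_inv_rev, mul_assoc x, mul_assoc x, ← mul_assoc (_ * v), act (pow_mem x7 i) hv,
      mul_assoc]
  haveI := Fact.mk Nat.prime_three
  have y2 : orderOf (x ^ (3 * i + 1)) = 3 := orderOf_eq_prime (by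
    rw [← pow_mul, mul_comm, pow_mul, ← hi, pow_mul, ← h.cardCW hf, pow_card_eq_one'' x7, one_pow]) fun d => by
    have := y1 t (t_mem t w)
    rw [d, x4] at this
    exact hf.ne (by simpa using this)
  obtain ⟨c, -, c2⟩ := Syl.exists_le_cj (p := 3) (P := zpowers τ) (H := 𝐍(V4 t w))
    ⟨zpowers_le.2 hs.tN, pg_zp hs.t3, fun d => h3 (by
      have := card_mul_relIndex (zpowers_le.2 hs.tN)
      rw [Nat.card_zpowers, hs.t3, (h.cardW hf).2.2] at this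
      omega)⟩ (pg_zp y2) (zpowers_le.2 (pow_mem x2 _))
  refine ⟨_, c * s * c⁻¹, y2, pow_mem x1 _, (y1 t (t_mem t w)).trans x4, (y1 w (w_mem t w)).trans x6,
    two_conj hs.s2 c, mem_cent1_iff.1 (cent1_le_cent1_of_mem (cj_zpowers c τ ▸ c2 (mem_zpowers _)) ?_)⟩
  rw [mem_cent1_iff, conj_mul, conj_mul, hs.ts]

theorem comm_of_nil (h : AG G) {K : Subgroup G} (hK : Group.IsNilpotent K) : K ≤ 𝐂(K) :=
  le_of_forall_syl fun l _ _ => ⟨_, syl_core_of_nil hK, cent_symm (le_of_forall_syl fun l' _ _ =>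
    ⟨_, syl_core_of_nil hK, by
      by_cases d : l' = l
      · subst d; exact h.le_cent Fact.out (core_isPGroup K)
      · exact core_le_cent_core (Set.disjoint_singleton.2 d) K⟩)⟩

theorem PT.ex (h : JR G p n m k e) {t : G} {P : Subgroup G} (hP : PT p (p ^ n) t P) : ∃ z ∈ P, z ≠ 1 :=
  exists_ne_one_of_ne_bot (one_lt_card.1 (by rw [hP.card]; have := h.ar.q3; omega))

theorem CP (h : JR G p n m k e) {t : G} {P : Subgroup G} (hP : PT p (p ^ n) t P) :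
    ∃ A U : Subgroup G, P ≤ U ∧ U ≤ A ∧ A ≤ 𝐂(P) ∧ (∀ x ∈ A, ∀ y ∈ A, x * y = y * x) ∧ Odd ♯A ∧
      𝐍(P) ≤ 𝐍(A) ∧ 𝐍(P) ≤ 𝐍(U) ∧ (∀ g ∈ 𝐂(P), g ∈ A ∨ g * t ∈ A) ∧ Syl p U ⊤ ∧ U ⊓ 𝐂[t] = P ∧
      ∀ g ∈ 𝐍(P), ∃ a ∈ A, ∃ c ∈ 𝐍(P), c ∈ 𝐂[t] ∧ g = a * c := by
  haveI := Fact.mk h.ar.pp
  obtain ⟨z, hz, z1⟩ := hP.ex h
  have tP := le_cent1_iff.1 hP.cen
  have oP : Odd ♯P := hP.card ▸ h.oddq
  obtain ⟨K, k1, k2, k3, k4, k5, k6⟩ := OD (X := 𝐂(P))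
    (fun d => h.n4P hP hz z1 (d.trans (card_dvd_of_le' (cent_le_cent1 hz)))) hP.t2 tP
  have NK : 𝐍(P) ≤ 𝐍(K) := (le_normalizer_centralizer le_rfl).trans k3
  have PK : P ≤ K := fun x hx => k5 x (mem_cent_iff.2 fun a ha => hP.comm a ha x hx) (odd_ord oP hx)
  have Kt : K ⊓ 𝐂[t] ≤ P := fun g hg =>
    Pcent hP hz z1 hg.2 (mem_cent_iff.1 (k1 hg.1) z hz).symm (odd_ord k2 hg.1)
  have tN := cent_le_norm P tP
  have nK : Group.IsNilpotent K := isNilpotent_of_bar_central (cent_symm k1) (isNilpotent_of_comm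
    (comm_iff_le_cent.2 fun y hy => mem_cent_iff.2 fun x hx => (INV (odd_bar k2 P)
      (by rw [← coset_mul tN tN, sq1 hP.t2, coset_one]) (coset_mem_normalizer_bar tN (NK tN)) (by
      rw [← bar_inf_cent1 tN (by rw [hP.t2]; exact Nat.coprime_two_left.2 oP) PK]
      exact bar_eq_bot Kt)).2 x hx y hy))
  have hU := syl_core_of_nil (p := p) nK
  have pP : IsPGroup p P := isPGroup_of_card hP.card
  have PU : P ≤ core {p} K := le_core_of_nil nK PK (piG_singleton_iff.2 pP)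
  refine ⟨K, core {p} K, PU, hU.le, k1, fun x hx y hy => mem_cent_iff.1 (comm_of_nil h.ag nK hy) x hx, k2, NK,
    le_normalizer_core _ NK, k4, ?_, le_antisymm ((inf_le_inf_right _ hU.le).trans Kt) (le_inf PU hP.cen),
    fun g hg => ?_⟩
  · obtain ⟨Q', a, b⟩ := exists_syl_ge hU.isPGroup (hU.le.trans k1)
    obtain ⟨j, hj⟩ := IsPGroup.iff_card.1 a.isPGroup
    rw [← hU.eq_of_le a.isPGroup b fun g hg => k5 g (a.le hg) (odd_ord (hj ▸ h.ar.facts.2.1.pow) hg)]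
    exact h.ag.syl h.ar.pp pP le_rfl a
  · obtain ⟨a, a1, a2⟩ := k6 _ (conj_mem_of_mem_normalizer (le_normalizer_centralizer le_rfl hg) tP)
      (two_conj hP.t2 g)
    refine ⟨a, a1, a⁻¹ * g, mul_mem (inv_mem (cent_le_norm P (k1 a1))) hg, mem_cent1_iff.2 ?_, by simp⟩
    calc _ = a⁻¹ * (g * t * g⁻¹) * g := by group
      _ = _ := by rw [← a2]; group

theorem PE1 (h : JR G p n m k 1) (h3 : ¬ 3 ∣ m) {t u : G} {P U : Subgroup G} (hP : PT p (p ^ n) t P)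
    (hf : FG t u) (hu : u ∈ 𝐍(P)) (hU : Syl p U ⊤) (h1 : P ≤ U) (h2 : 𝐍(P) ≤ 𝐍(U)) (oU : Odd ♯U)
    (Ut : U ⊓ 𝐂[t] = P) (h0 : U ⊓ 𝐂[u] ≠ ⊥) :
    ∃ τ s : G, orderOf τ = 3 ∧ τ ∈ 𝐍(U) ∧ τ * t * τ⁻¹ = u ∧ τ * u * τ⁻¹ = t * u ∧
      orderOf s = 2 ∧ s * τ = τ * s := by
  have pp := h.ar.pp
  haveI := Fact.mk pp
  obtain ⟨f1, f2, -, f4, f5, f6, -, -, -, f10, -⟩ := h.ar.facts
  have tP := cent_le_norm P (le_cent1_iff.1 hP.cen)
  have hc := h.ag.comm pp hU.isPGroup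
  obtain ⟨-, hR⟩ := (h.cf t hf.t2).pP rfl P hP u hf hu
  obtain ⟨z, hz, oz⟩ := exists_orderOf_eq_prime pp
    (dvd_card_of_isPGroup (isPGroup_of_le inf_le_left hU.isPGroup) h0)
  obtain ⟨P', hP', zP⟩ : ∃ P', PT p (p ^ n) u P' ∧ z ∈ P' := by
    rcases h.typ hf.u2 hz.2 pp oz (fun d => by rw [d] at f2; exact absurd f2 (by decide)) with
      ⟨a, -⟩ | ⟨a, -⟩ | ⟨-, a⟩
    · exact absurd (Nat.eq_one_of_dvd_coprimes f5 dvd_rfl a) pp.one_lt.ne'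
    · exact absurd (Nat.eq_one_of_dvd_coprimes f6 dvd_rfl a) pp.one_lt.ne'
    · exact a
  have z1 := ne1 pp oz
  have Uu : U ⊓ 𝐂[u] ≤ P' := fun g hg => Pcent hP' zP z1 hg.2 (hc g hg.1 z hz.1) (odd_ord oU hg.1)
  have Rt : zpowers t ≤ 𝐍(Rw t u) := zpowers_le.2 (Rw_norm hf (le_normalizer (t_mem t u)))
  have cD : ♯(Rw t u ⊔ zpowers t : Subgroup G) = m * 2 := by
    rw [card_sup_of_inf_eq_bot Rt (inf_eq_bot_of_coprime' (by
      rw [Nat.card_zpowers, hf.t2]; exact Nat.coprime_two_right.2 (h.oddR hf))), h.cardR hf, Nat.card_zpowers, hf.t2]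
  have Du : Rw t u ⊔ zpowers t ≤ 𝐂[u] :=
    sup_le ((Rw_le t u).trans inf_le_right) (zpowers_le.2 (mem_cent1_iff.2 hf.comm))
  have cop : (m * 2).Coprime p := f5.symm.mul_left (Nat.coprime_two_left.2 f2)
  have reg : SemiReg (U ⊓ 𝐂[u]) (Rw t u ⊔ zpowers t) := fun d hd d1 => (eq_bot_iff_forall _).2 fun x hx => by
    by_contra x1
    have d2 := pow_card_eq_one'' hd
    rw [cD] at d2
    rcases hP'.cent x (Uu hx.1) x1 d (Du hd) (mem_cent1_iff.1 hx.2).symm with a | a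
    · exact d1 (pow_eq_one_iff_of_coprime cop |>.1 ⟨d2, hP'.exp d a⟩)
    · have a1 : d * u = 1 := (pow_eq_one_iff_of_coprime cop).1 ⟨by
        rw [Commute.mul_pow (mem_cent1_iff.1 (Du hd)), d2, mul_comm m, pow_mul, sq, hf.uu, one_pow, one_mul],
        hP'.exp _ a⟩
      rw [eq_inv_of_mul_eq_one_left a1, inv2 hf.u2] at hd
      have := card_dvd_of_le' (J5.V4_le (mem_sup_right (mem_zpowers t)) hd)
      rw [card_V4 hf, cD] at this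
      obtain ⟨j, hj⟩ := h.ar.odd
      omega
  have e1 := reg.card_dvd (le_normalizer_inf (sup_le hR (zpowers_le.2 tP) |>.trans h2)
    (Du.trans le_normalizer))
  have e2 := card_dvd_of_le' Uu
  have e3 := one_lt_card.2 h0
  have e4 := f10 rfl
  rw [cD] at e1
  rw [hP'.card] at e2
  have e5 : U ⊓ 𝐂[u] = P' := eq_of_le_of_card_le Uu (by
    rw [hP'.card]
    have := Nat.le_of_dvd (by omega) e1
    obtain ⟨j, hj⟩ := e2
    have := h.ar.q3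
    rcases j with _ | _ | j
    · omega
    · omega
    · nlinarith [Nat.sub_add_cancel (show 1 ≤ p ^ n by omega), Nat.sub_add_cancel e3.le])
  obtain ⟨g, -, hg⟩ := h.cjP hP hP'
  refine TRI h h3 pp hU hf (h2 tP) (h2 hu) Ut.ge e5.ge hg
    (fun d => h.n4P hP' zP z1 (d.trans (card_dvd_of_le' (cent_le_cent1 zP)))) fun d => ?_
  have := (h.ag.two_dvd (a := 3) (pg_zp hf.t2) (zpowers_le.2 (h2 tP)) d).trans (card_dvd_of_le'
    (K := 𝐍(P) ⊓ 𝐂[t]) (by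
      rw [cent_zpowers, ← Ut]
      exact le_inf (le_normalizer_inf inf_le_right (inf_le_left.trans le_normalizer)) inf_le_left))
  rw [hP.cN, e4, mul_left_comm] at this
  obtain ⟨j, hj⟩ := h.oddq.mul h.ar.odd
  omega

theorem PE (h : JR G p n m k 1) (h3 : ¬ 3 ∣ m) {t u : G} {P U : Subgroup G} (hP : PT p (p ^ n) t P)
    (hf : FG t u) (hu : u ∈ 𝐍(P)) (hU : Syl p U ⊤) (h1 : P ≤ U) (h2 : 𝐍(P) ≤ 𝐍(U)) :
    U = P ∨ ∃ τ s : G, orderOf τ = 3 ∧ τ ∈ 𝐍(U) ∧ τ * t * τ⁻¹ = u ∧ τ * u * τ⁻¹ = t * u ∧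
      orderOf s = 2 ∧ s * τ = τ * s := by
  haveI := Fact.mk h.ar.pp
  have tP := cent_le_norm P (le_cent1_iff.1 hP.cen)
  obtain ⟨j, hj⟩ := IsPGroup.iff_card.1 hU.isPGroup
  have oU : Odd ♯U := hj ▸ h.ar.facts.2.1.pow
  obtain ⟨z, hz, z1⟩ := hP.ex h
  have Ut : U ⊓ 𝐂[t] = P := le_antisymm (fun g hg => Pcent hP hz z1 hg.2
    (h.ag.comm h.ar.pp hU.isPGroup g hg.1 z (h1 hz)) (odd_ord oU hg.1)) (le_inf h1 hP.cen)
  by_cases a : U ⊓ 𝐂[u] = ⊥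
  · by_cases b : U ⊓ 𝐂[t * u] = ⊥
    · have := GEN oU hf (h2 tP) (h2 hu)
      rw [a, b, Ut, sup_bot_eq, sup_bot_eq] at this
      exact Or.inl (le_antisymm this h1)
    · obtain ⟨τ, s, c1, c2, c3, c4, c5, c6⟩ := PE1 h h3 hP hf.mul (mul_mem tP hu) hU h1 h2 oU Ut b
      rw [← mul_assoc t, hf.tt, one_mul] at c4
      refine Or.inr ⟨τ⁻¹, s, by rw [orderOf_inv, c1], inv_mem c2, ?_, by nth_rw 1 [← c4]; group, c5,
        (Commute.inv_right c6 :)⟩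
      have : τ * u * τ⁻¹ = t := by
        calc _ = τ * (t * (t * u)) * τ⁻¹ := by rw [← mul_assoc t, hf.tt, one_mul]
          _ = _ := by rw [← conj_mul, c3, c4, mul_assoc, hf.uu, mul_one]
      rw [← this]; group
  · exact Or.inr (PE1 h h3 hP hf hu hU h1 h2 oU Ut a)

end Cfsg.Agent.JR
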