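import Cfsg.Agent.JR.J2b2
import Cfsg.Agent.JR.J0
import Cfsg.Agent.S2602

/-! Piece J1: groups with Klein four Sylow `2`-subgroup. -/

set_option autoImplicit false
set_option linter.unusedSectionVars false

namespace Cfsg.Agent.JR

open Subgroup Cfsg.Agent.FT Cfsg.Agent.H1
open scoped commutatorElement

universe u
variable {G : Type u} [Group G] [Finite G] {p n m k : ℕ} {e : ℤ}

/-- odd order automorphisms of `L₂(p ^ n)` modulo inner ones -/
theorem a_out {F : Type} [Field F] [Fintype F] (ha : Ar p n m k e) (hF : Fintype.card F = p ^ n)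
    {L X : Subgroup G} (hX : X ≤ 𝐍(L)) (i : L ≃* L2 F) : ∃ ψ : X →* Multiplicative (ZMod n),
      ∀ x : X, ψ x = 1 → Odd (orderOf x) → ∃ l ∈ L, l⁻¹ * x ∈ 𝐂(L) := by
  haveI := Fact.mk ha.pp
  obtain ⟨φ, -, -, h⟩ := S2602.result (F := F) ha.facts.2.2.2.2.2.2.1 hF ha.q3
  let ρ : X →* MulAut (L2 F) := (MulAut.congr i).toMonoidHom.comp (L.normalizerMonoidHom.comp (inclusion hX))
  let σ := (QuotientGroup.mk' (Cfsg.Inn (L2 F))).comp ρ
  refine ⟨φ.comp σ, fun x h1 h2 => ?_⟩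
  have a : orderOf (σ x) ∣ 2 := (orderOf_dvd_card' (H := φ.ker) h1).trans (h ▸ Nat.gcd_dvd_left _ _)
  have b : σ x = 1 := orderOf_eq_one_iff.1 ((Nat.coprime_two_left.2
    (h2.of_dvd_nat (orderOf_map_dvd σ x))).symm.eq_one_of_dvd a)
  obtain ⟨g, hg⟩ := (QuotientGroup.eq_one_iff _).1 b
  refine ⟨i.symm g, (i.symm g).2, mem_cent_iff.2 fun y hy => ?_⟩
  have c := congrArg (fun z => ((i.symm z : L) : G)) (DFunLike.congr_fun hg (i ⟨y, hy⟩))
  simp only [MulAut.conj_apply, map_mul, map_inv, MulEquiv.symm_apply_apply, coe_mul, coe_inv] at c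
  have d : ((i.symm (ρ x (i ⟨y, hy⟩)) : L) : G) = x * y * (x : G)⁻¹ := by
    simp [ρ, MulAut.congr]
  rw [d] at c
  calc y * ((i.symm g : G)⁻¹ * x) = (i.symm g : G)⁻¹ * (i.symm g * y * (i.symm g : G)⁻¹) * x := by group
    _ = _ := by rw [c]; group

theorem card_cent_equiv {A B : Type*} [Group A] [Group B] (i : A ≃* B) (x : A) : ♯𝐂[x] = ♯𝐂[i x] :=
  Nat.card_congr (i.toEquiv.subtypeEquiv fun y => by
    rw [mem_cent1_iff, mem_cent1_iff, ← i.injective.eq_iff, map_mul, map_mul]; rfl)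

theorem J1 (ha : AG G) (ih : IH.{u} (Nat.card G + 1))
    (hO : ∀ N : Subgroup G, N.Normal → Odd ♯N → N = ⊥) {t w : G} (h : FG t w) (h8 : ¬ 8 ∣ Nat.card G) :
    (V4 t w).Normal ∨
    (Nat.card G = 60 ∧ IsSimpleGroup G ∧ 𝐂[t] = V4 t w ∧ (∃ y ∈ 𝐍(V4 t w), y ∉ 𝐂(V4 t w)) ∧
      ∀ y : G, orderOf y = 3 → 𝐂[y] = zpowers y ∧ ∃ j : G, j * y * j⁻¹ = y⁻¹) ∨
    ((∃ x : G, x * t = t * x ∧ x * w ≠ w * x) ∧
      ∃ P H : Subgroup G, Frob P H (P ⊔ H) ∧ 5 ≤ ♯H ∧ Group.IsSolvable ↥(P ⊔ H)) := by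
  haveI : Fact (Nat.Prime 2) := ⟨Nat.prime_two⟩
  have c4 := card_V4 h
  have sW : Syl 2 (V4 t w) ⊤ := ⟨le_top, V4_two h, fun a => h8 (by
    rw [← (V4 t w).card_mul_index, c4]
    exact Nat.mul_dvd_mul_left 4 (by simpa using a))⟩
  have ev : ∀ M : Subgroup G, M ⊴ ⊤ → ¬ 2 ∣ ♯M → M = ⊥ := fun M a b =>
    hO M (nrm_top_iff.1 a) (Nat.not_even_iff_odd.1 fun c => b c.two_dvd)
  have w4 : ∀ M : Subgroup G, M ⊴ ⊤ → 4 ∣ ♯M → V4 t w ≤ M := fun M a b => by
    have s := sW.inf_of_nrm a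
    refine inf_eq_left.1 (eq_of_le_of_card_le inf_le_left (c4 ▸ Nat.le_of_dvd (card_pos' _) ?_))
    exact (Nat.Coprime.pow_left 2 ((Nat.Prime.coprime_iff_not_dvd Nat.prime_two).2
      s.not_dvd)).dvd_of_dvd_mul_right (s.card_mul_relIndex ▸ b)
  by_cases hn : (V4 t w).Normal
  · exact Or.inl hn
  right
  have dn : ⁅(⊤ : Subgroup G), (⊤ : Subgroup G)⁆ ⊴ ⊤ := der_nrm ⊤
  have d4 : 4 ∣ ♯(⁅(⊤ : Subgroup G), (⊤ : Subgroup G)⁆ : Subgroup G) := by
    by_contra a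
    refine hn (nrm_top_iff.1 (nrm_of_der_le (sW.le_of_normal ?_ le_top dn.norm) le_top))
    by_cases b : 2 ∣ ♯(⁅(⊤ : Subgroup G), (⊤ : Subgroup G)⁆ : Subgroup G)
    · obtain ⟨j, j1, j2⟩ := exists_orderOf_eq_prime Nat.prime_two b
      obtain ⟨K, -, k2, k3, k4, -⟩ := OD a j2 j1
      obtain rfl := hO K (nrm_top_iff.1 ⟨le_top, dn.norm.trans k3⟩) k2
      refine isPGroup_of_le (fun g hg => (mem_zpowers_two j2).2 ((k4 g hg).imp mem_bot.1 fun c => ?_))
        (two_zpowers j2)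
      rw [eq_inv_of_mul_eq_one_left (mem_bot.1 c), inv_of_two j2]
    · rw [ev _ dn b]; exact IsPGroup.of_bot
  obtain ⟨N, -, n2⟩ := exists_minNrm (ne_bot_of_mem (mem_top t) (ne_one_of_two h.t2))
    (le_normalizer (H := (⊤ : Subgroup G)))
  have nN : N ⊴ ⊤ := ⟨le_top, n2.norm⟩
  have e2 : 2 ∣ ♯N := by_contra fun a => n2.ne_bot (ev N nN a)
  have ns : ¬ Group.IsSolvable N := fun s => by
    obtain ⟨q, hq, n3⟩ := n2.exists_abelem s
    haveI := Fact.mk hq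
    obtain rfl := eq_of_isPGroup_of_dvd n3.isPGroup Nat.prime_two e2
    have a := sW.le_of_normal n3.isPGroup le_top n2.norm
    have b : ♯N = 2 := b_syl_card Nat.prime_two (Syl.refl n3.isPGroup) e2 fun c =>
      hn (le_antisymm a (w4 N nN c) ▸ nrm_top_iff.1 nN)
    have c := relIndex_cent_dvd_of_card_prime b n2.norm
    have d := abelian_Sylow_der1_center sW (comm_iff_le_cent.2 (V4_comm h))
    exact n2.ne_bot (le_bot_iff.1 (d ▸ le_inf (le_inf a (a.trans (w4 _ dn d4)))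
      (cent_symm (relIndex_eq_one.1 (by simpa using c)))))
  have n8 : ¬ 8 ∣ ♯N := fun a => h8 (a.trans (card_subgroup_dvd_card N))
  have n16 : ∀ a, ¬ 8 ∣ a → ¬ 16 ∣ a := fun a b c => b (Dvd.dvd.trans (by norm_num) c)
  haveI sN := b_isSimple n2.ne_bot (b_simple (n16 _ (by rwa [card_top])) n2 le_top ns)
  have aN := AG.sub ha N
  have WN := w4 N nN (by_contra fun a => ns (sol4 a))
  have tN := WN (left_mem_V4 t w)
  have wN := WN (right_mem_V4 t w)
  rcases ih N (Nat.lt_succ_of_le (Nat.le_of_dvd Nat.card_pos (card_subgroup_dvd_card N)))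
    (fun c => ns (isSolvable_of_nil (isNilpotent_of_comm c))) aN with ⟨u, u2, ⟨i⟩⟩ | ⟨F, _, _, f3, f8, ⟨i⟩⟩
  · exact absurd ((b_J1 aN u2 i).1 ▸ by norm_num) n8
  have ci := Nat.card_congr i.toEquiv
  have f8' : Fintype.card F % 8 = 3 ∨ Fintype.card F % 8 = 5 := f8.resolve_left fun a => n8 (by
    have b := MC.F0_card (F := F)
    rw [show Nat.gcd 2 (Fintype.card F - 1) = 1 from Nat.coprime_two_left.2 (Nat.odd_iff.2 (by omega)),
      one_mul] at b
    rw [ci, b]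
    exact Dvd.dvd.mul_right (by omega) _)
  obtain ⟨p, n, m, k, e, ar, hF⟩ := exAr f3 f8'
  haveI := Fact.mk ar.pp
  let φ : L2 F →* G := N.subtype.comp i.symm.toMonoidHom
  have φi : Function.Injective φ := N.subtype_injective.comp i.symm.injective
  have φ1 : ∀ x (hx : x ∈ N), φ (i ⟨x, hx⟩) = x := fun x hx => by simp [φ]
  have o : ∀ x (hx : x ∈ N), orderOf (i ⟨x, hx⟩) = orderOf x := fun x hx => by
    rw [← orderOf_injective φ φi, φ1]
  obtain ⟨R, s, r1, r2, r3, r4, r5, r6, r7, r8, -⟩ := j0_R ar hF ((o t tN).trans h.t2)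
  have hq := ar.hq
  have hk := ar.hk
  have q3 := ar.q3
  by_cases m1 : m = 1
  · left
    subst m1
    have q5 : p ^ n = 5 := by rcases ar.he with rfl | rfl <;> omega
    have k3 : k = 3 := by rcases ar.he with rfl | rfl <;> omega
    obtain ⟨-, rfl⟩ := (Nat.Prime.pow_eq_iff Nat.prime_five).1 q5
    obtain ⟨ψ, hψ⟩ := a_out ar hF n2.norm i
    have C0 : 𝐂(N) = ⊥ := ev _ ⟨le_top, n2.norm.trans (normalizer_le_normalizer_centralizer N)⟩ fun a => h8 (by
      have b : N ⊓ 𝐂(N) = ⊥ := (n2.eq_bot_or_eq inf_le_left (le_normalizer_ctr n2.norm)).resolve_right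
        fun c => ns (isSolvable_of_nil (isNilpotent_of_comm (c ▸ ctr_comm N)))
      refine Dvd.dvd.trans ?_ (card_subgroup_dvd_card (N ⊔ 𝐂(N)))
      rw [card_sup_of_inf_eq_bot (cent_le_norm N) b]
      exact Nat.mul_dvd_mul (c4 ▸ card_dvd_of_le' WN) a)
    have NT : N = ⊤ := top_le_iff.1 fun g _ => by
      obtain ⟨x, y, rfl, -, -, x2, y2⟩ := exists_piPart {2} g
      refine mul_mem (le_of_piG_of_nrm (π := {2}) n2.norm ((piNum_compl_singleton Nat.prime_two).2 fun a =>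
        sW.not_dvd (a.trans (relIndex_dvd_of_le_left _ WN))) le_top (piG_zpowers.2 x2) (mem_zpowers x)) ?_
      obtain ⟨l, l1, l2⟩ := hψ ⟨y, mem_top y⟩ (Subsingleton.elim _ _) (by
        rw [← Subgroup.orderOf_coe]
        exact Nat.not_even_iff_odd.1 fun a => (piNum_compl_singleton Nat.prime_two).1 y2 a.two_dvd)
      rw [C0, mem_bot, inv_mul_eq_one] at l2
      exact (show l = y from l2) ▸ l1
    subst NT
    let i' : G ≃* L2 F := topEquiv.symm.trans i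
    have c60 : Nat.card G = 60 := by rw [← card_top, ci, j0_card ar hF, q5, k3]
    refine ⟨c60, topEquiv.symm.isSimpleGroup, ?_, ?_, fun y hy => ?_⟩
    · refine (eq_of_le_of_card_le (V4_le.2 ⟨mem_cent1_self t, mem_cent1_iff.2 h.comm.symm⟩) ?_).symm
      have f : FG (i ⟨t, tN⟩) s := ⟨(o t tN).trans h.t2, r4, r5.symm, r6.symm⟩
      rw [card_cent_equiv i' t, c4, ← card_V4 f]
      refine card_le_of_le' fun g hg => ?_
      obtain ⟨r, a, x, b, c⟩ := r8 g (mem_cent1_iff.1 hg)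
      obtain rfl := mem_bot.1 (card_eq_one_iff.1 r2 ▸ a)
      have d : x ∈ V4 (i ⟨t, tN⟩) s := b.elim (fun e => e ▸ one_mem _) fun e => e ▸ left_mem_V4 _ _
      rw [one_mul] at c
      exact c.elim (fun e => e ▸ d) fun e => e ▸ mul_mem d (right_mem_V4 _ _)
    · by_contra! a
      have b := (Burnside_normal_complement sW fun g hg => a g hg.2).idx
      rw [ev _ (core_nrm _ _) (piG_compl_singleton.1 (core_piG _ _)), relIndex_bot_left, card_top, c60] at b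
      exact b 3 Nat.prime_three (by norm_num) (by norm_num)
    · have y3 : orderOf (i' y) = k := by rw [MulEquiv.orderOf_eq, hy, k3]
      obtain ⟨a, b, c⟩ := j0_k ar hF y3
      obtain ⟨-, -, j, -, d, -⟩ := MC.F3 a b
      refine ⟨(eq_of_le_of_card_le (zpowers_le.2 (mem_cent1_self y)) ?_).symm, i'.symm j, i'.injective ?_⟩
      · rw [card_cent_equiv i' y, c, Nat.card_zpowers, hy, k3]
      · simpa using d _ rfl
  right
  have oR : Odd ♯R := r2 ▸ ar.odd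
  have cR := comm_iff_le_cent.1 (comm_of_isCyclic r1)
  have fx : ∀ r ∈ R, r * s = s * r → r = 1 := fun r a b => eq_one_of_odd (odd_orderOf oR a) (by
    have := r7 r a
    rw [← b, mul_inv_cancel_right] at this
    exact mul_eq_one_iff_eq_inv.2 this)
  refine ⟨?_, ?_⟩
  · by_contra! a
    have b : ∀ g, g * i ⟨t, tN⟩ = i ⟨t, tN⟩ * g → i ⟨w, wN⟩ ∈ 𝐂[g] := fun g c => mem_cent1_iff.2 (φi (by
      rw [map_mul, map_mul, φ1]
      exact (a _ (by rw [← φ1 t tN, ← map_mul, c, map_mul])).symm))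
    obtain ⟨r, c, x, d, f⟩ := r8 (i ⟨w, wN⟩) (φi (by rw [map_mul, map_mul, φ1, φ1, h.comm]))
    have x1 : ∀ g, g * i ⟨t, tN⟩ = i ⟨t, tN⟩ * g → x ∈ 𝐂[g] := fun g c =>
      d.elim (fun e => e ▸ one_mem _) fun e => e ▸ mem_cent1_iff.2 c.symm
    rcases f with f | f
    · obtain rfl := fx r c (mem_cent1_iff.1 ((mul_mem_cancel_right (x1 s r5)).1 (f ▸ b s r5)))
      rw [one_mul] at f
      rcases d with rfl | rfl
      · exact ne_one_of_two h.u2 (by rw [← φ1 w wN, f, map_one])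
      · exact h.ne (by rw [← φ1 w wN, f, φ1])
    · obtain ⟨y, y1, y2⟩ := exists_ne_one_of_ne_bot (H := R) fun e => m1 (r2 ▸ card_eq_one_iff.2 e)
      exact y2 (fx y y1 (mem_cent1_iff.1 ((mul_mem_cancel_left (mul_mem (cent_le_cent1 y1 (cR c))
        (x1 y (r3 y y1)))).1 (f ▸ b y (r3 y y1)))).symm)
  obtain ⟨Q⟩ : Nonempty (Sylow p (L2 F)) := inferInstance
  obtain ⟨p1, -, p2, p3, -⟩ := j0_P ar hF Q
  obtain ⟨H, hH⟩ := exists_sdp (Syl.hall (sylow_isSylowIn Q le_normalizer)).isHall le_rfl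
  have c1 := hH.card
  have c2 : 2 * ♯H = p ^ n - 1 := Nat.eq_of_mul_eq_mul_left (by omega : 0 < p ^ n) (by
    rw [← p3, ← c1, p1]; ring)
  have c3 : 5 ≤ ♯H := by
    obtain ⟨a, ha⟩ := ar.odd
    rcases ar.he with rfl | rfl <;> omega
  have fr := frob_of_cent1_le hH (one_lt_card.1 (by omega)) (one_lt_card.1 (by omega))
    fun x a b => inf_le_right.trans (p2 x a b).le
  refine ⟨(Q : Subgroup _).map φ, H.map φ, frob_of_semiReg ?_ ((map_mono hH.le_right).trans (hH.nrm.map φ).norm)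
    (by rw [Ne, map_eq_bot_iff_of_injective _ φi]; exact fr.ker_ne)
    (by rw [Ne, map_eq_bot_iff_of_injective _ φi]; exact fr.compl_ne), by rwa [card_map_of_injective φi],
    sol4 ?_⟩
  · rintro _ ⟨x, a, rfl⟩ b
    refine le_bot_iff.1 ?_
    rintro _ ⟨⟨y, c, rfl⟩, d⟩
    have := (fr.reg x a fun e => b (e ▸ map_one φ)).le ⟨c, mem_cent1_iff.2 (φi (by
      simpa using mem_cent1_iff.1 d))⟩
    rw [mem_bot.1 this, map_one]
    exact one_mem _
  · rw [← Subgroup.map_sup, card_map_of_injective φi, hH.sup, ← c1, p1]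
    intro a
    have := (Nat.Coprime.pow_left 2 (Nat.coprime_two_left.2 (hF ▸ j0_odd ar hF))).dvd_of_dvd_mul_left a
    rw [← hF] at c2
    omega

end Cfsg.Agent.JR
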