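import Cfsg.Agent.JR.J2a

/-! Piece J2b: `C(t) = ⟨t⟩ × L`. -/

set_option autoImplicit false
set_option linter.unusedSectionVars false

namespace Cfsg.Agent.JR

open Subgroup Cfsg.Agent.FT Cfsg.Agent.H1
open scoped commutatorElement

universe u
variable {G : Type u} [Group G] [Finite G] {r : ℕ}

theorem b_fg {T : Subgroup G} (h4 : 4 ∣ ♯T) (sq : ∀ x ∈ T, x * x = 1) {t : G} (ht : t ∈ T) (h1 : t ≠ 1) :
    ∃ u ∈ T, FG t u := by
  have t2 := two_of_sq (sq t ht) h1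
  have : ¬ T ≤ zpowers t := fun a => by
    have := h4.trans (card_dvd_of_le' a)
    rw [Nat.card_zpowers, t2] at this
    norm_num at this
  obtain ⟨u, u1, u2⟩ := SetLike.not_le_iff_exists.1 this
  rw [mem_zpowers_two t2, not_or] at u2
  refine ⟨u, u1, t2, two_of_sq (sq u u1) u2.1, ?_, Ne.symm u2.2⟩
  have a := sq _ (T.mul_mem ht u1)
  calc t * u = t * (t * u * (t * u)) * u * 1 := by rw [a]; group
    _ = (t * t) * u * t * (u * u) := by group
    _ = u * t := by rw [sq t ht, sq u u1]; group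

theorem J2b {t : G} {L : Subgroup G} {F : Type} [Field F] [Fintype F] (h : Ent t L F) :
    ∀ g ∈ 𝐂[t], g ∈ L ∨ g * t ∈ L := by
  obtain ⟨cjt, tL, S, Φ, sS, s8, tS, sq, tr, h21, cyc, oΦ, cS, nS, cT, cop, h12, last⟩ := J2a h
  haveI : Fact (Nat.Prime 2) := ⟨Nat.prime_two⟩
  haveI := h.simple
  have t1 := ne_one_of_two h.t2
  have tN : zpowers t ≤ 𝐍(L) := zpowers_le.2 (h.nrm.norm (mem_cent1_self t))
  suffices a : Φ = ⊥ by
    intro g hg
    rw [cT, a, sup_bot_eq, sup_comm] at hg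
    obtain ⟨l, l1, x, x1, rfl⟩ := (sdp_sup tN (le_bot_iff.1 fun y ⟨b, c⟩ => by
      rcases (mem_zpowers_two h.t2).1 c with rfl | rfl
      exacts [one_mem _, absurd b tL])).mem_iff.1 hg
    rcases (mem_zpowers_two h.t2).1 x1 with rfl | rfl
    · exact Or.inl (by simpa using l1)
    · exact Or.inr (by rwa [mul_assoc, sq_of_two h.t2, mul_one])
  by_contra Φ0
  obtain ⟨r, hr, rΦ⟩ := exists_prime_dvd_card Φ0
  haveI := Fact.mk hr
  have rL : ¬ r ∣ ♯L := fun a => hr.not_dvd_one (cop ▸ Nat.dvd_gcd rΦ a)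
  have r2 : r ≠ 2 := fun e => rL (e ▸ Dvd.dvd.trans (by norm_num) h12)
  have r3 : r ≠ 3 := fun e => rL (e ▸ Dvd.dvd.trans (by norm_num) h12)
  have ro : Odd r := hr.odd_of_ne_two r2
  have oddp : ∀ Q : Subgroup G, IsPGroup r Q → Odd ♯Q := fun Q a => by
    obtain ⟨i, hi⟩ := IsPGroup.iff_card.1 a
    exact hi ▸ ro.pow
  have ΦS : Φ ≤ 𝐂(S) := cS ▸ le_sup_right
  have Φt : Φ ≤ 𝐂[t] := ΦS.trans (cent_le_cent1 tS)
  have NC : ∀ U ≤ Φ, 𝐍(U) ≤ 𝐂(U) := fun U a => by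
    have b : S ≤ 𝐂(U) := cent_symm (a.trans ΦS)
    rw [← Syl.frattini' (sS.of_le b le_top) ⟨cent_le_norm U, normalizer_le_normalizer_centralizer U⟩]
    exact sup_le le_rfl (inf_le_right.trans (nS.trans (cent_anti a)))
  obtain ⟨P, hP⟩ := exists_syl r Φ
  have P0 := hP.ne_bot rΦ
  have cP : IsCyclic P := isCyclic_of_le' hP.le cyc
  have Pt : Syl r P 𝐂[t] := hP.trans Φt fun a => by
    have n : zpowers t ⊔ L ⊴ 𝐂[t] := (nrm_of_le_cent (zpowers_le.2 (mem_cent1_self t))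
      (cent_symm (cent_zpowers t).ge)).sup h.nrm
    have b := card_sup_dvd (Φt.trans n.norm)
    rw [← cT, ← Cfsg.Agent.L.relIndex_mul_card Φt] at b
    have c := (a.trans (Nat.dvd_of_mul_dvd_mul_right (card_pos' _) b))
    rw [sup_comm] at c
    rcases (Nat.Prime.dvd_mul hr).1 (c.trans (card_sup_dvd tN)) with d | d
    · exact rL d
    · rw [Nat.card_zpowers, h.t2] at d
      exact r2 ((Nat.prime_dvd_prime_iff_eq hr Nat.prime_two).1 d)
  have PP : P ≤ 𝐂(P) := comm_iff_le_cent.1 (comm_of_isCyclic cP)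
  have nrm0 : ∀ X : Subgroup G, ⊤ ≤ 𝐍(X) → X = ⊥ ∨ X = ⊤ := fun X a =>
    (nrm_top_iff.1 ⟨le_top, a⟩).eq_bot_or_eq_top
  have YT : 𝐂(P) ≠ ⊤ := fun e => (nrm0 P (e.ge.trans (cent_le_norm P))).elim P0 fun a =>
    not_mem_of_odd (oddp P hP.isPGroup) h.t2 (a ▸ mem_top t)
  have perf : (⊤ : Subgroup G) ≤ ⁅(⊤ : Subgroup G), (⊤ : Subgroup G)⁆ := by
    rcases nrm0 _ (der_nrm ⊤).norm with a | a
    · exact absurd (top_le_iff.1 ((comm_iff_le_cent.1 (comm_iff_der.2 a)).trans (cent_anti le_top))) YT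
    · exact a.ge
  set Y := 𝐂(P) with hY
  have SY : 𝐍(S) ≤ Y := nS.trans (cent_anti hP.le)
  set O := core {2}ᶜ Y with hO
  have oN : O ⊴ Y := core_nrm _ _
  have oO : Odd ♯O := Nat.not_even_iff_odd.1 fun e => piG_compl_singleton.1 (core_piG {2}ᶜ Y) e.two_dvd
  have PO : P ≤ O := le_core (nrm_of_le_cent PP (cent_symm le_rfl)) (piG_compl_of_isPGroup_ne hP.isPGroup r2)
  have SN : S ≤ 𝐍(O) := le_normalizer.trans (SY.trans oN.norm)
  have OΦ : O ≤ Φ := by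
    have a : O ⊓ 𝐂[t] ≤ Φ := last _ inf_le_right (odd_of_le inf_le_left oO)
      ((le_inf (inf_le_right.trans (SY.trans oN.norm)) (inf_le_left.trans le_normalizer)).trans
        (normalizer_inf_le _ _))
    have b : ∀ s ∈ S, s ≠ 1 → O ⊓ 𝐂[s] ≤ Φ := fun s s1 s2 x hx => by
      obtain ⟨g, g1, rfl⟩ := tr s s1 s2
      have c := a ⟨oN.conj_mem' (SY g1) hx.1, cj_mem_cent1.1 hx.2⟩
      have d := mem_cent_iff.1 (nS g1) _ c
      have e : x = g⁻¹ * x * g := by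
        calc x = g * (g⁻¹ * x * g) * g⁻¹ := by group
          _ = _ := by rw [← d, mul_inv_cancel_right]
      exact e ▸ c
    obtain ⟨u, u1, f⟩ := b_fg (s8 ▸ by norm_num) sq tS t1
    exact (GEN oO f (SN tS) (SN u1)).trans (sup_le (sup_le (b t tS t1) (b u u1 (ne_one_of_two f.u2)))
      (b _ (S.mul_mem tS u1) (ne_one_of_two f.mul.u2)))
  have cSO : (♯S).Coprime ♯O := coprime_of_isPGroup sS.isPGroup (core_piG _ _)
  have sol : Group.IsSolvable S ∨ Group.IsSolvable O := Or.inl (isSolvable_of_isPGroup sS.isPGroup)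
  have e1 : bar O Y ⊓ 𝐍(bar O S) = bar O 𝐍(S) := by rw [← bar_inf_norm SN cSO sol oN.le, inf_eq_right.2 SY]
  have q : H8s (bar O Y) (bar O S) (coset O t) :=
    { ag := AG.quo (AG.sub h.ag _) (qmk O) (qmk_surjective O)
      ih := fun H _ _ _ a => h.ih H (lt_of_lt_of_le a (Nat.succ_le_of_lt (lt_of_le_of_lt
        (Nat.le_of_dvd (card_pos' _) (card_bar_dvd O Y)) (lt_of_not_ge fun b =>
          YT (eq_of_le_of_card_le le_top (by rwa [card_top]))))))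
      h0 := core_bar_core _ _
      syl := Syl.bar (sS.of_le (le_normalizer.trans SY) le_top) oN.norm
      h8 := (card_bar_of_coprime SN cSO).trans s8
      tS := coset_mem_bar O tS
      t1 := (coset_eq_one_iff (SN tS)).not.2 (not_mem_of_odd oO h.t2)
      tr := fun x a b => by
        obtain ⟨y, y1, rfl⟩ := (mem_bar' SN).1 a
        obtain ⟨g, g1, rfl⟩ := tr y y1 fun c => b (c ▸ coset_one O)
        exact ⟨coset O g, e1 ▸ coset_mem_bar O g1, (coset_conj (oN.norm (SY g1)) (SN tS)).symm⟩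
      h21 := by
        rw [e1, ← bar_cent SN cSO sol, relIndex_bar ⟨OΦ.trans ΦS, (cent_le_norm S).trans (SY.trans oN.norm)⟩
          ⟨OΦ.trans (ΦS.trans (cent_le_norm S)), SY.trans oN.norm⟩, h21] }
  have hc : ¬ r ∣ ♯(bar O Y ⊓ 𝐂[coset O t] : Subgroup _) := by
    rw [← bar_inf_cent1 (SN tS) (h.t2 ▸ Nat.coprime_two_left.2 oO) oN.le, card_bar (inf_le_left.trans oN.norm)]
    exact fun a => (Pt.of_le (le_inf PP Pt.le) inf_le_right).not_dvd (a.trans (relIndex_dvd_of_le_left _ PO))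
  obtain ⟨R, hR, PR⟩ := exists_syl_ge hP.isPGroup PP
  have RT : Syl r R ⊤ := AG.syl h.ag hr hP.isPGroup le_rfl hR
  have RR : R ≤ 𝐂(R) := AG.le_cent h.ag hr hR.isPGroup
  have RN : R ≤ 𝐍(O) := hR.le.trans oN.norm
  have RO : R ⊓ O = P := hP.eq_of_le (isPGroup_of_le inf_le_left hR.isPGroup) (le_inf PR PO)
    (inf_le_right.trans OΦ)
  have noZ : ∀ U ≤ P, 𝐍(R) ≤ 𝐍(U) → U = ⊥ := fun U a b => le_bot_iff.1 (b_noZ RT RR perf ▸
    le_inf (a.trans PR) (cent_symm (inf_le_right.trans (b.trans (NC U (a.trans hP.le))))))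
  rcases q.A hr r2 r3 hc (Syl.bar hR oN.norm) with a | ⟨a, g, g1, g2⟩
  · have b : R = P := RO ▸ (inf_eq_left.2 ((bar_eq_bot_iff RN).1 a)).symm
    exact P0 (noZ P le_rfl (b ▸ le_rfl))
  have p1 : ∀ x ∈ R, x ^ r ∈ P := fun x hx => RO ▸ ⟨R.pow_mem hx r, (coset_eq_one_iff (RN (R.pow_mem hx r))).1
    (by rw [coset_pow (RN hx), ← a]; exact pow_card_eq_one'' (coset_mem_bar O hx))⟩
  have p2 : ∀ x ∈ R, x ^ r = 1 := fun x hx => zpowers_eq_bot.1 (noZ _ (zpowers_le.2 (p1 x hx)) fun y hy => by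
    refine cj_eq_iff_mem_normalizer.1 (eq_of_card_eq_of_le_cyclic cP (cj_le_iff.2 fun z hz => ?_)
      (zpowers_le.2 (p1 x hx)) (card_cj _ _))
    obtain ⟨i, rfl⟩ := mem_zpowers_iff.1 hz
    rw [← conj_zpow, ← conj_pow]
    exact P.zpow_mem (p1 _ (conj_mem_of_mem_normalizer hy hx)) i)
  obtain ⟨φ, φ1, φ2⟩ := exists_orderOf_eq_prime hr (dvd_card_of_isPGroup hP.isPGroup P0)
  have φ3 : zpowers φ = P := le_antisymm (zpowers_le.2 φ1) fun x hx =>
    (mem_iff_of_le_cyclic cP (zpowers_le.2 φ1)).2 ⟨hx, by rw [Nat.card_zpowers, φ2, p2 x (PR hx)]⟩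
  have c1 : ♯P = r := by rw [← φ3, Nat.card_zpowers, φ2]
  have cR : ♯R = r ^ 2 := by
    rw [card_bar RN, ← inf_relIndex_left, RO] at a
    rw [← H2.card_mul_relIndex PR, a, c1, pow_two]
  have Yφ : 𝐂[φ] = Y := by rw [← cent_zpowers, φ3]
  obtain ⟨y, y1, rfl⟩ := (mem_bar' oN.norm).1 g1.1
  obtain ⟨n, n1, n2⟩ := (hR.of_le le_sup_left (sup_le hR.le oN.le)).frattini (H := zpowers y)
    (zpowers_le.2 (unbar_bar RN ▸ mem_normalizer_unbar (oN.norm y1) g1.2)) (mem_zpowers y)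
  have n3 := sup_le hR.le oN.le n1
  have n4 : n * y * (n * y) ∉ 𝐂(R) := fun b => g2 ((b_shift (bar_le_cent O RR)
    ((coset_mem_bar_iff RN (oN.norm n3)).2 n1) g1.2).1 (by
      have c := oN.norm (Y.mul_mem n3 y1)
      rw [← coset_mul (oN.norm n3) (oN.norm y1), ← coset_mul c c]
      exact bar_cent_le O R (coset_mem_bar O b)))
  have iv : ∀ j : G, orderOf j = 2 → ∀ D ≤ 𝐂[j], IsPGroup r D → 𝐍(D) ≤ 𝐂(D) ∧ ♯D ≤ r := fun j j2 D d1 d2 => by
    obtain ⟨c, rfl⟩ := isConj_iff.1 (cjt j j2)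
    obtain ⟨k, -, k2⟩ := (Pt.cj c).exists_cj_le d2 (cj_cent1 c t ▸ d1)
    rw [← cj_le_cj_iff (g := c⁻¹), cj_inv_cj, ← cj_mul] at k2
    refine ⟨?_, card_cj _ D ▸ c1 ▸ card_le_of_le' k2⟩
    rw [← cj_le_cj_iff (g := c⁻¹ * k), cj_normalizer, cj_centralizer]
    exact NC _ (k2.trans hP.le)
  have n5 : ¬ 4 ∣ ♯𝐍(R) := fun b => by
    obtain ⟨T, hT⟩ := exists_syl 2 𝐍(R)
    obtain ⟨c, -, c2⟩ := sS.exists_cj_le hT.isPGroup le_top
    have T4 : 4 ∣ ♯T := (Nat.Coprime.pow_left 2 ((Nat.Prime.coprime_iff_not_dvd Nat.prime_two).2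
      hT.not_dvd)).dvd_of_dvd_mul_right (hT.card_mul_relIndex ▸ b)
    have sT : ∀ x ∈ T, x * x = 1 := fun x hx => by
      have := sq _ (c2 (conj_mem_cj hx))
      rwa [conj_mul, conj_eq_one_iff] at this
    obtain ⟨j, j1, j2⟩ := exists_orderOf_eq_prime Nat.prime_two (Dvd.dvd.trans (by norm_num) T4)
    obtain ⟨u, u1, f⟩ := b_fg T4 sT j1 (ne_one_of_two j2)
    have k : ∀ a b : G, FG a b → b ∈ T → R ⊓ 𝐂[a] ≤ R ⊓ 𝐂[b] := fun a b f b1 => le_inf inf_le_left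
      (le_cent1_iff.2 ((iv a f.t2 _ inf_le_right (isPGroup_of_le inf_le_left hR.isPGroup)).1
        (normalizer_inf_le _ _ ⟨hT.le b1, le_normalizer (mem_cent1_iff.2 f.comm.symm)⟩)))
    have d := (GEN (oddp R hR.isPGroup) f (hT.le j1) (hT.le u1)).trans
      (sup_le (sup_le le_rfl (k u j (FG.symm f) j1)) (k _ j (FG.symm (FG.mul f)) j1))
    have := (card_le_of_le' d).trans (iv j j2 _ inf_le_right (isPGroup_of_le inf_le_left hR.isPGroup)).2
    rw [cR] at this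
    nlinarith [hr.two_le]
  have sN := (Syl.hall (RT.of_le le_normalizer le_top)).isHall
  obtain ⟨B, hB⟩ := exists_sdp sN le_rfl
  obtain ⟨v, v1, b, b1, e⟩ := hB.mem_iff.1 n2
  refine b_W hr cR RR hB.norm (hB.coprime_of_isHall sN) (isSolvable_of_le hB.le_right (sol4 n5)) (PR φ1) φ2
    (fun x _ c => cent_zpowers φ ▸ NC _ (φ3.le.trans hP.le) c) b1
    (Yφ ▸ (mul_mem_cancel_left (hR.le v1)).1 (e ▸ Y.mul_mem n3 y1))
    (fun c => n4 (e ▸ (b_shift RR v1 (hB.norm b1)).2 c)) fun c => P0 (noZ P le_rfl ?_)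
  exact hB.sup.ge.trans ((sup_le hR.le (Yφ ▸ c)).trans (cent_le_norm P))

end Cfsg.Agent.JR
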