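import Cfsg.Agent.JR.B
import Cfsg.Agent.JR.G1

/-! General lemmas for piece J2b. -/

set_option autoImplicit false
set_option linter.unusedSectionVars false

namespace Cfsg.Agent.JR

open Subgroup Cfsg.Agent.FT Cfsg.Agent.H1
open scoped commutatorElement

universe u
variable {G : Type u} [Group G] [Finite G] {r : ℕ}

theorem b_mod [Fact r.Prime] {A W : Subgroup G} (hA : IsPGroup r A) (n : A ≤ 𝐍(W)) (h : W ⊓ 𝐂(A) = ⊥) :
    ♯W ≡ 1 [MOD r] := by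
  letI : MulAction A W := MulAction.compHom W (W.normalizerMonoidHom.comp (inclusion n))
  have h1 := hA.card_modEq_card_fixedPoints W
  have h2 : MulAction.fixedPoints A W = {1} := by
    ext w
    refine ⟨fun hw => Subtype.ext (mem_bot.1 (h.le ⟨w.2, mem_cent_iff.2 fun a ha => ?_⟩)), ?_⟩
    · exact mul_inv_eq_iff_eq_mul.1 (congrArg Subtype.val (hw ⟨a, ha⟩))
    · rintro rfl a
      exact map_one (W.normalizerMonoidHom (inclusion n a))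
  rwa [h2, Nat.card_coe_set_eq, Set.ncard_singleton] at h1

/-- proper subgroups through `φ` of a group of order `r²` -/
theorem b_line (hr : r.Prime) {V X : Subgroup G} {φ : G} (hV : ♯V = r ^ 2) (ho : orderOf φ = r)
    (h1 : φ ∈ X) (h2 : X ≤ V) (h3 : X ≠ V) : X = zpowers φ := by
  have a := card_dvd_of_le' h2
  rw [hV] at a
  obtain ⟨i, hi, e⟩ := (Nat.dvd_prime_pow hr).1 a
  refine (eq_of_le_of_card_le ((zpowers_le).2 h1) ?_).symm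
  rw [Nat.card_zpowers, ho, e]
  interval_cases i
  · simpa using hr.one_le
  · simp
  · exact absurd (eq_of_le_of_card_le h2 (by rw [hV, e])) h3

theorem b_W0 (hr : r.Prime) {V B : Subgroup G} {φ k : G} (hV : ♯V = r ^ 2) (hc : V ≤ 𝐂(V))
    (hB : B ≤ 𝐍(V)) (hco : (♯V).Coprime ♯B) (hs : Group.IsSolvable B) (hf : B ⊓ 𝐂(V) = ⊥)
    (h1 : φ ∈ V) (ho : orderOf φ = r) (hN : ∀ b ∈ B, b ∈ 𝐍(zpowers φ) → b ∈ 𝐂[φ]) (k1 : k ∈ B)
    (k2 : k ∈ 𝐂[φ]) (k3 : k * k ≠ 1) (hn : ¬ B ≤ 𝐂[φ]) : False := by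
  haveI := Fact.mk hr
  have L1 : ∀ A ≤ B ⊓ 𝐂[φ], A ≠ ⊥ → V ⊓ 𝐂(A) = zpowers φ := fun A a b =>
    b_line hr hV ho ⟨h1, le_cent1_iff.1 (a.trans inf_le_right)⟩ inf_le_left fun e =>
      b (le_bot_iff.1 (hf ▸ le_inf (a.trans inf_le_left) (cent_symm (e.ge.trans inf_le_right))))
  have L2 : ∀ A ≤ B ⊓ 𝐂[φ], A ≠ ⊥ → ∀ y ∈ B, y ∈ 𝐍(A) → y ∈ 𝐂[φ] := fun A a b y c d =>
    hN y c (L1 A a b ▸ normalizer_inf_le _ _ ⟨hB c, normalizer_le_normalizer_centralizer _ d⟩)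
  have kne : k ≠ 1 := fun e => k3 (by rw [e, one_mul])
  have B0 : B ≠ ⊥ := ne_bot_of_mem k1 kne
  obtain ⟨N, n1, n2⟩ := exists_minNrm B0 (le_normalizer (H := B))
  obtain ⟨q, -, n3⟩ := n2.exists_abelem (isSolvable_of_le n1 hs)
  have n4 : N ≤ 𝐂(N) := comm_iff_le_cent.1 n3.1
  have nK : ¬ N ≤ 𝐂[φ] := fun e => hn fun y hy => L2 N (le_inf n1 e) n2.ne_bot y hy (n2.norm hy)
  have L3 : ∀ x ∈ B ⊓ 𝐂[φ], x ≠ 1 → ∀ y ∈ B, y ∈ 𝐂[x] → y ∈ 𝐂[φ] := fun x a b y c d =>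
    L2 (zpowers x) (zpowers_le.2 a) (by simpa using b) y c (cent_le_norm _ (by rwa [cent_zpowers]))
  have NK : N ⊓ (B ⊓ 𝐂[φ]) = ⊥ := by
    by_contra e
    obtain ⟨x, ⟨a, b⟩, c⟩ := exists_ne_one_of_ne_bot e
    exact nK fun y hy => L3 x b c y (n1 hy) (cent_le_cent1 a (n4 hy))
  have fr : Frob N (B ⊓ 𝐂[φ]) (N ⊔ (B ⊓ 𝐂[φ])) := frob_of_semiReg
    (fun x a b => le_bot_iff.1 (NK ▸ fun y c => ⟨c.1, n1 c.1, L3 x a b y (n1 c.1) c.2⟩))
    (inf_le_left.trans n2.norm) n2.ne_bot (ne_bot_of_mem ⟨k1, k2⟩ kne)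
  have LB : N ⊔ (B ⊓ 𝐂[φ]) ≤ B := sup_le n1 inf_le_left
  have w := (Frobenius_Wielandt_fixpoint fr (isSolvable_of_le LB hs) (LB.trans hB)
    (hco.coprime_dvd_right (card_dvd_of_le' LB))
    (isSolvable_of_nil (isNilpotent_of_comm (comm_iff_le_cent.2 hc)))).1
  have e1 := L1 _ le_rfl (ne_bot_of_mem (x := k) ⟨k1, k2⟩ kne)
  have e2 : V ⊓ 𝐂(N ⊔ (B ⊓ 𝐂[φ])) = ⊥ := by
    have a : V ⊓ 𝐂(N ⊔ (B ⊓ 𝐂[φ])) ≤ zpowers φ := e1 ▸ inf_le_inf_left _ (cent_anti le_sup_right)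
    rcases eq_bot_or_eq_of_card_prime (by rw [Nat.card_zpowers, ho]; exact hr) a with b | b
    · exact b
    · exact absurd (le_cent1_iff.2 (cent_anti le_sup_left (b.ge (mem_zpowers φ)).2)) nK
  rw [e1, e2, card_bot, one_pow, one_mul, hV, Nat.card_zpowers, ho] at w
  have a : ♯(B ⊓ 𝐂[φ] : Subgroup G) ≤ 2 :=
    (Nat.pow_dvd_pow_iff_le_right hr.one_lt).1 ⟨_, w⟩
  have b := pow_card_eq_one'' (H := B ⊓ 𝐂[φ]) ⟨k1, k2⟩
  have c := card_pos' (B ⊓ 𝐂[φ] : Subgroup G)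
  interval_cases ♯(B ⊓ 𝐂[φ] : Subgroup G)
  · exact kne (by simpa using b)
  · exact k3 (by rw [← b, pow_two])

theorem b_W (hr : r.Prime) {V B : Subgroup G} {φ k : G} (hV : ♯V = r ^ 2) (hc : V ≤ 𝐂(V))
    (hB : B ≤ 𝐍(V)) (hco : (♯V).Coprime ♯B) (hs : Group.IsSolvable B)
    (h1 : φ ∈ V) (ho : orderOf φ = r) (hN : ∀ b ∈ B, b ∈ 𝐍(zpowers φ) → b ∈ 𝐂[φ]) (k1 : k ∈ B)
    (k2 : k ∈ 𝐂[φ]) (k3 : k * k ∉ 𝐂(V)) (hn : ¬ B ≤ 𝐂[φ]) : False := by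
  set Z := B ⊓ 𝐂(V) with hZ
  have zB : B ≤ 𝐍(Z) := (nrm_inf_centralizer hB).norm
  have zV : V ≤ 𝐍(Z) := (cent_symm inf_le_right).trans (cent_le_norm _)
  have z0 : V ⊓ Z = ⊥ := le_bot_iff.1 (inf_eq_bot_of_coprime' hco ▸ inf_le_inf_left _ inf_le_left)
  have inj : ∀ x ∈ V, ∀ y ∈ V, coset Z x = coset Z y → x = y := fun x a y b e =>
    inv_mul_eq_one.1 (mem_bot.1 (z0.le ⟨V.mul_mem (V.inv_mem a) b, (coset_eq_iff (zV a) (zV b)).1 e⟩))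
  have cm : ∀ b ∈ B, ∀ v ∈ V, coset Z b * coset Z v = coset Z v * coset Z b → b * v = v * b :=
    fun b hb v hv e => mul_inv_eq_iff_eq_mul.1 (inj _ (conj_mem_of_mem_normalizer (hB hb) hv) _ hv (by
      rw [coset_conj (zB hb) (zV hv), e, mul_inv_cancel_right]))
  have oφ : orderOf (coset Z φ) = r := by
    rw [← Nat.card_zpowers, ← bar_zpowers (zV h1), card_bar_of_inf ((zpowers_le.2 h1).trans zV)
      (le_bot_iff.1 (z0 ▸ inf_le_inf_right _ (zpowers_le.2 h1))), Nat.card_zpowers, ho]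
  refine b_W0 hr (V := bar Z V) (B := bar Z B) (φ := coset Z φ) (k := coset Z k)
    (by rw [card_bar_of_inf zV z0, hV]) (bar_le_cent Z hc) (bar_le_normalizer Z hB) (coprime_bar hco Z)
    (isSolvable_bar hs Z) ?_ (coset_mem_bar Z h1) oφ ?_ (coset_mem_bar Z k1)
    (bar_cent1_le (zV h1) (coset_mem_bar Z k2)) ?_ ?_
  · refine le_bot_iff.1 fun x ⟨a, b⟩ => ?_
    obtain ⟨y, hy, rfl⟩ := (mem_bar' zB).1 a
    exact mem_bot.2 (coset_eq_one ⟨hy, mem_cent_iff.2 fun v hv =>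
      (cm y hy v hv (mem_cent_iff.1 b _ (coset_mem_bar Z hv)).symm).symm⟩)
  · intro x a b
    obtain ⟨y, hy, rfl⟩ := (mem_bar' zB).1 a
    refine bar_cent1_le (zV h1) (coset_mem_bar Z (hN y hy (mem_normalizer_of_conj_mem fun v hv => ?_)))
    have v1 := zpowers_le.2 h1 hv
    have c := conj_mem_of_mem_normalizer b (bar_zpowers (zV h1) ▸ coset_mem_bar Z hv)
    rw [← coset_conj (zB hy) (zV v1), ← bar_zpowers (zV h1)] at c
    obtain ⟨w, w1, w2⟩ := (mem_bar' ((zpowers_le.2 h1).trans zV)).1 c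
    rwa [← inj _ (zpowers_le.2 h1 w1) _ (conj_mem_of_mem_normalizer (hB hy) v1) w2]
  · rw [← coset_mul (zB k1) (zB k1), Ne, coset_eq_one_iff (zB (mul_mem k1 k1))]
    exact fun e => k3 e.2
  · exact fun e => hn fun b hb => mem_cent1_iff.2 (cm b hb φ h1 (mem_cent1_iff.1 (e (coset_mem_bar Z hb))))

/-- an abelian Sylow subgroup of a perfect group meets the centre of its normaliser trivially -/
theorem b_noZ [Fact r.Prime] {Q H : Subgroup G} (hQ : Syl r Q H) (hc : Q ≤ 𝐂(Q)) (hH : H ≤ ⁅H, H⁆) :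
    Q ⊓ 𝐂(H ⊓ 𝐍(Q)) = ⊥ := by
  have c := comm_iff_le_cent.2 hc
  have a : Q ≤ H ⊓ 𝐍(Q) := le_inf hQ.le le_normalizer
  have h1 := hQ.commutator_inf_eq_of_fusion a inf_le_left (hQ.fusion_elt_of_comm c)
  have h2 := abelian_Sylow_der1_center (hQ.of_le a inf_le_left) c
  refine le_bot_iff.1 (h2 ▸ fun x hx => ⟨⟨hx.1, ?_⟩, hx.2⟩)
  exact (h1.le ⟨hH (hQ.le hx.1), hx.1⟩).1

theorem b_simple {N Y : Subgroup G} (h16 : ¬ 16 ∣ ♯Y) (hN : MinNrm N Y) (hY : N ≤ Y)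
    (hs : ¬ Group.IsSolvable N) : ∀ X ≤ N, N ≤ 𝐍(X) → X ≠ ⊥ → X = N := fun X a b c => by
  obtain ⟨M, m1, m2⟩ := exists_minNrm c b
  have mN := m1.trans a
  refine le_antisymm a (le_trans (hN.min M mN (fun y hy => ?_) m2.ne_bot).ge m1)
  by_cases sM : Group.IsSolvable M
  · exfalso
    obtain ⟨q, -, n3⟩ := m2.exists_abelem sM
    have f1 : M ≤ fit N := le_fit ⟨mN, m2.norm⟩ (isNilpotent_of_comm n3.1)
    have f2 := hN.min (fit N) (fit_le N) (le_normalizer_fit hN.norm) (ne_bot_of_le f1 m2.ne_bot)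
    exact hs (f2 ▸ isSolvable_of_nil (fit_nil N))
  have e : cj y N = N := cj_eq_iff_mem_normalizer.2 (hN.norm hy)
  have n1 : cj y M ≤ N := e ▸ cj_mono y mN
  have n2 : N ≤ 𝐍(cj y M) := by rw [← cj_normalizer, ← e]; exact cj_mono y m2.norm
  rcases m2.eq_bot_or_eq (X := M ⊓ cj y M) inf_le_left
    ((le_inf m2.norm n2).trans (normalizer_inf_le _ _)) with d | d
  · exfalso
    have d4 : 4 ∣ ♯M := by_contra fun h => sM (sol4 h)
    refine h16 (Dvd.dvd.trans ?_ (card_dvd_of_le' ((sup_le mN n1).trans hY)))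
    rw [card_sup_of_inf_eq_bot (n1.trans m2.norm) d, card_cj]
    exact Nat.mul_dvd_mul d4 d4
  · exact cj_eq_iff_mem_normalizer.1 (eq_of_le_of_card_le (d.ge.trans inf_le_right) (card_cj y M).le).symm

theorem b_isSimple {N : Subgroup G} (h0 : N ≠ ⊥) (h : ∀ X ≤ N, N ≤ 𝐍(X) → X ≠ ⊥ → X = N) :
    IsSimpleGroup N := by
  haveI := (nontrivial_iff_ne_bot N).2 h0
  refine ⟨fun X hX => (em (X = ⊥)).imp id fun c => ?_⟩
  have a := h (X.map N.subtype) (map_subtype_le X) (nrm_map_subtype X).norm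
    (fun e => c (by rwa [map_eq_bot_iff_of_injective _ N.subtype_injective] at e))
  refine map_injective N.subtype_injective ?_
  rw [a, ← MonoidHom.range_eq_map, range_subtype]

/-- a normal subgroup of `N(S)` of order prime to `7` centralises `S` -/
theorem b_F {S X M : Subgroup G} {t : G} (h8 : ♯S = 8) (hX : X ≤ 𝐍(S))
    (tr : ∀ x ∈ S, x ≠ 1 → ∃ g ∈ X, g * t * g⁻¹ = x) (h21 : 𝐂(S).relIndex X = 21) (hM : M ⊴ X)
    (h7 : ¬ 7 ∣ ♯M) : M ≤ 𝐂(S) := by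
  haveI : Fact (Nat.Prime 3) := ⟨by norm_num⟩
  have nC : X ≤ 𝐍(𝐂(S)) := hX.trans (normalizer_le_normalizer_centralizer S)
  have a : 𝐂(S).relIndex M ∣ 7 * 3 := (relIndex_dvd_of_nrm nC hM.le).trans h21.dvd
  have b : 𝐂(S).relIndex M ∣ 3 := Nat.Coprime.dvd_of_dvd_mul_left
    ((Nat.Prime.coprime_iff_not_dvd (by norm_num)).2 fun e => h7 (e.trans (relIndex_dvd_card' _ _))).symm a
  obtain ⟨D, hD⟩ := exists_syl 3 M
  have e : D ⊔ (𝐂(S) ⊓ M) = M := hD.hall.sup_eq_of_relIndex inf_le_right (by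
    rw [inf_relIndex_right]
    exact ((piNum_prime (π := {3}) (p := 3) (by norm_num)).2 rfl).of_dvd b)
  have c : S ⊓ 𝐂(D) ≠ ⊥ := fun h => by
    have := b_mod hD.isPGroup (hD.le.trans (hM.le.trans hX)) h
    rw [h8] at this
    exact absurd this (by decide)
  obtain ⟨x, ⟨x1, x2⟩, x3⟩ := exists_ne_one_of_ne_bot c
  have x4 : x ∈ 𝐂(M) := by
    rw [← e, cent_sup]
    exact ⟨x2, cent_symm inf_le_left x1⟩
  refine cent_symm fun y hy => ?_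
  by_cases y1 : y = 1
  · exact y1 ▸ one_mem _
  obtain ⟨g, g1, rfl⟩ := tr x x1 x3
  obtain ⟨h, h1, rfl⟩ := tr y hy y1
  have n := hM.norm.trans (normalizer_le_normalizer_centralizer M)
  have := conj_mem_of_mem_normalizer (n (mul_mem h1 (inv_mem g1))) x4
  convert this using 1
  group

end Cfsg.Agent.JR
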