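import Cfsg.Agent.JR.J2b1
import Cfsg.Agent.H8.J1C
import Cfsg.Agent.MC.PFa

/-! Piece J2b: the simple groups with abelian Sylow subgroups and Sylow `2`-subgroup of order `8`. -/

set_option autoImplicit false
set_option linter.unusedSectionVars false

namespace Cfsg.Agent.JR

open Subgroup Cfsg.Agent.FT Cfsg.Agent.H1
open scoped commutatorElement

universe u
variable {G : Type u} [Group G] [Finite G] {r : ℕ}

theorem b_syl_card (hr : r.Prime) {R X : Subgroup G} (hR : Syl r R X) (h1 : r ∣ ♯X) (h2 : ¬ r ^ 2 ∣ ♯X) :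
    ♯R = r := by
  haveI := Fact.mk hr
  obtain ⟨k, hk⟩ := IsPGroup.iff_card.1 hR.isPGroup
  have a := card_dvd_of_le' hR.le
  rcases k with _ | _ | k
  · exact absurd (card_eq_one_iff.1 (by simpa using hk)) (hR.ne_bot h1)
  · simpa using hk
  · exact absurd ((pow_dvd_pow r (by omega)).trans (hk ▸ a)) h2

theorem b_cent_card (hr : r.Prime) (h2 : ¬ r ^ 2 ∣ Nat.card G) {x y : G} (hx : orderOf x = r)
    (hy : orderOf y = r) : ♯𝐂[x] = ♯𝐂[y] := by
  haveI := Fact.mk hr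
  have s : ∀ z : G, orderOf z = r → Syl r (zpowers z) ⊤ := fun z hz =>
    ⟨le_top, isPGroup_of_card_prime (by rw [Nat.card_zpowers, hz]), fun e => h2 (by
      rw [← (zpowers z).card_mul_index, Nat.card_zpowers, hz, pow_two]
      exact Nat.mul_dvd_mul_left _ (by simpa using e))⟩
  obtain ⟨g, -, e⟩ := (s x hx).exists_cj_eq (s y hy)
  rw [← cent_zpowers, ← cent_zpowers, ← e, ← cj_centralizer, card_cj]

theorem b_odd_le {D C : Subgroup G} (ho : Odd ♯D) (h : ∀ g ∈ D, g * g ∈ C) : D ≤ C := fun g hg =>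
  mem_of_sq_mem' (odd_orderOf ho hg) (h g hg)

theorem b_J1 [IsSimpleGroup G] (ha : AG G) {t : G} (ht : orderOf t = 2)
    (e : centralizer ({t} : Set G) ≃* Z2A5) : Nat.card G = 175560 ∧ ♯𝐂[t] = 120 ∧
    ∀ r, r = 11 ∨ r = 19 → ∀ R : Subgroup G, Syl r R ⊤ → ∃ g ∈ 𝐍(R), g * g ∉ 𝐂(R) := by
  haveI : Fact (Nat.Prime 2) := ⟨Nat.prime_two⟩
  obtain ⟨P, hP⟩ := (two_zpowers ht).exists_le_sylow
  obtain ⟨ι, B, h⟩ := H8.J1.exists_base ht ⟨P, hP (mem_zpowers t), fun x hx =>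
    AG.comm ha Nat.prime_two P.isPGroup' x hx t (hP (mem_zpowers t))⟩ e
  obtain ⟨κ, s, J⟩ := H8.J1.exists_JH B h
  have hG := J.main.1
  have c2 : ∀ u : G, orderOf u = 2 → ♯𝐂[u] = 120 := fun u hu => by
    obtain ⟨g, rfl⟩ := J.conj_t (sq_of_two hu) (ne_one_of_two hu)
    have := cj_cent1 g⁻¹ (κ H8.J1.z0)
    rw [inv_inv] at this
    rw [← this, card_cj, H8.J1.card_cent_t J.toBase]
  obtain ⟨c3, -, c5, -⟩ := J.caseC J.rel
  refine ⟨hG, c2 t ht, fun r hr R hR => ?_⟩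
  by_contra! hc
  have rp : r.Prime := by rcases hr with rfl | rfl <;> norm_num
  haveI := Fact.mk rp
  have cR : ♯R = r := b_syl_card rp hR (by rw [card_top, hG]; rcases hr with rfl | rfl <;> norm_num)
    (by rw [card_top, hG]; rcases hr with rfl | rfl <;> norm_num)
  have k1 : ∀ l, l.Prime → l ∣ ♯𝐂(R) → l ∣ 1463 := fun l hl hd => by
    obtain ⟨x, x1, x2⟩ := exists_orderOf_eq_prime hl hd
    have a := card_dvd_of_le' (le_cent1_iff.2 x1)
    have b : l ∣ 2 ^ 3 * 3 * 5 * 1463 := hd.trans ((card_subgroup_dvd_card _).trans hG.dvd)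
    rw [cR] at a
    rcases (Nat.Prime.dvd_mul hl).1 b with b | b
    swap
    · exact b
    exfalso
    rcases (Nat.Prime.dvd_mul hl).1 b with b | b
    rcases (Nat.Prime.dvd_mul hl).1 b with b | b
    · obtain rfl := (Nat.prime_dvd_prime_iff_eq hl Nat.prime_two).1 (hl.dvd_of_dvd_pow b)
      rw [c2 x x2] at a
      rcases hr with rfl | rfl <;> norm_num at a
    · obtain rfl := (Nat.prime_dvd_prime_iff_eq hl Nat.prime_three).1 b
      rw [b_cent_card hl (by rw [hG]; norm_num) x2 (H8.J1.orderOf_x0 J.toBase), c3] at a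
      rcases hr with rfl | rfl <;> norm_num at a
    · obtain rfl := (Nat.prime_dvd_prime_iff_eq hl Nat.prime_five).1 b
      rw [b_cent_card hl (by rw [hG]; norm_num) x2 (H8.J1.orderOf_y0 J.toBase), c5] at a
      rcases hr with rfl | rfl <;> norm_num at a
  have k2 : ♯𝐂(R) ∣ 1463 := Nat.Coprime.dvd_of_dvd_mul_left (m := 120)
    (Nat.coprime_of_dvd fun l hl a b => by
      have := Nat.dvd_gcd (k1 l hl a) b
      exact hl.not_dvd_one this) ((card_subgroup_dvd_card _).trans hG.dvd)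
  have k3 : ∀ l, l.Prime → l ∣ 𝐂(R).relIndex 𝐍(R) → l = 2 := fun l hl hd => by
    by_contra l2
    haveI := Fact.mk hl
    obtain ⟨D, hD⟩ := exists_syl l 𝐍(R)
    obtain ⟨i, hi⟩ := IsPGroup.iff_card.1 hD.isPGroup
    have a : D ≤ 𝐂(R) := b_odd_le (hi ▸ (hl.odd_of_ne_two l2).pow) fun g hg => hc g (hD.le hg)
    exact hD.not_dvd (hd.trans (relIndex_dvd_of_le_left _ a))
  have k4 := relIndex_cent_dvd_of_card_prime cR (le_refl 𝐍(R))
  have k5 : 𝐂(R).relIndex 𝐍(R) ∣ 2 := by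
    rcases hr with rfl | rfl
    · exact Nat.Coprime.dvd_of_dvd_mul_left (m := 5) (Nat.coprime_of_dvd fun l hl a b => by
        obtain rfl := k3 l hl a; norm_num at b) k4
    · exact Nat.Coprime.dvd_of_dvd_mul_left (m := 9) (Nat.coprime_of_dvd fun l hl a b => by
        obtain rfl := k3 l hl a; norm_num at b) k4
  have k6 : 𝐍(R).index ≡ 1 [MOD r] := by
    have := card_sylow_modEq_one r G
    rwa [Sylow.card_eq_index_normalizer hR.toSylowTop] at this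
  have k7 : r ∣ ♯𝐂(R) := cR ▸ card_dvd_of_le' (comm_iff_le_cent.1 (comm_of_isCyclic
    (isCyclic_of_card_prime (cR ▸ rp))))
  have k8 := 𝐍(R).card_mul_index
  rw [hG, ← H2.card_mul_relIndex (cent_le_norm R)] at k8
  have k9 : ∀ c ∈ Nat.divisors 1463, ∀ a ∈ Nat.divisors 2, ∀ r ∈ ({11, 19} : Finset ℕ), r ∣ c →
      175560 / (c * a) % r ≠ 1 % r := by decide +kernel
  refine k9 _ (Nat.mem_divisors.2 ⟨k2, by norm_num⟩) _ (Nat.mem_divisors.2 ⟨k5, by norm_num⟩) r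
    (by simpa using hr) k7 ?_
  rw [← k8, Nat.mul_div_cancel_left _ (Nat.mul_pos (card_pos' _) (relIndex_pos _ _))]
  exact k6

theorem b_L2 {F : Type} [Field F] [Fintype F]
    (h : Fintype.card F % 8 = 0 ∨ Fintype.card F % 8 = 3 ∨ Fintype.card F % 8 = 5)
    (h8 : 8 ∣ Nat.card (L2 F)) (h16 : ¬ 16 ∣ Nat.card (L2 F)) : Nat.card (L2 F) = 504 := by
  have a := MC.F0_card (F := F)
  set q := Fintype.card F with hq
  set c := Nat.card (L2 F)
  obtain ⟨d, hd⟩ := h8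
  rcases h with h | h
  · obtain ⟨p, _, n, hp, e⟩ := FiniteField.card' F
    have p2 : p = 2 := ((Nat.prime_dvd_prime_iff_eq Nat.prime_two hp).1
      (Nat.prime_two.dvd_of_dvd_pow (n := n) (by rw [← e]; omega))).symm
    subst p2
    have q0 : 0 < q := Fintype.card_pos
    have g : Nat.gcd 2 (q - 1) = 1 := Nat.coprime_two_left.2 (Nat.odd_iff.2 (by omega))
    rw [g, one_mul] at a
    have n4 : ¬ 4 ≤ (n : ℕ) := fun b => h16 (a ▸ Dvd.dvd.mul_right (by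
      rw [hq, e]; exact pow_dvd_pow 2 b) _)
    have q8 : q = 8 := by
      rw [← hq] at e
      have : (n : ℕ) ≤ 3 := by omega
      generalize (n : ℕ) = j at *
      interval_cases j <;> omega
    rw [a, q8]
    norm_num
  · exfalso
    have g : Nat.gcd 2 (q - 1) = 2 := Nat.gcd_eq_left (by omega)
    rw [g, hd] at a
    have b : q * (q ^ 2 - 1) % 16 = 0 := by omega
    obtain ⟨j, hj⟩ : ∃ j, q = 16 * j + q % 16 := ⟨q / 16, by omega⟩
    have q1 : 1 ≤ q ^ 2 := Nat.one_le_pow _ _ (by omega)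
    have : (q * (q ^ 2 - 1) + q) % 16 = q ^ 3 % 16 := by
      congr 1
      zify [q1]
      ring
    rw [Nat.pow_mod, Nat.add_mod, b] at this
    have : q % 16 = 3 ∨ q % 16 = 5 ∨ q % 16 = 11 ∨ q % 16 = 13 := by omega
    rcases this with e | e | e | e <;> rw [e] at this <;> norm_num at this

/-- the hypothesis on a section with Sylow `2`-subgroup `S` of order `8` -/
structure H8s (Y S : Subgroup G) (t : G) : Prop where
  ag : AG G
  ih : IH.{u} (♯Y + 1)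
  h0 : core {2}ᶜ Y = ⊥
  syl : Syl 2 S Y
  h8 : ♯S = 8
  tS : t ∈ S
  t1 : t ≠ 1
  tr : ∀ x ∈ S, x ≠ 1 → ∃ g ∈ Y ⊓ 𝐍(S), g * t * g⁻¹ = x
  h21 : 𝐂(S).relIndex (Y ⊓ 𝐍(S)) = 21

theorem H8s.N {Y S : Subgroup G} {t : G} (h : H8s Y S t) : ∃ N, N ⊴ Y ∧ N ⊔ (Y ⊓ 𝐍(S)) = Y ∧
    (N = S ∨ 7 ∣ ♯(N ⊓ (Y ⊓ 𝐍(S)) : Subgroup G) ∧ (♯N = 504 ∨ ♯N = 175560 ∧ 5 ∣ ♯(Y ⊓ 𝐂[t] : Subgroup G) ∧
      ∀ r, r = 11 ∨ r = 19 → ∀ R : Subgroup G, Syl r R N → ∃ g ∈ N ⊓ 𝐍(R), g * g ∉ 𝐂(R))) := by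
  haveI : Fact (Nat.Prime 2) := ⟨Nat.prime_two⟩
  obtain ⟨N, n1, n2⟩ := exists_minNrm (ne_bot_of_mem (h.syl.le h.tS) h.t1) (le_normalizer (H := Y))
  have nN : N ⊴ Y := ⟨n1, n2.norm⟩
  have ev : ∀ M, M ⊴ Y → ¬ 2 ∣ ♯M → M = ⊥ := fun M a b =>
    le_bot_iff.1 (h.h0 ▸ le_core a (piG_compl_singleton.2 b))
  have e2 : 2 ∣ ♯N := by_contra fun a => n2.ne_bot (ev N nN a)
  obtain ⟨x, ⟨x1, x2⟩, x3⟩ := exists_ne_one_of_ne_bot ((h.syl.inf_of_nrm nN).ne_bot e2)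
  have SN : S ≤ N := fun y hy => by
    by_cases y1 : y = 1
    · exact y1 ▸ one_mem _
    obtain ⟨g, g1, rfl⟩ := h.tr x x1 x3
    obtain ⟨k, k1, rfl⟩ := h.tr y hy y1
    have := nN.conj_mem (mul_mem k1.1 (inv_mem g1.1)) x2
    convert this using 1
    group
  have sN : Syl 2 S N := h.syl.of_le SN n1
  refine ⟨N, nN, sN.frattini' nN, (em (Group.IsSolvable N)).imp (fun s => ?_) fun s => ⟨?_, ?_⟩⟩
  · obtain ⟨q, hq, n3⟩ := n2.exists_abelem s
    haveI := Fact.mk hq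
    obtain rfl := eq_of_isPGroup_of_dvd n3.isPGroup Nat.prime_two e2
    exact h.syl.eq_of_le n3.isPGroup SN n1
  · by_contra a
    have b := b_F h.h8 inf_le_right h.tr h.h21 (nN.inf_right inf_le_left) a
    have c := Burnside_normal_complement sN ((le_inf inf_le_left (inf_le_inf_right _ n1)).trans b)
    have d := ev _ (nN.core {2}ᶜ) (piG_compl_singleton.1 (core_piG _ _))
    have f := c.idx
    rw [d, relIndex_bot_left, compl_compl] at f
    exact s (isSolvable_of_isPGroup (PiG.isPGroup f))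
  have h16 : ¬ 16 ∣ ♯Y := fun a => h.syl.not_dvd (Nat.dvd_of_mul_dvd_mul_left (k := 8) (by norm_num) (by
    rw [← h.h8, h.syl.card_mul_relIndex, h.h8]; exact a))
  haveI := b_isSimple n2.ne_bot (b_simple h16 n2 n1 s)
  have aN := AG.sub h.ag N
  rcases h.ih N (Nat.lt_succ_of_le (card_le_of_le' n1))
    (fun c => s (isSolvable_of_nil (isNilpotent_of_comm c))) aN with ⟨u, u2, ⟨e⟩⟩ | ⟨F, _, _, -, f8, ⟨e⟩⟩
  · obtain ⟨j1, j2, j3⟩ := b_J1 aN u2 e
    refine Or.inr ⟨j1, ?_, fun r hr R hR => ?_⟩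
    · have u3 : orderOf (u : G) = 2 := by rwa [Subgroup.orderOf_coe]
      obtain ⟨g, g1, g2⟩ := h.syl.exists_cj_le (two_zpowers u3) (zpowers_le.2 (n1 u.2))
      obtain ⟨k, k1, k2⟩ := h.tr _ (g2 (conj_mem_cj (mem_zpowers _))) (conj_ne_one (ne_one_of_two u3))
      have a : ♯(Y ⊓ 𝐂[t] : Subgroup G) = ♯(Y ⊓ 𝐂[(u : G)] : Subgroup G) := by
        rw [← card_cj k, ← card_cj g (Y ⊓ _), cj_inf, cj_inf, cj_cent1, cj_cent1, k2, cj_eq_of_mem g1,
          cj_eq_of_mem k1.1]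
      have b : (𝐂[u] : Subgroup N).map N.subtype ≤ Y ⊓ 𝐂[(u : G)] := by
        rintro _ ⟨y, hy, rfl⟩
        exact ⟨n1 y.2, mem_cent1_iff.2 (congrArg Subtype.val (mem_cent1_iff.1 hy))⟩
      have c := card_dvd_of_le' b
      rw [card_map_of_injective N.subtype_injective, j2] at c
      exact a ▸ Dvd.dvd.trans (by norm_num) c
    · obtain ⟨g, g1, g2⟩ := j3 r hr (R.subgroupOf N) ⟨le_top, isPGroup_subgroupOf hR.isPGroup N, by
        rw [relIndex_top_right]; exact hR.not_dvd⟩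
      refine ⟨g, ⟨g.2, mem_normalizer_of_conj_mem fun y hy => ?_⟩, fun c => g2 (mem_cent_iff.2 fun y hy =>
        Subtype.ext (mem_cent_iff.1 c y hy))⟩
      exact conj_mem_of_mem_normalizer g1 (x := ⟨y, hR.le hy⟩) hy
  · have a := Nat.card_congr e.toEquiv
    refine Or.inl (a ▸ b_L2 f8 (a ▸ h.h8 ▸ card_dvd_of_le' SN) (a ▸ fun b => h16 (b.trans (card_dvd_of_le' n1))))

theorem H8s.seven {Y S R : Subgroup G} {t : G} (h : H8s Y S t) (hc : ¬ 7 ∣ ♯(Y ⊓ 𝐂[t] : Subgroup G))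
    (hR : Syl 7 R (Y ⊓ 𝐍(S))) : ∃ g ∈ Y ⊓ 𝐍(R), g * g ∉ 𝐂(R) := by
  haveI : Fact (Nat.Prime 2) := ⟨Nat.prime_two⟩
  haveI : Fact (Nat.Prime 7) := ⟨by norm_num⟩
  by_contra! a
  have sS : Syl 2 S (Y ⊓ 𝐍(S)) := h.syl.of_le (le_inf h.syl.le le_normalizer) inf_le_left
  have b : (Y ⊓ 𝐍(S)) ⊓ 𝐍(R) ≤ 𝐂(R) := fun g hg => by
    obtain ⟨x, y, rfl, x1, y1, x2, y2⟩ := exists_piPart {2} g
    have x3 := zpowers_le.2 hg x1
    have y3 := zpowers_le.2 hg y1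
    refine mul_mem ?_ (mem_of_sq_mem' (Nat.not_even_iff_odd.1 fun e =>
      (piNum_compl_singleton Nat.prime_two).1 y2 e.two_dvd) (a y ⟨y3.1.1, y3.2⟩))
    have xS : x ∈ S := sS.hall.mem_of_nrm inf_le_right x3.1 x2
    refine mem_cent_iff.2 fun z hz => ?_
    have c : S ⊓ R = ⊥ := inf_eq_bot_of_coprime' (coprime_of_isPGroup_ne h.syl.isPGroup hR.isPGroup (by norm_num))
    have d : z * x * z⁻¹ * x⁻¹ ∈ S ⊓ R := ⟨S.mul_mem (conj_mem_of_mem_normalizer (hR.le hz).2 xS) (S.inv_mem xS),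
      by rw [mul_assoc, mul_assoc, ← mul_assoc x]
         exact R.mul_mem hz (conj_mem_of_mem_normalizer x3.2 (R.inv_mem hz))⟩
    rw [c, mem_bot, mul_inv_eq_one, mul_inv_eq_iff_eq_mul] at d
    exact d
  have c := Burnside_normal_complement hR b
  have d := b_F h.h8 inf_le_right h.tr h.h21 (core_nrm {7}ᶜ _) (piG_compl_singleton.1 (core_piG _ _))
  have f := c.idx.of_dvd (relIndex_dvd_of_le_left _ d)
  rw [h.h21] at f
  exact f 3 Nat.prime_three (by norm_num) (by norm_num)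

theorem H8s.A {Y S R : Subgroup G} {t : G} (h : H8s Y S t) (hr : r.Prime) (r2 : r ≠ 2) (r3 : r ≠ 3)
    (hc : ¬ r ∣ ♯(Y ⊓ 𝐂[t] : Subgroup G)) (hR : Syl r R Y) :
    R = ⊥ ∨ ♯R = r ∧ ∃ g ∈ Y ⊓ 𝐍(R), g * g ∉ 𝐂(R) := by
  haveI := Fact.mk hr
  obtain ⟨N, n1, n2, n3⟩ := h.N
  set X := Y ⊓ 𝐍(S) with hX
  have x1 : ♯X = ♯(𝐂(S) ⊓ X : Subgroup G) * 21 := by
    rw [← h.h21, ← inf_relIndex_right, H2.card_mul_relIndex inf_le_right]
  have x2 : ¬ r ∣ ♯(𝐂(S) ⊓ X : Subgroup G) := fun a => hc (a.trans (card_dvd_of_le'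
    (le_inf (inf_le_right.trans inf_le_left) (inf_le_left.trans (cent_le_cent1 h.tS)))))
  have x3 : ♯(N ⊓ X : Subgroup G) * N.relIndex Y = ♯X := by
    have xN : X ≤ 𝐍(N) := inf_le_left.trans n1.norm
    have : N.relIndex Y = N.relIndex X := by
      rw [← card_bar n1.norm, ← card_bar xN, ← bar_self_sup xN, n2]
    rw [this, ← inf_relIndex_right, H2.card_mul_relIndex inf_le_right]
  have x4 := H2.card_mul_relIndex n1.le
  by_cases r7 : r = 7
  · subst r7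
    have c7 : ∀ a, ¬ 7 ∣ a → (7 ^ 2).Coprime a := fun a b => ((Nat.Prime.coprime_iff_not_dvd hr).2 b).pow_left 2
    have y1 : ¬ 7 ^ 2 ∣ ♯X := fun a => by
      rw [x1] at a
      exact absurd ((c7 _ x2).dvd_of_dvd_mul_left a) (by norm_num)
    have y2 : ¬ 7 ^ 2 ∣ ♯Y := by
      rcases n3 with rfl | ⟨a, b⟩
      · rwa [hX, inf_eq_left.2 n1.norm] at y1
      · intro c
        have d : ¬ 7 ∣ N.relIndex Y := fun d => y1 (x3 ▸ pow_two 7 ▸ Nat.mul_dvd_mul a d)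
        have := (c7 _ d).dvd_of_dvd_mul_right (x4 ▸ c)
        rcases b with b | ⟨b, -⟩ <;> rw [b] at this <;> norm_num at this
    have y3 : 7 ∣ ♯X := x1 ▸ Dvd.dvd.mul_left (by norm_num) _
    have y4 := b_syl_card hr hR (y3.trans (card_dvd_of_le' inf_le_left)) y2
    obtain ⟨R0, r0⟩ := exists_syl 7 X
    have r1 : Syl 7 R0 Y := isSylowIn_of_card_ge hR r0.isPGroup (r0.le.trans inf_le_left)
      (by rw [y4, b_syl_card hr r0 y3 y1])
    obtain ⟨g, g1, g2⟩ := h.seven hc r0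
    obtain ⟨k, k1, rfl⟩ := hR.exists_cj_eq r1
    refine Or.inr ⟨y4, k * g * k⁻¹, ⟨Y.mul_mem (Y.mul_mem k1 g1.1) (Y.inv_mem k1), ?_⟩, ?_⟩
    · rw [← cj_normalizer]; exact conj_mem_cj g1.2
    · rw [← cj_centralizer, conj_mul, conj_mem_cj_iff]; exact g2
  have y1 : ¬ r ∣ ♯X := fun a => by
    rw [x1] at a
    have a' : r ∣ 3 * 7 := ((Nat.Prime.dvd_mul hr).1 a).resolve_left x2
    rcases (Nat.Prime.dvd_mul hr).1 a' with b | b
    · exact r3 ((Nat.prime_dvd_prime_iff_eq hr Nat.prime_three).1 b)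
    · exact r7 ((Nat.prime_dvd_prime_iff_eq hr (by norm_num)).1 b)
  have y2 : ¬ r ∣ N.relIndex Y := fun a => y1 (x3 ▸ a.mul_left _)
  refine (em (R = ⊥)).imp id fun R0 => ?_
  have y3 : r ∣ ♯N := ((Nat.Prime.dvd_mul hr).1 (x4 ▸ by_contra fun a => R0 (hR.eq_bot_iff.2 a))).resolve_right y2
  have RN : R ≤ N := le_of_piG_of_nrm (π := {r}) n1.norm ((piNum_compl_singleton hr).2 y2) hR.le hR.hall.piG
  have sR := hR.of_le RN n1.le
  have pr : ∀ a, r ∣ a → a ≠ 0 → r ∈ a.primeFactors := fun a b c => Nat.mem_primeFactors.2 ⟨hr, b, c⟩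
  rcases n3 with rfl | ⟨-, b | ⟨b, c, d⟩⟩
  · rw [h.h8] at y3
    exact absurd ((Nat.prime_dvd_prime_iff_eq hr Nat.prime_two).1 (hr.dvd_of_dvd_pow (n := 3) y3)) r2
  · have := pr _ (b ▸ y3) (by norm_num)
    rw [show Nat.primeFactors 504 = {2, 3, 7} by decide +kernel] at this
    simp [r2, r3, r7] at this
  · have := pr _ (b ▸ y3) (by norm_num)
    have r5 : r ≠ 5 := fun e => hc (e ▸ c)
    rw [show Nat.primeFactors 175560 = {2, 3, 5, 7, 11, 19} by decide +kernel] at this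
    simp only [Finset.mem_insert, r2, r3, r5, r7, Finset.mem_singleton, false_or] at this
    obtain ⟨g, g1, g2⟩ := d r this R sR
    exact ⟨b_syl_card hr sR y3 (by rw [b]; rcases this with rfl | rfl <;> norm_num), g, ⟨n1.le g1.1, g1.2⟩, g2⟩

end Cfsg.Agent.JR
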