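import Cfsg.Agent.JR.J5h
import Cfsg.Agent.JR.J1

/-! Pieces J3a, J3b of the Janko-Ree case. -/

set_option autoImplicit false
set_option linter.unusedSectionVars false
set_option linter.unusedVariables false

namespace Cfsg.Agent.JR

open Subgroup Cfsg.Agent.FT

universe u
variable {G : Type u} [Group G] [Finite G] {p n m k : ℕ} {e : ℤ}

namespace J3

theorem piNum_odd {a : ℕ} : PiNum {2}ᶜ a ↔ Odd a := by
  rw [piNum_compl_singleton Nat.prime_two, Nat.two_dvd_ne_zero, Nat.odd_iff]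

/-- the quotient by the odd core -/
theorem exQ (X : Subgroup G) : ∃ (O : Subgroup G) (H : Type u) (_ : Group H) (_ : Finite H) (f : X →* H),
    Function.Surjective f ∧ O ⊴ X ∧ Odd ♯O ∧ (∀ g : X, f g = 1 ↔ g.1 ∈ O) ∧
      ♯X = Nat.card H * ♯O ∧ ∀ N : Subgroup H, N.Normal → Odd ♯N → N = ⊥ := by
  have hn := core_nrm {2}ᶜ X
  have ho : Odd ♯(core {2}ᶜ X) := piNum_odd.1 (core_piG _ X)
  haveI := hn.normal
  have hk : ∀ g : X, QuotientGroup.mk' ((core {2}ᶜ X).subgroupOf X) g = 1 ↔ g.1 ∈ core {2}ᶜ X :=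
    fun g => by rw [QuotientGroup.mk'_apply, QuotientGroup.eq_one_iff, mem_subgroupOf]
  refine ⟨_, X ⧸ (core {2}ᶜ X).subgroupOf X, inferInstance, inferInstance, QuotientGroup.mk' _,
    QuotientGroup.mk'_surjective _, hn, ho, hk, ?_, fun N hN h => ?_⟩
  · rw [card_eq_card_quotient_mul_card_subgroup ((core {2}ᶜ X).subgroupOf X),
      Nat.card_congr (subgroupOfEquivOfLe hn.le).toEquiv]
  · set f := QuotientGroup.mk' ((core {2}ᶜ X).subgroupOf X)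
    have h1 : (N.comap f).map X.subtype ≤ core {2}ᶜ X := by
      refine le_core ⟨map_subtype_le _, fun g hg => mem_normalizer_of_conj_mem ?_⟩ (piG_of_forall ?_)
      · rintro _ ⟨y, hy, rfl⟩
        exact ⟨_, (hN.comap f).conj_mem y hy ⟨g, hg⟩, rfl⟩
      · rintro _ ⟨y, hy, rfl⟩
        refine piNum_odd.2 ((h.mul ho).of_dvd_nat (orderOf_dvd_of_pow_eq_one ?_))
        have h2 : f (y ^ ♯N) = 1 := by
          rw [map_pow]; exact orderOf_dvd_iff_pow_eq_one.1 (orderOf_dvd_card' hy)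
        rw [pow_mul]
        exact orderOf_dvd_iff_pow_eq_one.1 (orderOf_dvd_card' ((hk _).1 h2))
    refine (eq_bot_iff_forall _).2 fun z hz => ?_
    obtain ⟨y, rfl⟩ := QuotientGroup.mk'_surjective _ z
    exact (hk y).2 (h1 ⟨y, hz, rfl⟩)

end J3

open J3 in
theorem J3a (h : JR G p n m k e) {t u x : G} (hf : FG t u) (hx : x ∈ Rw t u) (h1 : x ≠ 1) :
    𝐂[x] ≤ 𝐍(V4 t u) ∨ (♯𝐂[x] = 60 * m ∧ 𝐂[x] ≤ 𝐂(Rw t u) ∧ (∃ y ∈ 𝐂[x], y ∈ 𝐍(V4 t u) ∧ y ∉ 𝐂(V4 t u)) ∧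
      ∀ y ∈ 𝐂[x], orderOf y = 3 → y ∉ Rw t u →
        𝐂[x] ⊓ 𝐂[y] ≤ Rw t u ⊔ zpowers y ∧ ∃ j ∈ 𝐂[x], j * y * j⁻¹ * y ∈ Rw t u) := by
  obtain ⟨O, H, _, _, f, fs, On, Oo, fk, cX, hO⟩ := exQ 𝐂[x]
  have cR := h.cardR hf
  have oR := h.oddR hf
  have Rc : Rw t u ≤ 𝐂(Rw t u) := comm_iff_le_cent.1 (comm_of_isCyclic (h.cycR hf))
  have RW := Rw_le_cent t u
  have WR : V4 t u ≤ 𝐂(Rw t u) := cent_symm RW
  have cen := h.cenR hf hx h1
  obtain ⟨s, τ, hs⟩ := h.st hf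
  have sinv := hs.inv
  generalize Rw t u = R at *
  have WX : V4 t u ≤ 𝐂[x] := WR.trans (cent_le_cent1 hx)
  have RX : R ≤ 𝐂[x] := Rc.trans (cent_le_cent1 hx)
  have ht := WX (left_mem_V4 t u)
  have hu := WX (right_mem_V4 t u)
  have rw2 : ∀ r ∈ R, ∀ w ∈ V4 t u, r * w * (r * w) = r * r := fun r hr w hw => by
    rw [mul_assoc, ← mul_assoc w, mem_cent_iff.1 (RW hr) w hw, mul_assoc, V4_sq hf hw, mul_one]
  have OR : O ≤ R := by
    have key : ∀ g ∈ O, g ∈ 𝐂[t] ∨ g ∈ 𝐂[u] ∨ g ∈ 𝐂[t * u] → g ∈ R := fun g hg a => by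
      obtain ⟨r, hr, w, hw, rfl⟩ := cen g (On.le hg) a
      exact mem_of_sq_mem' (odd_orderOf Oo hg) (by rw [rw2 r hr w hw]; exact mul_mem hr hr)
    exact (GEN Oo hf (On.norm ht) (On.norm hu)).trans (sup_le (sup_le
      (fun g a => key g a.1 (Or.inl a.2)) fun g a => key g a.1 (Or.inr (Or.inl a.2)))
      fun g a => key g a.1 (Or.inr (Or.inr a.2)))
  have feq : ∀ a b : 𝐂[x], f a = f b → a.1⁻¹ * b.1 ∈ O := fun a b e =>
    (fk (a⁻¹ * b)).1 (by rw [map_mul, map_inv, e, inv_mul_cancel])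
  have lift : ∀ a b : 𝐂[x], a.1 ∈ V4 t u → b.1 * b.1 = 1 → f a = f b → a.1 = b.1 := fun a b c d e => by
    have e1 := feq a b e
    have e2 := rw2 _ (OR e1) _ c
    rw [← mem_cent_iff.1 (RW (OR e1)) _ c, mul_inv_cancel_left, d] at e2
    exact inv_mul_eq_one.1 (eq_one_of_odd (odd_orderOf Oo e1) e2.symm)
  have two : ∀ a : 𝐂[x], orderOf a.1 = 2 → orderOf (f a) = 2 := fun a b =>
    two_of_sq (by rw [← map_mul, show a * a = 1 from Subtype.ext (sq_of_two b), map_one])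
      fun e => not_mem_of_odd Oo b ((fk a).1 e)
  set t' : 𝐂[x] := ⟨t, ht⟩
  set u' : 𝐂[x] := ⟨u, hu⟩
  have fg : FG (f t') (f u') := ⟨two t' hf.t2, two u' hf.u2,
    by rw [← map_mul, ← map_mul, show t' * u' = u' * t' from Subtype.ext hf.comm],
    fun e => hf.ne (lift t' u' (left_mem_V4 t u) hf.uu e)⟩
  have memV : ∀ b : 𝐂[x], f b ∈ V4 (f t') (f u') → ∃ a : 𝐂[x], a.1 ∈ V4 t u ∧ f a = f b := fun b c => by
    rcases (mem_V4 fg).1 c with c | c | c | c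
    · exact ⟨1, one_mem _, by rw [c, map_one]⟩
    · exact ⟨t', left_mem_V4 t u, c.symm⟩
    · exact ⟨u', right_mem_V4 t u, c.symm⟩
    · exact ⟨t' * u', mul_mem (left_mem_V4 t u) (right_mem_V4 t u), by rw [c, map_mul]⟩
  have liftN : ∀ g : 𝐂[x], f g ∈ 𝐍(V4 (f t') (f u')) → g.1 ∈ 𝐍(V4 t u) := fun g hg => by
    have key : ∀ b : 𝐂[x], orderOf b.1 = 2 → f b ∈ V4 (f t') (f u') → g.1 * b.1 * g.1⁻¹ ∈ V4 t u :=
      fun b c d => by
        obtain ⟨a, a1, a2⟩ := memV (g * b * g⁻¹) (by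
          rw [map_mul, map_mul, map_inv]; exact conj_mem_of_mem_normalizer hg d)
        have := lift a (g * b * g⁻¹) a1 (sq_of_two (two_conj c g.1)) a2
        rw [this] at a1
        exact a1
    refine mem_normalizer_of_cj_le ?_
    rw [cj_V4]
    exact V4_le.2 ⟨key t' hf.t2 (left_mem_V4 _ _), key u' hf.u2 (right_mem_V4 _ _)⟩
  have hlt : Nat.card H < Nat.card G := by
    have a1 : 𝐂[x] < ⊤ := lt_top_iff_ne_top.2 fun e => by
      have := mem_cent1_iff.1 (e ▸ mem_top s : s ∈ 𝐂[x])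
      exact h1 (J5.eq_one_of_inv (odd_orderOf oR hx) (by rw [← sinv x hx, this, mul_inv_cancel_right]))
    have a2 := card_lt_of_lt a1
    rw [card_top, cX] at a2
    exact lt_of_le_of_lt (Nat.le_mul_of_pos_right _ Nat.card_pos) a2
  have h8 : ¬ 8 ∣ Nat.card H := fun a => by
    have a1 := h.ag.two_dvd (a := 3) (V4_two hf) WX (a.trans ⟨_, cX⟩)
    have a2 : 𝐂(V4 t u) ⊓ 𝐂[x] ≤ R ⊔ V4 t u := fun g hg => by
      obtain ⟨r, hr, w, hw, rfl⟩ := cen g hg.2 (Or.inl (cent_le_cent1 (left_mem_V4 t u) hg.1))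
      exact mul_mem_sup hr hw
    have a3 := (a1.trans (card_dvd_of_le' a2)).trans (card_sup_dvd (WR.trans (cent_le_norm _)))
    rw [card_V4 hf] at a3
    have := Nat.odd_iff.1 oR
    omega
  rcases J1 (AG.quo (AG.sub h.ag _) f fs) (fun K _ _ _ a => h.ih K (by omega)) hO fg h8 with
    a | ⟨a1, a2, a3, ⟨y, y1, y2⟩, a5⟩ | ⟨⟨z, z1, z2⟩, -⟩
  · exact Or.inl fun g hg => liftN ⟨g, hg⟩ (by rw [normalizer_eq_top]; trivial)
  · have RO : R ≤ O := fun r hr => by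
      obtain ⟨a, b1, b2⟩ := memV ⟨r, RX hr⟩ (by
        rw [← a3, mem_cent1_iff, ← map_mul, ← map_mul]
        exact congrArg f (Subtype.ext (mem_cent_iff.1 (RW hr) t (left_mem_V4 t u)).symm))
      refine mem_of_sq_mem' (odd_orderOf oR hr) ((fk (⟨r, RX hr⟩ * ⟨r, RX hr⟩)).1 ?_)
      rw [map_mul, ← b2, ← map_mul, show a * a = 1 from Subtype.ext (V4_sq hf b1), map_one]
    obtain rfl : O = R := le_antisymm OR RO
    refine Or.inr ⟨by rw [cX, a1, cR], fun g hg => ?_, ?_, fun y hy y3 yR => ?_⟩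
    · have hn : ((𝐂(O)).subgroupOf 𝐂[x]).Normal :=
        ⟨fun a ha b => (conj_mem_of_mem_normalizer (le_normalizer_centralizer On.norm b.2) ha :
          b.1 * a.1 * b.1⁻¹ ∈ 𝐂(O))⟩
      have := (hn.map f fs).eq_bot_or_eq_top.resolve_left fun e =>
        ne_one_of_two fg.t2 (mem_bot.1 (e ▸ mem_map_of_mem f (WR (left_mem_V4 t u))))
      obtain ⟨c, hc, e⟩ : f ⟨g, hg⟩ ∈ map f ((𝐂(O)).subgroupOf 𝐂[x]) := this ▸ mem_top _
      simpa using mul_mem (show c.1 ∈ 𝐂(O) from hc) (Rc (feq _ _ e))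
    · obtain ⟨y, rfl⟩ := fs y
      refine ⟨y, y.2, liftN y y1, fun a => y2 ?_⟩
      rw [cent_V4] at a ⊢
      refine ⟨mem_cent1_iff.2 ?_, mem_cent1_iff.2 ?_⟩ <;> rw [← map_mul, ← map_mul]
      · exact congrArg f (Subtype.ext (mem_cent1_iff.1 a.1))
      · exact congrArg f (Subtype.ext (mem_cent1_iff.1 a.2))
    · obtain ⟨b1, j, b2⟩ := a5 (f ⟨y, hy⟩) (orderOf_eq_prime (by
        rw [← map_pow, show (⟨y, hy⟩ : 𝐂[x]) ^ 3 = 1 from Subtype.ext (by simp [← y3]), map_one])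
        fun e => yR ((fk _).1 e))
      obtain ⟨j, rfl⟩ := fs j
      refine ⟨fun g hg => ?_, j, j.2, (fk (j * ⟨y, hy⟩ * j⁻¹ * ⟨y, hy⟩)).1 (by simp [b2])⟩
      obtain ⟨i, hi⟩ : f ⟨g, hg.1⟩ ∈ zpowers (f ⟨y, hy⟩) := by
        rw [← b1, mem_cent1_iff, ← map_mul, ← map_mul]
        exact congrArg f (Subtype.ext (mem_cent1_iff.1 hg.2))
      have := feq (⟨y, hy⟩ ^ i) ⟨g, hg.1⟩ (by rw [map_zpow]; exact hi)
      simpa using mul_mem (mem_sup_right (zpow_mem_zpowers y i) : y ^ i ∈ O ⊔ zpowers y) (mem_sup_left this)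
  · obtain ⟨z, rfl⟩ := fs z
    have b1 := lift t' (z * t' * z⁻¹) (left_mem_V4 t u) (sq_of_two (two_conj hf.t2 z.1))
      (by rw [map_mul, map_mul, map_inv, z1, mul_inv_cancel_right])
    obtain ⟨r, hr, w, hw, b2⟩ := cen z z.2 (Or.inl (mem_cent1_iff.2 (mul_inv_eq_iff_eq_mul.1 b1.symm)))
    refine absurd ?_ z2
    rw [← map_mul, ← map_mul]
    exact congrArg f (Subtype.ext (mem_cent_iff.1 (b2 ▸ mul_mem (RW hr) (V4_comm hf hw)) u
      (right_mem_V4 t u)).symm)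

theorem J3.zp3 {x y : G} (h : orderOf x = 3) (hy : y ∈ zpowers x) : y = 1 ∨ y = x ∨ y = x⁻¹ := by
  classical
  rw [mem_zpowers_iff_mem_range_orderOf, h] at hy
  obtain ⟨i, hi, rfl⟩ := Finset.mem_image.1 hy
  have := Finset.mem_range.1 hi
  interval_cases i
  · simp
  · simp
  · refine Or.inr (Or.inr (eq_inv_of_mul_eq_one_left ?_))
    rw [← pow_succ]; exact orderOf_dvd_iff_pow_eq_one.1 (by rw [h])

open J3 in
theorem J3b (h : JR G p n m k e) : ¬ 3 ∣ m := by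
  intro h3
  obtain ⟨t, u, s, τ, hs⟩ := h.st0
  have hf := hs.fg
  have τ3 := hs.t3
  have sτ : τ ∈ 𝐂[s] := mem_cent1_iff.2 hs.ts
  obtain ⟨-, -, -, f4, f5, -⟩ := h.ar.facts
  obtain ⟨u', hf', τR'⟩ : ∃ u', FG s u' ∧ τ ∈ Rw s u' := by
    rcases h.typ hs.s2 sτ Nat.prime_three τ3 (by decide) with ⟨-, a⟩ | ⟨a, -⟩ | ⟨a, -⟩
    · exact a
    · exact absurd (Nat.eq_one_of_dvd_coprimes f4 h3 a) (by decide)
    · exact absurd (Nat.eq_one_of_dvd_coprimes f5 (a ▸ dvd_rfl) h3) (by decide)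
  have cR := h.cardR hf
  have oR := h.oddR hf
  have Rc : Rw t u ≤ 𝐂(Rw t u) := comm_iff_le_cent.1 (comm_of_isCyclic (h.cycR hf))
  obtain ⟨x, hx, x3⟩ := exists_orderOf_eq_prime Nat.prime_three (cR ▸ h3)
  have ne3 : ∀ {y : G}, orderOf y = 3 → y ≠ 1 := by rintro _ a rfl; simp at a
  have ni3 : ∀ {y : G}, orderOf y = 3 → y⁻¹ ≠ y := fun a b =>
    ne3 a (J5.eq_one_of_inv (by rw [a]; decide) b)
  have cube : ∀ {y z : G}, orderOf y = 3 → z ∈ zpowers y → z ^ 3 = 1 := fun a b =>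
    orderOf_dvd_iff_pow_eq_one.1 (a ▸ orderOf_dvd_of_mem_zpowers b)
  have sinv := hs.inv
  have xτ : x ∈ 𝐂[τ] := by
    have a1 : τ ∈ 𝐍(zpowers x) := J5.norm_zp (J5.cyc_uniq (h.cycR hf) Nat.prime_three hx x3
      (conj_mem_of_mem_normalizer (Rw_norm hf hs.tN) hx) (by rw [conj_pow, cube x3 (mem_zpowers x)]; simp))
    exact mem_cent1_iff.2 (h.ag.comm Nat.prime_three (isPGroup_sup' (J5.pg_zp x3) (J5.pg_zp τ3)
      (zpowers_le.2 a1)) x (mem_sup_left (mem_zpowers x)) τ (mem_sup_right (mem_zpowers τ)))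
  obtain ⟨c1, c2, -⟩ := (J3a h hf' τR' (ne3 τ3)).resolve_left fun a => by
    have b1 := mul_mem (left_mem_V4 s u') (conj_mem_of_mem_normalizer (a xτ) (inv_mem (left_mem_V4 s u')))
    rw [← mul_assoc, ← mul_assoc, sinv x hx] at b1
    have b2 := V4_sq hf' b1
    have b3 := cube x3 (inv_mem (mem_zpowers x))
    rw [pow_three] at b3
    refine ne3 x3 (inv_eq_one.1 ?_)
    rw [mul_assoc, ← mul_assoc x⁻¹ x⁻¹ x⁻¹, mul_assoc x⁻¹ x⁻¹ x⁻¹, b3, mul_one] at b2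
    exact b2
  obtain ⟨g0, -, -, -, g1⟩ := h.cjW hf hf'
  have m0 := h.m1
  have hcW := (h.cardW hf).2.2
  have c3 : 60 * m ≤ ♯𝐂[x] := by
    have a1 : g0 * x * g0⁻¹ ∈ zpowers τ := J5.cyc_uniq (h.cycR hf') Nat.prime_three τR' τ3
      (g1 ▸ conj_mem_cj hx) (by rw [conj_pow, cube x3 (mem_zpowers x)]; simp)
    rw [← c1, ← card_cj g0 𝐂[x], cj_cent1, ← cent_zpowers τ]
    exact card_le_of_le (cent_le_cent1 a1)
  obtain ⟨-, c4, -⟩ := (J3a h hf hx (ne3 x3)).resolve_left fun a => by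
    have := card_le_of_le a
    omega
  have τR := c4 (mem_cent1_comm.1 xτ)
  have τn : τ ∉ Rw t u := fun a => hs.tC (Rw_le_cent t u a)
  have zR : zpowers τ ≤ 𝐂(Rw t u) := zpowers_le.2 τR
  have dec : ∀ x' ∈ Rw t u, x' ≠ 1 → ∀ g ∈ 𝐂[x'], g ∈ 𝐂[τ] → ∃ r ∈ Rw t u, ∃ z ∈ zpowers τ, r * z = g :=
    fun x' a b g c d => by
      refine (mem_sup_of_le_normalizer' (zR.trans (cent_le_norm _))).1 ?_
      rcases J3a h hf a b with a1 | ⟨-, -, -, a1⟩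
      · have := card_le_of_le ((c4.trans (cent_le_cent1 a)).trans a1)
        omega
      · exact (a1 τ (cent_le_cent1 a τR) τ3 τn).1 ⟨c, d⟩
  have sz : ∀ z ∈ zpowers τ, s * z * s⁻¹ = z := fun z hz => by
    rw [← mem_cent1_iff.1 (zpowers_le.2 sτ hz), mul_inv_cancel_right]
  have R'c : Rw s u' ≤ 𝐂(Rw s u') := comm_iff_le_cent.1 (comm_of_isCyclic (h.cycR hf'))
  have R'z : Rw s u' ≤ zpowers τ := fun y hy => by
    obtain ⟨r, hr, z, hz, rfl⟩ := dec x hx (ne3 x3) y (mem_cent1_iff.2 (mem_cent_iff.1 (c2 xτ) y hy))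
      (cent_le_cent1 τR' (R'c hy))
    have a1 : s * (r * z) * s⁻¹ = r * z := by
      rw [← mem_cent1_iff.1 (Rw_le s u' hy).1, mul_inv_cancel_right]
    rw [← conj_mul, sinv r hr, sz z hz, mul_left_inj] at a1
    rwa [J5.eq_one_of_inv (odd_orderOf oR hr) a1, one_mul]
  have r3 : ∀ r ∈ Rw t u, r ^ 3 = 1 := fun r hr => by
    have := card_dvd_of_le' R'z
    rw [h.cardR hf', Nat.card_zpowers, τ3, ← cR] at this
    exact orderOf_dvd_iff_pow_eq_one.1 ((orderOf_dvd_card' hr).trans this)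
  generalize Rw t u = R at *
  have rz : ∀ {r z : G}, r ∈ R → z ∈ zpowers τ → Commute r z := fun a b => mem_cent_iff.1 (zR b) _ a
  have pR : IsPGroup 3 R := fun a => ⟨1, Subtype.ext (by simpa using r3 a a.2)⟩
  haveI := Fact.mk Nat.prime_three
  obtain ⟨P, hP, P1⟩ := exists_syl_ge (isPGroup_sup' pR (J5.pg_zp τ3) (zR.trans (cent_le_norm _))) le_top
  have Pc := h.ag.comm Nat.prime_three hP.isPGroup
  have RP : R ≤ P := le_sup_left.trans P1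
  have zP : zpowers τ ≤ P := le_sup_right.trans P1
  have Pd : ∀ g ∈ P, ∃ r ∈ R, ∃ z ∈ zpowers τ, r * z = g := fun g hg => dec x hx (ne3 x3) g
    (mem_cent1_iff.2 (Pc g hg x (RP hx))) (mem_cent1_iff.2 (Pc g hg τ (zP (mem_zpowers τ))))
  obtain ⟨g, -, gN, g2⟩ := FUS Nat.prime_three hP Pc RP (mem_top g0) (g1 ▸ R'z.trans zP)
  have gR : ∀ r ∈ R, g * r * g⁻¹ ∈ zpowers τ := fun r hr => by
    rw [g2 r hr]; exact R'z (g1 ▸ conj_mem_cj hr)
  have gz : ∀ z ∈ zpowers τ, g⁻¹ * z * g ∈ R := fun z hz => by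
    have a1 : zpowers τ ≤ cj g0 R := g1 ▸ zpowers_le.2 τR'
    have a2 := g2 _ (mem_cj.1 (a1 hz))
    have : g⁻¹ * z * g = g0⁻¹ * z * g0 := by
      rw [← mul_left_cancel_iff (a := g), ← mul_left_inj g⁻¹, a2]; group
    rw [this]; exact mem_cj.1 (a1 hz)
  have sN : s ∈ 𝐍(P) := mem_normalizer_of_conj_mem fun y hy => by
    obtain ⟨r, hr, z, hz, rfl⟩ := Pd y hy
    rw [← conj_mul, sinv r hr, sz z hz]
    exact mul_mem (inv_mem (RP hr)) (zP hz)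
  obtain ⟨a, ha, b, hb, ab⟩ := Pd _ (conj_mem_of_mem_normalizer gN (zP (mem_zpowers τ)))
  have a1 : a ≠ 1 := by
    rintro rfl
    have := gz b hb
    rw [one_mul] at ab
    rw [ab] at this
    exact τn (by simpa [mul_assoc] using this)
  have cub : ∀ c ∈ 𝐂[a], c ∈ 𝐂[τ] → c ^ 3 = 1 := fun c c1 c2 => by
    obtain ⟨r, hr, z, hz, rfl⟩ := dec a ha a1 c c1 c2
    rw [(rz hr hz).mul_pow, r3 r hr, cube τ3 hz, one_mul]
  have b1 : b = 1 := by
    set d := s * (g * s * g⁻¹) with hd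
    have d1 : ∀ z ∈ zpowers τ, d * z * d⁻¹ = z⁻¹ := fun z hz => by
      rw [show d * z * d⁻¹ = s * (g * (s * (g⁻¹ * z * g) * s⁻¹) * g⁻¹) * s⁻¹ by rw [hd]; group,
        sinv _ (gz z hz), show g * (g⁻¹ * z * g)⁻¹ * g⁻¹ = z⁻¹ by group, sz _ (inv_mem hz)]
    have d2 : d * a * d⁻¹ = a⁻¹ * b * b := by
      have e1 : d * (a * b) * d⁻¹ = a⁻¹ * b := by
        rw [ab, show d * (g * τ * g⁻¹) * d⁻¹ = s * (g * (s * τ * s⁻¹) * g⁻¹) * s⁻¹ by rw [hd]; group,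
          sz τ (mem_zpowers τ), ← ab, ← conj_mul, sinv a ha, sz b hb]
      rwa [← conj_mul, d1 b hb, mul_inv_eq_iff_eq_mul] at e1
    have d3 : ∀ z ∈ zpowers τ, Commute (d * d) z := fun z hz => by
      rw [Commute, SemiconjBy, ← mul_inv_eq_iff_eq_mul,
        show d * d * z * (d * d)⁻¹ = d * (d * z * d⁻¹) * d⁻¹ by group, d1 z hz, d1 _ (inv_mem hz), inv_inv]
    have d4 : a⁻¹ * (d * d) * a⁻¹⁻¹ = b⁻¹ * (d * d) := by
      have e1 : d * d * a * (d * d)⁻¹ = a * b⁻¹ := by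
        rw [show d * d * a * (d * d)⁻¹ = d * (d * a * d⁻¹) * d⁻¹ by group, d2, ← conj_mul, ← conj_mul,
          ← conj_inv, d2, d1 b hb, mul_inv_rev, mul_inv_rev, inv_inv, ← (rz ha (inv_mem hb)).eq,
          ← mul_assoc, ← (rz ha (inv_mem hb)).eq, mul_assoc, mul_assoc, mul_assoc, ← pow_three,
          cube τ3 (inv_mem hb), mul_one]
      rw [mul_inv_eq_iff_eq_mul] at e1
      rw [inv_inv, mul_assoc, e1]; group
    have d5 : (d * d) ^ 3 ∈ 𝐂[a] := by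
      have e1 := congrArg (· ^ 3) d4
      simp only [conj_pow, (d3 _ (inv_mem hb)).symm.mul_pow, cube τ3 (inv_mem hb), one_mul] at e1
      rw [mem_cent1_iff]
      calc (d * d) ^ 3 * a = a * (a⁻¹ * (d * d) ^ 3 * a⁻¹⁻¹) := by group
        _ = _ := by rw [e1]
    have d6 := cub _ d5 (pow_mem (mem_cent1_iff.2 (d3 τ (mem_zpowers τ))) 3)
    have d7 : IsPGroup 3 (zpowers (d * d)) := by
      rintro ⟨_, i, rfl⟩
      refine ⟨2, Subtype.ext ?_⟩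
      simp only [SubgroupClass.coe_pow, OneMemClass.coe_one]
      rw [← zpow_natCast, ← zpow_mul, mul_comm, zpow_mul, zpow_natCast, show 3 ^ 2 = 3 * 3 from rfl, pow_mul, d6,
        one_zpow]
    have dN : d ∈ 𝐍(P) := mul_mem sN (mul_mem (mul_mem gN sN) (inv_mem gN))
    have d8 := h.ag.comm Nat.prime_three (isPGroup_sup' hP.isPGroup d7 (zpowers_le.2 (mul_mem dN dN)))
      _ (mem_sup_right (mem_zpowers _)) a (mem_sup_left (RP ha))
    rw [inv_inv, mul_assoc, d8, inv_mul_cancel_left, eq_comm, mul_eq_right, inv_eq_one] at d4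
    exact d4
  rw [b1, mul_one] at ab
  have fin : ∀ c : G, c * τ * c⁻¹ = a → c * a * c⁻¹ = τ⁻¹ → False := fun c e1 e2 => by
    have e3 : c ^ 2 * τ * (c ^ 2)⁻¹ = τ⁻¹ := by
      rw [show c ^ 2 * τ * (c ^ 2)⁻¹ = c * (c * τ * c⁻¹) * c⁻¹ by rw [sq]; group, e1, e2]
    have e4 : c ^ 2 * a * (c ^ 2)⁻¹ = a⁻¹ := by
      rw [show c ^ 2 * a * (c ^ 2)⁻¹ = c * (c * a * c⁻¹) * c⁻¹ by rw [sq]; group, e2, ← conj_inv, e1]
    have e5 : ∀ y : G, c ^ 2 * y * (c ^ 2)⁻¹ = y⁻¹ → c ^ 2 * c ^ 2 ∈ 𝐂[y] := fun y e => by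
      rw [mem_cent1_iff, ← mul_inv_eq_iff_eq_mul, show c ^ 2 * c ^ 2 * y * (c ^ 2 * c ^ 2)⁻¹ =
        c ^ 2 * (c ^ 2 * y * (c ^ 2)⁻¹) * (c ^ 2)⁻¹ by simp only [mul_inv_rev, mul_assoc], e, ← conj_inv, e, inv_inv]
    have e6 := h.sq (c ^ 3) (by rw [← cub _ (e5 a e4) (e5 τ e3), ← pow_add, ← pow_mul, ← pow_mul])
    have e7 : c ^ 2 ∈ 𝐂[τ] := by
      have := inv_mem (e5 τ e3)
      rwa [show (c ^ 2 * c ^ 2)⁻¹ = c ^ 2 by
        rw [inv_eq_iff_mul_eq_one, ← e6, ← pow_add, ← pow_add, ← pow_mul]] at this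
    rw [mem_cent1_iff.1 e7, mul_inv_cancel_right] at e3
    exact ni3 τ3 e3.symm
  rcases zp3 τ3 (gR a ha) with e | e | e
  · exact a1 (by simpa using e)
  · refine fin (g * s) ?_ ?_
    · rw [show g * s * τ * (g * s)⁻¹ = g * (s * τ * s⁻¹) * g⁻¹ by group, sz τ (mem_zpowers τ), ab]
    · rw [show g * s * a * (g * s)⁻¹ = g * (s * a * s⁻¹) * g⁻¹ by group, sinv a ha, ← conj_inv, e]
  · exact fin g ab.symm e

end Cfsg.Agent.JR
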