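import Cfsg.Agent.JR.J3a

/-! Piece J3c of the Janko-Ree case: centralisers of elements of `R`. -/

set_option autoImplicit false
set_option linter.unusedSectionVars false
set_option linter.unusedVariables false

namespace Cfsg.Agent.JR

open Subgroup Cfsg.Agent.FT

universe u
variable {G : Type u} [Group G] [Finite G] {p n m k : ℕ} {e : ℤ}

namespace J3

theorem fit_comm (ha : AG G) (K : Subgroup G) : fit K ≤ 𝐂(fit K) := by
  refine fit_le_of_forall_pcore fun q _ => cent_symm (fit_le_of_forall_pcore fun r _ => ?_)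
  by_cases e : r = q
  · subst e; exact ha.le_cent Fact.out (core_isPGroup K)
  · exact le_cent_of_nil (fit_nil K) (pcore_le_fit K) (pcore_le_fit K)
      (IsPGroup.coprime_card_of_ne r q e _ _ (core_isPGroup K) (core_isPGroup K))

theorem cube_zp {τ z : G} (h : orderOf τ = 3) (hz : z ∈ zpowers τ) : z ^ 3 = 1 :=
  orderOf_dvd_iff_pow_eq_one.1 (h ▸ orderOf_dvd_of_mem_zpowers hz)

theorem pow_ne {R : Subgroup G} {r : G} (hr : r ∈ R) (h1 : r ≠ 1) {a : ℕ} (hc : a.Coprime ♯R) :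
    r ^ a ≠ 1 := fun e =>
  h1 (orderOf_eq_one_iff.1 (Nat.eq_one_of_dvd_coprimes hc (orderOf_dvd_of_pow_eq_one e)
    (orderOf_dvd_card' hr)))

/-- the final count -/
theorem count {F R : Subgroup G} {s w τ : G} (hf : FG s w) (hF : F ≤ 𝐂(F)) (hO : Odd ♯F)
    (hw : ∀ f ∈ F, w * f * w⁻¹ = f⁻¹) (hs : s ∈ 𝐍(F)) (hR : R ≤ 𝐍(F))
    (hi : ∀ r ∈ R, s * r * s⁻¹ = r⁻¹) (hRτ : R ≤ 𝐂[τ]) (h3 : orderOf τ = 3) (hτ : τ ∈ F)
    (hτs : τ ∈ 𝐂[s]) (h6 : Nat.Coprime 6 ♯R) (h1 : R ≠ ⊥)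
    (hc : ∀ r ∈ R, r ≠ 1 → ∀ g ∈ F, g * r = r * g → g ∈ zpowers τ) :
    3 * (♯R * (♯(F ⊓ 𝐂[s] : Subgroup G) - 3)) ≤ ♯(F ⊓ 𝐂[s] : Subgroup G) ^ 2 := by
  have hwN : w ∈ 𝐍(F) := mem_normalizer_of_conj_mem fun y hy => by rw [hw y hy]; exact inv_mem hy
  have hodd : ∀ f ∈ F, f⁻¹ = f → f = 1 := fun f a b => J5.eq_one_of_inv (odd_orderOf hO a) b
  have h0 : F ⊓ 𝐂[w] = ⊥ := (eq_bot_iff_forall _).2 fun f a => hodd f a.1 (by
    rw [← hw f a.1, ← mem_cent1_iff.1 a.2, mul_inv_cancel_right])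
  have h00 : F ⊓ 𝐂[s] ⊓ 𝐂[w] = ⊥ := eq_bot_iff.2 (h0 ▸ inf_le_inf_right _ inf_le_left)
  have hB := BR hO hf hs hwN
  rw [h0, h00, card_bot, one_pow, mul_one, mul_one] at hB
  set T := F ⊓ 𝐂[s] with hT
  set B := F ⊓ 𝐂[s * w] with hBd
  have h2 : Nat.Coprime 2 ♯R := Nat.Coprime.coprime_dvd_left (by norm_num) h6
  have Binv : ∀ b ∈ B, s * b * s⁻¹ = b⁻¹ := fun b hb => by
    have a1 := mem_cent1_iff.1 hb.2
    have a2 := hw b⁻¹ (inv_mem hb.1)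
    rw [inv_inv] at a2
    calc s * b * s⁻¹ = s * (w * b⁻¹ * w⁻¹) * s⁻¹ := by rw [a2]
      _ = (s * w * b * (s * w)⁻¹)⁻¹ := by group
      _ = b⁻¹ := by rw [← a1, mul_inv_cancel_right]
  have zs : ∀ z ∈ zpowers τ, s * z * s⁻¹ = z := fun z hz => by
    rw [← mem_cent1_iff.1 (zpowers_le.2 hτs hz), mul_inv_cancel_right]
  have zR : ∀ z ∈ zpowers τ, ∀ r ∈ R, r * z = z * r := fun z hz r hr =>
    mem_cent1_iff.1 (cent_le_cent1 hz (by rw [cent_zpowers]; exact hRτ hr))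
  have hz : zpowers τ ≤ F := zpowers_le.2 hτ
  have Bz : B ⊓ zpowers τ = ⊥ := (eq_bot_iff_forall _).2 fun b a =>
    hodd b a.1.1 (by rw [← Binv b a.1, zs b a.2])
  have cF : ∀ X Y : Subgroup G, X ≤ F → Y ≤ F → X ≤ 𝐍(Y) := fun X Y a b =>
    (a.trans hF).trans ((cent_anti b).trans (cent_le_norm _))
  obtain ⟨r, hr, r1⟩ := exists_ne_one_of_ne_bot h1
  have hrB : cj r B ≤ F := fun g hg => by
    have := conj_mem_of_mem_normalizer (hR hr) (mem_cj.1 hg).1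
    simpa [mul_assoc] using this
  have key : (B ⊔ zpowers τ) ⊓ cj r B = ⊥ := by
    refine (eq_bot_iff_forall _).2 fun g hg => ?_
    obtain ⟨b, hb, z, hz', rfl⟩ := (mem_sup_of_le_normalizer' (cF _ _ hz inf_le_left)).1 hg.1
    have a1 := Binv _ (mem_cj.1 hg.2)
    have a2 := hi r hr
    have a3 := hi r⁻¹ (inv_mem hr)
    have bz : b * z = z * b := mem_cent_iff.1 (hF (hz hz')) b hb.1
    have a4 : b * (r * r) * b⁻¹ = z⁻¹ * z⁻¹ * (r * r) := by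
      have e1 : s * (r⁻¹ * (b * z) * r) * s⁻¹ =
          (s * r⁻¹ * s⁻¹) * (s * b * s⁻¹) * (s * z * s⁻¹) * (s * r * s⁻¹) := by group
      rw [e1, a2, a3, Binv b hb, zs z hz', inv_inv] at a1
      have e3 := zR z⁻¹ (inv_mem hz') _ (mul_mem hr hr)
      have e4 : b * z⁻¹ * b⁻¹ = z⁻¹ := by
        rw [show b * z⁻¹ * b⁻¹ = (b * z * b⁻¹)⁻¹ by group, bz, mul_inv_cancel_right]
      calc b * (r * r) * b⁻¹ = b * r * (r * b⁻¹ * z * r⁻¹) * r * z⁻¹ := by group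
        _ = b * z⁻¹ * b⁻¹ * (r * r * z⁻¹) := by rw [a1]; group
        _ = _ := by rw [e4, e3]; group
    have a5 : b * (r * r) ^ 3 = (r * r) ^ 3 * b := by
      have e1 := congrArg (· ^ 3) a4
      have e2 : Commute (z⁻¹ * z⁻¹) (r * r) :=
        (zR _ (mul_mem (inv_mem hz') (inv_mem hz')) _ (mul_mem hr hr)).symm
      simp only [conj_pow, e2.mul_pow, cube_zp h3 (mul_mem (inv_mem hz') (inv_mem hz')), one_mul] at e1
      exact mul_inv_eq_iff_eq_mul.1 e1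
    have a6 : b = 1 := mem_bot.1 (Bz ▸ ⟨hb, hc _ (pow_mem (mul_mem hr hr) 3)
      (by rw [← sq, ← pow_mul]; exact pow_ne hr r1 h6) b hb.1 a5⟩)
    subst a6
    have a7 : r⁻¹ * (1 * z) * r = z := by
      rw [one_mul, zR z hz' _ (inv_mem hr), inv_mul_cancel_right]
    have := mem_cj.1 hg.2
    rw [a7] at this
    rw [one_mul]
    exact mem_bot.1 (Bz ▸ ⟨this, hz'⟩)
  have c1 : ♯B * 3 * ♯B ≤ ♯F := by
    have e1 := card_sup_of_inf_eq_bot (cF _ _ hz inf_le_left) Bz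
    have e2 := card_sup_of_inf_eq_bot (cF _ _ hrB (sup_le inf_le_left hz)) key
    rw [e1, card_cj, Nat.card_zpowers, h3] at e2
    rw [← e2]
    exact card_le_of_le (sup_le (sup_le inf_le_left hz) hrB)
  have c2 : ♯R * (♯T - 3) ≤ ♯F := by
    have e1 : ♯T - 3 = Nat.card ((T : Set G) \ (zpowers τ : Set G) : Set G) := by
      rw [Nat.card_coe_set_eq, Set.ncard_sdiff (zpowers_le.2 (show τ ∈ T from ⟨hτ, hτs⟩)),
        ← Nat.card_coe_set_eq, ← Nat.card_coe_set_eq]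
      rw [SetLike.coe_sort_coe, SetLike.coe_sort_coe, Nat.card_zpowers, h3]
    rw [e1, ← Nat.card_prod]
    refine Nat.card_le_card_of_injective (fun a => (⟨a.1.1 * a.2.1 * a.1.1⁻¹,
      conj_mem_of_mem_normalizer (hR a.1.2) a.2.2.1.1⟩ : F)) ?_
    rintro ⟨⟨a, ha⟩, ⟨x, hx⟩⟩ ⟨⟨b, hb⟩, ⟨y, hy⟩⟩ e
    simp only [Subtype.mk.injEq] at e
    have hab : a = b := by
      by_contra hne
      have hρ : b⁻¹ * a ∈ R := mul_mem (inv_mem hb) ha
      have ρ1 : b⁻¹ * a ≠ 1 := fun e => hne (by rw [inv_mul_eq_one] at e; exact e.symm)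
      have e1 : y = b⁻¹ * a * x * (b⁻¹ * a)⁻¹ := by
        rw [show b⁻¹ * a * x * (b⁻¹ * a)⁻¹ = b⁻¹ * (a * x * a⁻¹) * b by group, e]; group
      generalize b⁻¹ * a = ρ at hρ ρ1 e1
      have e2 : s * y * s⁻¹ = y := by rw [← mem_cent1_iff.1 hy.1.2, mul_inv_cancel_right]
      have e3 : s * x * s⁻¹ = x := by rw [← mem_cent1_iff.1 hx.1.2, mul_inv_cancel_right]
      refine hx.2 (hc (ρ ^ 2) (pow_mem hρ 2) (pow_ne hρ ρ1 h2) x hx.1.1 ?_)
      rw [e1, ← conj_mul, ← conj_mul, ← conj_inv, hi ρ hρ, e3] at e2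
      rw [sq]
      calc x * (ρ * ρ) = ρ * (ρ⁻¹ * x * ρ⁻¹⁻¹) * ρ := by group
        _ = _ := by rw [e2]; group
    subst hab
    simpa using e
  have c3 : 3 * ♯B ≤ ♯T := by
    rw [hB] at c1
    have := Nat.card_pos (α := B)
    nlinarith
  rw [hB] at c2
  nlinarith

end J3

open J3 in
theorem J3c (h : JR G p n m k e) : CX G := by
  intro t u hf x hx x1
  have h3 := J3b h
  refine (J3a h hf hx x1).resolve_right ?_
  rintro ⟨c1, c2, ⟨y, y1, y2, y3⟩, -⟩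
  obtain ⟨s, τ, hs⟩ := h.st hf
  have cR := h.cardR hf
  have oR := h.oddR hf
  have Rc : Rw t u ≤ 𝐂(Rw t u) := comm_iff_le_cent.1 (comm_of_isCyclic (h.cycR hf))
  have WR : V4 t u ≤ 𝐂(Rw t u) := cent_symm (Rw_le_cent t u)
  have h6 : Nat.Coprime 6 ♯(Rw t u) := by
    rw [show 6 = 2 * 3 from rfl]
    exact Nat.Coprime.mul_left (Nat.coprime_two_left.2 oR)
      ((Nat.Prime.coprime_iff_not_dvd Nat.prime_three).2 (cR ▸ h3))
  have sinv := hs.inv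
  have plus0 := fun x' (hx' : x' ∈ Rw t u) (h1 : x' ≠ 1) => J3a h hf hx' h1
  have τW := hs.tC
  have RW := Rw_le_cent t u
  have hcen := hs.cen
  have hnW := h.nW hs y y2
  have hcW := (h.cardW hf).2.2
  generalize Rw t u = R at *
  have cj_c : ∀ {c r : G}, c ∈ 𝐂(R) → r ∈ R → c * r * c⁻¹ = r := fun a b => by
    rw [← mem_cent_iff.1 a _ b, mul_inv_cancel_right]
  have τ3 := hs.t3
  have oτ : Odd (orderOf τ) := by rw [τ3]; decide
  have τ1 : τ ≠ 1 := by rintro rfl; simp at τ3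
  have τR : τ ∈ 𝐂(R) := by
    have key : ∀ σ : G, Odd (orderOf σ) → y * σ ∈ 𝐂(V4 t u) → σ ∈ 𝐂(R) := fun σ o a => by
      rw [cent_V4] at a
      obtain ⟨r, hr, w, hw, b⟩ := hcen _ a.1 a.2
      have yc : y⁻¹ * (r * w) ∈ 𝐂(R) := mul_mem (inv_mem (c2 y1)) (mul_mem (Rc hr) (WR hw))
      rcases b with b | b
      · rwa [← b, inv_mul_cancel_left] at yc
      · have b' : σ = y⁻¹ * (r * w) * s := by rw [mul_assoc, ← b, inv_mul_cancel_left]
        have b2 : ∀ a ∈ R, σ * a * σ⁻¹ = a⁻¹ := fun a ha => by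
          rw [b', mul_inv_rev, show ∀ c : G, c * s * a * (s⁻¹ * c⁻¹) = c * (s * a * s⁻¹) * c⁻¹ by
            intro c; group, sinv a ha, cj_c yc (inv_mem ha)]
        refine mem_of_sq_mem' o (mem_cent_iff.2 fun a ha => ?_)
        rw [eq_comm, ← mul_inv_eq_iff_eq_mul, show σ * σ * a * (σ * σ)⁻¹ = σ * (σ * a * σ⁻¹) * σ⁻¹ by group,
          b2 a ha, b2 _ (inv_mem ha), inv_inv]
    rcases hnW with a | a | a
    · exact absurd a y3
    · exact key τ oτ a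
    · exact inv_mem_iff.1 (key τ⁻¹ (by rwa [orderOf_inv]) a)
  have Rτ : R ≤ 𝐂[τ] := le_cent1_iff.2 τR
  have plus : ∀ x' ∈ R, x' ≠ 1 →
      𝐂[x'] ⊓ 𝐂[τ] ≤ R ⊔ zpowers τ ∧ ∃ j ∈ 𝐂(R), j * τ * j⁻¹ * τ ∈ R := fun x' hx' h1 => by
    rcases plus0 x' hx' h1 with a | ⟨-, a, -, b⟩
    · have := card_le_of_le ((c2.trans (cent_le_cent1 hx')).trans a)
      have := h.m1
      omega
    · obtain ⟨b1, j, b2, b3⟩ := b τ (cent_le_cent1 hx' τR) τ3 fun a => τW (RW a)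
      exact ⟨b1, j, a b2, b3⟩
  have zR : zpowers τ ≤ 𝐂(R) := zpowers_le.2 τR
  have dec : ∀ x' ∈ R, x' ≠ 1 → ∀ g ∈ 𝐂[x'], g ∈ 𝐂[τ] → ∃ r ∈ R, ∃ z ∈ zpowers τ, r * z = g :=
    fun x' a b g c d => (mem_sup_of_le_normalizer' (zR.trans (cent_le_norm _))).1 ((plus x' a b).1 ⟨c, d⟩)
  have rz : ∀ {r z : G}, r ∈ R → z ∈ zpowers τ → Commute r z := fun a b => mem_cent_iff.1 (zR b) _ a
  have zm : ∀ z ∈ zpowers τ, z ^ m = 1 → z = 1 := fun z a b =>
    orderOf_eq_one_iff.1 (Nat.eq_one_of_dvd_coprimes ((Nat.Prime.coprime_iff_not_dvd Nat.prime_three).2 h3)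
      (orderOf_dvd_of_pow_eq_one (cube_zp τ3 a)) (orderOf_dvd_of_pow_eq_one b))
  have rm : ∀ r ∈ R, r ^ m = 1 := fun r a => orderOf_dvd_iff_pow_eq_one.1 (cR ▸ orderOf_dvd_card' a)
  have zodd : ∀ z ∈ zpowers τ, z⁻¹ = z → z = 1 := fun z a b =>
    J5.eq_one_of_inv (oτ.of_dvd_nat (orderOf_dvd_of_mem_zpowers a)) b
  -- an involution centralising `R` and inverting `τ`
  obtain ⟨w, wR, w2, wτ⟩ : ∃ w ∈ 𝐂(R), w * w = 1 ∧ w * τ * w⁻¹ = τ⁻¹ := by
    obtain ⟨j, j1, j2⟩ := (plus x hx x1).2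
    have j3 : j * τ * j⁻¹ = τ⁻¹ := by
      rw [← mul_eq_one_iff_eq_inv]
      by_contra hne
      refine pow_ne j2 hne (a := 3) (Nat.Coprime.coprime_dvd_left (by norm_num) h6) ?_
      have a1 : Commute (j * τ * j⁻¹) τ := by
        have := (rz j2 (mem_zpowers τ)).mul_left (Commute.refl τ).inv_left
        rwa [mul_inv_cancel_right] at this
      rw [a1.mul_pow, conj_pow, cube_zp τ3 (mem_zpowers τ)]; simp
    have j4 : j * j ∈ 𝐂[τ] := mem_cent1_iff.2 (by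
      rw [← mul_inv_eq_iff_eq_mul, show j * j * τ * (j * j)⁻¹ = j * (j * τ * j⁻¹) * j⁻¹ by group, j3,
        ← conj_inv, j3, inv_inv])
    obtain ⟨r, hr, z, hz, j5⟩ := dec x hx x1 _ (cent_le_cent1 hx (mul_mem j1 j1)) j4
    obtain ⟨a, ha⟩ : Odd (3 * m) := Odd.mul (by decide) h.ar.odd
    refine ⟨j ^ (3 * m), pow_mem j1 _, ?_, ?_⟩
    · rw [← (Commute.refl j).mul_pow, ← j5, (rz hr hz).mul_pow, pow_mul z, cube_zp τ3 hz, pow_mul' r, rm r hr]
      simp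
    · have := mem_cent1_iff.1 (pow_mem j4 a)
      rw [ha, pow_succ', pow_mul, sq, mul_inv_rev, mul_assoc j, this]
      rw [← j3]; group
  have wz : ∀ z ∈ zpowers τ, w * z * w⁻¹ = z⁻¹ := by
    rintro _ ⟨i, rfl⟩
    simp only [← conj_zpow, wτ, inv_zpow]
  have winv : ∀ x' ∈ R, x' ≠ 1 → ∀ g ∈ 𝐂[x'], g ∈ 𝐂[τ] → w * g * w⁻¹ = g⁻¹ → g ∈ zpowers τ :=
    fun x' a b g c d f => by
      obtain ⟨r, hr, z, hz, rfl⟩ := dec x' a b g c d
      rw [← conj_mul, cj_c wR hr, wz z hz, (rz hr hz).mul_inv, mul_left_inj] at f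
      rwa [J5.eq_one_of_inv (odd_orderOf oR hr) f.symm, one_mul]
  have s2 := sq_of_two hs.s2
  have sτ : τ ∈ 𝐂[s] := mem_cent1_iff.2 hs.ts
  have sz : ∀ z ∈ zpowers τ, s * z * s⁻¹ = z := fun z hz => by
    rw [← mem_cent1_iff.1 (zpowers_le.2 sτ hz), mul_inv_cancel_right]
  have sN : s ∈ 𝐍(R) := mem_normalizer_of_conj_mem fun y hy => by rw [sinv y hy]; exact inv_mem hy
  have wi : w⁻¹ = w := inv_eq_of_mul_eq_one_right w2
  have si : s⁻¹ = s := inv_eq_of_mul_eq_one_right s2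
  have sτ' : s ∈ 𝐂[τ] := mem_cent1_comm.1 sτ
  have sw : s * w = w * s := by
    have a1 : w * (s * w * s⁻¹) ∈ zpowers τ := by
      refine winv x hx x1 _ (cent_le_cent1 hx (mul_mem wR
        (conj_mem_of_mem_normalizer (le_normalizer_centralizer le_rfl sN) wR))) ?_ ?_
      · have := mul_mem (conj_mem_of_mem_normalizer (J5.norm_cent1 (J5.norm_zp_i wτ)) sτ') (inv_mem sτ')
        rwa [wi, mul_assoc, mul_assoc, ← mul_assoc s] at this
      · rw [← mul_assoc w w, w2, one_mul, mul_inv_rev, conj_inv, wi]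
    have a2 := zodd _ a1 (by
      refine Eq.trans ?_ (sz _ a1)
      simp only [mul_inv_rev, si, wi, mul_assoc, s2, mul_one])
    rw [← mul_assoc, mul_inv_eq_one] at a2
    rw [← mul_left_cancel_iff (a := w), a2, ← mul_assoc, w2, one_mul]
  have fg : FG s w := ⟨hs.s2, two_of_sq w2 (by
    rintro rfl; exact τ1 (zodd τ (mem_zpowers τ) (by simpa using wτ.symm))), sw, by
    rintro rfl; exact τ1 (zodd τ (mem_zpowers τ) (by rw [← wτ, sz τ (mem_zpowers τ)]))⟩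
  obtain ⟨f1, f2, f3, -, -, -, -, f8, -⟩ := h.ar.facts
  obtain ⟨k3, T, hT, τT⟩ : 3 ∣ k ∧ ∃ T, TT k s w T ∧ τ ∈ T := by
    rcases h.typ hs.s2 sτ Nat.prime_three τ3 (by decide) with ⟨a, -⟩ | ⟨a, w', T, b, c⟩ | ⟨a, P, b, c⟩
    · exact absurd a h3
    · exact ⟨a, T, b.of_inv f1 c τ1 fg wτ, c⟩
    · have := J5.e_one h b fg (b.nrm τ c τ1 w (mem_cent1_iff.2 sw.symm) (wτ ▸ inv_mem c))
      have := f8 a.symm
      omega
  obtain ⟨K, K1, K2, K3, -, K4, K5⟩ := J5.exK h hT τT τ1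
  have sK := K3 (left_mem_V4 s w)
  have wK := K3 (right_mem_V4 s w)
  have RK : R ≤ K := fun r hr => K4 r (Rτ hr) (odd_orderOf oR hr)
  have oT := hT.odd f1
  have TK : T ≤ K := fun a ha => K4 a (mem_cent1_iff.2 (hT.comm' ha τT)) (odd_orderOf oT ha)
  have m5 : 5 ≤ m := by
    have := h.m1
    have := Nat.odd_iff.1 h.ar.odd
    omega
  have he := h.ar.he
  have Fc := fit_comm h.ag K
  have oF : Odd ♯(fit K) := K2.of_dvd_nat (card_dvd_of_le' (fit_le K))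
  have KF : K ≤ 𝐍(fit K) := (fit_nrm K).norm
  have sqc : ∀ a ∈ T, ∀ g, w * g * w⁻¹ = g → w * (a * g * a⁻¹) * w⁻¹ = a * g * a⁻¹ → a ∈ 𝐂[g] :=
    fun a ha g b c => mem_of_sq_mem' (odd_orderOf oT ha) (mem_cent1_iff.2 (by
      rw [← conj_mul, ← conj_mul, ← conj_inv, hT.inv a ha, b] at c
      calc a * a * g = a * (a * g * a⁻¹) * a := by group
        _ = _ := by rw [← c]; group))
  have F0 : fit K ⊓ 𝐂[w] = ⊥ := by
    refine (eq_bot_iff_forall _).2 fun g hg => by_contra fun g1 => ?_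
    have a0 : K ⊓ 𝐂[w] ⊓ 𝐂[s] = ⊥ := by rw [inf_right_comm]; exact J5.Tbot hT f1 K5
    have a1 := (INV (K := K ⊓ 𝐂[w]) (K2.of_dvd_nat (card_dvd_of_le' inf_le_left)) s2
      (inf_normalizer_le_normalizer_inf ⟨sK, le_normalizer (mem_cent1_iff.2 sw)⟩) a0).2
    have gw : w * g * w⁻¹ = g := by rw [← mem_cent1_iff.1 hg.2, mul_inv_cancel_right]
    have gR : g ∈ R := by
      obtain ⟨r, hr, z, hz, rfl⟩ := dec x hx x1 g (mem_cent1_iff.2 (a1 g ⟨fit_le K hg.1, hg.2⟩ x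
        ⟨RK hx, le_cent1_iff.2 wR hx⟩)) (K1 (fit_le K hg.1))
      rw [← conj_mul, cj_c wR hr, wz z hz, mul_right_inj] at gw
      rwa [zodd z hz gw, mul_one]
    have a2 : T ≤ zpowers τ := fun a ha => by
      refine winv g gR g1 a (sqc a ha g gw ?_) (K1 (TK ha)) (hT.inv a ha)
      have b1 := conj_mem_of_mem_normalizer (KF (TK ha)) hg.1
      obtain ⟨r, hr, z, hz, b2⟩ := dec g gR g1 _ (cent_le_cent1 hg.1 (Fc b1)) (K1 (fit_le K b1))
      have b3 := congrArg (· ^ m) b2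
      simp only [conj_pow, (rz hr hz).mul_pow, rm r hr, rm g gR, mul_one, one_mul, mul_inv_cancel] at b3
      rw [zm z hz b3, mul_one] at b2
      rw [← b2, cj_c wR hr]
    have := card_le_of_le a2
    rw [hT.card, Nat.card_zpowers, τ3] at this
    omega
  have wF := (INV oF w2 (normalizer_le_normalizer_fit K wK) F0).1
  have TF : T ≤ fit K := fun a ha => cent_fit_le (J5.sol_odd K2) ⟨TK ha, by
    refine mem_of_sq_mem' (odd_orderOf oT ha) (mem_cent_iff.2 fun f hf => ?_)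
    have c := wF _ (conj_mem_of_mem_normalizer (KF (TK ha)) (inv_mem hf))
    rw [← conj_mul, ← conj_mul, wF _ (inv_mem hf), hT.inv a ha, hT.inv _ (inv_mem ha)] at c
    calc f * (a * a) = a * (a⁻¹ * f⁻¹⁻¹ * a⁻¹⁻¹) * a := by group
      _ = _ := by rw [c]; group⟩
  have FT : fit K ⊓ 𝐂[s] = T :=
    le_antisymm ((inf_le_inf_right _ (fit_le K)).trans K5) (le_inf TF hT.cen)
  have := count fg Fc oF wF (normalizer_le_normalizer_fit K sK) (RK.trans KF) sinv Rτ τ3 (TF τT) sτ h6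
    (ne_bot_iff_exists_ne_one.2 ⟨⟨x, hx⟩, fun e => x1 (congrArg Subtype.val e)⟩)
    fun r a b g c d => winv r a b g (mem_cent1_iff.2 d) (K1 (fit_le K c)) (wF g c)
  rw [FT, hT.card, cR] at this
  obtain ⟨j, rfl⟩ : ∃ j, k = j + 3 := ⟨k - 3, by omega⟩
  rw [Nat.add_sub_cancel] at this
  rcases he with rfl | rfl
  · have : m ≠ 5 := by omega
    obtain rfl : j = 2 * m - 2 := by omega
    obtain ⟨i, rfl⟩ : ∃ i, m = i + 6 := ⟨m - 6, by omega⟩
    rw [show 2 * (i + 6) - 2 = 2 * i + 10 by omega] at *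
    nlinarith
  · obtain rfl : j = 2 * m - 4 := by omega
    obtain ⟨i, rfl⟩ : ∃ i, m = i + 5 := ⟨m - 5, by omega⟩
    rw [show 2 * (i + 5) - 4 = 2 * i + 6 by omega] at *
    nlinarith

end Cfsg.Agent.JR
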