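import Cfsg.Agent.JR.G2

/-! Piece J5a: a torus element with a large centraliser gives a bad prime. -/

set_option autoImplicit false
set_option linter.unusedSectionVars false
set_option linter.unusedVariables false

namespace Cfsg.Agent.JR.J5

open Subgroup Cfsg.Agent.FT Cfsg.Agent.JR

universe u
variable {G : Type u} [Group G] [Finite G] {p n m k : ℕ} {e : ℤ}

theorem caseP (h : JR G p n m k e) (h3 : ¬ 3 ∣ m) {t w y z : G} {T P : Subgroup G} (hT : TT k t w T)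
    (hy : y ∈ T) {l : ℕ} (hl : l.Prime) (ho : orderOf y = l) (hP : PT p (p ^ n) w P) (hz : z ∈ P)
    (z1 : z ≠ 1) (hzy : z * y = y * z) (hi : t * z * t⁻¹ = z⁻¹) : Bad G k l := by
  haveI := Fact.mk h.ar.pp
  have hf := hT.fg
  have y1 := ne1 hl ho
  have hlk : l ∣ k := by rw [← ho, ← hT.card]; exact orderOf_dvd_card' hy
  have oy : Odd (orderOf y) := ho ▸ odd_prime hl h.oddk hlk
  have oP : Odd ♯P := hP.card ▸ h.oddq
  have pk : p.Coprime k := h.ar.facts.2.2.2.2.2.1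
  have tP : t ∈ 𝐍(P) := hP.nrm z hz z1 t (mem_cent1_iff.2 hf.comm) (hi ▸ inv_mem hz)
  obtain rfl := e_one h hP hf.symm tP
  obtain ⟨iP, hR⟩ := (h.cf w hf.u2).pP rfl P hP t hf.symm tP
  obtain ⟨K, k1, k2, k3, -, k4, -⟩ := OD (JR.n4P h hP hz z1) hf.u2 (mem_cent1_comm.1 (hP.cen hz))
  have wK : w ∈ 𝐍(K) := k3 (le_normalizer (mem_cent1_comm.1 (hP.cen hz)))
  have tK : t ∈ 𝐍(K) := k3 (norm_cent1 (norm_zp_i hi))
  have Kw : ∀ g ∈ K, g ∈ 𝐂[w] → g ∈ P := fun g a b =>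
    Pcent hP hz z1 b (mem_cent1_iff.1 (k1 a)) (odd_ord k2 a)
  have yK : y ∈ K := k4 y (mem_cent1_iff.2 hzy.symm) oy
  obtain ⟨A, U, a1, a2, a3, a4, a5, a6, a7, a8, a9, a10, a11⟩ := CP h hP
  have AK : A ≤ K := fun g hg => k4 g (cent_le_cent1 hz (a3 hg)) (odd_ord a5 hg)
  have Kt : K ⊓ 𝐂[t] ≤ T := fun g hg => by
    have := (INV (odd_of_le inf_le_left k2) hf.uu (nI wK hf.comm.symm) ((eq_bot_iff_forall _).2 fun x hx =>
      eq_one_of_inv (odd_ord k2 hx.1.1) (by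
        rw [← iP x (Kw x hx.1.1 hx.2), ← mem_cent1_iff.1 hx.1.2, mul_inv_cancel_right]))).2
    exact Tcent hT hy y1 hg.2 (this g hg y ⟨yK, hT.cen hy⟩) (odd_ord k2 hg.1)
  have hU : U = P := by
    refine (PE h h3 hP hf.symm tP a9 a1 a7).resolve_right ?_
    rintro ⟨τ, s, -, b1, b2, -⟩
    have b3 := conj_mem_of_mem_normalizer b1 (a1 hz)
    have b4 : τ * z * τ⁻¹ ∈ T := Kt ⟨AK (a2 b3), mem_cent1_iff.2 (by
      rw [← b2, conj_mul, conj_mul, mem_cent1_iff.1 (hP.cen hz)])⟩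
    have b5 := orderOf_dvd_card' b4
    rw [hT.card, orderOf_cj, orderOf_eq_prime (hP.exp z hz) z1] at b5
    exact h.ar.pp.one_lt.ne' (Nat.eq_one_of_dvd_coprimes pk dvd_rfl b5)
  subst hU
  have hM : PNil p K := Burnside_normal_complement (a9.hall.of_le (a2.trans AK) le_top).syl fun g hg => by
    obtain ⟨a, ha, c, -, hc, rfl⟩ := a11 g hg.2
    exact mul_mem (a3 ha) (a3 (a2 (Kw c ((mul_mem_cancel_left (AK ha)).1 hg.1) hc)))
  have M1 := core_nrm {p}ᶜ K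
  have yM : y ∈ core {p}ᶜ K := hM.mem_of_nrm M1.norm yK ((piNum_compl_singleton h.ar.pp).2 fun d =>
    h.ar.pp.one_lt.ne' (Nat.eq_one_of_dvd_coprimes pk dvd_rfl (d.trans (ho ▸ hlk))))
  obtain ⟨iM, cM⟩ := INV (odd_of_le M1.le k2) hf.uu (normalizer_le_normalizer_core _ _ wK)
    (le_bot_iff.1 (le_trans (le_inf inf_le_left fun x hx => Kw x (M1.le hx.1) hx.2)
      ((core_piG _ _).inf_eq_bot' (piG_singleton_iff.2 a9.isPGroup)).le))
  by_cases hc : ∀ a ∈ U, t * (a * y * a⁻¹) * t⁻¹ = a * y * a⁻¹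
  · exfalso
    have yP : y ∈ 𝐂(U) := cent_symm (A := U) (B := zpowers y) (fun a ha => by
      rw [cent_zpowers]
      refine mem_of_sq (odd_ord oP ha) (mem_cent1_iff.2 ?_)
      have := hc a ha
      rw [← conj_mul, ← conj_mul, ← conj_inv, iP a ha, ← mem_cent1_iff.1 (hT.cen hy),
        mul_inv_cancel_right] at this
      calc _ = a * (a * y * a⁻¹) * a := by group
        _ = _ := by rw [← this]; group) (mem_zpowers y)
    have yA : y ∈ A := (a8 y yP).resolve_right fun d => by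
      have d1 : y * w = 1 := eq_one_of_odd (odd_ord a5 d) (by
        calc _ = y * (w * y * w⁻¹) * (w * w) := by group
          _ = _ := by rw [hT.inv y hy, hf.uu]; simp)
      rw [eq_inv_of_mul_eq_one_left d1, orderOf_inv, hf.u2] at oy
      exact absurd oy (by decide)
    obtain ⟨g, hg, g1⟩ := exists_ne_one_of_ne_bot (one_lt_card.1 (by rw [h.cardR hf.symm]; exact h.m1))
    have g2 := Rw_le _ _ hg
    refine g1 (Tdisj hT h.oddk (Tnrm hT hy y1 g2.2 (Kt ⟨AK (conj_mem_of_mem_normalizer (a6 (hR hg)) yA),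
      (𝐂[t]).mul_mem (mul_mem g2.2 (hT.cen hy)) ((𝐂[t]).inv_mem g2.2)⟩) (odd_ord (h.oddR hf.symm) hg)) g2.1)
  push Not at hc
  obtain ⟨a, ha, hc⟩ := hc
  have b1 := M1.conj_mem (AK (a2 ha)) yM
  have ob := (orderOf_cj a y).trans ho
  generalize a * y * a⁻¹ = x at hc b1 ob
  have b2 := conj_mem_of_mem_normalizer (normalizer_le_normalizer_core _ _ tK) b1
  have b3 := mul_mem b1 (inv_mem b2)
  have b4 : t * (x * (t * x * t⁻¹)⁻¹) * t⁻¹ = (x * (t * x * t⁻¹)⁻¹)⁻¹ := by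
    calc _ = t * x * t⁻¹ * ((t * t) * x⁻¹ * (t * t)⁻¹) := by group
      _ = _ := by rw [hf.tt]; group
  haveI := Fact.mk hl
  refine ⟨t, t * w, T, y, _, hT.mul, hy, ho, orderOf_eq_prime ?_ fun d => hc (mul_inv_eq_one.1 d).symm,
    cM _ b3 _ yM, ?_, b4⟩
  · rw [Commute.mul_pow (cM _ b1 _ (inv_mem b2)), inv_pow, conj_pow, ← ob, pow_orderOf_eq_one]; simp
  · generalize x * (t * x * t⁻¹)⁻¹ = z' at b3 b4
    calc _ = (t * z' * t⁻¹)⁻¹ * (t * w) := by rw [b4, inv_inv]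
      _ = t * (w * z' * w⁻¹) * t⁻¹ * (t * w) := by rw [iM z' b3]; group
      _ = _ := by group

theorem caseZ (h : JR G p n m k e) (h3 : ¬ 3 ∣ m) (hx : CX G) {t w y : G} {T K : Subgroup G}
    (hT : TT k t w T) (hy : y ∈ T) {l : ℕ} (hl : l.Prime) (ho : orderOf y = l) (k1 : K ≤ 𝐂[y])
    (k2 : Odd ♯K) (k3 : V4 t w ≤ 𝐍(K)) (k4 : ∀ g ∈ 𝐂[y], Odd (orderOf g) → g ∈ K) (k5 : K ⊓ 𝐂[t] ≤ T)
    (h0 : K ⊓ 𝐂[w] ≠ ⊥) : ∃ r : ℕ, r.Prime ∧ r ∣ k ∧ Bad G k r := by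
  obtain ⟨z, hz, hr⟩ := exists_prime_order_of_ne_bot h0
  have hf := hT.fg
  have hb := Tbot hT h.oddk k5
  have oz := odd_ord k2 hz.1
  have hlk : l ∣ k := by rw [← ho, ← hT.card]; exact orderOf_dvd_card' hy
  have hi := (INV (odd_of_le inf_le_left k2) hf.tt (nI (k3 (t_mem t w)) hf.comm)
    (by rw [inf_right_comm, hb])).1 z hz
  rcases JR.typ h hf.u2 hz.2 hr rfl (fun d => by rw [d] at oz; exact absurd oz (by decide)) with
    ⟨-, u, a, b⟩ | ⟨a, -⟩ | ⟨-, P, a, b⟩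
  · exfalso
    have c := conj_mem_of_mem_normalizer (hx w u a z b (ne1 hr rfl) (mem_cent1_comm.1 (k1 hz.1))) (t_mem w u)
    have oy : Odd (orderOf y) := ho ▸ odd_prime hl h.oddk hlk
    have d : y * y ∈ V4 w u := by
      convert mul_mem c (inv_mem (t_mem w u)) using 1
      calc _ = y * (w * y * w⁻¹)⁻¹⁻¹⁻¹⁻¹⁻¹ := by rw [hT.inv y hy]; simp
        _ = _ := by group
    exact ne1 hl ho (eq_one_of_odd oy (V4_sq a (mem_of_sq oy d)))
  · obtain ⟨x, hxT, ox⟩ := exists_orderOf_eq_prime hr (hT.card ▸ a : _ ∣ ♯T)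
    refine ⟨_, hr, a, t, w, T, x, z, hT, hxT, ox, rfl, inv_comm h.ag hf k2 k3 hb hr hz.1
      (k4 x (mem_cent1_iff.2 (Tcomm hT hxT hy)) (ox ▸ oz)) rfl ox
      (V4_le (norm_zp_i hi) (norm_zp_c (mem_cent1_iff.1 hz.2)))
      (V4_le (norm_zp_c (mem_cent1_iff.1 (hT.cen hxT))) (norm_zp_i (hT.inv x hxT))),
      mem_cent1_iff.1 hz.2, hi⟩
  · exact ⟨l, hl, hlk, caseP h h3 hT hy hl ho a b (ne1 hr rfl) (mem_cent1_iff.1 (k1 hz.1)) hi⟩

end Cfsg.Agent.JR.J5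

namespace Cfsg.Agent.JR

open Subgroup Cfsg.Agent.FT

universe u
variable {G : Type u} [Group G] [Finite G] {p n m k : ℕ} {e : ℤ}

theorem J5a (h : JR G p n m k e) (h3 : ¬ 3 ∣ m) (hx : CX G) (hT : ¬ TTI G k) :
    ∃ r : ℕ, r.Prime ∧ r ∣ k ∧ Bad G k r := by
  simp only [TTI, not_forall] at hT
  obtain ⟨t, w, T, hT, y0, hy0, h1, h2⟩ := hT
  obtain ⟨y, hy, hl⟩ := exists_prime_order_of_ne_bot (zpowers_ne_bot.2 h1)
  have hyT := zpowers_le.2 hy0 hy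
  obtain ⟨K, k1, k2, k3, k4, k5, k6⟩ := J5.exK h hT hyT (J5.ne1 hl rfl)
  by_cases a : K ⊓ 𝐂[w] = ⊥
  · refine J5.caseZ h h3 hx hT.mul hyT hl rfl k1 k2 (V4_mul t w ▸ k3) k5 k6 fun b => h2 ?_
    have := GEN k2 hT.fg (k3 (left_mem_V4 _ _)) (k3 (right_mem_V4 _ _))
    rw [a, b, sup_bot_eq, sup_bot_eq] at this
    intro g hg
    rcases k4 g (cent1_le_cent1_of_mem hy hg) with c | c
    · exact (this c).2
    · exact (mul_mem_cancel_right (mem_cent1_self t)).1 (this c).2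
  · exact J5.caseZ h h3 hx hT hyT hl rfl k1 k2 k3 k5 k6 a

end Cfsg.Agent.JR
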