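import Cfsg.Agent.JR.J5b2

/-! Piece J5b: consequences of a bad prime. -/

set_option autoImplicit false
set_option linter.unusedSectionVars false
set_option linter.unusedVariables false

namespace Cfsg.Agent.JR

open Subgroup Cfsg.Agent.FT Cfsg.Agent.JR.J5

universe u
variable {G : Type u} [Group G] [Finite G] {p n m k : ℕ} {e : ℤ}

theorem J5b (h : JR G p n m k e) (h3 : ¬ 3 ∣ m) {r : ℕ} (hr : r.Prime) (hk : r ∣ k) (hb : Bad G k r) :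
    r ≠ 3 ∧ (∀ l : ℕ, l.Prime → l ∣ k → Bad G k l) ∧
    (∀ (t w : G) (T : Subgroup G), TT k t w T → ∀ y ∈ T, orderOf y = r → ♯𝐂[y] ∣ 2 * k ^ 3) ∧
    (∀ U : Subgroup G, U ≠ ⊥ → IsPGroup r U → ♯𝐍(U) ∣ 60 * k ^ 3) ∧
    ∃ τ y s : G, orderOf τ = 3 ∧ orderOf y = r ∧ τ * y = y * τ ∧ orderOf s = 2 ∧ s * τ = τ * s := by
  obtain ⟨t, w, τ, y, s, T, Q, A, c, s1, s2⟩ := exCf h h3 hr hk hb
  haveI := Fact.mk hr
  obtain ⟨TZ, cN⟩ := c.gam h
  have hf := c.hT.fg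
  have τZ := le_normalizer_centralizer le_rfl c.τA
  refine ⟨c.ne3 h, fun l hl hd => ?_, fun t' w' T' hT' y' hy' oy' => ?_, fun U U1 U2 => ?_, ?_⟩
  · obtain ⟨x, hx, ox⟩ := exists_orderOf_eq_prime hl (c.hT.card ▸ hd : _ ∣ ♯T)
    exact ⟨t, w, T, x, τ * x * τ⁻¹, c.hT, hx, ox, (orderOf_cj τ x).trans ox,
      inv_comm h.ag hf (c.oZ h) (le_normalizer_centralizer c.WA)
        (Tbot c.hT h.oddk (c.Ot h (cent_le_norm A) (c.oZ h))) hl (conj_mem_of_mem_normalizer τZ (TZ hx))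
        (TZ hx) ((orderOf_cj τ x).trans ox) ox (J5.V4_le (norm_zp_i (c.iw hx)) (norm_zp_c (c.cw hx).symm))
        (J5.V4_le (norm_zp_c (mem_cent1_iff.1 (c.hT.cen hx))) (norm_zp_i (c.hT.inv x hx))),
      (c.cw hx).symm, c.iw hx⟩
  · obtain ⟨g, -, rfl⟩ := JR.cjT h c.hT hT'
    obtain ⟨x, hx, rfl⟩ := hy'
    have ox : orderOf x = r := (orderOf_cj g x).symm.trans oy'
    rw [MulEquiv.coe_toMonoidHom, MulAut.conj_apply, ← cj_cent1, card_cj]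
    have xA := zpowers_le.2 c.yA (cyc_uniq c.hT.cyc hr c.hy c.oy hx (by rw [← ox, pow_orderOf_eq_one]))
    obtain ⟨K, k1, k2, k3, k4, -, k5⟩ := exK h c.hT hx (ne1 hr ox)
    have KN := k1.trans ((c.CN h xA (ne1 hr ox)).trans c.NA)
    have key : ∀ g ∈ 𝐍(A), ∀ j, g * j * g⁻¹ = t → ♯(K ⊓ 𝐂[j] : Subgroup G) ∣ k := fun g hg j hj => by
      rw [← card_cj g, cj_inf, cj_cent1, hj, ← c.hT.card]
      exact card_dvd_of_le' (c.Ot h (cj_le_of_le hg KN) (by rwa [card_cj]))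
    have := BR k2 hf (k3 (t_mem t w)) (k3 (w_mem t w))
    rw [Tbot c.hT h.oddk k5, card_bot, one_pow, mul_one] at this
    rw [card_two k1 (mem_cent1_comm.1 (c.hT.cen hx)) (not_mem_of_odd k2 hf.t2) k4, this, pow_three']
    exact Nat.mul_dvd_mul_left 2 (mul_dvd_mul (mul_dvd_mul (key 1 (one_mem _) t (by simp))
      (key τ⁻¹ (inv_mem c.τA) w (by rw [← c.c1]; group))) (key τ c.τA _ c.c3))
  · obtain ⟨g, -, hg⟩ := c.hQ.exists_cj_le U2 le_top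
    rw [← card_cj g, cj_normalizer]
    refine (card_dvd_of_le' fun x hx => c.NA ?_).trans (cN.trans (Nat.mul_dvd_mul_left 60 (c.cZ h)))
    obtain ⟨a, ha, oa⟩ := exists_orderOf_eq_prime hr
      (dvd_card_of_isPGroup (isPGroup_cj g U2) (cj_eq_bot_iff.not.2 U1))
    have a1 := (cent_le_cent1 ha).trans
      (c.CN h ((c.hA a).2 ⟨hg ha, by rw [← oa, pow_orderOf_eq_one]⟩) (ne1 hr oa))
    refine mem_normalizer_of_cj_le (c.hQ.le_of_le_normalizer (isPGroup_cj x c.hQ.isPGroup) le_top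
      (le_trans ?_ a1))
    rw [← cj_eq_iff_mem_normalizer.2 hx, ← cj_centralizer]
    exact cj_mono _ fun z hz => mem_cent_iff.2 fun b hb => c.Qc h b (hg hb) z hz
  · have a2 := conj_mem_of_mem_normalizer c.τA c.yA
    have a3 := conj_mem_of_mem_normalizer c.τA a2
    have t3 : τ * τ * τ = 1 := by rw [← pow_three', ← c.o3, pow_orderOf_eq_one]
    refine ⟨τ, y * (τ * y * τ⁻¹ * (τ * (τ * y * τ⁻¹) * τ⁻¹)), s, c.o3,
      c.oa (mul_mem c.yA (mul_mem a2 a3)) fun d => c.y1 (eq_one_of_inv (c.oy ▸ c.or h) ?_), ?_, s1, s2⟩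
    · have b1 : t * (τ * (τ * y * τ⁻¹) * τ⁻¹) * t⁻¹ = (τ * (τ * y * τ⁻¹) * τ⁻¹)⁻¹ := by
        nth_rw 1 2 [← c.c3]
        rw [← c.c2]
        simp only [conj_mul, conj_inv, c.hT.inv y c.hy]
      have b3 : t * (y * (τ * y * τ⁻¹ * (τ * (τ * y * τ⁻¹) * τ⁻¹))) * t⁻¹ = 1 := by rw [d]; simp
      rw [← conj_mul, ← conj_mul, b1, c.iw c.hy, ← mem_cent1_iff.1 (c.hT.cen c.hy), mul_inv_cancel_right,
        ← mul_inv_rev, c.Ac h _ a3 _ a2, ← inv_eq_of_mul_eq_one_right d, inv_inv] at b3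
      exact inv_eq_of_mul_eq_one_left b3
    · calc _ = τ * y * τ⁻¹ * (τ * (τ * y * τ⁻¹) * τ⁻¹) * ((τ * τ * τ) * y * (τ * τ * τ)⁻¹) * τ := by group
        _ = _ := by rw [t3, one_mul, inv_one, mul_one, c.Ac h _ (mul_mem a2 a3) _ c.yA]

end Cfsg.Agent.JR
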