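import Cfsg.Agent.JR.J5w

/-! Piece J5b, part 1: the configuration of a bad prime. -/

set_option autoImplicit false
set_option linter.unusedSectionVars false
set_option linter.unusedVariables false

namespace Cfsg.Agent.JR.J5

open Subgroup Cfsg.Agent.FT Cfsg.Agent.JR

universe u
variable {G : Type u} [Group G] [Finite G] {p n m k r : ℕ} {e : ℤ}

/-- the configuration -/
structure Cf (k r : ℕ) (t w τ y : G) (T Q A : Subgroup G) : Prop where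
  hT : TT k t w T
  hr : r.Prime
  hk : r ∣ k
  hy : y ∈ T
  oy : orderOf y = r
  hQ : Syl r Q ⊤
  yQ : y ∈ Q
  WQ : V4 t w ≤ 𝐍(Q)
  τQ : τ ∈ 𝐍(Q)
  o3 : orderOf τ = 3
  c1 : τ * t * τ⁻¹ = w
  c2 : τ * w * τ⁻¹ = t * w
  hA : ∀ x, x ∈ A ↔ x ∈ Q ∧ x ^ r = 1

theorem exCf (h : JR G p n m k e) (h3 : ¬ 3 ∣ m) (hr : r.Prime) (hk : r ∣ k) (hb : Bad G k r) :
    ∃ (t w τ y s : G) (T Q A : Subgroup G), Cf k r t w τ y T Q A ∧ orderOf s = 2 ∧ s * τ = τ * s := by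
  obtain ⟨t, w, T, y, z, hT, hy, oy, oz, c1, c2, c3⟩ := hb
  haveI := Fact.mk hr
  have hf := hT.fg
  have or := odd_prime hr h.oddk hk
  obtain ⟨K, k1, k2, k3, -, k4, k5⟩ := exK h hT hy (ne1 hr oy)
  have ny : V4 t w ≤ 𝐍(zpowers y) := V4_le (norm_zp_c (mem_cent1_iff.1 (hT.cen hy))) (norm_zp_i (hT.inv y hy))
  obtain ⟨Q, q1, q2, q3⟩ := ISY (Y := zpowers y ⊔ zpowers z) hr k3 (cop4 hf k2) (sol_odd k2)
    (sup_le (zpowers_le.2 (k4 y (mem_cent1_self y) (oy ▸ or))) (zpowers_le.2 (k4 z (mem_cent1_iff.2 c1) (oz ▸ or))))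
    (isPGroup_sup (pg_zp oy) (pg_zp oz) (zpowers_le.2 (norm_zp_c c1)))
    (le_normalizer_sup ny (V4_le (norm_zp_i c3) (norm_zp_c c2)))
  have hQ : Syl r Q ⊤ := by
    obtain ⟨Q', a, b⟩ := exists_syl_ge q1.isPGroup (q1.le.trans k1)
    obtain ⟨j, hj⟩ := IsPGroup.iff_card.1 a.isPGroup
    obtain rfl := q1.eq_of_le a.isPGroup b fun g hg => k4 g (a.le hg) (odd_ord (hj ▸ or.pow) hg)
    exact AG.syl h.ag hr (pg_zp oy) (cent_zpowers y).le a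
  have yQ := q2 (mem_sup_left (mem_zpowers y))
  have zQ := q2 (mem_sup_right (mem_zpowers z))
  obtain ⟨w', T', hT', hz⟩ := typT h hf.u2 (mem_cent1_iff.2 c2) hr oz hk
  obtain ⟨g, -, hg⟩ := JR.cjT h hT hT'
  obtain ⟨τ, s, a1, a2, a3, a4, a5, a6⟩ := TRI (Y0 := zpowers y) (Y := zpowers z) (g := g) h h3 hr hQ hf
    (q3 (t_mem t w)) (q3 (w_mem t w)) (zpowers_le.2 ⟨yQ, hT.cen hy⟩) (zpowers_le.2 ⟨zQ, mem_cent1_iff.2 c2⟩)
    (eq_of_card_eq_of_le_cyclic hT'.cyc (hg ▸ cj_mono g (zpowers_le.2 hy)) (zpowers_le.2 hz)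
      (by rw [card_cj, Nat.card_zpowers, Nat.card_zpowers, oy, oz]))
    (by rw [cent_zpowers]; exact JR.n4T h hT' hz (ne1 hr oz))
    (n8 h hT hy hr oy (q3 (t_mem t w)) fun a ha hc => k5 ⟨q1.le (conj_mem_of_mem_normalizer ha yQ),
      (𝐂[t]).mul_mem (mul_mem hc (hT.cen hy)) ((𝐂[t]).inv_mem hc)⟩)
  have hc := AG.comm h.ag hr hQ.isPGroup
  let A : Subgroup G :=
    { carrier := {x | x ∈ Q ∧ x ^ r = 1}
      one_mem' := ⟨one_mem _, one_pow _⟩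
      mul_mem' := fun {a b} ha hb => ⟨mul_mem ha.1 hb.1, by
        rw [Commute.mul_pow (hc a ha.1 b hb.1), ha.2, hb.2, one_mul]⟩
      inv_mem' := fun {a} ha => ⟨inv_mem ha.1, by rw [inv_pow, ha.2, inv_one]⟩ }
  exact ⟨t, w, τ, y, s, T, Q, A, ⟨hT, hr, hk, hy, oy, hQ, yQ, q3, a2, a1, a3, a4, fun x => Iff.rfl⟩, a5, a6⟩

/-- few elements of order `r` of an abelian odd group centralise an involution -/
theorem small (h : JR G p n m k e) (hr : r.Prime) (hk : r ∣ k) {A : Subgroup G}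
    (hc : ∀ x ∈ A, ∀ y ∈ A, x * y = y * x) (hA : ∀ x ∈ A, x ^ r = 1) {j : G} (hj : orderOf j = 2) :
    ♯(𝐂[j] ⊓ A : Subgroup G) ≤ r := by
  haveI := Fact.mk hr
  by_cases h0 : 𝐂[j] ⊓ A = ⊥
  · rw [h0, card_bot]; exact hr.one_le
  obtain ⟨a, ha, a1⟩ := exists_ne_one_of_ne_bot h0
  have oa := orderOf_eq_prime (hA a ha.2) a1
  obtain ⟨w, T, hT, aT⟩ := typT h hj ha.1 hr oa hk
  rw [← oa, ← Nat.card_zpowers]
  exact card_le_of_le' fun x hx => cyc_uniq hT.cyc hr aT oa (Tcent hT aT a1 hx.1 (hc x hx.2 a ha.2)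
    ((odd_prime hr h.oddk hk).of_dvd_nat (orderOf_dvd_of_pow_eq_one (hA x hx.2)))) (hA x hx.2)

theorem n4r (h : JR G p n m k e) (hr : r.Prime) (hk : r ∣ k) {a : G} (oa : orderOf a = r) : ¬ 4 ∣ ♯𝐂[a] := by
  intro h4
  obtain ⟨j, hj, oj⟩ := exists_orderOf_eq_prime Nat.prime_two ((show 2 ∣ 4 by decide).trans h4)
  obtain ⟨w, T, hT, aT⟩ := typT h oj (mem_cent1_comm.1 hj) hr oa hk
  exact JR.n4T h hT aT (ne1 hr oa) h4

/-- an odd `r'`-subgroup of `C(t)` normalised by `y` and `w` lies in `T` -/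
theorem PP (h : JR G p n m k e) {t w y : G} {T X : Subgroup G} (hT : TT k t w T) (hr : r.Prime) (hy : y ∈ T)
    (oy : orderOf y = r) (hX : X ≤ 𝐂[t]) (oX : Odd ♯X) (rX : ¬ r ∣ ♯X) (h1 : y ∈ 𝐍(X)) (h2 : w ∈ 𝐍(X)) :
    X ≤ T := by
  obtain ⟨f1, f2, -, f4, f5, f6, -, -, -, f10, -⟩ := Ar.facts h.ar
  have hf := hT.fg
  have hk : r ∣ k := by rw [← oy, ← hT.card]; exact orderOf_dvd_card' hy
  have or : Odd (orderOf y) := oy ▸ odd_prime hr f1 hk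
  have yt := hT.cen hy
  refine le_of_forall_syl fun l hl hd => ?_
  obtain ⟨S, hS, hn⟩ := exists_invariant_syl l (A := zpowers y ⊔ zpowers w)
    (sup_le (zpowers_le.2 h1) (zpowers_le.2 h2)) (Nat.Coprime.coprime_dvd_left
      (card_sup_dvd (zpowers_le.2 (norm_zp_i (hT.inv y hy)))) (by
      rw [Nat.card_zpowers, Nat.card_zpowers, oy, hf.u2]
      exact (hr.coprime_iff_not_dvd.2 rX).mul_left (Nat.coprime_two_left.2 oX))) (Or.inr (sol_odd oX))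
  refine ⟨S, hS, ?_⟩
  obtain ⟨x, hx, ox⟩ := exists_orderOf_eq_prime hl.out (hS.hall.dvd_card hl.out rfl hd)
  have x1 := ne1 hl.out ox
  have hc := AG.comm h.ag hl.out hS.isPGroup
  have oS := fun g (hg : g ∈ S) => odd_ord oX (hS.le hg)
  have St := fun g (hg : g ∈ S) => hX (hS.le hg)
  have yx := conj_mem_of_mem_normalizer (hn (mem_sup_left (mem_zpowers y))) hx
  have wx := conj_mem_of_mem_normalizer (hn (mem_sup_right (mem_zpowers w))) hx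
  rcases JR.typ h hf.t2 (St x hx) hl.out ox (fun d => by
    have := oS x hx; rw [ox, d] at this; exact absurd this (by decide)) with
    ⟨-, u, a, b⟩ | ⟨-, w', T', a, b⟩ | ⟨-, P, a, b⟩
  · exfalso
    obtain ⟨ρ, c1, v, c2, c3⟩ := JR.cenR h a b x1 _ (mem_cent1_iff.2 (hc _ yx _ hx)) (Or.inl (St _ yx))
    have c4 : y * x * y⁻¹ ∈ 𝐂(V4 t u) := c3 ▸ mul_mem (Rw_le_cent t u c1) (V4_comm a c2)
    rw [cent_V4] at c4
    have c5 := (h.cf t hf.t2).rnrm u a x b x1 y yt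
      (mem_Rw (mem_cent1_iff.1 c4.1) (mem_cent1_iff.1 c4.2) (oS _ yx))
    have c6 := orderOf_dvd_card' (mem_Rw (mem_cent1_iff.1 yt) (mem_cent1_iff.1 c5) or)
    rw [h.cardR a, oy] at c6
    exact hr.one_lt.ne' (Nat.eq_one_of_dvd_coprimes f4 c6 hk)
  · have ST := fun g (hg : g ∈ S) => Tcent a b x1 (St g hg) (hc g hg x hx) (oS g hg)
    have c := Tnrm a b x1 yt (ST _ yx) or
    exact fun g hg => Tcent hT hy (ne1 hr oy) (St g hg) (Tcomm a (ST g hg) c) (oS g hg)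
  · exfalso
    have SP := fun g (hg : g ∈ S) => Pcent a b x1 (St g hg) (hc g hg x hx) (oS g hg)
    have c1 := a.nrm x b x1 y yt (SP _ yx)
    have c2 := e_one h a hf (a.nrm x b x1 w (mem_cent1_iff.2 hf.comm.symm) (SP _ wx))
    have c3 := orderOf_dvd_card' (H := 𝐍(P) ⊓ 𝐂[t]) ⟨c1, yt⟩
    rw [a.cN, f10 c2, oy] at c3
    exact hr.one_lt.ne' (Nat.eq_one_of_dvd_coprimes ((f6.pow_left n).mul_left
      (((Nat.coprime_two_left.2 f1).pow_left 2).mul_left f4)) c3 hk)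

namespace Cf
variable {t w τ y : G} {T Q A : Subgroup G} (c : Cf k r t w τ y T Q A)
include c

theorem c3 : τ * (t * w) * τ⁻¹ = t := by
  rw [← conj_mul, c.c1, c.c2, c.hT.fg.comm, ← mul_assoc, c.hT.fg.uu, one_mul]
theorem τW : τ ∈ 𝐍(V4 t w) := by
  rw [← cj_eq_iff_mem_normalizer, cj_V4, c.c1, c.c2, c.hT.fg.comm, V4_mul, V4_symm]
theorem y1 : y ≠ 1 := ne1 c.hr c.oy
theorem j1 {K : Subgroup G} (h : τ ∈ 𝐍(K)) : K ⊓ 𝐂[w] = cj τ (K ⊓ 𝐂[t]) := by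
  rw [cj_inf, cj_cent1, c.c1, cj_eq_iff_mem_normalizer.2 h]
theorem j2 {K : Subgroup G} (h : τ ∈ 𝐍(K)) : K ⊓ 𝐂[t * w] = cj τ (cj τ (K ⊓ 𝐂[t])) := by
  rw [← c.j1 h, cj_inf, cj_cent1, c.c2, cj_eq_iff_mem_normalizer.2 h]
theorem gen3 {K X : Subgroup G} (hK : Odd ♯K) (h1 : V4 t w ≤ 𝐍(K)) (h2 : τ ∈ 𝐍(K)) (h3 : τ ∈ 𝐍(X))
    (h4 : K ⊓ 𝐂[t] ≤ X) : K ≤ X := by
  have := cj_eq_iff_mem_normalizer.2 h3
  refine (GEN hK c.hT.fg (h1 (t_mem t w)) (h1 (w_mem t w))).trans (sup_le (sup_le h4 ?_) ?_)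
  · rw [c.j1 h2, ← this]; exact cj_mono _ h4
  · rw [c.j2 h2, ← this, ← this]; exact cj_mono _ (cj_mono _ h4)
theorem cube (hk : Odd k) {K : Subgroup G} (hK : Odd ♯K) (h1 : V4 t w ≤ 𝐍(K)) (h2 : τ ∈ 𝐍(K))
    (h4 : K ⊓ 𝐂[t] ≤ T) : ♯K = ♯(K ⊓ 𝐂[t] : Subgroup G) ^ 3 := by
  have := BR hK c.hT.fg (h1 (t_mem t w)) (h1 (w_mem t w))
  rw [Tbot c.hT hk h4, card_bot, c.j2 h2, c.j1 h2, card_cj, card_cj, card_cj] at this
  linear_combination this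
theorem τsyl (hk : Odd k) {K V : Subgroup G} (hK : Odd ♯K) (h1 : V4 t w ≤ 𝐍(K)) (h2 : τ ∈ 𝐍(K))
    (h4 : K ⊓ 𝐂[t] ≤ T) {l : ℕ} (hl : l.Prime) (hV : Syl l V K) (h5 : V4 t w ≤ 𝐍(V)) : τ ∈ 𝐍(V) := by
  haveI := Fact.mk hl
  refine cj_eq_iff_mem_normalizer.1 (syl_eq c.hT.fg hK h1 (Tbot c.hT hk h4) hl
    (hV.cj_of_mem_normalizer h2) hV ?_ h5)
  rw [← cj_normalizer, ← cj_eq_iff_mem_normalizer.2 c.τW]; exact cj_mono _ h5
theorem iw {g : G} (hg : g ∈ T) : t * (τ * g * τ⁻¹) * t⁻¹ = (τ * g * τ⁻¹)⁻¹ := by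
  nth_rw 1 2 [← c.c3]
  rw [conj_mul, conj_inv, conj_mul, Tinv' c.hT hg, conj_inv]
theorem cw {g : G} (hg : g ∈ T) : w * (τ * g * τ⁻¹) = τ * g * τ⁻¹ * w := by
  rw [← c.c1, conj_mul, conj_mul, mem_cent1_iff.1 (c.hT.cen hg)]
theorem ax (ha : AG G) (hk : Odd k) {V : Subgroup G} {l : ℕ} (hl : l.Prime) (hV : IsPGroup l V) (oV : Odd l)
    (h1 : V4 t w ≤ 𝐍(V)) (h2 : τ ∈ 𝐍(V)) (h4 : V ⊓ 𝐂[t] ≤ T) {g : G} (hg : g ∈ T) (gV : g ∈ 𝐍(V))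
    (hc : g * (τ * g * τ⁻¹) = τ * g * τ⁻¹ * g) (ho : (orderOf g).Coprime l) : g ∈ 𝐂(V) := by
  have o2 : (orderOf g).Coprime (2 * l) :=
    (Nat.coprime_two_right.2 (odd_ord (c.hT.card ▸ hk) hg)).mul_right ho
  have cy := isCyclic_of_le' h4 c.hT.cyc
  have g1 : g ∈ 𝐂(V ⊓ 𝐂[t]) := mem_cent_iff.2 fun a ha => Tcomm c.hT (h4 ha) hg
  have n2 := le_normalizer_centralizer le_rfl h2
  rcases AX hl hV oV (AG.comm ha hl hV) c.hT.fg (h1 (t_mem t w)) (h1 (w_mem t w)) (Tbot c.hT hk h4) cy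
    (c.j1 h2 ▸ isCyclic_cj _ cy) (c.j2 h2 ▸ isCyclic_cj _ (isCyclic_cj _ cy)) gV
    (mul_mem (mul_mem h2 gV) (inv_mem h2)) hc o2 (by rwa [orderOf_cj]) g1
    (mem_cent1_iff.1 (c.hT.cen hg)).symm (c.hT.inv g hg)
    (by rw [c.j1 h2, ← cj_centralizer]; exact conj_mem_cj g1) (c.cw hg) (c.iw hg) with a | a
  · exact a
  · simpa [mul_assoc] using conj_mem_of_mem_normalizer' n2 a

end Cf

end Cfsg.Agent.JR.J5
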