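import Cfsg.Agent.JR.J5b1
import Cfsg.Agent.JR.J1

/-! Piece J5b, part 2: the normaliser of `A = Ω₁(Q)`. -/

set_option autoImplicit false
set_option linter.unusedSectionVars false
set_option linter.unusedVariables false

namespace Cfsg.Agent.JR.J5

open Subgroup Cfsg.Agent.FT Cfsg.Agent.JR

universe u
variable {G : Type u} [Group G] [Finite G] {p n m k r : ℕ} {e : ℤ}

theorem conj_odd {t j : G} (ht : t * t = 1) (hj : j * j = 1) (ho : Odd (orderOf (t * j))) :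
    ∃ c ∈ zpowers (t * j), c * j * c⁻¹ = t := by
  obtain ⟨a, ha⟩ := ho
  have h1 : t * (t * j) * t⁻¹ = (t * j)⁻¹ := by
    rw [← mul_assoc, ht, one_mul, mul_inv_rev, inv_eq_of_mul_eq_one_left hj]
  have h2 : (t * j) ^ (a + 1) * (t * j) ^ (a + 1) = t * j := by
    rw [← pow_add, show a + 1 + (a + 1) = orderOf (t * j) + 1 by omega, pow_succ, pow_orderOf_eq_one, one_mul]
  have h3 : t * (t * j) ^ (a + 1) * t⁻¹ = ((t * j) ^ (a + 1))⁻¹ := by rw [← conj_pow, h1, inv_pow]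
  refine ⟨(t * j) ^ (a + 1), pow_mem (mem_zpowers _) _, ?_⟩
  generalize (t * j) ^ (a + 1) = c at h2 h3
  calc _ = c * t⁻¹ * (t * j) * c⁻¹ := by group
    _ = c * t⁻¹ * c := by rw [← h2]; group
    _ = c * (t * c * t⁻¹) * t := by rw [inv_eq_of_mul_eq_one_left ht, mul_assoc _ _ t, mul_assoc _ t t, ht]; group
    _ = t := by rw [h3]; simp

namespace Cf
variable {t w τ y : G} {T Q A : Subgroup G} (c : Cf k r t w τ y T Q A) (h : JR G p n m k e)
include c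

theorem AQ : A ≤ Q := fun x hx => ((c.hA x).1 hx).1
theorem yA : y ∈ A := (c.hA y).2 ⟨c.yQ, by rw [← c.oy, pow_orderOf_eq_one]⟩
theorem NA : 𝐍(Q) ≤ 𝐍(A) := le_normalizer_of_conj_mem fun g hg x hx => (c.hA _).2
  ⟨conj_mem_of_mem_normalizer hg (c.AQ hx), by rw [conj_pow, ((c.hA x).1 hx).2]; simp⟩
theorem Ap : IsPGroup r A := isPGroup_of_le c.AQ c.hQ.isPGroup
theorem oa {a : G} (ha : a ∈ A) (h1 : a ≠ 1) : orderOf a = r :=
  haveI := Fact.mk c.hr; orderOf_eq_prime ((c.hA a).1 ha).2 h1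
theorem WA : V4 t w ≤ 𝐍(A) := c.WQ.trans c.NA
theorem τA : τ ∈ 𝐍(A) := c.NA c.τQ

include h
theorem or : Odd r := odd_prime c.hr h.oddk c.hk
theorem Qc : ∀ x ∈ Q, ∀ y ∈ Q, x * y = y * x := AG.comm h.ag c.hr c.hQ.isPGroup
theorem oQ : Odd ♯Q := by
  haveI := Fact.mk c.hr
  obtain ⟨j, hj⟩ := IsPGroup.iff_card.1 c.hQ.isPGroup
  exact hj ▸ (c.or h).pow
theorem Qt : Q ⊓ 𝐂[t] ≤ T := fun g hg =>
  Tcent c.hT c.hy c.y1 hg.2 (c.Qc h g hg.1 y c.yQ) (odd_ord (c.oQ h) hg.1)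
theorem oA : Odd ♯A := odd_of_le c.AQ (c.oQ h)
theorem AtT : A ⊓ 𝐂[t] ≤ T := (inf_le_inf_right _ c.AQ).trans (c.Qt h)
theorem At : A ⊓ 𝐂[t] = zpowers y := le_antisymm
  (fun x hx => cyc_uniq c.hT.cyc c.hr c.hy c.oy (c.AtT h hx) ((c.hA x).1 hx.1).2)
  (zpowers_le.2 ⟨c.yA, c.hT.cen c.hy⟩)
theorem cA : ♯A = r ^ 3 := by
  rw [c.cube h.oddk (c.oA h) c.WA c.τA (c.AtT h), c.At h, Nat.card_zpowers, c.oy]
theorem Ac : ∀ x ∈ A, ∀ y ∈ A, x * y = y * x := fun x hx y hy => c.Qc h x (c.AQ hx) y (c.AQ hy)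
theorem sm {j : G} (hj : orderOf j = 2) : ♯(𝐂[j] ⊓ A : Subgroup G) ≤ r :=
  small h c.hr c.hk (c.Ac h) (fun x hx => ((c.hA x).1 hx).2) hj
theorem r3 : 3 ≤ r := by
  have := c.hr.two_le
  obtain ⟨a, ha⟩ := c.or h
  omega
theorem ne3 : r ≠ 3 := fun e => by
  haveI := Fact.mk c.hr
  have h1 := c.hQ.le_of_le_normalizer (pg_zp (c.o3.trans e.symm)) le_top (zpowers_le.2 c.τQ) (mem_zpowers τ)
  refine not_mem_of_odd (c.oQ h) c.hT.fg.mul.u2 ?_
  convert mul_mem (conj_mem_of_mem_normalizer (c.WQ (t_mem t w)) h1) (inv_mem h1) using 1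
  rw [← c.c1, inv2 c.hT.fg.t2]; group

theorem CN {a : G} (ha : a ∈ A) (h1 : a ≠ 1) : 𝐂[a] ≤ 𝐍(Q) := by
  haveI := Fact.mk c.hr
  obtain ⟨M, m1, m2, m3⟩ := SIG c.hr c.hQ (c.Qc h) c.hA (c.cA h).ge fun a ha h1 =>
    sol4 (n4r h c.hr c.hk (c.oa ha h1))
  have QM : Q ≤ 𝐍(M) := le_normalizer.trans m2
  have cQ : (♯Q).Coprime ♯M := coprime_of_isPGroup c.hQ.isPGroup (piG_compl_singleton.2 m1)
  have oM : Odd ♯M := by
    obtain ⟨S, hS, hn⟩ := exists_invariant_syl 2 (c.AQ.trans QM)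
      (cQ.coprime_dvd_left (card_dvd_of_le' c.AQ)) (Or.inl (sol_odd (c.oA h)))
    by_contra d
    obtain ⟨j, hj, oj⟩ := exists_orderOf_eq_prime Nat.prime_two
      (hS.hall.dvd_card Nat.prime_two rfl (even_iff_two_dvd.1 (Nat.not_odd_iff_even.1 d)))
    have a1 := card_le_mul hn hj
    have a2 := c.sm h oj
    have a3 := card_inf_mul_relIndex 𝐂[j] A
    obtain ⟨i, hi⟩ := IsPGroup.iff_card.1 hS.isPGroup
    have a4 : i ≤ 3 := by
      by_contra d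
      exact h.n16 ((pow_dvd_pow 2 (show 4 ≤ i by omega)).trans (hi ▸ card_subgroup_dvd_card S))
    have a5 : ♯S ≤ 2 ^ 3 := hi ▸ Nat.pow_le_pow_right two_pos a4
    have a6 := c.r3 h
    rw [c.cA h] at a3
    have a7 := Nat.mul_le_mul a2 (a1.trans a5)
    rw [a3] at a7
    have : r * (r * r) ≤ r * 8 := by nlinarith
    have := Nat.le_of_mul_le_mul_left this c.hr.pos
    nlinarith
  have WM := c.WQ.trans m2
  have Mt : M ⊓ 𝐂[t] ≤ T := PP h c.hT c.hr c.hy c.oy inf_le_right (odd_of_le inf_le_left oM)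
    (fun d => m1 (d.trans (card_dvd_of_le' inf_le_left)))
    (nI (QM c.yQ) (mem_cent1_iff.1 (c.hT.cen c.hy))) (nI (WM (w_mem t w)) c.hT.fg.comm.symm)
  have MQ : M ≤ 𝐂(Q) := le_of_forall_syl fun l hl hd => by
    obtain ⟨V, hV, hn⟩ := exists_invariant_syl l (sup_le QM WM) (Nat.Coprime.coprime_dvd_left
      (card_sup_dvd c.WQ) (cQ.mul_left (cop4 c.hT.fg oM))) (Or.inr (sol_odd oM))
    have v1 := le_sup_right.trans hn
    have v2 := c.τsyl h.oddk oM WM (m2 c.τQ) Mt hl.out hV v1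
    refine ⟨V, hV, cent_symm (c.gen3 (c.oQ h) c.WQ c.τQ (le_normalizer_centralizer le_rfl v2) fun g hg => ?_)⟩
    exact c.ax h.ag h.oddk hl.out hV.isPGroup (oM.of_dvd_nat hd) v1 v2 ((inf_le_inf_right _ hV.le).trans Mt)
      (c.Qt h hg) (hn (mem_sup_left hg.1)) (c.Qc h _ hg.1 _ (conj_mem_of_mem_normalizer c.τQ hg.1))
      ((cQ.coprime_dvd_left (orderOf_dvd_card' hg.1)).coprime_dvd_right hd)
  intro g hg
  obtain ⟨x, hx, b, hb, rfl⟩ := m3 a ha h1 g hg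
  exact mul_mem (cent_le_norm Q (MQ hx)) hb

theorem oZ : Odd ♯𝐂(A) := by
  by_contra d
  obtain ⟨j, hj, oj⟩ := exists_orderOf_eq_prime Nat.prime_two (even_iff_two_dvd.1 (Nat.not_odd_iff_even.1 d))
  have a2 := c.sm h oj
  rw [inf_eq_right.2 (le_cent1_iff.2 hj), c.cA h] at a2
  have := c.r3 h
  nlinarith [Nat.pow_le_pow_left this 2]
theorem NT {g : G} (h1 : g ∈ 𝐍(A)) (h2 : g ∈ 𝐂[t]) : g * y * g⁻¹ ∈ T :=
  c.AtT h ⟨conj_mem_of_mem_normalizer h1 c.yA, (𝐂[t]).mul_mem (mul_mem h2 (c.hT.cen c.hy)) ((𝐂[t]).inv_mem h2)⟩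
theorem Ot {O : Subgroup G} (h1 : O ≤ 𝐍(A)) (h2 : Odd ♯O) : O ⊓ 𝐂[t] ≤ T := fun g hg =>
  Tnrm c.hT c.hy c.y1 hg.2 (c.NT h (h1 hg.1) hg.2) (odd_ord h2 hg.1)
theorem cZ : ♯𝐂(A) ∣ k ^ 3 := by
  have := c.Ot h (cent_le_norm A) (c.oZ h)
  rw [c.cube h.oddk (c.oZ h) (le_normalizer_centralizer c.WA) (le_normalizer_centralizer le_rfl c.τA) this,
    ← c.hT.card]
  exact pow_dvd_pow_of_dvd (card_dvd_of_le' this) 3
theorem n8N : ¬ 8 ∣ ♯𝐍(A) := n8 h c.hT c.hy c.hr c.oy (c.WA (t_mem t w)) fun g => c.NT h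
theorem TN : T ≤ 𝐍(A) := fun g hg => c.NA (c.CN h c.yA c.y1 (mem_cent1_iff.2 (Tcomm c.hT hg c.hy)))

theorem OZ {O : Subgroup G} (h1 : O ≤ 𝐍(A)) (h2 : Odd ♯O) (h3 : 𝐍(A) ≤ 𝐍(O)) : O ≤ 𝐂(A) :=
  le_of_forall_syl fun l hl hd => by
    have WO := c.WA.trans h3
    obtain ⟨V, hV, v1⟩ := exists_invariant_syl l WO (cop4 c.hT.fg h2) (Or.inr (sol_odd h2))
    have v2 := c.τsyl h.oddk h2 WO (h3 c.τA) (c.Ot h h1 h2) hl.out hV v1
    refine ⟨V, hV, ?_⟩
    by_cases lr : l = r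
    · subst lr
      exact fun g hg => mem_cent_iff.2 fun a ha => AG.comm h.ag hl.out
        (isPGroup_sup hV.isPGroup c.Ap (hV.le.trans h1)) a (mem_sup_right ha) g (mem_sup_left hg)
    refine c.gen3 (odd_of_le hV.le h2) v1 v2 (le_normalizer_centralizer le_rfl c.τA) fun g hg => ?_
    haveI := Fact.mk c.hr
    exact c.ax h.ag h.oddk c.hr c.Ap (c.or h) c.WA c.τA (c.AtT h) (c.Ot h h1 h2 ⟨hV.le hg.1, hg.2⟩)
      (h1 (hV.le hg.1)) (AG.comm h.ag hl.out hV.isPGroup _ hg.1 _ (conj_mem_of_mem_normalizer v2 hg.1))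
      ((piG_compl_of_isPGroup_ne hV.isPGroup lr).coprime_prime.coprime_dvd_left (orderOf_dvd_card' hg.1))

theorem gam : T ≤ 𝐂(A) ∧ ♯𝐍(A) ∣ 60 * ♯𝐂(A) := by
  haveI := Fact.mk c.hr
  obtain ⟨f, hf⟩ : ∃ f, f = A.normalizerMonoidHom.rangeRestrict := ⟨_, rfl⟩
  have fs : Function.Surjective f := hf ▸ MonoidHom.rangeRestrict_surjective _
  have fk : f.ker = (𝐂(A)).subgroupOf 𝐍(A) := by rw [hf, MonoidHom.ker_rangeRestrict, normalizerMonoidHom_ker]
  have f1 : ∀ x : 𝐍(A), f x = 1 ↔ x.1 ∈ 𝐂(A) := fun x => by rw [← MonoidHom.mem_ker, fk, mem_subgroupOf]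
  haveI : Finite A.normalizerMonoidHom.range := Finite.of_surjective f fs
  have ck : ♯(f.ker) = ♯𝐂(A) := by
    rw [fk]; exact Nat.card_congr (subgroupOfEquivOfLe (cent_le_norm A)).toEquiv
  have cΓ : ♯𝐂(A) * Nat.card A.normalizerMonoidHom.range = ♯𝐍(A) := by
    rw [← ck, ← f.ker.card_mul_index, index_ker, MonoidHom.range_eq_top.2 fs, card_top]
  have oZ := c.oZ h
  have hg := c.hT.fg
  obtain ⟨t', ht⟩ : ∃ t' : 𝐍(A), t'.1 = t := ⟨⟨t, c.WA (t_mem t w)⟩, rfl⟩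
  obtain ⟨w', hw⟩ : ∃ w' : 𝐍(A), w'.1 = w := ⟨⟨w, c.WA (w_mem t w)⟩, rfl⟩
  have two : ∀ x : 𝐍(A), orderOf x.1 = 2 → orderOf (f x) = 2 := fun x hx => two_of_sq
    (by rw [← map_mul, show x * x = 1 from Subtype.ext (sq1 hx), map_one])
    fun d => not_mem_of_odd oZ hx ((f1 x).1 d)
  have fg : FG (f t') (f w') := by
    refine ⟨two _ (ht ▸ hg.t2), two _ (hw ▸ hg.u2), ?_, fun d => ?_⟩
    · rw [← map_mul, ← map_mul, show t' * w' = w' * t' from Subtype.ext (by simp [ht, hw, hg.comm])]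
    · have := two (t' * w') (by simp only [coe_mul, ht, hw]; exact hg.mul.u2)
      rw [map_mul, d, sq1 (two _ (hw ▸ hg.u2)), orderOf_one] at this
      omega
  have n8 : ¬ 8 ∣ Nat.card A.normalizerMonoidHom.range := fun d => c.n8N h (cΓ ▸ d.mul_left _)
  have of : ∀ x : 𝐍(A), x.1 ∈ T → Odd (orderOf (f x)) := fun x hx =>
    (odd_ord (c.hT.card ▸ h.oddk) hx).of_dvd_nat ((orderOf_map_dvd f x).trans (orderOf_coe x).symm.dvd)
  have key : ∀ x : 𝐍(A), x.1 ∈ T → f x ∈ V4 (f t') (f w') → x.1 ∈ 𝐂(A) := fun x hx d =>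
    (f1 x).1 (eq_one_of_odd (of x hx) (V4_sq fg d))
  have QZ : Q ≤ 𝐂(A) := fun g hg => mem_cent_iff.2 fun a ha => c.Qc h a (c.AQ ha) g hg
  rcases J1 (AG.quo (AG.sub h.ag 𝐍(A)) f fs) (fun H _ _ _ hH => h.ih H (by
      have a1 := one_lt_card.2 (ne_bot_of_mem (QZ c.yQ) c.y1)
      have a2 := Nat.card_le_card_of_injective _ (𝐍(A)).subtype_injective
      have a3 := Nat.card_pos (α := A.normalizerMonoidHom.range)
      nlinarith)) (fun N0 hN o0 => by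
      have a1 := c.OZ h (O := (N0.comap f).map (𝐍(A)).subtype) (map_subtype_le _) (by
        rw [card_map_of_injective (subtype_injective _), ← card_mul_relIndex (show f.ker ≤ N0.comap f from
          ker_le_comap _ _), ck, ← MonoidHom.comap_bot, relIndex_comap, map_comap_eq_self_of_surjective fs,
          relIndex_bot_left]
        exact oZ.mul o0) (nrm_map_subtype _).norm
      refine (eq_bot_iff_forall _).2 fun x hx => ?_
      obtain ⟨x, rfl⟩ := fs x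
      exact (f1 x).2 (a1 (mem_map_of_mem _ hx))) fg n8 with a | ⟨a1, -, a2, -⟩ | ⟨-, P, H, a1, a2, a3⟩
  · have TZ : T ≤ 𝐂(A) := fun x hx => by
      refine key ⟨x, c.TN h hx⟩ hx (mem_of_sq (of _ hx) ?_)
      convert mul_mem (a.conj_mem _ (w_mem _ _) (f ⟨x, c.TN h hx⟩)) (inv_mem (w_mem _ _)) using 1
      rw [← map_inv, ← map_inv, ← map_mul, ← map_mul, ← map_mul, ← map_mul]
      congr 1
      ext
      simp only [coe_mul, coe_inv, hw]
      calc _ = x * (w * x * w⁻¹)⁻¹ := by rw [c.hT.inv x hx, inv_inv]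
        _ = _ := by group
    refine ⟨TZ, ?_⟩
    have b1 : 𝐂[f t'] = V4 (f t') (f w') := by
      refine le_antisymm (fun g hc => ?_) (V4_le (mem_cent1_self _) (mem_cent1_iff.2 fg.comm.symm))
      obtain ⟨g, rfl⟩ := fs g
      have b2 : t * (g * t * g⁻¹) ∈ 𝐂(A) := by
        have := (f1 (t' * (g * t' * g⁻¹))).1 (by
          rw [map_mul, map_mul, map_mul, map_inv, mem_cent1_iff.1 hc, mul_inv_cancel_right, fg.tt])
        simpa only [coe_mul, coe_inv, ht] using this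
      obtain ⟨z, z1, z2⟩ := conj_odd hg.tt (sq1 (two_conj hg.t2 g.1)) (odd_ord oZ b2)
      have z3 := zpowers_le.2 b2 z1
      have z4 : z * g ∈ 𝐂[t] := mem_cent1_iff.2 (by nth_rw 2 [← z2]; group)
      have z5 : ∀ v : 𝐍(A), z * g * v ∈ T → f v ∈ V4 (f t') (f w') → f g ∈ V4 (f t') (f w') := fun v a b => by
        have := (f1 (g * v)).2 ((mul_mem_cancel_left z3).1 (mul_assoc z _ _ ▸ TZ a))
        rw [map_mul] at this
        rw [eq_inv_of_mul_eq_one_left this]; exact inv_mem b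
      rcases c.hT.nrm y c.hy c.y1 _ z4 (c.NT h (mul_mem (cent_le_norm A z3) g.2) z4) with d | d | d | d
      · exact z5 1 (by simpa using d) (by rw [map_one]; exact one_mem _)
      · exact z5 t' (ht ▸ d) (t_mem _ _)
      · exact z5 w' (hw ▸ d) (w_mem _ _)
      · exact z5 (t' * w') (by rwa [coe_mul, ht, hw, ← mul_assoc]) (by
          rw [map_mul]; exact mul_mem (t_mem _ _) (w_mem _ _))
    have b2 := card_le_mul (A := ⊤) (le_normalizer_of_normal (H := V4 (f t') (f w'))) (t_mem _ _)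
    have b3 := card_mul_relIndex (le_top (a := 𝐂[f t']))
    rw [card_top] at b3
    generalize (𝐂[f t']).relIndex ⊤ = i at b2 b3
    rw [b1, card_V4 fg] at b3
    rw [card_V4 fg] at b2
    rw [← cΓ, mul_comm, ← b3]
    rw [← b3] at n8
    refine Nat.mul_dvd_mul_right ?_ _
    interval_cases i <;> first | decide | exact absurd (by decide) n8
  · exact ⟨fun x hx => key ⟨x, c.TN h hx⟩ hx (by
      rw [← a2, mem_cent1_iff, ← map_mul, ← map_mul]
      congr 1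
      ext
      simp only [coe_mul, ht]
      exact mem_cent1_iff.1 (c.hT.cen hx)), by rw [← cΓ, a1, mul_comm]⟩
  · refine (noFrob _ (subtype_injective _) c.hr (c.cA h) (fun d => ?_) a1 a2 a3).elim
    refine (c.hQ.of_le (QZ.trans (cent_le_norm A)) le_top).not_dvd (d.trans ?_)
    rw [← relIndex_mul_relIndex _ _ _ QZ (cent_le_norm A)]
    refine Dvd.dvd.mul_left (dvd_of_eq (Nat.eq_of_mul_eq_mul_left (card_pos' 𝐂(A)) ?_)) _
    rw [cΓ, card_mul_relIndex (cent_le_norm A)]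

end Cf

end Cfsg.Agent.JR.J5
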