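import Cfsg.Agent.JR.G2

/-! Piece J5c: a bad prime is impossible for `p = 3`. -/

set_option autoImplicit false
set_option linter.unusedSectionVars false
set_option linter.unusedVariables false

namespace Cfsg.Agent.JR

open Subgroup Cfsg.Agent.FT Cfsg.Agent.JR.J5

universe u
variable {G : Type u} [Group G] [Finite G] {p n m k : ℕ} {e : ℤ}

/-- the elements of an abelian group inverted by an involution -/
theorem exY {U : Subgroup G} (hc : ∀ x ∈ U, ∀ y ∈ U, x * y = y * x) (ho : Odd ♯U) {s : G} (hs : s * s = 1)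
    (hn : s ∈ 𝐍(U)) : ∃ Y : Subgroup G, (∀ x, x ∈ Y ↔ x ∈ U ∧ s * x * s⁻¹ = x⁻¹) ∧
      ♯U = ♯(U ⊓ 𝐂[s] : Subgroup G) * ♯Y := by
  let Y : Subgroup G :=
    { carrier := {x | x ∈ U ∧ s * x * s⁻¹ = x⁻¹}
      one_mem' := ⟨one_mem _, by simp⟩
      mul_mem' := fun {a b} ha hb => ⟨mul_mem ha.1 hb.1, by
        rw [← conj_mul, ha.2, hb.2, ← mul_inv_rev, hc a ha.1 b hb.1]⟩
      inv_mem' := fun {a} ha => ⟨inv_mem ha.1, by rw [← conj_inv, ha.2]⟩ }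
  have YU : Y ≤ U := fun x hx => hx.1
  refine ⟨Y, fun x => Iff.rfl, ?_⟩
  rw [← card_sup_of_inf_eq_bot (A := U ⊓ 𝐂[s]) (B := Y) (le_normalizer_of_conj_mem fun a ha x hx => by
      rwa [hc a ha.1 x hx.1, mul_inv_cancel_right]) ((eq_bot_iff_forall _).2 fun x hx =>
      eq_one_of_inv (odd_ord ho hx.1.1) (by rw [← hx.2.2, ← mem_cent1_iff.1 hx.1.2, mul_inv_cancel_right]))]
  congr 2
  refine le_antisymm (fun x hx => mem_of_sq (odd_ord ho hx) ?_) (sup_le inf_le_left YU)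
  have h1 := conj_mem_of_mem_normalizer hn hx
  have h2 : s * (s * x * s⁻¹) * s⁻¹ = x := by
    calc _ = (s * s) * x * (s * s)⁻¹ := by group
      _ = _ := by rw [hs]; simp
  generalize s * x * s⁻¹ = x' at h1 h2
  have h3 : s * x * s⁻¹ = x' := by
    calc _ = (s * s) * x' * (s * s)⁻¹ := by rw [← h2]; group
      _ = _ := by rw [hs]; simp
  convert mul_mem (mem_sup_left (S := U ⊓ 𝐂[s]) (x := x * x') ⟨mul_mem hx h1, mem_cent1_iff.2 ?_⟩)
    (mem_sup_right (T := Y) (x := x'⁻¹ * x) ⟨mul_mem (inv_mem h1) hx, ?_⟩) using 1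
  · group
  · rw [← mul_inv_eq_iff_eq_mul.1 (show s * (x * x') * s⁻¹ = x * x' by rw [← conj_mul, h3, h2, hc x hx x' h1])]
  · rw [← conj_mul, ← conj_inv, h2, h3, mul_inv_rev, inv_inv]

theorem nY {U Y : Subgroup G} {s g : G} (hY : ∀ x, x ∈ Y ↔ x ∈ U ∧ s * x * s⁻¹ = x⁻¹) (h1 : g ∈ 𝐍(U))
    (h2 : g * s = s * g) : g ∈ 𝐍(Y) := mem_normalizer_of_conj_mem fun x hx => (hY _).2
  ⟨conj_mem_of_mem_normalizer h1 ((hY x).1 hx).1, by
    calc _ = (s * g) * x * (s * g)⁻¹ := by group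
      _ = g * (s * x * s⁻¹) * g⁻¹ := by rw [← h2]; group
      _ = _ := by rw [((hY x).1 hx).2]; group⟩

theorem typP (h : JR G p n m k e) {s z : G} (hs : orderOf s = 2) (hz : z ∈ 𝐂[s]) (oz : orderOf z = p) :
    ∃ P, PT p (p ^ n) s P ∧ z ∈ P := by
  obtain ⟨-, f2, -, -, f5, f6, -⟩ := h.ar.facts
  have pp := h.ar.pp
  rcases h.typ hs hz pp oz (fun d => by rw [d] at f2; exact absurd f2 (by decide)) with
    ⟨a, -⟩ | ⟨a, -⟩ | ⟨-, a⟩
  · exact absurd (Nat.eq_one_of_dvd_coprimes f5 dvd_rfl a) pp.one_lt.ne'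
  · exact absurd (Nat.eq_one_of_dvd_coprimes f6 dvd_rfl a) pp.one_lt.ne'
  · exact a

theorem J5c (h : JR G 3 n m k e) (h3 : ¬ 3 ∣ m)
    (hT : ∀ (t w : G) (T : Subgroup G), TT k t w T → ∀ y ∈ T, y ≠ 1 → ¬ 3 ∣ ♯𝐂[y]) {r : ℕ} (hr : r.Prime)
    (hk : r ∣ k) (hU : ∀ U : Subgroup G, U ≠ ⊥ → IsPGroup r U → ¬ 9 ∣ ♯𝐍(U)) {τ y s : G}
    (h1 : orderOf τ = 3) (h2 : orderOf y = r) (h4 : τ * y = y * τ) (h5 : orderOf s = 2)
    (h6 : s * τ = τ * s) : False := by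
  obtain ⟨f1, f2, -, -, -, f6, -, f8, -, -, f11⟩ := h.ar.facts
  have pp := Nat.prime_three
  haveI := Fact.mk pp
  haveI := Fact.mk hr
  have he := f8 rfl
  have r3 : r ≠ 3 := fun d => absurd (Nat.eq_one_of_dvd_coprimes f6 dvd_rfl (d ▸ hk)) (by decide)
  obtain ⟨P, hP, τP⟩ := typP h h5 (mem_cent1_iff.2 h6.symm) h1
  have τ1 := ne1 pp h1
  obtain ⟨K, k1, k2, k3, -, k4, -⟩ := OD (h.n4P hP τP τ1) h5 (mem_cent1_iff.2 h6)
  have sK : s ∈ 𝐍(K) := k3 (le_normalizer (mem_cent1_iff.2 h6))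
  have Ks : K ⊓ 𝐂[s] ≤ P := fun g hg => Pcent hP τP τ1 hg.2 (mem_cent1_iff.1 (k1 hg.1)) (odd_ord k2 hg.1)
  obtain ⟨A, U, a1, a2, a3, a4, a5, -, a7, -, a9, a10, -⟩ := CP h hP
  have UK : U ≤ K := fun g hg => k4 g (cent_le_cent1 τP (a3 (a2 hg))) (odd_ord a5 (a2 hg))
  have Uc : ∀ x ∈ U, ∀ y ∈ U, x * y = y * x := fun x hx y hy => a4 x (a2 hx) y (a2 hy)
  have oU := odd_of_le a2 a5
  have sU : s ∈ 𝐍(U) := a7 (cent_le_norm P (le_cent1_iff.1 hP.cen))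
  have n2 : 2 ≤ n := by
    by_contra d
    have := h.ar.q3
    interval_cases n <;> omega
  have U9 : 9 ∣ ♯U := (pow_dvd_pow 3 n2).trans (hP.card ▸ card_dvd_of_le' a1)
  have pP : IsPGroup 3 P := isPGroup_of_card hP.card
  have hb : ∀ {X : Subgroup G}, X ≤ K → PiG {3}ᶜ X → X ⊓ 𝐂[s] = ⊥ := fun hX h => le_bot_iff.1
    ((le_inf inf_le_left ((inf_le_inf_right _ hX).trans Ks)).trans (h.inf_eq_bot' (piG_singleton_iff.2 pP)).le)
  have M1 := core_nrm {3}ᶜ K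
  have rM : ¬ r ∣ ♯(core {3}ᶜ K) := fun d => by
    have nM := isNilpotent_of_comm (comm_iff_le_cent.2 fun y hy => mem_cent_iff.2 fun x hx =>
      (INV (odd_of_le M1.le k2) (sq1 h5) (normalizer_le_normalizer_core _ _ sK)
        (hb M1.le (core_piG _ _))).2 x hx y hy)
    exact hU _ ((syl_core_of_nil nM).ne_bot d) (core_isPGroup _)
      (U9.trans (card_dvd_of_le' (UK.trans (M1.core {r}).norm)))
  have rN : r ∣ ♯(K ⊓ 𝐍(U) : Subgroup G) := by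
    have : K ≤ core {3}ᶜ K ⊔ K ⊓ 𝐍(U) := fun g hg => by
      obtain ⟨a, ha, b, hb, hb', rfl⟩ := OP pp (sol_odd k2) (a9.of_le UK le_top) Uc g hg
      exact mul_mem (mem_sup_left ha) (mem_sup_right ⟨hb, hb'⟩)
    exact (hr.dvd_mul.1 ((h2 ▸ orderOf_dvd_card' (this (k4 y (mem_cent1_iff.2 h4.symm)
      (h2 ▸ f1.of_dvd_nat hk)))).trans (card_sup_dvd (inf_le_left.trans M1.norm)))).resolve_left rM
  obtain ⟨S, hS, sS⟩ := exists_invariant_syl r (A := zpowers s) (K := K ⊓ 𝐍(U))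
    (le_normalizer_inf (zpowers_le.2 sK) ((zpowers_le.2 sU).trans le_normalizer))
    (by rw [Nat.card_zpowers, h5]; exact Nat.coprime_two_left.2 (odd_of_le inf_le_left k2)) (Or.inl inferInstance)
  obtain ⟨x, hx, ox⟩ := exists_orderOf_eq_prime hr (hS.hall.dvd_card hr rfl rN)
  have SK := hS.le.trans inf_le_left
  have ix := (INV (odd_of_le SK k2) (sq1 h5) (sS (mem_zpowers s))
    (hb SK (piG_compl_of_isPGroup_ne hS.isPGroup r3))).1 x hx
  have xU : zpowers x ≤ 𝐍(U) := zpowers_le.2 (hS.le hx).2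
  have n9 : ¬ 9 ∣ ♯(U ⊓ 𝐂(zpowers x) : Subgroup G) := fun d => hU _ (zpowers_ne_bot.2 (ne1 hr ox)) (pg_zp ox)
    (d.trans (card_dvd_of_le' (inf_le_right.trans (cent_le_norm _))))
  have τC : zpowers τ ≤ U ⊓ 𝐂(zpowers x) :=
    zpowers_le.2 ⟨a1 τP, by rw [cent_zpowers]; exact mem_cent1_comm.1 (k1 (SK hx))⟩
  have c3 : ♯(U ⊓ 𝐂(zpowers x) : Subgroup G) = 3 := by
    obtain ⟨j, hj⟩ := IsPGroup.iff_card.1 (isPGroup_of_le (inf_le_left (b := 𝐂(zpowers x))) a9.isPGroup)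
    have := card_le_of_le' τC
    rw [Nat.card_zpowers, h1] at this
    rw [hj] at n9 this ⊢
    rcases j with _ | _ | j
    · omega
    · rfl
    · exact absurd (pow_dvd_pow 3 (show 2 ≤ j + 1 + 1 by omega)) n9
  have Cs : U ⊓ 𝐂(zpowers x) ≤ 𝐂[s] := by
    rw [← eq_of_le_of_card_le τC (by rw [c3, Nat.card_zpowers, h1])]
    exact zpowers_le.2 (hP.cen τP)
  have dp := dp_of_coprime_comm xU (by
    rw [Nat.card_zpowers, ox]
    exact ((piG_compl_of_isPGroup_ne a9.isPGroup r3.symm).coprime_prime).symm)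
    (comm_iff_le_cent.2 fun y hy => mem_cent_iff.2 fun x hx => Uc x hx y hy)
  have sV : s ∈ 𝐍(⁅U, zpowers x⁆) :=
    le_normalizer_commutator (zpowers_le.2 sU) (zpowers_le.2 (norm_zp_i ix)) (mem_zpowers s)
  obtain ⟨Y, hY, cY⟩ := exY Uc oU (sq1 h5) sU
  rw [a10, hP.card] at cY
  have YV : Y ≤ ⁅U, zpowers x⁆ := fun a ha => by
    obtain ⟨a1, a2⟩ := (hY a).1 ha
    obtain ⟨c, hc, v, hv, rfl⟩ := dp.mem_iff.1 a1
    rw [← conj_mul, ← mem_cent1_iff.1 (Cs hc), mul_inv_cancel_right] at a2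
    refine mul_mem (mem_of_sq (odd_ord oU hc.1) ?_) hv
    convert inv_mem (mul_mem (conj_mem_of_mem_normalizer sV hv) hv) using 1
    rw [eq_inv_iff_mul_eq_one, mul_assoc, ← mul_assoc c (s * v * s⁻¹), a2, Uc _ hc.1 _ (dp.le_right hv)]
    group
  have cx : ∀ g : G, s * g * s⁻¹ = x * s * x⁻¹ * g * (x * s * x⁻¹)⁻¹ → g ∈ 𝐂(zpowers x) := fun g hg => by
    rw [cent_zpowers, mem_cent1_comm]
    refine mem_of_sq (ox ▸ f1.of_dvd_nat hk) (mem_cent1_iff.2 ?_)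
    have e1 : x * s * x⁻¹ = s * (x * x)⁻¹ := by
      calc _ = s * (s⁻¹ * x * s⁻¹⁻¹) * x⁻¹ := by group
        _ = _ := by rw [inv2 h5, ix]; group
    rw [e1] at hg
    generalize x * x = z at hg
    calc _ = z * (s⁻¹ * (s * g * s⁻¹) * s) := by group
      _ = _ := by rw [hg]; group
  have YY : Y ⊓ cj x Y = ⊥ := (eq_bot_iff_forall _).2 fun g hg => by
    have b1 := ((hY g).1 hg.1).2
    have b2 := ((hY _).1 (mem_cj.1 hg.2)).2
    have b3 := Cs ⟨((hY g).1 hg.1).1, cx g (by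
      calc _ = x * (x⁻¹ * g * x)⁻¹ * x⁻¹ := by rw [b1]; group
        _ = _ := by rw [← b2]; group)⟩
    exact eq_one_of_inv (odd_ord oU ((hY g).1 hg.1).1) (by rw [← b1, ← mem_cent1_iff.1 b3, mul_inv_cancel_right])
  have YU : Y ≤ U := fun a ha => ((hY a).1 ha).1
  have Y'V : cj x Y ≤ ⁅U, zpowers x⁆ := by
    rw [← cj_eq_iff_mem_normalizer.2 (right_le_normalizer_commutator U _ (mem_zpowers x))]; exact cj_mono _ YV
  have e1 := card_le_of_le' (sup_le YV Y'V)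
  rw [card_sup_of_inf_eq_bot (le_normalizer_of_conj_mem fun a ha b hb => by
    rwa [Uc a (dp.le_right (Y'V ha)) b (YU hb), mul_inv_cancel_right]) YY, card_cj] at e1
  have e2 := dp.card
  rw [c3, cY] at e2
  obtain ⟨w, T, hTT, TP⟩ := (h.cf s h5).pM he P hP
  have reg : SemiReg Y T := fun a ha a1 => by
    by_contra d
    exact hT s w T hTT a ha a1 ((dvd_card_of_isPGroup (isPGroup_of_le (inf_le_left.trans YU) a9.isPGroup) d).trans
      (card_dvd_of_le' inf_le_right))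
  have e3 := reg.card_dvd fun g hg => nY hY (a7 (TP hg)) (mem_cent1_iff.1 (hTT.cen hg))
  rw [hTT.card] at e3
  have e4 := f11 he
  have e5 := card_pos' Y
  by_cases Y1 : ♯Y = 1
  · refine n9 ?_
    have : U ≤ 𝐂[s] := by
      rw [← eq_of_le_of_card_le a1 (by rw [cY, Y1, hP.card, mul_one])]; exact hP.cen
    suffices U ≤ 𝐂(zpowers x) by rwa [inf_eq_left.2 this]
    refine fun g hg => cx g ?_
    have b := mem_cent1_iff.1 (this (conj_mem_of_mem_normalizer' (xU (mem_zpowers x)) hg))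
    calc _ = x * (x⁻¹ * g * x * s) * s⁻¹ * x⁻¹ := by rw [← mem_cent1_iff.1 (this hg)]; group
      _ = _ := by rw [b]; group
  obtain ⟨j, hj⟩ := odd_of_le YU oU
  have e6 : 2 * k ∣ ♯Y - 1 := Nat.Coprime.mul_dvd_of_dvd_of_dvd (Nat.coprime_two_left.2 f1) ⟨j, by omega⟩ e3
  have e7 := Nat.le_of_dvd (by omega) e6
  have e8 : 3 ^ n ≤ ♯Y := by omega
  nlinarith

end Cfsg.Agent.JR
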