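import Cfsg.Agent.JR.G1

/-! Helper lemmas for the pieces J5a, J5b. -/

set_option autoImplicit false
set_option linter.unusedSectionVars false
set_option linter.unusedVariables false

namespace Cfsg.Agent.JR.J5

open Subgroup Cfsg.Agent.FT Cfsg.Agent.JR

universe u
variable {G : Type u} [Group G] [Finite G] {p n m k : ℕ} {e : ℤ}

theorem mem_of_sq {g : G} (ho : Odd (orderOf g)) {H : Subgroup G} (h : g * g ∈ H) : g ∈ H := by
  obtain ⟨a, ha⟩ := ho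
  have : g = (g * g) ^ (a + 1) := by
    rw [← sq, ← pow_mul, show 2 * (a + 1) = orderOf g + 1 by omega, pow_succ, pow_orderOf_eq_one, one_mul]
  rw [this]; exact pow_mem h _

theorem odd_ord {K : Subgroup G} (hK : Odd ♯K) {x : G} (hx : x ∈ K) : Odd (orderOf x) :=
  hK.of_dvd_nat (orderOf_dvd_card' hx)

theorem sq1 {t : G} (ht : orderOf t = 2) : t * t = 1 := by rw [← sq, ← ht, pow_orderOf_eq_one]

theorem inv2 {t : G} (ht : orderOf t = 2) : t⁻¹ = t := inv_eq_of_mul_eq_one_left (sq1 ht)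

theorem eq_one_of_inv {x : G} (ho : Odd (orderOf x)) (h : x⁻¹ = x) : x = 1 :=
  mem_bot.1 (mem_of_sq ho (by nth_rw 1 [← h]; simp))

theorem odd_prime {r : ℕ} (hr : r.Prime) {a : ℕ} (ha : Odd a) (h : r ∣ a) : Odd r := ha.of_dvd_nat h

theorem mem_or {t g : G} {T : Subgroup G} (ht : orderOf t = 2) (hT : T ≤ 𝐂[t])
    (ho : Odd (orderOf g)) (h : g ∈ T ∨ g * t ∈ T) : g ∈ T := by
  rcases h with h | h
  · exact h
  refine mem_of_sq ho ?_
  have h1 := mem_cent1_iff.1 (hT h)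
  convert mul_mem h h using 1
  rw [← mul_assoc, mul_assoc g t g, show t * g = g * t from
    mul_right_cancel (b := t) (by rw [h1, mul_assoc]), mul_assoc, mul_assoc, sq1 ht, mul_one]

theorem V4_le {t w : G} {H : Subgroup G} (h1 : t ∈ H) (h2 : w ∈ H) : V4 t w ≤ H :=
  sup_le (zpowers_le.2 h1) (zpowers_le.2 h2)

theorem t_mem (t w : G) : t ∈ V4 t w := mem_sup_left (mem_zpowers t)
theorem w_mem (t w : G) : w ∈ V4 t w := mem_sup_right (mem_zpowers w)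

theorem cop4 {t w : G} (h : FG t w) {K : Subgroup G} (hK : Odd ♯K) : (♯(V4 t w)).Coprime ♯K := by
  rw [card_V4 h]; exact (Nat.coprime_two_left.2 hK).pow_left 2

theorem norm_zp {g x : G} (h : g * x * g⁻¹ ∈ zpowers x) : g ∈ 𝐍(zpowers x) :=
  mem_normalizer_of_cj_le (by rw [cj_zpowers]; exact zpowers_le.2 h)

theorem norm_zp_c {g x : G} (h : x * g = g * x) : g ∈ 𝐍(zpowers x) :=
  norm_zp (by rw [← h, mul_inv_cancel_right]; exact mem_zpowers x)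

theorem norm_zp_i {g x : G} (h : g * x * g⁻¹ = x⁻¹) : g ∈ 𝐍(zpowers x) :=
  norm_zp (by rw [h]; exact inv_mem (mem_zpowers x))

theorem norm_cent1 {g x : G} (h : g ∈ 𝐍(zpowers x)) : g ∈ 𝐍(𝐂[x]) := by
  rw [← cent_zpowers]; exact le_normalizer_centralizer le_rfl h

theorem ne1 {x : G} {r : ℕ} (hr : r.Prime) (h : orderOf x = r) : x ≠ 1 := fun e =>
  hr.one_lt.ne' (by rw [← h, e, orderOf_one])

theorem nI {K : Subgroup G} {a b : G} (h1 : a ∈ 𝐍(K)) (h2 : a * b = b * a) : a ∈ 𝐍((K ⊓ 𝐂[b] : Subgroup G)) :=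
  zpowers_le.1 (le_normalizer_inf (zpowers_le.2 h1) (zpowers_le.2 (norm_cent1 (norm_zp_c h2.symm))))

theorem pg_zp {r : ℕ} {x : G} (h : orderOf x = r) : IsPGroup r (zpowers x) :=
  isPGroup_of_card_prime (by rw [Nat.card_zpowers, h])

theorem sol_odd {K : Subgroup G} (hK : Odd ♯K) : Group.IsSolvable K := odd_order_solvable hK

theorem cyc_uniq {T : Subgroup G} (hT : IsCyclic T) {r : ℕ} (hr : r.Prime) {x y : G} (hy : y ∈ T)
    (ho : orderOf y = r) (hx : x ∈ T) (h : x ^ r = 1) : x ∈ zpowers y := by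
  classical
  haveI := Fintype.ofFinite T
  have h1 := IsCyclic.card_pow_eq_one_le (α := T) hr.pos
  have h2 : (Finset.univ.filter fun a : T => a.1 ∈ zpowers y) =
      Finset.univ.filter fun a : T => a ^ r = 1 := by
    refine Finset.eq_of_subset_of_card_le (fun a ha => ?_) (h1.trans ?_)
    · obtain ⟨j, hj⟩ := (Finset.mem_filter.1 ha).2
      refine Finset.mem_filter.2 ⟨Finset.mem_univ _, Subtype.ext ?_⟩
      simp only [SubgroupClass.coe_pow, ← hj, OneMemClass.coe_one]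
      rw [← zpow_natCast, ← zpow_mul, mul_comm, zpow_mul, ← ho, zpow_natCast, pow_orderOf_eq_one, one_zpow]
    · rw [← ho, ← Nat.card_zpowers, ← Fintype.card_subtype, ← Nat.card_eq_fintype_card]
      exact Nat.card_le_card_of_injective
        (fun a : zpowers y => ⟨⟨a.1, zpowers_le.2 hy a.2⟩, a.2⟩) fun a b e => Subtype.ext (by simpa using e)
  have : (⟨x, hx⟩ : T) ∈ Finset.univ.filter fun a : T => a ^ r = 1 :=
    Finset.mem_filter.2 ⟨Finset.mem_univ _, Subtype.ext h⟩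
  rw [← h2] at this
  exact (Finset.mem_filter.1 this).2

section TT
variable {t w y : G} {T : Subgroup G} (h : TT k t w T)
include h

theorem Tcomm {a b : G} (ha : a ∈ T) (hb : b ∈ T) : a * b = b * a :=
  mem_cent_iff.1 (comm_iff_le_cent.1 (comm_of_isCyclic h.cyc) hb) a ha

theorem Tcent (hy : y ∈ T) (h1 : y ≠ 1) {g : G} (hg : g ∈ 𝐂[t]) (hc : g * y = y * g)
    (ho : Odd (orderOf g)) : g ∈ T := mem_or h.fg.t2 h.cen ho (h.cent y hy h1 g hg hc)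

theorem Tnrm (hy : y ∈ T) (h1 : y ≠ 1) {g : G} (hg : g ∈ 𝐂[t]) (hc : g * y * g⁻¹ ∈ T)
    (ho : Odd (orderOf g)) : g ∈ T := by
  have key : ∀ w', orderOf w' = 2 → (∀ y ∈ T, w' * y * w'⁻¹ = y⁻¹) → g * w' ∈ T → g ∈ T :=
    fun w' h2 hi hm => mem_of_sq ho (by
      have := hi _ hm
      rw [mul_inv_rev, ← mul_assoc, mul_inv_cancel_right, inv2 h2, mul_right_inj] at this
      nth_rw 1 [this]; simp)
  rcases h.nrm y hy h1 g hg hc with h2 | h2 | h2 | h2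
  · exact h2
  · exact mem_or h.fg.t2 h.cen ho (Or.inr h2)
  · exact key w h.fg.u2 h.inv h2
  · exact key _ (TT.mul h).fg.u2 (TT.mul h).inv (by rwa [← mul_assoc])

theorem Tdisj (hk : Odd k) {x : G} (hx : x ∈ T) (hc : x ∈ 𝐂[w]) : x = 1 :=
  eq_one_of_inv (odd_ord (h.card ▸ hk) hx) (by rw [← h.inv x hx, ← mem_cent1_iff.1 hc]; simp)

theorem Tbot (hk : Odd k) {K : Subgroup G} (hK : K ⊓ 𝐂[t] ≤ T) : K ⊓ 𝐂[t] ⊓ 𝐂[w] = ⊥ :=
  (eq_bot_iff_forall _).2 fun x hx => Tdisj h hk (hK hx.1) hx.2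

theorem Tinv' {a : G} (ha : a ∈ T) : t * w * a * (t * w)⁻¹ = a⁻¹ := (TT.mul h).inv a ha

end TT

theorem Pcent {q : ℕ} {t z : G} {P : Subgroup G} (h : PT p q t P) (hz : z ∈ P) (h1 : z ≠ 1) {g : G}
    (hg : g ∈ 𝐂[t]) (hc : g * z = z * g) (ho : Odd (orderOf g)) : g ∈ P :=
  mem_or h.t2 h.cen ho (h.cent z hz h1 g hg hc)

theorem syl_eq {t w : G} (h : FG t w) {K V V' : Subgroup G} (hK : Odd ♯K) (h1 : V4 t w ≤ 𝐍(K))
    (h0 : K ⊓ 𝐂[t] ⊓ 𝐂[w] = ⊥) {l : ℕ} (hl : l.Prime) (hV : Syl l V K) (hV' : Syl l V' K)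
    (a : V4 t w ≤ 𝐍(V)) (a' : V4 t w ≤ 𝐍(V')) : V = V' := by
  haveI := Fact.mk hl
  obtain ⟨c, hc, e⟩ := hV.hall.exists_cent_cj_eq hV'.hall h1 (cop4 h hK) (sol_odd hK) a a'
  have : c = 1 := mem_bot.1 (h0 ▸ ⟨⟨hc.1, cent_le_cent1 (t_mem t w) hc.2⟩, cent_le_cent1 (w_mem t w) hc.2⟩)
  rw [← e, this, cj_one]

theorem inv_comm (ha : AG G) {t w : G} (h : FG t w) {K : Subgroup G} (hK : Odd ♯K) (h1 : V4 t w ≤ 𝐍(K))
    (h0 : K ⊓ 𝐂[t] ⊓ 𝐂[w] = ⊥) {l : ℕ} (hl : l.Prime) {x x' : G} (hx : x ∈ K) (hx' : x' ∈ K)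
    (o : orderOf x = l) (o' : orderOf x' = l) (a : V4 t w ≤ 𝐍(zpowers x)) (a' : V4 t w ≤ 𝐍(zpowers x')) :
    x * x' = x' * x := by
  obtain ⟨V, hV, b, c⟩ := ISY hl h1 (cop4 h hK) (sol_odd hK) (zpowers_le.2 hx) (pg_zp o) a
  obtain ⟨V', hV', b', c'⟩ := ISY hl h1 (cop4 h hK) (sol_odd hK) (zpowers_le.2 hx') (pg_zp o') a'
  obtain rfl := syl_eq h hK h1 h0 hl hV hV' c c'
  exact AG.comm ha hl hV.isPGroup _ (b (mem_zpowers _)) _ (b' (mem_zpowers _))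

theorem card_le_mul {A S : Subgroup G} (h : A ≤ 𝐍(S)) {j : G} (hj : j ∈ S) :
    (𝐂[j]).relIndex A ≤ ♯S := by
  refine Nat.card_le_card_of_injective (fun q : A ⧸ (𝐂[j]).subgroupOf A =>
    (⟨q.out.1 * j * q.out.1⁻¹, conj_mem_of_mem_normalizer (h q.out.2) hj⟩ : S)) fun q q' e => ?_
  rw [← q.out_eq', ← q'.out_eq', QuotientGroup.eq, mem_subgroupOf, mem_cent1_iff]
  have := congrArg Subtype.val e
  simp only at this
  simp only [coe_mul, coe_inv]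
  calc _ = q.out.1⁻¹ * (q'.out.1 * j * q'.out.1⁻¹) * q'.out.1 := by group
    _ = _ := by rw [← this]; group

variable (h : JR G p n m k e)
include h

theorem typT {j x : G} (hj : orderOf j = 2) (hx : x ∈ 𝐂[j]) {r : ℕ} (hr : r.Prime) (ho : orderOf x = r)
    (hk : r ∣ k) : ∃ w T, TT k j w T ∧ x ∈ T := by
  obtain ⟨f1, -, -, f4, -, f6, -⟩ := Ar.facts h.ar
  rcases JR.typ h hj hx hr ho (fun e => by have := odd_prime hr f1 hk; rw [e] at this; exact absurd this (by decide))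
    with ⟨h1, -⟩ | ⟨-, h1⟩ | ⟨rfl, -⟩
  · exact absurd (Nat.eq_one_of_dvd_coprimes f4 h1 hk) hr.one_lt.ne'
  · exact h1
  · exact absurd (Nat.eq_one_of_dvd_coprimes f6 dvd_rfl hk) hr.one_lt.ne'

theorem e_one {t u : G} {P : Subgroup G} (hP : PT p (p ^ n) t P) (hf : FG t u) (hu : u ∈ 𝐍(P)) : e = 1 := by
  obtain ⟨f1, f2, -, -, -, -, -, -, -, -, f11⟩ := Ar.facts h.ar
  refine h.ar.he.resolve_right fun he => ?_
  have h1 : V4 t u ≤ 𝐍(P) ⊓ 𝐂[t] := V4_le ⟨cent_le_norm P (le_cent1_iff.1 hP.cen), mem_cent1_self t⟩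
    ⟨hu, mem_cent1_iff.2 hf.comm.symm⟩
  have h2 := card_dvd_of_le' h1
  rw [card_V4 hf, hP.cN, f11 he] at h2
  obtain ⟨a, ha⟩ := (f2.pow (n := n)).mul f1
  rw [mul_left_comm, ha] at h2
  omega

theorem n8 {t w y : G} {T X : Subgroup G} (hT : TT k t w T) (hy : y ∈ T) {r : ℕ} (hr : r.Prime)
    (ho : orderOf y = r) (h1 : t ∈ X) (h2 : ∀ g ∈ X, g ∈ 𝐂[t] → g * y * g⁻¹ ∈ T) : ¬ 8 ∣ ♯X := by
  intro h8
  obtain ⟨S, hS, h3⟩ := exists_syl_ge (p := 2) (pg_zp hT.fg.t2) (zpowers_le.2 h1)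
  have h4 : S ≤ 𝐂[t] ⊓ 𝐍(zpowers y) := fun g hg => by
    have h5 := mem_cent1_iff.2 (AG.comm h.ag Nat.prime_two hS.isPGroup g hg t (h3 (mem_zpowers t)))
    exact ⟨h5, norm_zp (cyc_uniq hT.cyc hr hy ho (h2 g (hS.le hg) h5)
      (by rw [conj_pow, ← ho, pow_orderOf_eq_one]; simp))⟩
  have hk := (Ar.facts h.ar).1
  have h5 := card_dvd_of_le' h4
  rw [(TT.card4 hk hT hy (fun e => hr.one_lt.ne' (by rw [← ho, e, orderOf_one]))).2.1] at h5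
  rw [← card_mul_relIndex hS.le] at h8
  have h6 := ((Nat.Coprime.pow_left 3 ((Nat.Prime.coprime_iff_not_dvd Nat.prime_two).2
    hS.not_dvd)).dvd_of_dvd_mul_right h8).trans h5
  obtain ⟨a, ha⟩ := hk
  omega

/-- the odd core of `C(y)` for `y` in a torus -/
theorem exK {t w y : G} {T : Subgroup G} (hT : TT k t w T) (hy : y ∈ T) (h1 : y ≠ 1) :
    ∃ K ≤ 𝐂[y], Odd ♯K ∧ V4 t w ≤ 𝐍(K) ∧ (∀ g ∈ 𝐂[y], g ∈ K ∨ g * t ∈ K) ∧
      (∀ g ∈ 𝐂[y], Odd (orderOf g) → g ∈ K) ∧ K ⊓ 𝐂[t] ≤ T := by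
  have ht : t ∈ 𝐂[y] := mem_cent1_comm.1 (hT.cen hy)
  obtain ⟨K, a, b, c, d, f, -⟩ := OD (JR.n4T h hT hy h1) hT.fg.t2 ht
  exact ⟨K, a, b, V4_le (c (le_normalizer ht)) (c (norm_cent1 (norm_zp_i (hT.inv y hy)))), d, f,
    fun g hg => Tcent hT hy h1 hg.2 (mem_cent1_iff.1 (a hg.1)) (odd_ord b hg.1)⟩

end Cfsg.Agent.JR.J5
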