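import Cfsg.Agent.JR.J5a

/-! A Frobenius group with complement of order `≥ 5` cannot act faithfully and coprimely on a group of
order `r ^ 3`. -/

set_option autoImplicit false
set_option linter.unusedSectionVars false
set_option linter.unusedVariables false

namespace Cfsg.Agent.JR.J5

open Subgroup Cfsg.Agent.FT

universe u

theorem frob_map {Γ S : Type u} [Group Γ] [Group S] {f : Γ →* S} (hf : Function.Injective f)
    {P H : Subgroup Γ} (h : Frob P H (P ⊔ H)) : Frob (P.map f) (H.map f) ((P ⊔ H).map f) := by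
  refine ⟨⟨(Subgroup.map_sup _ _ _).symm, by rw [← map_inf _ _ _ hf, h.sdp.inf, Subgroup.map_bot], ?_⟩,
    fun e => h.ker_ne ((map_eq_bot_iff_of_injective _ hf).1 e),
    fun e => h.compl_ne ((map_eq_bot_iff_of_injective _ hf).1 e), ?_⟩
  · exact (map_mono h.sdp.norm).trans (le_normalizer_map f)
  · rintro _ ⟨x, hx, rfl⟩ h1
    refine (eq_bot_iff_forall _).2 ?_
    rintro _ ⟨⟨a, ha, rfl⟩, h2⟩
    have : a ∈ P ⊓ 𝐂[x] := ⟨ha, mem_cent1_iff.2 (hf (by simpa using mem_cent1_iff.1 h2))⟩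
    rw [h.reg x hx (fun e => h1 (by rw [e, map_one])), mem_bot] at this
    rw [this, map_one]

theorem noFrob {Γ A : Type u} [Group Γ] [Group A] [Finite Γ] [Finite A] (φ : Γ →* MulAut A)
    (hφ : Function.Injective φ) {r : ℕ} (hr : r.Prime) (hA : Nat.card A = r ^ 3) (hc : ¬ r ∣ Nat.card Γ)
    {P H : Subgroup Γ} (h : Frob P H (P ⊔ H)) (h5 : 5 ≤ ♯H) (hs : Group.IsSolvable ↥(P ⊔ H)) : False := by
  haveI := Fact.mk hr
  haveI : Finite (A ⋊[φ] Γ) := Finite.of_equiv _ SemidirectProduct.equivProd.symm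
  have inj : Function.Injective (SemidirectProduct.inr : Γ →* A ⋊[φ] Γ) := SemidirectProduct.inr_injective
  obtain ⟨M, hM⟩ : ∃ M, M = (SemidirectProduct.inl : A →* A ⋊[φ] Γ).range := ⟨_, rfl⟩
  have cM : ♯M = r ^ 3 := by
    rw [hM, ← hA]; exact (Nat.card_congr (MonoidHom.ofInjective SemidirectProduct.inl_injective).toEquiv).symm
  haveI : M.Normal := by rw [hM, SemidirectProduct.range_inl_eq_ker_rightHom]; infer_instance
  have hW := (Frobenius_Wielandt_fixpoint (M := M) (frob_map inj h)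
    (Group.isSolvable_of_surjective (f := (SemidirectProduct.inr.subgroupMap (P ⊔ H)))
      (MonoidHom.subgroupMap_surjective _ _)) le_normalizer_of_normal (by
      rw [cM, card_map_of_injective inj]
      exact ((hr.coprime_iff_not_dvd.2 hc).coprime_dvd_right (card_subgroup_dvd_card _)).pow_left 3)
    (isSolvable_of_isPGroup (isPGroup_of_card cM))).1
  have pw : ∀ X : Subgroup (A ⋊[φ] Γ), ∃ a ≤ 3, ♯(M ⊓ X : Subgroup _) = r ^ a := fun X =>
    (Nat.dvd_prime_pow hr).1 (cM ▸ card_dvd_of_le' inf_le_left)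
  obtain ⟨a, -, ha⟩ := pw 𝐂((P ⊔ H).map SemidirectProduct.inr)
  obtain ⟨b, -, hb⟩ := pw 𝐂(H.map SemidirectProduct.inr)
  obtain ⟨c, c3, hc⟩ := pw 𝐂(P.map SemidirectProduct.inr)
  have ab : a ≤ b := (Nat.pow_le_pow_iff_right hr.one_lt).1
    (ha ▸ hb ▸ card_le_of_le' (inf_le_inf_left _ (cent_anti (map_mono le_sup_right))))
  have c2 : c ≠ 3 := fun e => h.ker_ne ((eq_bot_iff_forall _).2 fun x hx => hφ (by
    have := eq_of_le_of_card_le (inf_le_left (a := M) (b := 𝐂(P.map SemidirectProduct.inr)))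
      (by rw [hc, e, cM])
    ext z
    have h1 : SemidirectProduct.inl z ∈ M ⊓ 𝐂(P.map SemidirectProduct.inr) := by
      rw [this, hM]; exact ⟨z, rfl⟩
    have h2 := mem_cent_iff.1 h1.2 _ (mem_map_of_mem _ hx)
    have h3 := congrArg SemidirectProduct.left h2
    simpa using h3))
  rw [ha, hb, hc, cM, card_map_of_injective inj, ← pow_mul, ← pow_mul, ← pow_add, ← pow_add] at hW
  have := Nat.pow_right_injective hr.two_le hW
  obtain ⟨d, rfl⟩ := Nat.exists_eq_add_of_le ab
  rw [add_mul] at this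
  rcases d with _ | d
  · omega
  · nlinarith

end Cfsg.Agent.JR.J5
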