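import Cfsg.Agent.JR.J5c

/-! Piece J6: the Sylow subgroups of `G`. -/

set_option autoImplicit false
set_option linter.unusedSectionVars false
set_option linter.unusedVariables false

namespace Cfsg.Agent.JR

open Subgroup Cfsg.Agent.FT Cfsg.Agent.JR.J5

universe u
variable {G : Type u} [Group G] [Finite G] {p n m k : ℕ} {e : ℤ}

theorem j6_sq (h : JR G p n m k e) {x : G} : ∀ j : ℕ, x ^ 2 ^ j = 1 → x * x = 1
  | 0, d => by rw [pow_zero, pow_one] at d; rw [d, one_mul]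
  | 1, d => by rwa [pow_one, sq] at d
  | j + 2, d => j6_sq h (j + 1) (by
      have := h.sq (x ^ 2 ^ j) (by rw [← pow_mul, ← d]; congr 1; ring)
      rwa [← pow_mul, ← pow_succ] at this)

theorem j6_norm {U : Subgroup G} (hc : ∀ x ∈ U, ∀ y ∈ U, x * y = y * x) (ho : Odd ♯U) {t w τ y : G}
    (hf : FG t w) (hτ : τ ∈ 𝐍(U)) (o3 : orderOf τ = 3) (c1 : τ * t * τ⁻¹ = w) (c2 : τ * w * τ⁻¹ = t * w)
    (hy : y ∈ U) (y1 : y ≠ 1) (yt : y * t = t * y) (yw : w * y * w⁻¹ = y⁻¹) :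
    ∃ z ∈ U, z ≠ 1 ∧ z * τ = τ * z := by
  have a2 := conj_mem_of_mem_normalizer hτ hy
  have a3 := conj_mem_of_mem_normalizer hτ a2
  have t3 : τ * τ * τ = 1 := by rw [← pow_three', ← o3, pow_orderOf_eq_one]
  have c3 : τ * (t * w) * τ⁻¹ = t := by rw [← conj_mul, c1, c2, hf.comm, ← mul_assoc, hf.uu, one_mul]
  refine ⟨y * (τ * y * τ⁻¹ * (τ * (τ * y * τ⁻¹) * τ⁻¹)), mul_mem hy (mul_mem a2 a3),
    fun d => y1 (eq_one_of_inv (odd_ord ho hy) ?_), Eq.symm ?_⟩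
  · have b1 : t * (τ * (τ * y * τ⁻¹) * τ⁻¹) * t⁻¹ = (τ * (τ * y * τ⁻¹) * τ⁻¹)⁻¹ := by
      nth_rw 1 2 [← c3]
      rw [← c2]
      simp only [conj_mul, conj_inv, yw]
    have b2 : t * (τ * y * τ⁻¹) * t⁻¹ = (τ * y * τ⁻¹)⁻¹ := by
      nth_rw 1 2 [← c3]
      rw [conj_mul, conj_inv, conj_mul, conj_inv]
      congr 2
      calc _ = t * (w * y * w⁻¹) * t⁻¹ := by group
        _ = (t * y * t⁻¹)⁻¹ := by rw [yw]; group
        _ = _ := by rw [← yt, mul_inv_cancel_right]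
    have b3 : t * (y * (τ * y * τ⁻¹ * (τ * (τ * y * τ⁻¹) * τ⁻¹))) * t⁻¹ = 1 := by rw [d]; simp
    rw [← conj_mul, ← conj_mul, b1, b2, ← yt, mul_inv_cancel_right,
      ← mul_inv_rev, hc _ a3 _ a2, ← inv_eq_of_mul_eq_one_right d, inv_inv] at b3
    exact inv_eq_of_mul_eq_one_left b3
  · calc _ = τ * y * τ⁻¹ * (τ * (τ * y * τ⁻¹) * τ⁻¹) * ((τ * τ * τ) * y * (τ * τ * τ)⁻¹) * τ := by group
      _ = _ := by rw [t3, one_mul, inv_one, mul_one, hc _ (mul_mem a2 a3) _ hy]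

theorem j6_typ3 (h : JR G p n m k e) (h3 : ¬ 3 ∣ m) (hp : p ≠ 3) {s τ : G} (hs : orderOf s = 2)
    (o3 : orderOf τ = 3) (hc : τ * s = s * τ) : ∃ w T, TT k s w T ∧ τ ∈ T := by
  rcases h.typ hs (mem_cent1_iff.2 hc) Nat.prime_three o3 (by decide) with ⟨a, -⟩ | ⟨-, a⟩ | ⟨a, -⟩
  · exact absurd a h3
  · exact a
  · exact absurd a.symm hp

theorem J6a (h : JR G p n m k 1) (h3 : ¬ 3 ∣ m) (hT : TTI G k) : ¬ p * p ^ n ∣ Nat.card G := by
  obtain ⟨-, -, -, -, -, f6, -, f8, -, f10, -⟩ := h.ar.facts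
  haveI := Fact.mk h.ar.pp
  obtain ⟨t, ht⟩ := h.ex
  obtain ⟨P, hP⟩ := (h.cf t ht).exP
  have tP := cent_le_norm P (le_cent1_iff.1 hP.cen)
  obtain ⟨u, hf, hu⟩ : ∃ u, FG t u ∧ u ∈ 𝐍(P) := by
    obtain ⟨S, hS, h1⟩ := exists_syl_ge (H := 𝐍(P) ⊓ 𝐂[t]) (pg_zp ht) (zpowers_le.2 ⟨tP, mem_cent1_self t⟩)
    obtain ⟨u, u1, u2⟩ : ∃ u ∈ S, u ∉ zpowers t := by
      by_contra! d
      have := hS.card_mul_relIndex
      rw [le_antisymm d h1, Nat.card_zpowers, ht, hP.cN, f10 rfl] at this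
      exact hS.not_dvd ⟨p ^ n * m, by rw [le_antisymm d h1]; linarith⟩
    obtain ⟨j, hj⟩ := hS.isPGroup ⟨u, u1⟩
    have := j6_sq h j (congrArg Subtype.val hj)
    exact ⟨u, ⟨ht, two_of_sq this fun d => u2 (d ▸ one_mem _), (mem_cent1_iff.1 (hS.le u1).2).symm,
      fun d => u2 (d ▸ mem_zpowers _)⟩, (hS.le u1).1⟩
  obtain ⟨A, U, a1, a2, -, a4, a5, -, a7, -, a9, -⟩ := CP h hP
  rcases PE h h3 hP hf hu a9 a1 a7 with rfl | ⟨τ, s, b1, b2, b3, b4, b5, b6⟩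
  · intro d
    rw [← card_top, ← a9.card_mul_relIndex, hP.card, mul_comm] at d
    exact a9.not_dvd (Nat.dvd_of_mul_dvd_mul_left (pow_pos h.ar.pp.pos n) d)
  · exfalso
    obtain ⟨z, hz, z1⟩ := hP.ex h
    obtain ⟨x, x1, x2, x3⟩ := j6_norm (fun x hx y hy => a4 x (a2 hx) y (a2 hy)) (odd_of_le a2 a5) hf b2 b1 b3 b4
      (a1 hz) z1 (mem_cent1_iff.1 (hP.cen hz)) (((h.cf t ht).pP rfl P hP u hf hu).1 z hz)
    obtain ⟨w, T, c1, c2⟩ := j6_typ3 h h3 (fun d => by have := f8 d; omega) b5 b1 b6.symm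
    have τ1 := ne1 Nat.prime_three b1
    obtain ⟨j, hj⟩ := IsPGroup.iff_card.1 a9.isPGroup
    refine x2 (mem_bot.1 (inf_eq_bot_of_coprime' (A := U) (B := T) (by rw [hj, c1.card]; exact f6.pow_left j) ▸
      mem_inf.2 ⟨x1, Tcent c1 c2 τ1 (hT s w T c1 τ c2 τ1 (mem_cent1_iff.2 x3)) x3 (odd_ord a5 (a2 x1))⟩))

theorem j6_ex (h : JR G p n m k e) : ∃ t u : G, FG t u :=
  let ⟨t, ht⟩ := h.ex; let ⟨w, _, hT⟩ := (h.cf t ht).exT; ⟨t, w, hT.fg⟩

theorem J6b (h : JR G p n m k (-1)) (h3 : ¬ 3 ∣ m) (hT : TTI G k) : p = 3 := by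
  by_contra hp
  obtain ⟨-, -, f3, -, -, -, -, -, f9, -⟩ := h.ar.facts
  obtain ⟨t, u, hf⟩ := j6_ex h
  obtain ⟨s, τ, hs⟩ := h.st hf
  obtain ⟨w, T, c1, c2⟩ := j6_typ3 h h3 hp hs.s2 hs.t3 hs.ts
  have := (semiReg_of_card_prime (K := Rw t u) (R := zpowers τ)
    (by rw [Nat.card_zpowers, hs.t3]; exact Nat.prime_three) ((eq_bot_iff_forall _).2 fun x hx =>
      eq_one_of_inv (odd_ord (h.oddR hf) hx.1) (by
        rw [← hs.inv x hx.1, ← mem_cent1_iff.1 (hT s w T c1 τ c2 (ne1 Nat.prime_three hs.t3)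
          (cent_zpowers τ ▸ hx.2)), mul_inv_cancel_right]))).card_dvd (zpowers_le.2 (Rw_norm hf hs.tN))
  rw [Nat.card_zpowers, hs.t3, h.cardR hf] at this
  have := h.m1
  omega

theorem J6d (h : JR G p n m k e) (h3 : ¬ 3 ∣ m) (hx : CX G) :
    (∃ g' : ℕ, Nat.card G = 8 * m * g' ∧ g'.Coprime (2 * m)) ∧
    ∃ N : ℕ, Nat.card G = 8 * p ^ n * m * k * N ∧ ∀ r : ℕ, r.Prime → r ∣ m → N ≡ 3 [MOD r] := by
  classical
  obtain ⟨t, u, hf⟩ := j6_ex h
  have ex : ∀ r : ℕ, r.Prime → r ∣ m → ∃ x ∈ Rw t u, orderOf x = r := fun r hr hd =>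
    exists_orderOf_eq_prime hr (by rwa [h.cardR hf])
  refine ⟨?_, (𝐂[t]).index, by rw [← (h.cf t hf.t2).card, card_mul_index], fun r hr hd => ?_⟩
  · obtain ⟨g', hg⟩ := h.cardCW hf ▸ card_subgroup_dvd_card 𝐂(V4 t u)
    refine ⟨g', hg, Nat.Coprime.mul_right (Nat.coprime_two_right.2 (Nat.not_even_iff_odd.1 ?_))
      (Nat.coprime_of_dvd fun r hr d1 d2 => ?_)⟩
    · rintro ⟨a, rfl⟩
      exact h.n16 ⟨m * a, by rw [hg]; ring⟩
    · obtain ⟨x, x1, x2⟩ := ex r hr d2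
      obtain ⟨v, m', d3, d4⟩ := Nat.exists_eq_pow_mul_and_not_dvd (show m ≠ 0 by have := h.m1; omega) r hr.ne_one
      have := (h.ag.pow_dvd (a := v + 1) hr (pg_zp x2) (by
        obtain ⟨c, rfl⟩ := d1
        exact ⟨8 * m' * c, by rw [hg, d4]; ring⟩)).trans
        (card_dvd_of_le' (cent_zpowers x ▸ hx t u hf x x1 (ne1 hr x2)))
      rw [(h.cardW hf).2.2, d4, pow_succ, mul_left_comm] at this
      have := (hr.dvd_mul.1 (Nat.dvd_of_mul_dvd_mul_left (pow_pos hr.pos v) this)).resolve_right d3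
      rcases hr.dvd_mul.1 (show r ∣ 2 ^ 3 * 3 from this) with d | d
      · rw [(Nat.prime_dvd_prime_iff_eq hr Nat.prime_two).1 (hr.dvd_of_dvd_pow d)] at d2
        exact absurd (h.ar.odd.of_dvd_nat d2) (by decide)
      · exact h3 ((Nat.prime_dvd_prime_iff_eq hr Nat.prime_three).1 d ▸ d2)
  obtain ⟨x, x1, x2⟩ := ex r hr hd
  haveI := Fact.mk hr
  haveI := Fintype.ofFinite {j : G // orderOf j = 2}
  let f : Function.End {j : G // orderOf j = 2} := fun j => ⟨x * j.1 * x⁻¹, two_conj j.2 x⟩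
  have h1 : ∀ (a : ℕ) j, ((f ^ a) j).1 = x ^ a * j.1 * (x ^ a)⁻¹ := fun a => by
    induction a with
    | zero => exact fun _ => by simp; rfl
    | succ a ih =>
      intro j
      rw [pow_succ, pow_succ]; exact (ih (f j)).trans (by simp only [f]; group)
  have h2 := Equiv.Perm.card_fixedPoints_modEq (f := f) (p := r) (n := 1)
    (funext fun j => Subtype.ext (by rw [pow_one, h1, ← x2, pow_orderOf_eq_one]; simp; rfl))
  rw [← Nat.card_eq_fintype_card, ← Nat.card_eq_fintype_card] at h2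
  convert h2 using 1
  · refine Nat.card_eq_of_bijective (fun q : G ⧸ 𝐂[t] => ⟨q.out * t * q.out⁻¹, two_conj hf.t2 _⟩)
      ⟨fun q q' d => ?_, fun j => ?_⟩
    · rw [← q.out_eq', ← q'.out_eq', QuotientGroup.eq, mem_cent1_iff]
      have := congrArg Subtype.val d
      simp only at this
      calc _ = q.out⁻¹ * (q'.out * t * q'.out⁻¹) * q'.out := by group
        _ = _ := by rw [← this]; group
    · obtain ⟨g, hg⟩ := h.cj2 hf.t2 j.2
      obtain ⟨c, hc⟩ := QuotientGroup.mk_out_eq_mul 𝐂[t] g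
      refine ⟨g, Subtype.ext ?_⟩
      simp only [hc, ← hg]
      rw [mul_assoc g, mem_cent1_iff.1 c.2]; group
  · have key : ∀ j : G, orderOf j = 2 ∧ x * j * x⁻¹ = j ↔ j ∈ ({t, u, t * u} : Finset G) := fun j => by
      simp only [Finset.mem_insert, Finset.mem_singleton]
      constructor
      · rintro ⟨j2, jx⟩
        have a1 : j ∈ 𝐂[x] := mem_cent1_iff.2 (mul_inv_eq_iff_eq_mul.1 jx).symm
        have a2 := hx t u hf x x1 (ne1 hr x2) a1
        have a3 : j ∈ 𝐂[t] ∨ j ∈ 𝐂[u] ∨ j ∈ 𝐂[t * u] := by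
          simp only [mem_cent1_iff, ← mul_inv_eq_iff_eq_mul]
          have jj : ∀ v, j * (j * v * j⁻¹) * j⁻¹ = v := fun v => by
            calc _ = (j * j) * v * (j * j)⁻¹ := by group
              _ = _ := by rw [sq1 j2]; simp
          rcases (mem_V4 hf).1 (conj_mem_of_mem_normalizer a2 (t_mem t u)) with d | d | d | d
          · exact absurd (by simpa using d) (ne_one_of_two hf.t2)
          · exact Or.inl d
          · have := jj t
            rw [d] at this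
            exact Or.inr (Or.inr (by rw [← conj_mul, d, this, ← hf.comm, mul_inv_cancel_right]))
          · have := jj t
            rw [d, ← conj_mul, d] at this
            refine Or.inr (Or.inl (mul_left_cancel (a := t * u) (by rw [this, mul_assoc, hf.uu, mul_one])))
        obtain ⟨ρ, b1, v, b2, rfl⟩ := h.cenR hf x1 (ne1 hr x2) j a1 a3
        have b3 := mem_cent_iff.1 (Rw_le_cent t u b1) v b2
        have b4 : ρ = 1 := eq_one_of_odd (odd_ord (h.oddR hf) b1) (by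
          calc _ = ρ * v * (v * v)⁻¹ * (v * ρ) := by group
            _ = _ := by rw [V4_sq hf b2, inv_one, mul_one, b3, sq1 j2])
        rw [b4, one_mul] at j2 ⊢
        exact ((mem_V4 hf).1 b2).resolve_left (ne_one_of_two j2)
      · have c := fun v hv => mem_cent_iff.1 (Rw_le_cent t u x1) v hv
        rintro (rfl | rfl | rfl)
        · exact ⟨hf.t2, by rw [← c _ (t_mem _ _), mul_inv_cancel_right]⟩
        · exact ⟨hf.u2, by rw [← c _ (w_mem _ _), mul_inv_cancel_right]⟩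
        · exact ⟨hf.mul.u2, by rw [← c _ (mul_mem (t_mem _ _) (w_mem _ _)), mul_inv_cancel_right]⟩
    rw [← (Finset.card_eq_three.2 ⟨t, u, t * u, hf.ne, hf.mul.ne, fun d => ne_one_of_two hf.t2
      (right_eq_mul.1 d), rfl⟩ : ({t, u, t * u} : Finset G).card = 3), ← Nat.card_eq_finsetCard]
    exact Nat.card_congr ⟨fun j => ⟨⟨j.1, ((key _).2 j.2).1⟩, Subtype.ext ((key _).2 j.2).2⟩,
      fun j => ⟨j.1.1, (key _).1 ⟨j.1.2, congrArg Subtype.val j.2⟩⟩, fun _ => rfl, fun _ => rfl⟩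

theorem J6c (h : JR G 3 n m k (-1)) (hT : TTI G k) :
    ∃ (t w : G) (T U Y : Subgroup G), TT k t w T ∧ Syl 3 U ⊤ ∧ (∀ x ∈ U, ∀ y ∈ U, x * y = y * x) ∧
      T ≤ 𝐍(U) ∧ t ∈ 𝐍(U) ∧ Y ≤ U ∧ T ≤ 𝐍(Y) ∧ t ∈ 𝐍(Y) ∧ ♯U = 3 ^ n * ♯Y ∧
      (∀ a ∈ zpowers t ⊔ T, a ≠ 1 → Y ⊓ 𝐂[a] = ⊥) ∧ ♯(zpowers t ⊔ T : Subgroup G) = 2 * k ∧
      ♯(𝐍(U) ⊓ 𝐂[t] : Subgroup G) = 3 ^ n * (2 * k) ∧
      (Y ≠ ⊥ → ∀ g : G, U ⊓ cj g U ≠ ⊥ → g ∈ 𝐍(U)) := by
  obtain ⟨f1, -, f3, -, f5, f6, -, -, -, -, f11⟩ := h.ar.facts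
  have pp := Nat.prime_three
  haveI := Fact.mk pp
  obtain ⟨t, ht⟩ := h.ex
  obtain ⟨P, hP⟩ := (h.cf t ht).exP
  obtain ⟨w, T, hTT, TP⟩ := (h.cf t ht).pM rfl P hP
  have tP := cent_le_norm P (le_cent1_iff.1 hP.cen)
  obtain ⟨A, U, a1, a2, a3, a4, a5, -, a7, a8, a9, a10, -⟩ := CP h hP
  have Uc : ∀ x ∈ U, ∀ y ∈ U, x * y = y * x := fun x hx y hy => a4 x (a2 hx) y (a2 hy)
  have oU := odd_of_le a2 a5
  obtain ⟨Y, hY, cY⟩ := exY Uc oU (sq1 ht) (a7 tP)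
  rw [a10, hP.card] at cY
  have YU : Y ≤ U := fun a ha => ((hY a).1 ha).1
  have TY : T ≤ 𝐍(Y) := fun g hg => nY hY (a7 (TP hg)) (mem_cent1_iff.1 (hTT.cen hg))
  have tY := nY hY (a7 tP) rfl
  have oT := hTT.odd f1
  have Tt : T ≤ 𝐍(zpowers t) := fun g hg => norm_zp_c (mem_cent1_iff.1 (hTT.cen hg)).symm
  have Yt : ∀ x ∈ Y, x ∈ 𝐂[t] → x = 1 := fun x hx hc => eq_one_of_inv (odd_ord oU (YU hx)) (by
    rw [← ((hY x).1 hx).2, ← mem_cent1_iff.1 hc, mul_inv_cancel_right])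
  have reg : ∀ a ∈ zpowers t ⊔ T, a ≠ 1 → Y ⊓ 𝐂[a] = ⊥ := fun a ha a1 => (eq_bot_iff_forall _).2 fun x hx => by
    refine Yt x hx.1 ?_
    obtain ⟨c, hc, b, hb, rfl⟩ := (mem_sup_of_le_normalizer' Tt).1 ha
    by_cases b1 : b = 1
    · rw [b1, mul_one] at a1 hx
      exact ((mem_zpowers_two ht).1 hc).resolve_left a1 ▸ hx.2
    rcases (mem_zpowers_two ht).1 hc with rfl | rfl
    · exact hT _ w T hTT b hb b1 (by simpa using hx.2)
    · refine hT _ w T hTT (b * b) (mul_mem hb hb) (fun d => b1 (eq_one_of_odd (odd_ord oT hb) d)) ?_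
      convert cent1_le_cent1_pow _ 2 hx.2
      rw [sq, mul_assoc, ← mul_assoc b, mem_cent1_iff.1 (hTT.cen hb), mul_assoc, ← mul_assoc c, sq1 ht, one_mul]
  have cD : ♯(zpowers t ⊔ T : Subgroup G) = 2 * k := by
    rw [card_sup_of_inf_eq_bot Tt (inf_eq_bot_of_coprime' (by
      rw [Nat.card_zpowers, ht]; exact Nat.coprime_two_left.2 oT)), Nat.card_zpowers, ht, hTT.card]
  have e4 := f11 rfl
  refine ⟨t, w, T, U, Y, hTT, a9, Uc, TP.trans a7, a7 tP, YU, TY, tY, cY, reg, cD, ?_, fun Y0 => ?_⟩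
  · rw [← e4, ← hP.cN]
    congr 2
    refine le_antisymm (le_inf ?_ inf_le_right) (inf_le_inf_right _ a7)
    rw [← a10]
    exact le_normalizer_inf inf_le_left (inf_le_right.trans le_normalizer)
  have q11 : 11 ≤ 3 ^ n := by
    have := h.m1
    obtain ⟨j, hj⟩ := h.ar.odd
    omega
  have n3 : 3 ≤ n := by
    by_contra d
    interval_cases n <;> omega
  have qY : 3 ^ n ≤ ♯Y := by
    have := SemiReg.card_dvd reg (sup_le (zpowers_le.2 tY) TY)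
    have h1 := one_lt_card.2 Y0
    rw [cD] at this
    have := Nat.le_of_dvd (by omega) this
    omega
  let Ω : Subgroup G :=
    { carrier := {x | x ∈ U ∧ x ^ 3 = 1}
      one_mem' := ⟨one_mem _, one_pow _⟩
      mul_mem' := fun {a b} ha hb => ⟨mul_mem ha.1 hb.1, by
        rw [Commute.mul_pow (Uc a ha.1 b hb.1), ha.2, hb.2, one_mul]⟩
      inv_mem' := fun {a} ha => ⟨inv_mem ha.1, by rw [inv_pow, ha.2, inv_one]⟩ }
  obtain ⟨M, m1, m2, m3⟩ := SIG (A := Ω) pp a9 Uc (fun x => Iff.rfl) ((Nat.pow_le_pow_right (by decide) n3).trans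
    (hP.card ▸ card_le_of_le' fun x hx => ⟨a1 hx, hP.exp x hx⟩)) fun a ha a1 => sol4 fun d => by
      obtain ⟨j, hj, oj⟩ := exists_orderOf_eq_prime Nat.prime_two ((show 2 ∣ 4 by decide).trans d)
      obtain ⟨P', b1, b2⟩ := typP h oj (mem_cent1_comm.1 hj) (orderOf_eq_prime ha.2 a1)
      exact h.n4P b1 b2 a1 d
  have UM : U ≤ 𝐍(M) := le_normalizer.trans m2
  have cU : (♯U).Coprime ♯M := coprime_of_isPGroup a9.isPGroup (piG_compl_singleton.2 m1)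
  have oM : Odd ♯M := by
    obtain ⟨S, hS, hn⟩ := exists_invariant_syl 2 UM cU (Or.inl (sol_odd oU))
    by_contra d
    obtain ⟨j, hj, oj⟩ := exists_orderOf_eq_prime Nat.prime_two
      (hS.hall.dvd_card Nat.prime_two rfl (even_iff_two_dvd.1 (Nat.not_odd_iff_even.1 d)))
    have b1 := card_le_mul hn hj
    have b2 : ♯(𝐂[j] ⊓ U : Subgroup G) ≤ 3 ^ n := by
      obtain ⟨i, hi⟩ := IsPGroup.iff_card.1 (isPGroup_of_le (inf_le_right (a := 𝐂[j])) a9.isPGroup)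
      have := card_dvd_of_le' (inf_le_left (a := 𝐂[j]) (b := U))
      rw [(h.cf j oj).card, hi, show 8 * 3 ^ n * m * k = 3 ^ n * (8 * (m * k)) by ring] at this
      exact hi ▸ Nat.le_of_dvd (by positivity) ((Nat.Coprime.pow_left i
        ((show Nat.Coprime 3 8 by decide).mul_right (f5.mul_right f6))).dvd_of_dvd_mul_right this)
    have b3 := card_inf_mul_relIndex 𝐂[j] U
    obtain ⟨i, hi⟩ := IsPGroup.iff_card.1 hS.isPGroup
    have b4 : i ≤ 3 := by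
      by_contra d
      exact h.n16 ((pow_dvd_pow 2 (show 4 ≤ i by omega)).trans (hi ▸ card_subgroup_dvd_card S))
    have b5 : ♯S ≤ 2 ^ 3 := hi ▸ Nat.pow_le_pow_right two_pos b4
    have b7 := Nat.mul_le_mul b2 (b1.trans b5)
    rw [b3, cY] at b7
    have := Nat.le_of_mul_le_mul_left b7 (by positivity)
    omega
  have pP : IsPGroup 3 P := isPGroup_of_card hP.card
  have cP := cU.coprime_dvd_left (card_dvd_of_le' a1)
  have Mt : M ⊓ 𝐂[t] = ⊥ := le_bot_iff.1 (H2.le_of_forall_centralizer_le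
    (comm_iff_le_cent.2 fun y hy => mem_cent_iff.2 fun x hx => hP.comm x hx y hy) (fun d => by
      obtain ⟨g, hg⟩ := d.exists_ofOrder_eq_natCard
      have := Nat.le_of_dvd (by decide) (orderOf_dvd_of_pow_eq_one (show g ^ 3 = 1 from Subtype.ext (hP.exp _ g.2)))
      rw [hg, hP.card] at this
      omega) (le_normalizer_inf (a1.trans UM) (hP.cen.trans le_normalizer))
    (cP.coprime_dvd_right (card_dvd_of_le' inf_le_left)) fun z hz z1 x hx =>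
      inf_eq_bot_of_coprime' cP ▸ mem_inf.2 ⟨Pcent hP hz z1 hx.1.2 (mem_cent1_iff.1 hx.2) (odd_ord oM hx.1.1), hx.1.1⟩)
  obtain ⟨iM, cM⟩ := INV oM (sq1 ht) (m2 (a7 tP)) Mt
  have TM : T ≤ 𝐍(M) := (TP.trans a7).trans m2
  have MT : ∀ a ∈ T, a ≠ 1 → M ⊓ 𝐂[a] = ⊥ := fun a ha a1 =>
    le_bot_iff.1 (Mt ▸ inf_le_inf_left _ (hT t w T hTT a ha a1))
  have T0 : T ≠ ⊥ := one_lt_card.1 (by rw [hTT.card]; omega)
  have PM : P ≤ 𝐂(M) := (Frobenius_Wielandt_fixpoint (frob_of_semiReg (K := P) (R := T) (fun a ha a0 =>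
      (eq_bot_iff_forall _).2 fun x hx => mem_bot.1 (inf_eq_bot_of_coprime' (A := P) (B := T)
        (by rw [hP.card, hTT.card]; exact f6.pow_left n) ▸ mem_inf.2 ⟨hx.1, Tcent hTT ha a0 (hP.cen hx.1)
          (mem_cent1_iff.1 hx.2) (odd_ord oU (a1 hx.1))⟩)) TP (one_lt_card.1 (by rw [hP.card]; omega)) T0)
    (isSolvable_sup (isSolvable_of_isPGroup pP) (sol_odd oT) TP) (sup_le (a1.trans UM) TM)
    (Nat.Coprime.coprime_dvd_right (card_sup_dvd TP) (cP.symm.mul_right (SemiReg.coprime MT TM)))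
    (sol_odd oM)).2.1 (SemiReg.cent_eq_bot MT le_rfl T0)
  have MU : M ≤ 𝐍(U) := fun g hg => cent_le_norm U (mem_cent_iff.2 fun a ha => a4 a (a2 ha) g
    ((a8 g (cent_symm PM hg)).resolve_right fun d => by
      have d1 : g * t = 1 := eq_one_of_odd (odd_ord a5 d) (by
        calc _ = g * (t * g * t⁻¹) * (t * t) := by group
          _ = _ := by rw [iM g hg, sq1 ht]; simp)
      rw [eq_inv_of_mul_eq_one_left d1, inv_mem_iff] at hg
      exact not_mem_of_odd oM ht hg))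
  intro g hg
  obtain ⟨a, ha, oa⟩ := exists_orderOf_eq_prime pp (dvd_card_of_isPGroup (isPGroup_of_le inf_le_left a9.isPGroup) hg)
  refine mem_normalizer_of_cj_le (a9.le_of_le_normalizer (isPGroup_cj g a9.isPGroup) le_top fun x hx => ?_)
  obtain ⟨y, hy, b, hb, rfl⟩ := m3 a ⟨ha.1, by rw [← oa, pow_orderOf_eq_one]⟩ (ne1 pp oa) x
    (mem_cent1_iff.2 (h.ag.comm pp (isPGroup_cj g a9.isPGroup) x hx a ha.2))
  exact mul_mem (MU hy) hb

end Cfsg.Agent.JR
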