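import Cfsg.Agent.JR.J7b

/-! Janko-Ree case, piece J7: the virtual character `Θ₀`. -/

set_option autoImplicit false
set_option linter.unusedSectionVars false

namespace Cfsg.Agent.JR

open Subgroup Cfsg.Agent.FT
open scoped Classical ComplexConjugate

universe u
variable {G : Type u} [Group G] [Finite G] {p n m k : ℕ} {e : ℤ} {t w x y : G} {T L H K : Subgroup G}
  {ξ : G → ℂ}

/-- `D = T × ⟨t⟩` -/
def Dg (t : G) (T : Subgroup G) : Subgroup G := T ⊔ zpowers t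
/-- `β = (1 - σ) α` -/
noncomputable def be0 (t w : G) (T L : Subgroup G) : G → ℂ := (triv 𝐂[t] - sg t L) * al t w T
/-- `Θ₀` -/
noncomputable def th0 (t w : G) (T L : Subgroup G) : G → ℂ := Ind 𝐂[t] ⊤ (be0 t w T L)
/-- pairs of involutions -/
noncomputable def ga (K : Subgroup G) (t : G) : G → ℂ := Br.prs (Br.cls K t)

theorem dot_ga (ht : t ∈ K) (tt : t * t = 1) (hξ : Dirr K ξ) :
    dot K (ga K t) ξ = ♯K / (♯(K ⊓ 𝐂[t] : Subgroup G)) ^ 2 * (ξ t ^ 2 / ξ 1) := by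
  rcases hξ with a | a
  · exact Br.dot_prs ht tt a
  · have := Br.dot_prs ht tt a
    rw [dot_neg_right] at this
    simp only [Pi.neg_apply, div_neg, neg_sq, mul_neg] at this
    exact neg_injective this
theorem ga_CF (ht : t ∈ K) : ga K t ∈ FT.CF K := Br.prs_CF ht
theorem th0_CF (t w : G) (T L : Subgroup G) : th0 t w T L ∈ FT.CF ⊤ := Ind_mem_CF le_top _
theorem conj_of_inv {a : G} (ha : a * a = 1) (ho : Odd (orderOf x)) (h1 : a * x * (a * x) = 1) :
    ∃ g ∈ zpowers x, g * a * g⁻¹ = a * x := by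
  obtain ⟨j, hj⟩ := ho
  have hi : a⁻¹ = a := inv_eq_of_mul_eq_one_right ha
  have e1 : a * x * a⁻¹ = x⁻¹ := by rw [hi]; exact eq_inv_of_mul_eq_one_left (by rw [← h1]; group)
  have e2 : a * x ^ (j + 1) * a⁻¹ = (x ^ (j + 1))⁻¹ := by rw [← conj_pow, e1, inv_pow]
  refine ⟨(x ^ (j + 1))⁻¹, inv_mem (pow_mem (mem_zpowers x) _), ?_⟩
  rw [inv_inv, ← e2, inv_mul_cancel_right, mul_assoc, ← pow_add,
    show j + 1 + (j + 1) = orderOf x + 1 by omega, pow_succ, pow_orderOf_eq_one, one_mul]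

namespace Ctx
variable (h : Ctx p n m k e t w T L)
include h

theorem tD : t ∈ Dg t T := mem_sup_right (mem_zpowers t)
theorem TD : T ≤ Dg t T := le_sup_left
theorem mem_D : x ∈ Dg t T ↔ x ∈ T ∨ x * t ∈ T := by
  constructor
  · intro hx
    obtain ⟨a, ha, b, hb, rfl⟩ := (mem_sup_of_le_normalizer' (zpowers_le_normalizer h.tt.tN)).1 hx
    rcases (mem_zpowers_two h.t2).1 hb with rfl | rfl
    · simpa using Or.inl ha
    · rw [mul_assoc, h.ttt, mul_one]; exact Or.inr ha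
  · rintro (a | a)
    · exact h.TD a
    · exact (mul_mem_cancel_right h.tD).1 (h.TD a)
theorem tT : t ∉ T := not_mem_of_odd h.oddT h.t2
theorem DN : Dg t T ≤ 𝐂[t] ⊓ 𝐍(T) := sup_le (le_inf h.tt.cen le_normalizer) (zpowers_le.2 h.tN)
theorem DC : Dg t T ≤ 𝐂[t] := h.DN.trans inf_le_left
theorem cardD : ♯(Dg t T) = 2 * k := by
  rw [card_two h.TD h.tD h.tT fun g hg => h.mem_D.1 hg, h.tt.card]
theorem commD : Dg t T ≤ 𝐂(Dg t T) := by
  rw [Dg, cent_sup, cent_zpowers]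
  exact le_inf (sup_le h.tt.comm (zpowers_le.2 h.tt.tC)) h.DC
theorem wD : w ∉ Dg t T := fun a =>
  let ⟨y, hy, h1⟩ := h.exT
  h.tt.not_comm h.jr.oddk hy h1 (mem_cent_iff.1 (h.commD a) y (h.TD hy)).symm
theorem idxN : ∀ g ∈ 𝐂[t] ⊓ 𝐍(T), g ∈ Dg t T ∨ g * w ∈ Dg t T := fun g hg => by
  rw [h.mem_D, h.mem_D, mul_assoc g w, ← h.fg.comm, ← mul_assoc]
  have := h.casesN hg; tauto
theorem D_two (hx : x ∈ Dg t T) (h1 : x * x = 1) : x = 1 ∨ x = t := by
  rcases h.mem_D.1 hx with a | a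
  · exact Or.inl (eq_one_of_odd (odd_orderOf h.oddT a) h1)
  · refine Or.inr ?_
    have := eq_one_of_odd (odd_orderOf h.oddT a) (by
      rw [mul_assoc, ← mul_assoc t, ← mem_cent1_iff.1 (h.DC hx), mul_assoc, h.ttt, mul_one, h1])
    rw [eq_inv_of_mul_eq_one_left this, inv_of_two h.t2]
theorem N_J (hx : x ∈ 𝐂[t] ⊓ 𝐍(T)) (h1 : x ∉ Dg t T) : x ∈ Jt t := by
  refine ⟨hx.1, two_of_sq ?_ fun a => h1 (a ▸ one_mem _), fun a => h1 (a ▸ h.tD)⟩
  rcases h.casesN hx with a | a | a | a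
  · exact absurd (h.mem_D.2 (Or.inl a)) h1
  · exact absurd (h.mem_D.2 (Or.inr a)) h1
  · exact h.sq_w h.tt a
  · exact h.sq_w h.tt.mul (by rwa [← mul_assoc])
theorem cntN : (Jt t ∩ (𝐂[t] ⊓ 𝐍(T) : Subgroup G)).ncard = 2 * k := by
  have : Jt t ∩ (𝐂[t] ⊓ 𝐍(T) : Subgroup G) = ((𝐂[t] ⊓ 𝐍(T) : Subgroup G) : Set G) \ Dg t T := by
    ext x
    exact ⟨fun a => ⟨a.2, fun b => (h.D_two b (sq_of_two a.1.2.1)).elim (ne_one_of_two a.1.2.1) a.1.2.2⟩,
      fun a => ⟨h.N_J a.1 a.2, a.1⟩⟩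
  rw [this, Set.ncard_sdiff h.DN, ncard_coe, ncard_coe, h.cardN, h.cardD]; omega
theorem cntW : (Jt t ∩ (𝐂(V4 t w) : Subgroup G)).ncard = 4 * m + 2 := by
  obtain ⟨s, τ, hs⟩ := h.jr.st h.fg
  have hn : V4 t w ≤ 𝐍(Rw t w) := (cent_symm (Rw_le_cent t w)).trans (cent_le_norm _)
  have h1 : ♯(Rw t w ⊔ V4 t w : Subgroup G) = m * 4 := by
    rw [card_sup_of_inf_eq_bot hn, h.jr.cardR h.fg, card_V4 h.fg]
    refine inf_eq_bot_of_coprime' ?_
    rw [card_V4 h.fg]; exact (Nat.coprime_two_right.2 (h.jr.oddR h.fg)).pow_right 2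
  have hle : Rw t w ⊔ V4 t w ≤ 𝐂(V4 t w) := sup_le (Rw_le_cent t w) (V4_comm h.fg)
  have hw : w ∈ Rw t w ⊔ V4 t w := mem_sup_right (right_mem_V4 t w)
  have ht : t ∈ Rw t w ⊔ V4 t w := mem_sup_right (left_mem_V4 t w)
  have : Jt t ∩ (𝐂(V4 t w) : Subgroup G) =
      (((𝐂(V4 t w) : Subgroup G) : Set G) \ (Rw t w ⊔ V4 t w : Subgroup G)) ∪ {w, t * w} := by
    ext x
    constructor
    · rintro ⟨a, b⟩
      by_cases c : x ∈ Rw t w ⊔ V4 t w
      · obtain ⟨r, hr, v, hv, rfl⟩ := (mem_sup_of_le_normalizer' hn).1 c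
        have e1 := mem_cent_iff.1 (Rw_le_cent t w hr) v hv
        have e2 := sq_of_two a.2.1
        rw [mul_assoc, ← mul_assoc v, e1, mul_assoc, V4_sq h.fg hv, mul_one] at e2
        obtain rfl := eq_one_of_odd (odd_orderOf (h.jr.oddR h.fg) hr) e2
        rw [one_mul] at a ⊢
        rcases (mem_V4 h.fg).1 hv with d | d | d | d
        · exact absurd d (ne_one_of_two a.2.1)
        · exact absurd d a.2.2
        · exact Or.inr (Or.inl d)
        · exact Or.inr (Or.inr d)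
      · exact Or.inl ⟨b, c⟩
    · rintro (⟨a, b⟩ | rfl | rfl)
      · refine ⟨⟨CW_le t w a, two_of_sq ?_ fun c => b (c ▸ one_mem _), fun c => b (c ▸ ht)⟩, a⟩
        have a' := a
        rw [SetLike.mem_coe, cent_V4] at a'
        obtain ⟨r, hr, v, hv, c⟩ := hs.cen x a'.1 a'.2
        rcases c with rfl | rfl
        · exact absurd (mul_mem_sup hr hv) b
        · have e2 := hs.inv r hr
          have e3 := mem_cent_iff.1 hs.sC v hv
          have e4 := mem_cent_iff.1 (Rw_le_cent t w (inv_mem hr)) v hv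
          calc _ = r * v * (s * r * s⁻¹) * (s * v) * s := by group
            _ = r * (v * r⁻¹) * v * (s * s) := by rw [e2, ← e3]; group
            _ = 1 := by rw [e4, sq_of_two hs.s2, mul_one, mul_inv_cancel_left, V4_sq h.fg hv]
      · exact ⟨⟨h.wC, h.fg.u2, h.fg.ne.symm⟩, hle hw⟩
      · exact ⟨⟨mul_mem (mem_cent1_self t) h.wC, h.fg.mul.u2, h.fg.mul.ne.symm⟩, hle (mul_mem ht hw)⟩
  rw [this, Set.ncard_union_eq (Set.disjoint_right.2 (by
      rintro x (rfl | rfl) a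
      · exact a.2 hw
      · exact a.2 (mul_mem ht hw))), Set.ncard_sdiff hle, ncard_coe, ncard_coe, h.cardCW, h1,
    Set.ncard_pair (fun a => ne_one_of_two h.t2 (by simpa using a.symm))]
  omega
theorem al_w : al t w T w = 0 := by
  simp only [al, Pi.sub_apply, Pi.add_apply]
  rw [triv_of_mem h.wC, h.ind_w h.tN, h.ind_w h.tCW, h.cntN, h.cntW, h.cardN, h.cardCW]
  have := h.m0; have := h.k0
  push_cast; field_simp; ring
theorem al_J (hx : x ∈ Jt t) : al t w T x = 0 := by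
  rcases h.J_cls hx with ⟨g, hg, rfl⟩ | ⟨g, hg, a⟩
  · rw [cfJ (al_CF t w T) hg, h.al_w]
  · rw [← h.al_t, ← a, cfJ (al_CF t w T) hg, h.al_w]
theorem al_CW (hx : x ∈ 𝐂(V4 t w)) (h1 : x ≠ 1) (h2 : x ≠ t) : al t w T x = 0 := by
  by_cases a : x * x = 1
  · exact h.al_J ⟨CW_le t w hx, two_of_sq a h1, h2⟩
  · exact h.al_R hx a
theorem al_supp (hx : x ∈ L) (h1 : al t w T x ≠ 0) : Odd (orderOf x) := by
  by_contra ho
  obtain ⟨j, hj⟩ := Nat.not_odd_iff_even.1 ho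
  have h2 : orderOf (x ^ j) = 2 := by
    have := orderOf_pos x
    rw [orderOf_pow' x (by omega), hj, Nat.gcd_eq_right ⟨2, by omega⟩, ← two_mul, Nat.mul_div_cancel _ (by omega)]
  have hf : FG t (x ^ j) := ⟨h.t2, h2, (mem_cent1_iff.1 (pow_mem (h.hL hx) j)).symm, fun a => h.tL (a ▸ pow_mem hx j)⟩
  obtain ⟨g, g1, -, g2, -⟩ := h.jr.cjW hf h.fg
  have hg : g ∈ 𝐂[t] := mem_cent1_iff.2 (by rw [← mul_inv_eq_iff_eq_mul, g1])
  have hc : g * x * g⁻¹ ∈ 𝐂(V4 t w) := by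
    rw [← g2, ← cj_centralizer, conj_mem_cj_iff, cent_V4]
    exact ⟨h.hL hx, cent1_le_cent1_pow x j (mem_cent1_self x)⟩
  refine h1 ?_
  rw [← cfJ (al_CF t w T) hg]
  refine h.al_CW hc (fun a => ho ?_) fun a => h.tL ?_
  · rw [← orderOf_cj g, a]; simp
  · rw [← g1, mul_left_inj, mul_right_inj] at a; exact a ▸ hx
theorem al_triv : dot 𝐂[t] (triv 𝐂[t]) (al t w T) = 1 := by
  rw [dot_al (triv_mem_CF _), ← dot_Res_left (𝐂[t] ⊓ 𝐍(T)), ← dot_Res_left 𝐂(V4 t w), Res_triv inf_le_left,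
    Res_triv (CW_le t w), dot_triv_triv, dot_triv_triv, dot_triv_triv]; ring
theorem al_nrm : dot 𝐂[t] (al t w T) (al t w T) = 2 := by
  have s1 : ∑ a ∈ els (T : Set G), al t w T a = 2 * (k - 1) + (1 - e * (p ^ n : ℕ)) := by
    rw [sum_els_sharp, h.al_one, Finset.sum_congr rfl (g := fun _ => 2) fun a ha =>
      h.al_T (mem_els.1 ha).1 (mem_els.1 ha).2, Finset.sum_const, card_els', ← h.tt.card, ← ncard_sharp T]
    simp [mul_comm]
  have s2 : ∑ a ∈ els (Dg t T : Set G), al t w T a = 2 * ∑ a ∈ els (T : Set G), al t w T a := by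
    rw [sum_two h.TD h.tD h.tT h.ttt fun g hg => h.mem_D.1 hg, Finset.mul_sum]
    exact Finset.sum_congr rfl fun a ha => by
      rw [mem_cent1_iff.1 (h.tt.cen (mem_els.1 ha)), h.al_t, two_mul]
  have s3 : ∑ a ∈ els ((𝐂[t] ⊓ 𝐍(T) : Subgroup G) : Set G), al t w T a = ∑ a ∈ els (Dg t T : Set G), al t w T a := by
    rw [sum_two h.DN h.wN h.wD h.fg.uu h.idxN]
    exact Finset.sum_congr rfl fun a ha => by
      rw [h.al_J (h.N_J (mul_mem (h.DN (mem_els.1 ha)) h.wN) (by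
        rw [(Dg t T).mul_mem_cancel_left (mem_els.1 ha)]; exact h.wD)), add_zero]
  have s4 : ∑ a ∈ els ((𝐂(V4 t w) : Subgroup G) : Set G), al t w T a = 2 * (1 - e * (p ^ n : ℕ)) := by
    rw [← Finset.sum_subset (s₁ := {1, t}) (by
      intro y hy
      rcases Finset.mem_insert.1 hy with rfl | hy
      · exact mem_els.2 (one_mem _)
      · rw [Finset.mem_singleton.1 hy]; exact mem_els.2 h.tCW) fun y hy hy' => by
      simp only [Finset.mem_insert, Finset.mem_singleton, not_or] at hy'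
      exact h.al_CW (mem_els.1 hy) hy'.1 hy'.2, Finset.sum_pair (ne_one_of_two h.t2).symm]
    have := h.al_t 1
    rw [mul_one] at this
    rw [this, h.al_one]; ring
  rw [dot_al (al_CF t w T), dot_symm_one h.al_triv, dot_triv_right, dot_triv_right, s3, s2, s1, s4, h.cardN, h.cardCW]
  have a1 := h.m0; have a2 := h.k0; have a3 := h.eC
  rw [h.qm]
  have a4 := h.km
  push_cast; field_simp
  rw [a4]; linear_combination (32 * m + 8 * e) * a3
theorem be_vchar : be0 t w T L ∈ VChar 𝐂[t] := mul_vchar (sub_mem (triv_vchar _) h.lin.vchar) (al_vchar t w T)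
theorem th0_vchar : th0 t w T L ∈ VChar ⊤ := Ind_vchar le_top h.be_vchar
theorem be_L (hx : x ∈ L) : be0 t w T L x = 0 := by simp [be0, triv_of_mem (h.hL hx), sg_L hx]
theorem be_t (hx : x ∈ L) : be0 t w T L (x * t) = 2 * al t w T x := by
  have := mul_mem (h.hL hx) (mem_cent1_self t)
  simp only [be0, Pi.mul_apply, Pi.sub_apply, triv_of_mem this, sg_N (h.mulL hx) this]
  rw [mem_cent1_iff.1 (h.hL hx), h.al_t]; ring
theorem be_supp (h1 : Res 𝐂[t] (be0 t w T L) x ≠ 0) : ∃ a ∈ 𝐂[t], Odd (orderOf a) ∧ x = a * t := by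
  have hx : x ∈ 𝐂[t] := by_contra fun a => h1 (Res_of_not_mem _ a)
  rw [Res_of_mem _ hx] at h1
  have h2 := (h.idx x hx).resolve_left fun a => h1 (h.be_L a)
  have h3 : x = x * t * t := by rw [mul_assoc, h.ttt, mul_one]
  rw [h3, h.be_t h2] at h1
  exact ⟨x * t, h.hL h2, h.al_supp h2 (right_ne_zero_of_mul h1), h3⟩
theorem pow_t {a : G} (ha : a ∈ 𝐂[t]) {j : ℕ} (hj : Odd j) (h1 : orderOf a ∣ j) : (a * t) ^ j = t := by
  obtain ⟨i, rfl⟩ := hj
  rw [Commute.mul_pow (mem_cent1_iff.1 ha), orderOf_dvd_iff_pow_eq_one.1 h1, one_mul, pow_succ, pow_mul, sq, h.ttt,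
    one_pow, one_mul]
theorem th0_odd (ho : Odd (orderOf x)) : th0 t w T L x = 0 := by
  rw [th0, Ind_apply, Finset.sum_eq_zero, mul_zero]
  intro g _
  by_contra a
  obtain ⟨a, ha, h1, h2⟩ := h.be_supp a
  have := h.pow_t ha (h1.mul ho) (dvd_mul_right _ _)
  rw [← h2, conj_pow, orderOf_dvd_iff_pow_eq_one.1 (dvd_mul_left _ _)] at this
  exact ne_one_of_two h.t2 (by simpa using this.symm)
theorem th0_t (hx : x ∈ 𝐂[t]) (ho : Odd (orderOf x)) : th0 t w T L (x * t) = 2 * al t w T x := by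
  rw [th0, Ind_apply, ← sum_els_subset (A := ((𝐂[t] : Subgroup G) : Set G)) (B := ((⊤ : Subgroup G) : Set G)) (fun _ _ => mem_top _)
    (fun g => Res 𝐂[t] (be0 t w T L) (g * (x * t) * g⁻¹)) fun g _ hg => by_contra fun a => by
      obtain ⟨a, ha, h1, h2⟩ := h.be_supp a
      have := h.pow_t ha (h1.mul ho) (dvd_mul_right _ _)
      rw [← h2, conj_pow, h.pow_t hx (h1.mul ho) (dvd_mul_left _ _)] at this
      exact hg (mem_cent1_iff.2 (by rw [← mul_inv_eq_iff_eq_mul, this])),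
    Finset.sum_congr rfl (g := fun _ => 2 * al t w T x) fun g hg => by
      rw [Res_id (vchar_CF h.be_vchar), cfJ (vchar_CF h.be_vchar) (mem_els.1 hg), h.be_t (h.odd_L hx ho)],
    sum_els_const]
  have := cardC_ne_zero 𝐂[t]
  field_simp
theorem dot_th0 (hξ : ξ ∈ FT.CF ⊤) {ξ' : G → ℂ} {c : ℂ}
    (h1 : ∀ a ∈ L, Odd (orderOf a) → 2 * ξ (a * t) = c * (ξ' a + ξ' (a * t))) :
    dot ⊤ ξ (th0 t w T L) = c * dot 𝐂[t] ξ' (al t w T) := by
  rw [th0, dot_Ind_right le_top hξ, dot_def, dot_def, sum_two h.hL (mem_cent1_self t) h.tL h.ttt h.idx,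
    sum_two h.hL (mem_cent1_self t) h.tL h.ttt h.idx, mul_left_comm, Finset.mul_sum (a := c)]
  congr 1
  refine Finset.sum_congr rfl fun a ha => ?_
  have ha := mem_els.1 ha
  rw [h.be_L ha, h.be_t ha, mem_cent1_iff.1 (h.hL ha), h.al_t, ← mem_cent1_iff.1 (h.hL ha)]
  by_cases b : al t w T a = 0
  · simp [b]
  · have := h1 a ha (h.al_supp ha b)
    simp only [map_zero, map_mul, map_ofNat]
    linear_combination conj (al t w T a) * this
theorem th0_nrm : dot ⊤ (th0 t w T L) (th0 t w T L) = 4 := by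
  rw [h.dot_th0 (th0_CF t w T L) (ξ' := al t w T) (c := 2) fun a ha ho => by
    rw [h.th0_t (h.hL ha) ho, mem_cent1_iff.1 (h.hL ha), h.al_t]; ring, h.al_nrm]; norm_num
theorem th0_triv : dot ⊤ (triv ⊤) (th0 t w T L) = 1 := by
  rw [h.dot_th0 (triv_mem_CF ⊤) (ξ' := triv 𝐂[t]) (c := 1) fun a ha ho => by
    rw [triv_of_mem (mem_top _), triv_of_mem (h.hL ha), triv_of_mem (mul_mem (h.hL ha) (mem_cent1_self t))]; ring,
    h.al_triv, one_mul]
theorem mem_cls : x ∈ Br.cls ⊤ t ↔ orderOf x = 2 :=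
  ⟨by rintro ⟨g, -, rfl⟩; exact two_conj h.t2 g, fun e => by
    obtain ⟨g, hg⟩ := h.jr.cj2 h.t2 e; exact ⟨g, trivial, hg⟩⟩
theorem ga_w (hx : x ∈ L) : ga 𝐂[t] w (x * t) = 0 := Finset.sum_eq_zero fun a ha => if_neg fun b => by
  have a1 := h.cls_J (mem_els.1 ha)
  have a2 := (h.cls_J b).2.2
  rw [inv_of_two a1.1.2.1, h.lin.map_mul_left a1.1.1, a1.2.2, sg_N (h.mulL hx) (mul_mem (h.hL hx) (mem_cent1_self t))] at a2
  exact h.lin.ne_zero h.wC (by linear_combination -a2 / 2)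
theorem ga_t (hx : x ∈ 𝐂[t]) (ho : Odd (orderOf x)) : ga ⊤ t (x * t) = 2 * ga 𝐂[t] w x := by
  have hxt := mem_cent1_iff.1 hx
  have k1 : ∀ a ∈ Jt t, (orderOf (a⁻¹ * (x * t)) = 2 ↔ a * x * (a * x) = 1) := fun a ha => by
    have hat := mem_cent1_iff.1 ha.1
    have e1 : a * (x * t) * (a * (x * t)) = a * x * (a * x) := by
      calc _ = a * x * (t * a) * x * t := by group
        _ = a * x * a * (t * x) * t := by rw [← hat]; group
        _ = a * x * (a * x) * (t * t) := by rw [← hxt]; group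
        _ = _ := by rw [h.ttt, mul_one]
    rw [inv_of_two ha.2.1]
    refine ⟨fun b => e1 ▸ sq_of_two b, fun b => two_of_sq (e1 ▸ b) fun c => ?_⟩
    have : x = 1 := eq_one_of_odd ho (by
      have d : x * t = a := by rw [← inv_of_two ha.2.1]; exact eq_inv_of_mul_eq_one_right c
      have := sq_of_two ha.2.1
      rwa [← d, mul_assoc, ← mul_assoc t, ← hxt, mul_assoc, h.ttt, mul_one] at this)
    rw [this, one_mul] at c
    exact ha.2.2 (by rw [eq_inv_of_mul_eq_one_left c, inv_of_two h.t2])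
  rw [ga, Br.prs, ← sum_els_subset (A := Jt t) (fun a ha => h.mem_cls.2 ha.2.1) _ fun a ha b => if_neg fun c => b ?_,
    h.sumJ, ga, Br.prs, Finset.mul_sum]
  · refine Finset.sum_congr rfl fun a ha => ?_
    obtain ⟨a1, a2, -⟩ := h.cls_J (mem_els.1 ha)
    have hat := mem_cent1_iff.1 a1.1
    have e2 : t * a * x * (t * a * x) = a * x * (a * x) := by
      calc _ = t * a * (x * t) * a * x := by group
        _ = t * (a * t) * x * a * x := by rw [hxt]; group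
        _ = (t * t) * (a * x * (a * x)) := by rw [hat]; group
        _ = _ := by rw [h.ttt, one_mul]
    have e3 : a⁻¹ * x ∈ Br.cls 𝐂[t] w ↔ a * x * (a * x) = 1 := by
      rw [inv_of_two a1.2.1]
      refine ⟨fun b => sq_of_two (h.cls_J b).1.2.1, fun b => ?_⟩
      obtain ⟨g, hg, c⟩ := conj_of_inv (sq_of_two a1.2.1) ho b
      rw [← c]; exact (Br.cls_conj (zpowers_le.2 hx hg) a).1 (mem_els.1 ha)
    simp only [h.mem_cls, k1 a a1, k1 _ a2, e2, e3, two_mul]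
  · have a2 := h.mem_cls.1 ha
    have c2 := sq_of_two (h.mem_cls.1 c)
    rw [inv_of_two a2] at c c2
    have e1 : a * (x * t) * a⁻¹ = (x * t)⁻¹ := by
      rw [inv_of_two a2]; exact eq_inv_of_mul_eq_one_left (by rw [← c2]; group)
    have e2 := congrArg (· ^ orderOf x) e1
    simp only [conj_pow, inv_pow, h.pow_t hx ho dvd_rfl, inv_of_two h.t2] at e2
    refine ⟨mem_cent1_iff.2 (by rw [← mul_inv_eq_iff_eq_mul, e2]), a2, fun d => ?_⟩
    rw [d, hxt, ← mul_assoc, h.ttt, one_mul, h.mem_cls] at c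
    rw [c] at ho; exact absurd ho (by decide)
theorem th0_ga : dot ⊤ (ga ⊤ t) (th0 t w T L) = 2 * k := by
  have hd : Dirr 𝐂[t] (al t w T - triv 𝐂[t]) := dirr_of_dot (sub_mem (al_vchar t w T) (triv_vchar _)) (by
    rw [dot_sub_left, dot_sub_right, dot_sub_right, h.al_nrm, h.al_triv, dot_symm_one h.al_triv, dot_triv_triv]; ring)
  rw [h.dot_th0 (ga_CF (mem_top t)) (ξ' := ga 𝐂[t] w) (c := 4) fun a ha ho => by
    rw [h.ga_t (h.hL ha) ho, h.ga_w ha]; ring, ← add_sub_cancel (triv 𝐂[t]) (al t w T), dot_add_right,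
    dot_ga h.wC h.fg.uu hd, dot_ga h.wC h.fg.uu (irr_dirr (triv_mem_Irr _)), ← cent_V4, h.cardCW, h.cardC]
  simp only [Pi.sub_apply, h.al_w, h.al_one, triv_of_mem h.wC, triv_one]
  have a1 := h.m0; have a2 := h.q0; have a3 := h.eC; have a4 := h.qm
  have a5 : (e : ℂ) ≠ 0 := left_ne_zero_of_mul_eq_one a3
  push_cast at a2 a4 ⊢
  generalize (p : ℂ) ^ n = q at *
  rw [show 1 - e * q - 1 = -(e * q) by ring]
  field_simp
  rw [a4]; linear_combination (4 * k : ℂ) * a3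
end Ctx

end Cfsg.Agent.JR
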