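import Cfsg.Agent.JR.J7a
import Cfsg.Agent.JR.J7c

/-! Janko-Ree case, piece J7: the order formula. -/

set_option autoImplicit false
set_option linter.unusedSectionVars false

namespace Cfsg.Agent.JR

open Subgroup Cfsg.Agent.FT
open scoped Classical ComplexConjugate

universe u
variable {G : Type u} [Group G] [Finite G] {p n m k : ℕ} {e : ℤ} {t w x y : G} {T L H K : Subgroup G}
  {ξ l l' φ : G → ℂ}

/-- the base character -/
noncomputable def bs (t : G) (T L : Subgroup G) (l : G → ℂ) : G → ℂ :=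
  if l t = 1 then triv (Dg t T) else Res (Dg t T) (sg t L)
/-- `Θ_l` -/
noncomputable def thl (t : G) (T L : Subgroup G) (l : G → ℂ) : G → ℂ := Ind (Dg t T) ⊤ (l - bs t T L l)

theorem thl_CF (t : G) (T L : Subgroup G) (l : G → ℂ) : thl t T L l ∈ FT.CF ⊤ := Ind_mem_CF le_top _
theorem dot_thl (hξ : ξ ∈ FT.CF ⊤) : dot ⊤ ξ (thl t T L l) = dot (Dg t T) ξ (l - bs t T L l) :=
  dot_Ind_right le_top hξ _

namespace Ctx
variable (h : Ctx p n m k e t w T L)
include h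

theorem linD (hl : l ∈ Irr (Dg t T)) : Lin (Dg t T) l := lin_of_comm (comm_iff_le_cent.2 h.commD) hl
theorem lins : Lin (Dg t T) (Res (Dg t T) (sg t L)) := h.lin.Res h.DC
theorem s_t : Res (Dg t T) (sg t L) t = -1 := by rw [Res_of_mem _ h.tD, h.sg_t]
theorem l_t (hl : l ∈ Irr (Dg t T)) : l t = 1 ∨ l t = -1 := by
  have := (h.linD hl).map_mul_left h.tD t
  rw [h.ttt, (h.linD hl).one] at this
  exact mul_self_eq_one_iff.1 this.symm
theorem bs_lin (l : G → ℂ) : Lin (Dg t T) (bs t T L l) := by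
  unfold bs; split_ifs
  · exact lin_triv _
  · exact h.lins
theorem bs_t (hl : l ∈ Irr (Dg t T)) : bs t T L l t = l t := by
  unfold bs; split_ifs with a
  · rw [triv_of_mem h.tD, a]
  · rw [h.s_t, (h.l_t hl).resolve_left a]
theorem bs_T (hy : y ∈ T) (l : G → ℂ) : bs t T L l y = 1 := by
  unfold bs; split_ifs with a
  · exact triv_of_mem (h.TD hy)
  · rw [Res_of_mem _ (h.TD hy), sg_L (h.TL hy)]
theorem eq_of_T (h1 : Lin (Dg t T) l) (h2 : Lin (Dg t T) l') (a : l t = l' t) (b : ∀ y ∈ T, l y = l' y) : l = l' :=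
  cf_ext h1.cf h2.cf fun x hx => by
    rcases h.mem_D.1 hx with c | c
    · exact b x c
    · rw [show x = x * t * t by rw [mul_assoc, h.ttt, mul_one], h1.map_mul_right _ h.tD, h2.map_mul_right _ h.tD,
        a, b _ c]
theorem bs_eq (hl : l ∈ Irr (Dg t T)) (hl' : l' ∈ Irr (Dg t T)) : bs t T L l = bs t T L l' ↔ l t = l' t :=
  ⟨fun a => by rw [← h.bs_t hl, ← h.bs_t hl', a], fun a => by unfold bs; rw [a]⟩
theorem star_t (hl : l ∈ Irr (Dg t T)) : star l t = l t := by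
  rw [star_apply']; rcases h.l_t hl with a | a <;> simp [a]
theorem star_ne (hl : l ∈ Irr (Dg t T)) (h1 : l ≠ bs t T L l) : star l ≠ l := fun a =>
  h1 (h.eq_of_T (h.linD hl) (h.bs_lin l) (h.bs_t hl).symm fun y hy => by
    rw [h.bs_T hy, ← (h.linD hl).mem_cker]
    refine mem_of_sq_mem' (odd_orderOf h.oddT hy) ?_
    rw [(h.linD hl).mem_cker, (h.linD hl).map_mul_left (h.TD hy)]
    nth_rewrite 2 [← a]
    exact (h.linD hl).mul_conj (h.TD hy))
theorem star_bs (l : G → ℂ) : star (bs t T L l) = bs t T L l :=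
  h.eq_of_T (h.bs_lin l).star (h.bs_lin l) (h.star_t (h.bs_lin l).irr) fun y hy => by
    rw [star_apply', h.bs_T hy, map_one]
theorem ne_bs (hl : l ∈ Irr (Dg t T)) (h1 : l ≠ bs t T L l) (l' : G → ℂ) : l ≠ bs t T L l' := fun a =>
  h1 (h.eq_of_T (h.linD hl) (h.bs_lin l) (h.bs_t hl).symm fun y hy => by rw [h.bs_T hy, a, h.bs_T hy])
theorem sqD (hx : x ∈ Dg t T) : x * x ∈ T := h.sqN (h.DN hx)
theorem tiD (hx : x ∈ Dg t T) (h1 : x ≠ 1) (h2 : x ≠ t) {g : G} (hg : g * x * g⁻¹ ∈ Dg t T) :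
    g ∈ 𝐂[t] ⊓ 𝐍(T) := by
  have a1 : x * x ≠ 1 := fun a => (h.D_two hx a).elim h1 h2
  have a2 := h.sqD hg
  rw [conj_mul] at a2
  have a3 : g * (x * x) * g⁻¹ ≠ 1 := by simpa using a1
  have a4 : g * t * g⁻¹ ∈ 𝐂[g * (x * x) * g⁻¹] := by
    rw [← cj_cent1]; exact conj_mem_cj (mem_cent1_comm.1 (h.tt.cen (h.sqD hx)))
  have a5 := h.D_two (h.mem_D.2 (h.tt.cent _ a2 a3 _ (h.tti t w T h.tt _ a2 a3 a4) (mem_cent1_iff.1 a4)))
    (sq_of_two (two_conj h.t2 g))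
  exact h.memN (h.sqD hx) a1 (mem_cent1_iff.2 (by
    rw [← mul_inv_eq_iff_eq_mul, a5.resolve_left (ne_one_of_two (two_conj h.t2 g))])) a2
theorem wD_inv (hx : x ∈ Dg t T) : w * x * w⁻¹ = x⁻¹ := by
  rcases h.mem_D.1 hx with a | a
  · exact h.tt.inv x a
  · have := h.tt.inv _ a
    rw [← mul_assoc, mul_assoc (w * x), (Commute.inv_right h.fg.comm : t * w⁻¹ = w⁻¹ * t), ← mul_assoc, mul_inv_rev,
      inv_of_two h.t2, ← mem_cent1_iff.1 (inv_mem (h.DC hx))] at this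
    exact mul_right_cancel this
theorem commD' (hx : x ∈ Dg t T) (hy : y ∈ Dg t T) : x * y = y * x := mem_cent_iff.1 (h.commD hy) x hx
theorem ind_D (φ : G → ℂ) (hx : x ∈ Dg t T) (h1 : x ≠ 1) (h2 : x ≠ t) : Ind (Dg t T) ⊤ φ x = φ x + φ x⁻¹ := by
  rw [Ind_apply, ← sum_els_subset (A := ((𝐂[t] ⊓ 𝐍(T) : Subgroup G) : Set G)) (B := ((⊤ : Subgroup G) : Set G))
    (fun _ _ => mem_top _) (fun g => Res (Dg t T) φ (g * x * g⁻¹))
    fun g _ hg => Res_of_not_mem _ fun a => hg (h.tiD hx h1 h2 a), sum_two h.DN h.wN h.wD h.fg.uu h.idxN,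
    Finset.sum_congr rfl (g := fun _ => φ x + φ x⁻¹) fun g hg => by
      rw [show g * w * x * (g * w)⁻¹ = g * (w * x * w⁻¹) * g⁻¹ by group, h.wD_inv hx, h.commD' (mem_els.1 hg) hx,
        h.commD' (mem_els.1 hg) (inv_mem hx), mul_inv_cancel_right, mul_inv_cancel_right, Res_of_mem _ hx,
        Res_of_mem _ (inv_mem hx)], sum_els_const]
  have := cardC_ne_zero (Dg t T)
  field_simp
theorem thl_vchar (hl : l ∈ Irr (Dg t T)) : thl t T L l ∈ VChar ⊤ :=
  Ind_vchar le_top (sub_mem (irr_vchar hl) (h.bs_lin l).vchar)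
theorem thl_one (hl : l ∈ Irr (Dg t T)) : thl t T L l 1 = 0 := by
  rw [thl, Ind_one le_top]; simp [(h.linD hl).one, (h.bs_lin l).one]
theorem thl_t (hl : l ∈ Irr (Dg t T)) : thl t T L l t = 0 := by
  rw [thl, Ind_apply, Finset.sum_eq_zero, mul_zero]
  intro g _
  by_cases a : g * t * g⁻¹ ∈ Dg t T
  · rw [(h.D_two a (sq_of_two (two_conj h.t2 g))).resolve_left (ne_one_of_two (two_conj h.t2 g)), Res_of_mem _ h.tD]
    simp [h.bs_t hl]
  · exact Res_of_not_mem _ a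
theorem dot_sharp (hl : l ∈ Irr (Dg t T)) {ξ' : G → ℂ} (a : ∀ x ∈ Dg t T, x ≠ 1 → x ≠ t → ξ x = ξ' x) :
    dot ⊤ ξ (thl t T L l) = dot (Dg t T) ξ' (l - bs t T L l) ∨ ξ ∉ FT.CF ⊤ := by
  refine or_not.imp_left fun hξ => ?_
  rw [dot_thl hξ]
  unfold dot
  congr 1
  refine Finset.sum_congr rfl fun x hx => ?_
  by_cases h1 : x = 1
  · simp [h1, (h.linD hl).one, (h.bs_lin l).one]
  · by_cases h2 : x = t
    · simp [h2, h.bs_t hl]
    · rw [a x (mem_els.1 hx) h1 h2]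
theorem dot_thl_thl (hl : l ∈ Irr (Dg t T)) (hl' : l' ∈ Irr (Dg t T)) (h1 : l ≠ bs t T L l) (h2 : l' ≠ bs t T L l') :
    dot ⊤ (thl t T L l) (thl t T L l') =
      (if l = l' then 1 else 0) + (if star l = l' then 1 else 0) + if l t = l' t then 2 else 0 := by
  have hs := star_mem_Irr hl
  have s1 : star l ≠ bs t T L l' := fun a => h.ne_bs hl h1 l' (by rw [← star_star l, a, h.star_bs])
  rw [(h.dot_sharp hl' (ξ' := (l - bs t T L l) + (star l - bs t T L l)) fun x hx a b => by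
    rw [thl, h.ind_D _ hx a b]
    have := congrFun (h.star_bs l) x
    rw [star_apply'] at this
    simp [char_inv (irr_char hl), char_inv (h.bs_lin l).char, this]).resolve_right (not_not.2 (thl_CF _ _ _ _))]
  simp only [dot_add_left, dot_sub_left, dot_sub_right, dot_irr hl hl', dot_irr hs hl',
    dot_irr_ne hl (h.bs_lin l').irr (h.ne_bs hl h1 l'), dot_irr_ne hs (h.bs_lin l').irr s1,
    dot_irr_ne (h.bs_lin l).irr hl' (h.ne_bs hl' h2 l).symm, dot_irr (h.bs_lin l).irr (h.bs_lin l').irr,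
    h.bs_eq hl hl']
  split_ifs <;> ring
theorem dot_c (hl : l ∈ Irr (Dg t T)) (h1 : l ≠ bs t T L l) (hξ : ξ ∈ FT.CF ⊤) (a b : ℂ)
    (h2 : ∀ x ∈ Dg t T, x ≠ 1 → x ≠ t → ξ x = a + b * sg t L x) :
    dot ⊤ ξ (thl t T L l) = if l t = 1 then -a else -b := by
  have e1 : triv (Dg t T) ≠ Res (Dg t T) (sg t L) := fun a => by
    have := congrFun a t
    rw [h.s_t, triv_of_mem h.tD] at this; norm_num at this
  have e2 : l ≠ triv (Dg t T) := by simpa [bs] using h.ne_bs hl h1 fun _ => 1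
  have e3 : l ≠ Res (Dg t T) (sg t L) := by simpa [bs] using h.ne_bs hl h1 fun _ => 0
  rw [(h.dot_sharp hl (ξ' := a • triv (Dg t T) + b • Res (Dg t T) (sg t L)) fun x hx a b => by
    simp [h2 x hx a b, triv_of_mem hx, Res_of_mem _ hx]).resolve_right (not_not.2 hξ)]
  simp only [dot_add_left, dot_smul_left, dot_sub_right, dot_irr_ne (triv_mem_Irr _) hl e2.symm,
    dot_irr_ne h.lins.irr hl e3.symm, bs]
  split_ifs <;>
    simp [dot_triv_triv, dot_irr_self h.lins.irr, dot_irr_ne (triv_mem_Irr _) h.lins.irr e1,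
      dot_irr_ne h.lins.irr (triv_mem_Irr _) e1.symm]
theorem ga_D (hx : x ∈ Dg t T) (h1 : x ≠ 1) (h2 : x ≠ t) : ga ⊤ t x = 2 * k := by
  rw [ga, Br.prs, Finset.sum_boole]
  have := h.cntN
  rw [← card_els'] at this
  rw [show (2 * k : ℂ) = (2 * k : ℕ) by simp, ← this]
  congr 2; ext a
  simp only [Finset.mem_filter, mem_els, h.mem_cls]
  constructor
  · rintro ⟨a2, c⟩
    have c2 := sq_of_two c
    rw [inv_of_two a2] at c c2
    have e1 : a * x * a⁻¹ = x⁻¹ := by rw [inv_of_two a2]; exact eq_inv_of_mul_eq_one_left (by rw [← c2]; group)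
    have e2 := h.tiD hx h1 h2 (e1 ▸ inv_mem hx)
    refine ⟨⟨e2.1, a2, ?_⟩, e2⟩
    rintro rfl
    rw [h.commD' h.tD hx, mul_inv_cancel_right] at e1
    exact (h.D_two hx (mul_eq_one_iff_eq_inv.2 e1)).elim h1 h2
  · rintro ⟨a1, a2⟩
    have a3 : a ∉ Dg t T := fun b => (h.D_two b (sq_of_two a1.2.1)).elim (ne_one_of_two a1.2.1) a1.2.2
    refine ⟨a1.2.1, (h.N_J (mul_mem (inv_mem a2) (h.DN hx)) ?_).2.1⟩
    rwa [(Dg t T).mul_mem_cancel_right hx, inv_mem_iff]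
theorem th0_D (hx : x ∈ Dg t T) (h1 : x ≠ 1) (h2 : x ≠ t) : th0 t w T L x = 2 + -2 * sg t L x := by
  rcases h.mem_D.1 hx with a | a
  · rw [h.th0_odd (odd_orderOf h.oddT a), sg_L (h.TL a)]; ring
  · have e1 : x = x * t * t := by rw [mul_assoc, h.ttt, mul_one]
    rw [sg_N (fun b => h.mulL b (h.TL a)) (h.DC hx), e1, h.th0_t (h.tt.cen a) (odd_orderOf h.oddT a),
      h.al_T a fun b => h2 (by rw [e1, b, one_mul])]
    ring
theorem fourier (a : ∀ l ∈ Irr (Dg t T), dot (Dg t T) φ (l - bs t T L l) = 0) (hx : x ∈ Dg t T) (h1 : x ≠ 1)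
    (h2 : x ≠ t) : φ x = 0 := by
  have e1 := congrFun (cf_sum_irr (Br.cf_of_comm h.commD (Res_supp (Dg t T) φ))) x
  rw [Res_of_mem _ hx, Finset.sum_apply] at e1
  have r1 := Br.sum_irr_comm h.commD h1
  have r2 := Br.sum_irr_comm h.commD (u := t * x) fun b => h2 (by rw [eq_inv_of_mul_eq_one_right b, inv_of_two h.t2])
  set A := dot (Dg t T) φ (triv (Dg t T))
  set B := dot (Dg t T) φ (Res (Dg t T) (sg t L))
  rw [e1, Finset.sum_congr rfl (g := fun l => (A + B) / 2 * l x + (A - B) / 2 * l (t * x)) fun l hl => by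
    have b := a l hl
    rw [dot_sub_right, sub_eq_zero] at b
    rw [Pi.smul_apply, dot_Res_left, b, (h.linD hl).map_mul_left h.tD, bs, smul_eq_mul]
    split_ifs with c
    · rw [c]; ring
    · rw [(h.l_t hl).resolve_left c]; ring, Finset.sum_add_distrib, ← Finset.mul_sum, ← Finset.mul_sum, r1, r2]
  ring
theorem exl (h5 : 5 ≤ k) : ∃ l ∈ Irr (Dg t T), ∃ l' ∈ Irr (Dg t T), l t = 1 ∧ l' t = 1 ∧ l ≠ triv (Dg t T) ∧
    l' ≠ triv (Dg t T) ∧ l ≠ l' ∧ star l ≠ l' := by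
  have h1 : (IrrK (Dg t T) (zpowers t)).card = k := by
    rw [card_IrrK_of_der_le (by rw [comm_iff_der.1 (comm_iff_le_cent.2 h.commD)]; exact bot_le) (zpowers_le.2 h.tD)]
    have := card_mul_relIndex (zpowers_le.2 h.tD)
    rw [Nat.card_zpowers, h.t2, h.cardD] at this
    omega
  have h2 : ∀ l ∈ IrrK (Dg t T) (zpowers t), l t = 1 := fun l hl =>
    (h.linD (irrK_irr hl)).mem_cker.1 (irrK_ker hl (mem_zpowers t))
  obtain ⟨l, hl, a⟩ := Finset.exists_mem_notMem_of_card_lt_card (s := {triv (Dg t T)})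
    (t := IrrK (Dg t T) (zpowers t)) (by rw [h1]; simp; omega)
  obtain ⟨l', hl', b⟩ := Finset.exists_mem_notMem_of_card_lt_card (s := {triv (Dg t T), l, star l})
    (t := IrrK (Dg t T) (zpowers t)) (by rw [h1]; exact Finset.card_le_three.trans_lt (by omega))
  simp only [Finset.mem_insert, Finset.mem_singleton, not_or] at a b
  exact ⟨l, irrK_irr hl, l', irrK_irr hl', h2 l hl, h2 l' hl', a, b.1, Ne.symm b.2.1, Ne.symm b.2.2⟩
theorem central {c : G → ℂ} (hc : Dirr ⊤ c) (hy : y ∈ T) (h1 : y ≠ 1) (h2 : c y = 1) {A : ℤ} (hA : c 1 = A) :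
    2 * k * A ∣ (Nat.card G : ℤ) := by
  obtain ⟨ε, hε, χ, hχ, rfl⟩ := hc.exists_sgn
  have e1 := isIntegral_central hχ (a := fun x => if x ∈ Br.cls ⊤ y then 1 else 0)
    (mem_CF'.2 ⟨fun x hx => absurd (mem_top x) hx, fun g hg x _ => by simp only [← Br.cls_conj hg x]⟩)
    fun x => by split_ifs; exacts [isIntegral_one, isIntegral_zero]
  simp only [ite_mul, one_mul, zero_mul] at e1
  rw [sum_els_ite, coe_top, Set.univ_inter] at e1
  have e2 := Br.sum_cls (L := ⊤) (t := y) χ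
  rw [Finset.sum_congr rfl (g := fun _ => χ y) fun g hg => cfJ (irr_CF hχ) (mem_top g) y, sum_els_const, card_top,
    top_inf_eq, ← inf_eq_right.2 (h.tti t w T h.tt y hy h1), h.tt.card2 h.jr.oddk hy h1] at e2
  have A0 : (A : ℂ) ≠ 0 := hA ▸ hc.one_ne_zero
  have k0 := h.k0
  simp only [Pi.smul_apply, smul_eq_mul] at h2 hA
  have e3 : (∑ x ∈ els (Br.cls ⊤ y), χ x) / χ 1 = ((Nat.card G : ℚ) / (2 * k * A) : ℚ) := by
    have := hε.mul_self
    have := irr_one_ne_zero hχ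
    push_cast at e2 ⊢
    field_simp
    linear_combination (-A) * e2 + (Nat.card G : ℂ) * (A * ε * h2 * 0 - χ y * hA + χ 1 * h2)
  obtain ⟨z, hz⟩ := cint_of_rat_of_isIntegral e3 e1
  rw [e3] at hz
  refine ⟨z, ?_⟩
  have : (Nat.card G : ℂ) = 2 * k * A * z := by
    push_cast at hz; field_simp at hz; linear_combination hz
  exact_mod_cast this
end Ctx

theorem J7 (h : JR G p n m k e) (h5 : 5 ≤ k) (hT : TTI G k) :
    ∃ A : ℤ, (Nat.card G : ℤ) * (A + e * (p ^ n : ℕ)) ^ 2 =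
        ((8 * p ^ n * m * k : ℕ) : ℤ) ^ 2 * (2 * k) * A * (1 + A) ∧
      2 * k * A ∣ (Nat.card G : ℤ) ∧ (2 * k : ℤ) ∣ A - 1 := by
  obtain ⟨t, ht⟩ := h.ex
  obtain ⟨w, T, hTT⟩ := (h.cf t ht).exT
  obtain ⟨L, a1, a2, a3⟩ := (h.cf t ht).sgn
  have h : Ctx p n m k e t w T L := ⟨h, hTT, hT, a1, a2, a3⟩
  clear a1 a2 a3
  obtain ⟨l, hl, l', hl', b1, b2, b3, b4, b5, b6⟩ := h.exl h5
  set s := Res (Dg t T) (sg t L) with hs
  have d1 : ∀ l ∈ Irr (Dg t T), l ≠ bs t T L l → dot ⊤ (triv ⊤) (thl t T L l) = if l t = 1 then -1 else -0 :=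
    fun l a b => h.dot_c a b (triv_mem_CF _) 1 0 fun x _ _ _ => by simp [triv_of_mem (mem_top x)]
  have d2 : ∀ l ∈ Irr (Dg t T), l ≠ bs t T L l → dot ⊤ (th0 t w T L) (thl t T L l) = if l t = 1 then -2 else - -2 :=
    fun l a b => h.dot_c a b (th0_CF _ _ _ _) 2 (-2) fun x => h.th0_D
  have d3 : ∀ l ∈ Irr (Dg t T), l ≠ bs t T L l → dot ⊤ (ga ⊤ t) (thl t T L l) = if l t = 1 then -(2 * k : ℂ) else -0 :=
    fun l a b => h.dot_c a b (ga_CF (mem_top t)) _ 0 fun x a b c => by rw [h.ga_D a b c]; ring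
  have v0 := h.th0_vchar
  have v1 := triv_vchar (⊤ : Subgroup G)
  have g1 : ∀ l ∈ Irr (Dg t T), l t = 1 → l ≠ triv (Dg t T) → l ≠ bs t T L l := fun l _ a b => by rwa [bs, if_pos a]
  have g2 : ∀ l ∈ Irr (Dg t T), l t = 1 → l ≠ triv (Dg t T) → l * s ∈ Irr (Dg t T) ∧ (l * s) t ≠ 1 ∧
      l * s ≠ bs t T L (l * s) := fun l a b c => by
    have : (l * s) t ≠ 1 := by rw [Pi.mul_apply, b, hs, h.s_t]; norm_num
    exact ⟨h.lins.mul_mem_Irr a, this, by
      rw [bs, if_neg this]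
      exact fun d => c (h.lins.mul_right_cancel (irr_supp a) (triv_mem_CF _).1 (by rw [d, triv_mul h.lins.cf.1]))⟩
  have nt : ∀ l ∈ Irr (Dg t T), l t ≠ 1 → l t = -1 := fun l a => (h.l_t a).resolve_left
  obtain ⟨a, b, c, ha, hb, hc, eX, ab, ac, bc, hA, hB⟩ := lattice (L := ⊤) (X := th0 t w T L - triv ⊤)
    (SA := {l | l ∈ Irr (Dg t T) ∧ l ≠ bs t T L l ∧ l t = 1}) (SB := {l | l ∈ Irr (Dg t T) ∧ l ≠ bs t T L l ∧ l t ≠ 1})
    (fA := fun l => thl t T L l + triv ⊤) (fB := fun l => thl t T L l) (sub_mem v0 v1)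
    (by rw [dot_sub_left, dot_sub_right, dot_sub_right, h.th0_nrm, h.th0_triv, dot_symm_one h.th0_triv, dot_triv_triv]; ring)
    (fun l a => add_mem (h.thl_vchar a.1) v1) (fun l a => h.thl_vchar a.1)
    (fun l a => by
      rw [dot_add_left, dot_add_right, dot_add_right, h.dot_thl_thl a.1 a.1 a.2.1 a.2.1, dot_vchar_comm (h.thl_vchar a.1) v1,
        d1 l a.1 a.2.1, dot_triv_triv, if_neg (h.star_ne a.1 a.2.1)]; simp [a.2.2])
    (fun l a => by rw [h.dot_thl_thl a.1 a.1 a.2.1 a.2.1, if_neg (h.star_ne a.1 a.2.1)]; simp; ring)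
    (fun l a l' b => by
      have : l t ≠ l' t := by rw [a.2.2]; exact b.2.2.symm
      rw [dot_add_left, h.dot_thl_thl a.1 b.1 a.2.1 b.2.1, d1 l' b.1 b.2.1, if_neg (fun c => this (by rw [c])),
        if_neg (fun c => this (by rw [← c, h.star_t a.1])), if_neg this, if_neg b.2.2]; ring)
    (fun l a => by
      rw [dot_add_left, dot_sub_right, dot_sub_right, dot_vchar_comm (h.thl_vchar a.1) v1,
        dot_vchar_comm (h.thl_vchar a.1) v0, d1 l a.1 a.2.1, d2 l a.1 a.2.1, h.th0_triv, dot_triv_triv]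
      simp [a.2.2]; ring)
    (fun l a => by
      rw [dot_sub_right, dot_vchar_comm (h.thl_vchar a.1) v1, dot_vchar_comm (h.thl_vchar a.1) v0, d1 l a.1 a.2.1,
        d2 l a.1 a.2.1]
      simp [a.2.2])
    (fun l a l' b => by
      rw [h.dot_thl_thl a.1 b.1 a.2.1 b.2.1, if_pos ((nt l a.1 a.2.2).trans (nt l' b.1 b.2.2).symm)]
      have := h.star_ne a.1 a.2.1
      split_ifs with c d
      · exact absurd (d.trans c.symm) this
      all_goals norm_num)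
    ⟨l, ⟨hl, g1 l hl b1 b3, b1⟩, l', ⟨hl', g1 l' hl' b2 b4, b2⟩, by
      rw [dot_add_left, dot_add_right, dot_add_right, h.dot_thl_thl hl hl' (g1 l hl b1 b3) (g1 l' hl' b2 b4),
        dot_vchar_comm (h.thl_vchar hl) v1, d1 l hl (g1 l hl b1 b3), d1 l' hl' (g1 l' hl' b2 b4), dot_triv_triv]
      simp [b1, b2, b5, b6]; ring⟩
    ⟨l * s, ⟨(g2 l hl b1 b3).1, (g2 l hl b1 b3).2.2, (g2 l hl b1 b3).2.1⟩, l' * s,
      ⟨(g2 l' hl' b2 b4).1, (g2 l' hl' b2 b4).2.2, (g2 l' hl' b2 b4).2.1⟩, by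
      have ss : star s = s := by simpa [bs] using h.star_bs fun _ => 0
      rw [h.dot_thl_thl (g2 l hl b1 b3).1 (g2 l' hl' b2 b4).1 (g2 l hl b1 b3).2.2 (g2 l' hl' b2 b4).2.2,
        if_neg fun c => b5 (h.lins.mul_right_cancel (irr_supp hl) (irr_supp hl') c),
        if_neg fun c => b6 (h.lins.mul_right_cancel (irr_supp (star_mem_Irr hl)) (irr_supp hl') (by
          rwa [star_mul', ss] at c))]
      simp [b1, b2]⟩
  have c0 : dot ⊤ (triv ⊤) c = 0 := by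
    by_contra a0
    have e1 : dot ⊤ (triv ⊤) (a + b + c) = 0 := by rw [← eX, dot_sub_right, h.th0_triv, dot_triv_triv, sub_self]
    rw [dot_add_right, dot_add_right] at e1
    rcases (irr_dirr (triv_mem_Irr ⊤)).eq_or_neg hc a0 with e2 | e2 <;>
      simp [e2, dot_neg_left, dot_symm_zero ac, dot_symm_zero bc, hc.dot_self] at e1
  have f1 : ∀ x ∈ Dg t T, x ≠ 1 → x ≠ t → c x = 1 := fun x a1 a2 a3 => by
    have := h.fourier (φ := c - triv ⊤) (fun μ hμ => by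
      by_cases g : μ = bs t T L μ
      · rw [← g, sub_self, dot_zero_right]
      rw [← dot_thl (sub_mem hc.cf (triv_mem_CF _)), dot_sub_left, d1 μ hμ g, dot_vchar_comm hc.vchar (h.thl_vchar hμ)]
      split_ifs with g'
      · have := hA μ ⟨hμ, g, g'⟩
        rw [dot_add_left, c0] at this
        linear_combination this
      · rw [(hB μ ⟨hμ, g, g'⟩).h3]; ring) a1 a2 a3
    rwa [Pi.sub_apply, triv_of_mem (mem_top x), sub_eq_zero] at this
  have hE : Dirr ⊤ (thl t T L l + triv ⊤ + c) := dirr_of_dot (add_mem (add_mem (h.thl_vchar hl) v1) hc.vchar) (by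
    have e1 := hA l ⟨hl, g1 l hl b1 b3, b1⟩
    rw [dot_add_left, dot_add_right, dot_add_right _ _ c c, dot_vchar_comm hc.vchar (add_mem (h.thl_vchar hl) v1), e1,
      hc.dot_self, dot_add_left, dot_add_right, dot_add_right, h.dot_thl_thl hl hl (g1 l hl b1 b3) (g1 l hl b1 b3),
      dot_vchar_comm (h.thl_vchar hl) v1, d1 l hl (g1 l hl b1 b3), dot_triv_triv, if_neg (h.star_ne hl (g1 l hl b1 b3))]
    simp [b1]; ring)
  obtain ⟨k1, k2, k3⟩ := g2 l hl b1 b3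
  have hE' := ((hB _ ⟨k1, k3, k2⟩).rem (h.thl_vchar k1) (by
    rw [h.dot_thl_thl k1 k1 k3 k3, if_neg (h.star_ne k1 k3)]; simp; ring)).1
  have p0 := fun ξ (hξ : Dirr ⊤ ξ) => dot_ga (mem_top t) h.ttt hξ
  simp only [top_inf_eq, card_top, h.cardC] at p0
  have p1 := h.th0_ga
  rw [sub_eq_iff_eq_add.1 eX, dot_add_right, dot_add_right, dot_add_right, p0 a ha, p0 b hb, p0 c hc,
    p0 _ (irr_dirr (triv_mem_Irr ⊤))] at p1
  have p2 := p0 _ hE
  rw [dot_add_right, dot_add_right, d3 l hl (g1 l hl b1 b3), if_pos b1, p0 c hc, p0 _ (irr_dirr (triv_mem_Irr ⊤))] at p2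
  have p3 := p0 _ hE'
  rw [dot_sub_right, dot_sub_right, d3 _ k1 k3, if_neg k2, p0 a ha, p0 b hb] at p3
  have w1 := congrFun eX 1
  have w2 := congrFun eX t
  have w3 := h.th0_t (one_mem _) (by simp)
  have n1 := hE.one_ne_zero
  have n2 := hc.one_ne_zero
  obtain ⟨A, hA1⟩ := cint_vchar_one hc.vchar
  simp only [Pi.add_apply, Pi.sub_apply, h.thl_one hl, h.thl_t hl, h.thl_one k1, h.thl_t k1, triv_of_mem (mem_top _),
    h.th0_odd (x := 1) (by simp), one_mul, h.al_one, hA1] at p1 p2 p3 w1 w2 w3 n1 n2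
  rw [w3] at w2
  have g0 : (Nat.card G : ℂ) ≠ 0 := by exact_mod_cast Nat.card_pos.ne'
  have c0' : ((8 * p ^ n * m * k : ℕ) : ℂ) ≠ 0 := h.cardC ▸ cardC_ne_zero _
  have q1 : (1 - e * (p ^ n : ℕ) : ℂ) ≠ 0 := by
    have := h.jr.ar.q3
    have e1 : (1 - e * (p ^ n : ℕ) : ℤ) ≠ 0 := by rcases h.jr.ar.he with rfl | rfl <;> omega
    exact_mod_cast e1
  have ct : c t = -(e * (p ^ n : ℕ)) := by
    have κ0 : (Nat.card G : ℂ) / ((8 * p ^ n * m * k : ℕ) : ℂ) ^ 2 ≠ 0 := div_ne_zero g0 (pow_ne_zero _ c0')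
    generalize (Nat.card G : ℂ) / ((8 * p ^ n * m * k : ℕ) : ℂ) ^ 2 = κ at *
    rw [show 0 - a 1 - b 1 = 0 + 1 + (A : ℂ) by linear_combination w1] at p3
    have e1 : (0 + 1 + c t) ^ 2 / (0 + 1 + (A : ℂ)) = (0 - a t - b t) ^ 2 / (0 + 1 + (A : ℂ)) :=
      mul_left_cancel₀ κ0 (by linear_combination p1 - p2 + p3)
    rw [div_left_inj' n1] at e1
    have e2 : (1 - e * (p ^ n : ℕ) : ℂ) * (c t + e * (p ^ n : ℕ)) = 0 := by
      linear_combination e1 / 4 - (c t + 1 - a t - b t + 2 * (1 - e * (p ^ n : ℕ))) / 4 * w2 * 0 +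
        ((1 + c t - a t - b t) / 4 - (1 - e * (p ^ n : ℕ)) / 2) * w2
    exact eq_neg_of_add_eq_zero_left ((mul_eq_zero.1 e2).resolve_left q1)
  obtain ⟨y, hy, y1⟩ := h.exT
  refine ⟨A, ?_, h.central hc hy y1 (f1 y (h.TD hy) y1 fun a => h.tT (a ▸ hy)) hA1, ?_⟩
  · rw [ct] at p2
    have := h.eC
    have e1 : (Nat.card G : ℂ) * (A + e * (p ^ n : ℕ)) ^ 2 =
        ((8 * p ^ n * m * k : ℕ) : ℂ) ^ 2 * (2 * k) * A * (1 + A) := by
      generalize ((8 * p ^ n * m * k : ℕ) : ℂ) = c at *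
      generalize ((p ^ n : ℕ) : ℂ) = q at *
      rw [zero_add] at p2 n1
      field_simp at p2
      linear_combination p2
    exact_mod_cast e1
  · obtain ⟨j, hj⟩ := cint_dot_Res_vchar le_top hc.vchar h.lins.vchar
    rw [dot_def, sum_two h.TD h.tD h.tT h.ttt fun g hg => h.mem_D.1 hg, sum_els_sharp, Finset.sum_eq_zero fun y hy => by
      obtain ⟨y1, y2⟩ := mem_els.1 hy
      rw [f1 y (h.TD y1) y2 fun a => h.tT (a ▸ y1), f1 _ (mul_mem (h.TD y1) h.tD)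
        (fun a => h.tT (by rw [← inv_of_two h.t2, ← eq_inv_of_mul_eq_one_left a]; exact y1)) (by simpa using y2),
        h.lins.map_mul_right _ h.tD, h.s_t]
      simp, one_mul, h.s_t, h.lins.one, h.cardD, hA1, ct] at hj
    refine ⟨j - e, ?_⟩
    have k0 := h.k0
    have : (A - 1 : ℂ) = 2 * k * (j - e) := by
      have a3 := h.eC; have a4 := h.qm; have a5 := h.km
      push_cast at hj a4 ⊢
      simp only [map_one, map_neg] at hj
      field_simp at hj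
      linear_combination hj - e * a4 + 2 * e * a5 + a3
    exact_mod_cast this

end Cfsg.Agent.JR
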