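import Cfsg.Agent.BW.C2

/-! Janko-Ree case, piece J7: the lattice lemma. -/

set_option autoImplicit false
set_option linter.unusedSectionVars false

namespace Cfsg.Agent.JR

open Subgroup Cfsg.Agent.FT
open scoped Classical ComplexConjugate

universe u
variable {G : Type u} [Group G] [Finite G]
variable {L : Subgroup G} {φ a b c X B B' A A' : G → ℂ}

theorem l_eq2 (h : φ ∈ VChar L) (hn : dot L φ φ = 2) (ha : Dirr L a) (hb : Dirr L b) (hab : dot L a b = 0)
    {x y : ℤ} (h1 : dot L φ a = x) (h2 : dot L φ b = y) (hx : x * x = 1) (hy : y * y = 1) :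
    φ = (x : ℂ) • a + (y : ℂ) • b := by
  have hx' : (x : ℂ) * x = 1 := by exact_mod_cast hx
  have hy' : (y : ℂ) * y = 1 := by exact_mod_cast hy
  refine sub_eq_zero.1 (eq_zero_of_dot (L := L) (sub_mem (vchar_CF h)
    (add_mem (Submodule.smul_mem _ _ ha.cf) (Submodule.smul_mem _ _ hb.cf))) ?_)
  simp only [dot_sub_left, dot_sub_right, dot_add_left, dot_add_right, dot_smul_left, dot_smul_right, hn, h1, h2,
    dot_symm_int h1, dot_symm_int h2, ha.dot_self, hb.dot_self, hab, dot_symm_zero hab, map_intCast]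
  linear_combination (-1 : ℂ) * hx' - hy'

theorem l_zero (h : φ ∈ VChar L) (hn : dot L φ φ = 2) (ha : Dirr L a) (hb : Dirr L b) (hab : dot L a b = 0)
    {x y : ℤ} (h1 : dot L φ a = x) (h2 : dot L φ b = y) (hx : x * x = 1) (hy : y * y = 1)
    (hac : dot L a c = 0) (hbc : dot L b c = 0) : dot L φ c = 0 := by
  rw [l_eq2 h hn ha hb hab h1 h2 hx hy, dot_add_left, dot_smul_left, dot_smul_left, hac, hbc]; simp

theorem l_tri (h : φ ∈ VChar L) {n : ℕ} (hn : dot L φ φ = n) (h4 : n < 4) (hc : Dirr L c) :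
    ∃ x : ℤ, dot L φ c = x ∧ (x = 0 ∨ x = 1 ∨ x = -1) := by
  rcases BW.tri h hn h4 hc with e | e | e
  · exact ⟨0, by simpa using e, by simp⟩
  · exact ⟨1, by simpa using e, by simp⟩
  · exact ⟨-1, by simpa using e, by simp⟩

theorem three_split (h : φ ∈ VChar L) (hn : dot L φ φ = 3) :
    ∃ a b c, Dirr L a ∧ Dirr L b ∧ Dirr L c ∧ dot L a b = 0 ∧ dot L a c = 0 ∧ dot L b c = 0 ∧ φ = a + b + c := by
  obtain ⟨E, h2, h3, h4, rfl⟩ := vchar_small_norm h (n := 3) (nrm_eq_of_dot (by simpa using hn)) (by norm_num)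
  obtain ⟨a, b, c, hab, hac, hbc, rfl⟩ := Finset.card_eq_three.1 h2
  refine ⟨a, b, c, h4 a (by simp), h4 b (by simp), h4 c (by simp), h3.dot_ne (by simp) (by simp) hab,
    h3.dot_ne (by simp) (by simp) hac, h3.dot_ne (by simp) (by simp) hbc, ?_⟩
  rw [Finset.sum_insert (by simp [hab, hac]), Finset.sum_pair hbc, add_assoc]

/-- the pattern of `B` with respect to `X = a + b + c` -/
structure Pat (L : Subgroup G) (B a b c : G → ℂ) : Prop where
  ha : Dirr L a
  hb : Dirr L b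
  hc : Dirr L c
  ab : dot L a b = 0
  ac : dot L a c = 0
  bc : dot L b c = 0
  h1 : dot L B a = 1
  h2 : dot L B b = 1
  h3 : dot L B c = 0

theorem Pat.swap (h : Pat L B a b c) : Pat L B b a c :=
  ⟨h.hb, h.ha, h.hc, dot_symm_zero h.ab, h.bc, h.ac, h.h2, h.h1, h.h3⟩
theorem Pat.rem (h : Pat L B a b c) (hB : B ∈ VChar L) (hn : dot L B B = 3) :
    Dirr L (B - a - b) ∧ dot L a (B - a - b) = 0 ∧ dot L b (B - a - b) = 0 ∧ dot L c (B - a - b) = 0 := by
  refine ⟨dirr_of_dot (sub_mem (sub_mem hB h.ha.vchar) h.hb.vchar) ?_, ?_, ?_, ?_⟩ <;>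
    simp only [dot_sub_left, dot_sub_right, hn, h.h1, h.h2, dot_symm_one h.h1, dot_symm_one h.h2, h.ha.dot_self,
      h.hb.dot_self, h.ab, dot_symm_zero h.ab, dot_symm_zero h.h3, dot_symm_zero h.ac, dot_symm_zero h.bc] <;> ring

theorem pat_of (ha : Dirr L a) (hb : Dirr L b) (hc : Dirr L c) (ab : dot L a b = 0) (ac : dot L a c = 0)
    (bc : dot L b c = 0) (hB : B ∈ VChar L) (hn : dot L B B = 3) (h : dot L B (a + b + c) = 2) :
    Pat L B a b c ∨ Pat L B a c b ∨ Pat L B b c a := by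
  obtain ⟨x, e1, hx⟩ := l_tri hB (n := 3) (by simpa using hn) (by norm_num) ha
  obtain ⟨y, e2, hy⟩ := l_tri hB (n := 3) (by simpa using hn) (by norm_num) hb
  obtain ⟨z, e3, hz⟩ := l_tri hB (n := 3) (by simpa using hn) (by norm_num) hc
  rw [dot_add_right, dot_add_right, e1, e2, e3] at h
  have h' : x + y + z = 2 := by exact_mod_cast h
  have : (x = 1 ∧ y = 1 ∧ z = 0) ∨ (x = 1 ∧ y = 0 ∧ z = 1) ∨ (x = 0 ∧ y = 1 ∧ z = 1) := by omega
  rcases this with ⟨rfl, rfl, rfl⟩ | ⟨rfl, rfl, rfl⟩ | ⟨rfl, rfl, rfl⟩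
  · exact Or.inl ⟨ha, hb, hc, ab, ac, bc, by simpa using e1, by simpa using e2, by simpa using e3⟩
  · exact Or.inr (Or.inl ⟨ha, hc, hb, ac, ab, dot_symm_zero bc, by simpa using e1, by simpa using e3, by simpa using e2⟩)
  · exact Or.inr (Or.inr ⟨hb, hc, ha, bc, dot_symm_zero ab, dot_symm_zero ac, by simpa using e2, by simpa using e3,
      by simpa using e1⟩)

/-- different patterns force the shape of `A` -/
theorem Pat.diff (h : Pat L B a b c) (h' : Pat L B' a c b) (hB : B ∈ VChar L) (hB' : B' ∈ VChar L)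
    (n1 : dot L B B = 3) (n2 : dot L B' B' = 3) (n3 : dot L B B' = 2) (hA : A ∈ VChar L) (n4 : dot L A A = 2)
    (e1 : dot L A B = 0) (e2 : dot L A B' = 0) (e3 : dot L A (a + b + c) = -1) : A = B - a - b - a := by
  have hd : B - B' = ((1 : ℤ) : ℂ) • b + ((-1 : ℤ) : ℂ) • c :=
    l_eq2 (sub_mem hB hB') (by
      have := dot_symm_nat (n := 2) (by simpa using n3)
      simp only [dot_sub_left, dot_sub_right, n1, n2, n3, this]; norm_num) h.hb h.hc h.bc
      (by rw [dot_sub_left, h.h2, h'.h3]; simp) (by rw [dot_sub_left, h.h3, h'.h2]; simp) (by simp) (by simp)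
  obtain ⟨x, f1, hx⟩ := l_tri hA (n := 2) (by simpa using n4) (by norm_num) h.ha
  obtain ⟨y, f2, hy⟩ := l_tri hA (n := 2) (by simpa using n4) (by norm_num) h.hb
  obtain ⟨z, f3, hz⟩ := l_tri hA (n := 2) (by simpa using n4) (by norm_num) h.hc
  have g1 := congrArg (dot L A) hd
  rw [dot_sub_right, e1, e2, dot_add_right, dot_smul_right, dot_smul_right, f2, f3] at g1
  rw [dot_add_right, dot_add_right, f1, f2, f3] at e3
  have g2 : x + y + z = -1 := by exact_mod_cast e3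
  have g3 : y = z := by
    have : (y : ℂ) = z := by simp at g1; linear_combination -g1
    exact_mod_cast this
  subst g3
  obtain ⟨r1, r2, r3, r4⟩ := h.rem hB n1
  have : (x = -1 ∧ y = 0) ∨ (x = 1 ∧ y = -1) := by omega
  rcases this with ⟨rfl, rfl⟩ | ⟨rfl, rfl⟩
  · have := l_eq2 hA n4 r1 h.ha (dot_symm_zero r2) (x := 1) (y := -1)
      (by rw [dot_sub_right, dot_sub_right, e1, f1, f2]; simp) f1 (by simp) (by simp)
    rw [this]; simp [sub_eq_add_neg]
  · have := l_zero hA n4 h.ha h.hb h.ab f1 f2 (by simp) (by simp) h.ac h.bc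
    rw [f3] at this; simp at this

theorem Pat.same (h : Pat L B a b c) (h' : Pat L B' a b c) (hB : B ∈ VChar L) (hB' : B' ∈ VChar L)
    (n1 : dot L B B = 3) (n2 : dot L B' B' = 3) (n3 : dot L B B' = 2) (hA : A ∈ VChar L) (n4 : dot L A A = 2)
    (e1 : dot L A B = 0) (e2 : dot L A B' = 0) (e3 : dot L A (a + b + c) = -1) : dot L A c = -1 := by
  obtain ⟨x, f1, hx⟩ := l_tri hA (n := 2) (by simpa using n4) (by norm_num) h.ha
  obtain ⟨y, f2, hy⟩ := l_tri hA (n := 2) (by simpa using n4) (by norm_num) h.hb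
  obtain ⟨z, f3, hz⟩ := l_tri hA (n := 2) (by simpa using n4) (by norm_num) h.hc
  rw [dot_add_right, dot_add_right, f1, f2, f3] at e3
  have g2 : x + y + z = -1 := by exact_mod_cast e3
  obtain ⟨r1, r2, r3, r4⟩ := h.rem hB n1
  obtain ⟨s1, s2, s3, s4⟩ := h'.rem hB' n2
  have rs : dot L (B - a - b) (B' - a - b) = 0 := by
    rw [dot_sub_left, dot_sub_left, s2, s3, dot_sub_right, dot_sub_right, n3, h.h1, h.h2]; ring
  have : z = -1 ∨ (z = 0 ∧ x + y = -1) ∨ (x = -1 ∧ y = -1 ∧ z = 1) := by omega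
  rcases this with rfl | ⟨rfl, g3⟩ | ⟨rfl, rfl, rfl⟩
  · simpa using f3
  · have g4 : (x : ℂ) + y = -1 := by exact_mod_cast g3
    have k1 : dot L A (B - a - b) = (1 : ℤ) := by
      rw [dot_sub_right, dot_sub_right, e1, f1, f2]; push_cast; linear_combination -g4
    have k2 : dot L A (B' - a - b) = (1 : ℤ) := by
      rw [dot_sub_right, dot_sub_right, e2, f1, f2]; push_cast; linear_combination -g4
    have k3 := l_zero hA n4 r1 s1 rs k1 k2 (by simp) (by simp) (dot_symm_zero r2) (dot_symm_zero s2)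
    have k4 := l_zero hA n4 r1 s1 rs k1 k2 (by simp) (by simp) (dot_symm_zero r3) (dot_symm_zero s3)
    rw [← f1, ← f2, k3, k4] at g4; simp at g4
  · have := l_zero hA n4 h.ha h.hb h.ab f1 f2 (by simp) (by simp) h.ac h.bc
    rw [f3] at this; simp at this

theorem lattice {ι : Type*} {SA SB : Set ι} {fA fB : ι → G → ℂ} (hX : X ∈ VChar L) (nX : dot L X X = 3)
    (vA : ∀ i ∈ SA, fA i ∈ VChar L) (vB : ∀ j ∈ SB, fB j ∈ VChar L)
    (nA : ∀ i ∈ SA, dot L (fA i) (fA i) = 2) (nB : ∀ j ∈ SB, dot L (fB j) (fB j) = 3)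
    (AB : ∀ i ∈ SA, ∀ j ∈ SB, dot L (fA i) (fB j) = 0) (AX : ∀ i ∈ SA, dot L (fA i) X = -1)
    (BX : ∀ j ∈ SB, dot L (fB j) X = 2)
    (BB : ∀ j ∈ SB, ∀ j' ∈ SB, dot L (fB j) (fB j') = 2 ∨ dot L (fB j) (fB j') = 3)
    (eA : ∃ i ∈ SA, ∃ i' ∈ SA, dot L (fA i) (fA i') = 1)
    (eB : ∃ j ∈ SB, ∃ j' ∈ SB, dot L (fB j) (fB j') = 2) :
    ∃ a b c, Dirr L a ∧ Dirr L b ∧ Dirr L c ∧ X = a + b + c ∧ dot L a b = 0 ∧ dot L a c = 0 ∧ dot L b c = 0 ∧
      (∀ i ∈ SA, dot L (fA i) c = -1) ∧ ∀ j ∈ SB, Pat L (fB j) a b c := by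
  obtain ⟨i, hi, i', hi', e1⟩ := eA
  obtain ⟨j, hj, j', hj', e2⟩ := eB
  obtain ⟨a, b, c, hp, rfl⟩ : ∃ a b c, Pat L (fB j) a b c ∧ X = a + b + c := by
    obtain ⟨a, b, c, ha, hb, hc, ab, ac, bc, rfl⟩ := three_split hX nX
    rcases pat_of ha hb hc ab ac bc (vB j hj) (nB j hj) (BX j hj) with h | h | h
    · exact ⟨a, b, c, h, rfl⟩
    · exact ⟨a, c, b, h, by abel⟩
    · exact ⟨b, c, a, h, by abel⟩
  have key : ∀ l ∈ SB, Pat L (fB l) a b c := fun l hl => by
    rcases BB j hj l hl with e | e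
    · rcases pat_of hp.ha hp.hb hp.hc hp.ab hp.ac hp.bc (vB l hl) (nB l hl) (BX l hl) with h | h | h
      · exact h
      · exfalso
        have k := fun i hi => hp.diff h (vB j hj) (vB l hl) (nB j hj) (nB l hl) e (vA i hi) (nA i hi)
          (AB i hi j hj) (AB i hi l hl) (AX i hi)
        have := nA i hi
        rw [show dot L (fA i) (fA i) = dot L (fA i) (fA i') by rw [k i hi, k i' hi'], e1] at this
        norm_num at this
      · exfalso
        have k := fun i hi => hp.swap.diff h (vB j hj) (vB l hl) (nB j hj) (nB l hl) e (vA i hi) (nA i hi)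
          (AB i hi j hj) (AB i hi l hl) (by rw [add_comm b a]; exact AX i hi)
        have := nA i hi
        rw [show dot L (fA i) (fA i) = dot L (fA i) (fA i') by rw [k i hi, k i' hi'], e1] at this
        norm_num at this
    · have : fB j - fB l = 0 := eq_zero_of_dot (L := L) (vchar_CF (sub_mem (vB j hj) (vB l hl))) (by
        have := dot_symm_nat (n := 3) (by simpa using e)
        simp only [dot_sub_left, dot_sub_right, nB j hj, nB l hl, e, this]; norm_num)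
      rw [← sub_eq_zero.1 this]; exact hp
  exact ⟨a, b, c, hp.ha, hp.hb, hp.hc, rfl, hp.ab, hp.ac, hp.bc, fun l hl => hp.same (key j' hj') (vB j hj) (vB j' hj')
    (nB j hj) (nB j' hj') e2 (vA l hl) (nA l hl) (AB l hl j hj) (AB l hl j' hj') (AX l hl), key⟩

end Cfsg.Agent.JR
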