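import Cfsg.Agent.JR.B
import Cfsg.Agent.L.Br2

/-! Janko-Ree case, piece J7: the class function `α` of `C(t)`. -/

set_option autoImplicit false
set_option linter.unusedSectionVars false

namespace Cfsg.Agent.JR

open Subgroup Cfsg.Agent.FT
open scoped Classical ComplexConjugate

universe u
variable {G : Type u} [Group G] [Finite G] {p n m k : ℕ} {e : ℤ} {t w x y : G} {T L H K : Subgroup G}

theorem sum_two {X : Subgroup G} (h1 : T ≤ X) (h2 : t ∈ X) (h3 : t ∉ T) (tt : t * t = 1)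
    (h : ∀ g ∈ X, g ∈ T ∨ g * t ∈ T) (F : G → ℂ) :
    ∑ a ∈ els (X : Set G), F a = ∑ a ∈ els (T : Set G), (F a + F (a * t)) := by
  rw [sum_els_diff (A := (X : Set G)) (B := (T : Set G)) h1 F, Finset.sum_add_distrib, add_comm,
    ← sum_els_bij (A := T) (B := (X : Set G) \ T) F (· * t) (· * t)
      (fun y hy => ⟨mul_mem (h1 hy) h2, fun e => h3 (by simpa using mul_mem (inv_mem hy) e)⟩)
      (fun y hy => (h y hy.1).resolve_left hy.2) (fun y _ => by rw [mul_assoc, tt, mul_one])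
      (fun y _ => by rw [mul_assoc, tt, mul_one])]

theorem ind0 (h : ∀ g ∈ K, g * x * g⁻¹ ∉ H) (φ : G → ℂ) : Ind H K φ x = 0 := by
  rw [Ind_apply, Finset.sum_eq_zero fun g hg => Res_of_not_mem _ (h g (mem_els.1 hg)), mul_zero]
theorem ind1 (hH : H ≤ K) (hx : x ∈ H) (h : ∀ g ∈ K, g * x * g⁻¹ ∈ H → g ∈ H) : Ind H K (triv H) x = 1 := by
  rw [Ind_apply, ← sum_els_subset (A := H) (B := K) hH _ fun g hg h1 => Res_of_not_mem _ fun e => h1 (h g hg e),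
    Finset.sum_congr rfl (g := fun _ => 1) fun g hg => by
      have := mul_mem (mul_mem (mem_els.1 hg) hx) (inv_mem (mem_els.1 hg))
      rw [Res_of_mem _ this, triv_of_mem this], sum_els_const]
  have := cardC_ne_zero H
  field_simp
theorem ind_t (ht : t ∈ H) (hK : K ≤ 𝐂[t]) (x : G) : Ind H K (triv H) (t * x) = Ind H K (triv H) x := by
  rw [Ind_apply, Ind_apply]
  congr 1
  refine Finset.sum_congr rfl fun g hg => ?_
  have : g * (t * x) * g⁻¹ = t * (g * x * g⁻¹) := by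
    rw [← mul_assoc g, mem_cent1_iff.1 (hK (mem_els.1 hg))]; group
  rw [this, Res_triv le_rfl, triv_apply, triv_apply, H.mul_mem_cancel_left ht]

/-- the context of the character computation -/
structure Ctx (p n m k : ℕ) (e : ℤ) (t w : G) (T L : Subgroup G) : Prop where
  jr : JR G p n m k e
  tt : TT k t w T
  tti : TTI G k
  hL : L ≤ 𝐂[t]
  tL : t ∉ L
  idx : ∀ g ∈ 𝐂[t], g ∈ L ∨ g * t ∈ L

/-- the sign character of `C(t)` -/
noncomputable def sg (t : G) (L : Subgroup G) : G → ℂ := fun x => if x ∈ L then 1 else if x ∈ 𝐂[t] then -1 else 0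
/-- `α` -/
noncomputable def al (t w : G) (T : Subgroup G) : G → ℂ :=
  triv 𝐂[t] + Ind (𝐂[t] ⊓ 𝐍(T)) 𝐂[t] (triv (𝐂[t] ⊓ 𝐍(T))) - Ind 𝐂(V4 t w) 𝐂[t] (triv 𝐂(V4 t w))
/-- involutions of `C(t)` other than `t` -/
def Jt (t : G) : Set G := {j | j ∈ 𝐂[t] ∧ orderOf j = 2 ∧ j ≠ t}

theorem sg_L (h : x ∈ L) : sg t L x = 1 := if_pos h
theorem sg_N (h : x ∉ L) (h1 : x ∈ 𝐂[t]) : sg t L x = -1 := by simp [sg, h, h1]
theorem CW_le (t w : G) : 𝐂(V4 t w) ≤ 𝐂[t] := cent_le_cent1 (left_mem_V4 t w)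
theorem al_vchar (t w : G) (T : Subgroup G) : al t w T ∈ VChar 𝐂[t] :=
  sub_mem (add_mem (triv_vchar _) (Ind_vchar inf_le_left (triv_vchar _))) (Ind_vchar (CW_le t w) (triv_vchar _))
theorem al_CF (t w : G) (T : Subgroup G) : al t w T ∈ FT.CF 𝐂[t] := vchar_CF (al_vchar t w T)
theorem dot_al {ξ : G → ℂ} (h : ξ ∈ FT.CF 𝐂[t]) : dot 𝐂[t] ξ (al t w T) =
    dot 𝐂[t] ξ (triv 𝐂[t]) + dot (𝐂[t] ⊓ 𝐍(T)) ξ (triv (𝐂[t] ⊓ 𝐍(T))) - dot 𝐂(V4 t w) ξ (triv 𝐂(V4 t w)) := by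
  rw [al, dot_sub_right, dot_add_right, dot_Ind_right inf_le_left h, dot_Ind_right (CW_le t w) h]

namespace Ctx
variable (h : Ctx p n m k e t w T L)
include h

theorem t2 : orderOf t = 2 := h.tt.fg.t2
theorem ttt : t * t = 1 := h.tt.fg.tt
theorem fg : FG t w := h.tt.fg
theorem mulL (hx : x ∈ L) : x * t ∉ L := fun e => h.tL (by simpa using mul_mem (inv_mem hx) e)
theorem tmul (hx : x ∈ 𝐂[t]) : t * x ∈ L ↔ x ∉ L := by
  rw [← mem_cent1_iff.1 hx]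
  exact ⟨fun a b => h.mulL b a, (h.idx x hx).resolve_left⟩
theorem mul_mem_L (hx : x ∈ 𝐂[t]) (hy : y ∈ 𝐂[t]) (h1 : x ∉ L) (h2 : y ∉ L) : x * y ∈ L := by
  have := mul_mem ((h.idx x hx).resolve_left h1) ((h.tmul hy).2 h2)
  rwa [mul_assoc, ← mul_assoc t, h.ttt, one_mul] at this
theorem lin : Lin 𝐂[t] (sg t L) := by
  refine lin_of_hom (fun x hx => ?_) (sg_L (one_mem L)) fun x hx y hy => ?_
  · simp only [sg]; rw [if_neg fun e => hx (h.hL e), if_neg (show x ∉ 𝐂[t] from hx)]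
  · by_cases h1 : x ∈ L <;> by_cases h2 : y ∈ L
    · rw [sg_L h1, sg_L h2, sg_L (mul_mem h1 h2), one_mul]
    · rw [sg_L h1, sg_N h2 hy, sg_N (by rwa [L.mul_mem_cancel_left h1]) (mul_mem hx hy), one_mul]
    · rw [sg_L h2, sg_N h1 hx, sg_N (by rwa [L.mul_mem_cancel_right h2]) (mul_mem hx hy), mul_one]
    · rw [sg_N h1 hx, sg_N h2 hy, sg_L (h.mul_mem_L hx hy h1 h2)]; ring
theorem sg_t : sg t L t = -1 := sg_N h.tL (mem_cent1_self t)
theorem odd_L (hx : x ∈ 𝐂[t]) (ho : Odd (orderOf x)) : x ∈ L :=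
  mem_of_sq_mem' ho (by_contra fun e => by
    by_cases h1 : x ∈ L
    · exact e (mul_mem h1 h1)
    · exact e (h.mul_mem_L hx hx h1 h1))
theorem oddT : Odd ♯T := h.tt.odd h.jr.oddk
theorem TL : T ≤ L := fun _ hx => h.odd_L (h.tt.cen hx) (odd_orderOf h.oddT hx)
theorem exT : ∃ y ∈ T, y ≠ 1 := exists_ne_one_of_ne_bot (one_lt_card.1 (by
  rw [h.tt.card]; have := h.jr.ar.facts.2.2.1; have := h.jr.m1; rcases h.jr.ar.he with e | e <;> omega))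
theorem cardN : ♯(𝐂[t] ⊓ 𝐍(T) : Subgroup G) = 4 * k :=
  let ⟨_, hy, h1⟩ := h.exT; (h.tt.card4 h.jr.oddk hy h1).2.2
theorem cardCW : ♯𝐂(V4 t w) = 8 * m := h.jr.cardCW h.fg
theorem cardC : ♯𝐂[t] = 8 * p ^ n * m * k := (h.jr.cf t h.t2).card
theorem tN : t ∈ 𝐂[t] ⊓ 𝐍(T) := ⟨mem_cent1_self t, h.tt.tN⟩
theorem wC : w ∈ 𝐂[t] := mem_cent1_iff.2 h.fg.comm.symm
theorem wN : w ∈ 𝐂[t] ⊓ 𝐍(T) := ⟨h.wC, h.tt.wN⟩
theorem tCW : t ∈ 𝐂(V4 t w) := V4_comm h.fg (left_mem_V4 t w)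
theorem al_t (x : G) : al t w T (t * x) = al t w T x := by
  simp only [al, Pi.sub_apply, Pi.add_apply, ind_t h.tN le_rfl, ind_t h.tCW le_rfl, triv_apply,
    (𝐂[t]).mul_mem_cancel_left (mem_cent1_self t)]
theorem m0 : (m : ℂ) ≠ 0 := by have := h.jr.m1; exact_mod_cast (by omega : m ≠ 0)
theorem k0 : (k : ℂ) ≠ 0 := by
  have := Nat.odd_iff.1 h.jr.oddk; exact_mod_cast (by omega : k ≠ 0)
theorem q0 : ((p ^ n : ℕ) : ℂ) ≠ 0 := by
  have := h.jr.ar.q3; exact_mod_cast (by omega : p ^ n ≠ 0)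
theorem eC : (e : ℂ) * e = 1 := by rcases h.jr.ar.he with a | a <;> simp [a]
theorem qm : ((p ^ n : ℕ) : ℂ) = 4 * m + e := by exact_mod_cast h.jr.ar.hq
theorem km : (k : ℂ) = 2 * m + e := by exact_mod_cast h.jr.ar.facts.2.2.1
theorem al_one : al t w T 1 = 1 - e * (p ^ n : ℕ) := by
  have h1 := cardC_mul_relIndex (inf_le_left : 𝐂[t] ⊓ 𝐍(T) ≤ _)
  have h2 := cardC_mul_relIndex (CW_le t w)
  rw [h.cardN, h.cardC] at h1
  rw [h.cardCW, h.cardC] at h2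
  simp only [al, Pi.sub_apply, Pi.add_apply, Ind_one inf_le_left, Ind_one (CW_le t w), triv_one, mul_one]
  have a1 : ((𝐂[t] ⊓ 𝐍(T)).relIndex 𝐂[t] : ℂ) = 2 * (p ^ n : ℕ) * m :=
    mul_left_cancel₀ (mul_ne_zero (by norm_num : (4 : ℂ) ≠ 0) h.k0) (by push_cast at h1 ⊢; linear_combination h1)
  have a2 : ((𝐂(V4 t w)).relIndex 𝐂[t] : ℂ) = (p ^ n : ℕ) * k :=
    mul_left_cancel₀ (mul_ne_zero (by norm_num : (8 : ℂ) ≠ 0) h.m0) (by push_cast at h2 ⊢; linear_combination h2)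
  rw [a1, a2, h.km]; ring
theorem not_dvd_of {a b : ℕ} (hc : a.Coprime b) (h1 : orderOf x ∣ a) (h2 : orderOf x ∣ b) : x = 1 :=
  orderOf_eq_one_iff.1 (Nat.eq_one_of_dvd_coprimes hc h1 h2)
theorem cop8 : k.Coprime (8 * m) :=
  Nat.Coprime.mul_right ((Nat.coprime_two_right.2 h.jr.oddk).pow_right 3) h.jr.ar.facts.2.2.2.1.symm
theorem cop4 : m.Coprime (4 * k) :=
  Nat.Coprime.mul_right ((Nat.coprime_two_right.2 h.jr.ar.odd).pow_right 2) h.jr.ar.facts.2.2.2.1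
theorem memN (hy : y ∈ T) (h1 : y ≠ 1) {g : G} (hg : g ∈ 𝐂[t]) (h2 : g * y * g⁻¹ ∈ T) : g ∈ 𝐂[t] ⊓ 𝐍(T) := by
  refine ⟨hg, ?_⟩
  rcases h.tt.nrm y hy h1 g hg h2 with a | a | a | a
  · exact le_normalizer a
  · exact (mul_mem_cancel_right h.tt.tN).1 (le_normalizer a)
  · exact (mul_mem_cancel_right h.tt.wN).1 (le_normalizer a)
  · exact (mul_mem_cancel_right h.tt.tN).1 ((mul_mem_cancel_right h.tt.wN).1 (le_normalizer a))
theorem casesN {g : G} (hg : g ∈ 𝐂[t] ⊓ 𝐍(T)) : g ∈ T ∨ g * t ∈ T ∨ g * w ∈ T ∨ g * t * w ∈ T :=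
  let ⟨y, hy, h1⟩ := h.exT; h.tt.nrm y hy h1 g hg.1 (conj_mem_of_mem_normalizer hg.2 hy)
theorem sq_w {a v : G} (hv : TT k t v T) (ha : a * v ∈ T) : a * a = 1 := by
  have := hv.inv _ ha
  rw [mul_assoc, mul_assoc, mul_inv_cancel, mul_one, mul_inv_rev, inv_of_two hv.fg.u2] at this
  exact mul_eq_one_iff_eq_inv.2 (mul_left_cancel this)
theorem sqN {g : G} (hg : g ∈ 𝐂[t] ⊓ 𝐍(T)) : g * g ∈ T := by
  rcases h.casesN hg with a | a | a | a
  · exact mul_mem a a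
  · have := mul_mem a a
    rwa [mul_assoc, ← mul_assoc t, ← mem_cent1_iff.1 hg.1, mul_assoc, h.ttt, mul_one] at this
  · rw [h.sq_w h.tt a]; exact one_mem _
  · rw [h.sq_w h.tt.mul (by rwa [← mul_assoc])]; exact one_mem _
theorem al_T (hy : y ∈ T) (h1 : y ≠ 1) : al t w T y = 2 := by
  have ho := orderOf_dvd_card' hy
  rw [h.tt.card] at ho
  simp only [al, Pi.sub_apply, Pi.add_apply]
  rw [triv_of_mem (h.tt.cen hy), ind1 inf_le_left ⟨h.tt.cen hy, le_normalizer hy⟩ fun g hg a => h.memN hy h1 hg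
    (mem_of_sq_mem' (by rw [orderOf_cj]; exact odd_orderOf h.oddT hy) (h.sqN a)),
    ind0 fun g _ a => h1 (h.not_dvd_of h.cop8 ho (by rw [← h.cardCW, ← orderOf_cj g]; exact orderOf_dvd_card' a))]
  norm_num
theorem sqCW (hx : x ∈ 𝐂(V4 t w)) : x * x ∈ Rw t w := by
  obtain ⟨s, τ, hs⟩ := h.jr.st h.fg
  rw [cent_V4] at hx
  obtain ⟨r, hr, v, hv, a⟩ := hs.cen x hx.1 hx.2
  have e1 := mem_cent_iff.1 (Rw_le_cent t w hr) v hv
  rcases a with rfl | rfl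
  · rw [mul_assoc, ← mul_assoc v, e1, mul_assoc, V4_sq h.fg hv, mul_one]; exact mul_mem hr hr
  · have e2 := hs.inv r hr
    have e3 := mem_cent_iff.1 hs.sC v hv
    have e4 := mem_cent_iff.1 (Rw_le_cent t w (inv_mem hr)) v hv
    have : r * v * s * (r * v * s) = 1 := by
      calc _ = r * v * (s * r * s⁻¹) * (s * v) * s := by group
        _ = r * (v * r⁻¹) * v * (s * s) := by rw [e2, ← e3]; group
        _ = 1 := by rw [e4, sq_of_two hs.s2, mul_one, mul_inv_cancel_left, V4_sq h.fg hv]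
    rw [this]; exact one_mem _
theorem al_R (hx : x ∈ 𝐂(V4 t w)) (h1 : x * x ≠ 1) : al t w T x = 0 := by
  have h2 := h.sqCW hx
  have ho := orderOf_dvd_card' h2
  rw [h.jr.cardR h.fg] at ho
  simp only [al, Pi.sub_apply, Pi.add_apply]
  rw [triv_of_mem (CW_le t w hx), ind1 (CW_le t w) hx fun g hg a => by
      rw [cent_V4]
      exact ⟨hg, (h.jr.cf t h.t2).rnrm w h.fg _ h2 h1 g hg (by rw [← conj_mul]; exact h.sqCW a)⟩,
    ind0 fun g _ a => h1 (h.not_dvd_of h.cop4 ho (by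
      rw [← h.cardN, ← orderOf_cj g, ← conj_mul]; exact orderOf_dvd_card' (mul_mem a a)))]
  norm_num
theorem cls_J {a : G} (ha : a ∈ Br.cls 𝐂[t] w) : a ∈ Jt t ∧ t * a ∈ Jt t ∧ sg t L a = sg t L w := by
  obtain ⟨g, hg, rfl⟩ := ha
  have e1 : g * t * g⁻¹ = t := by rw [mem_cent1_iff.1 hg, mul_inv_cancel_right]
  have f := h.fg.cj g
  rw [e1] at f
  exact ⟨⟨mem_cent1_iff.2 f.comm.symm, f.u2, f.ne.symm⟩, ⟨mem_cent1_iff.2 f.mul.comm.symm, f.mul.u2, f.mul.ne.symm⟩,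
    cfJ h.lin.cf hg w⟩
theorem J_cls {a : G} (ha : a ∈ Jt t) : a ∈ Br.cls 𝐂[t] w ∨ t * a ∈ Br.cls 𝐂[t] w := by
  obtain ⟨g, hg, b⟩ := (h.jr.cf t h.t2).cjR w a h.fg ⟨h.t2, ha.2.1, (mem_cent1_iff.1 ha.1).symm, ha.2.2.symm⟩
  exact b.imp (fun b => ⟨g, hg, b⟩) fun b => ⟨g, hg, b⟩
theorem not_cls {a : G} (ha : a ∈ Br.cls 𝐂[t] w) : t * a ∉ Br.cls 𝐂[t] w := fun b => by
  have h1 := (h.cls_J b).2.2
  rw [h.lin.map_mul_left (mem_cent1_self t), h.sg_t, (h.cls_J ha).2.2] at h1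
  exact h.lin.ne_zero h.wC (by linear_combination -h1 / 2)
theorem sumJ (F : G → ℂ) : ∑ a ∈ els (Jt t), F a = ∑ a ∈ els (Br.cls 𝐂[t] w), (F a + F (t * a)) := by
  have e : ∀ a, t * (t * a) = a := fun a => by rw [← mul_assoc, h.ttt, one_mul]
  rw [sum_els_diff (A := Jt t) (B := Br.cls 𝐂[t] w) fun a ha => (h.cls_J ha).1, Finset.sum_add_distrib, add_comm,
    ← sum_els_bij (A := Br.cls 𝐂[t] w) (B := Jt t \ Br.cls 𝐂[t] w) F (t * ·) (t * ·)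
      (fun y hy => ⟨(h.cls_J hy).2.1, h.not_cls hy⟩) (fun y hy => (h.J_cls hy.1).resolve_left hy.2)
      (fun y _ => e y) (fun y _ => e y)]
theorem ind_w (ht : t ∈ H) : Ind H 𝐂[t] (triv H) w = 4 * m * (Jt t ∩ H).ncard / ♯H := by
  have h1 := h.sumJ (triv H)
  have h2 : ∑ a ∈ els (Jt t), triv H a = (Jt t ∩ H).ncard := by
    simp only [triv_apply]
    rw [← card_els', Finset.sum_boole]
    congr 2; ext a; simp [mem_els]
  simp only [triv_apply, H.mul_mem_cancel_left ht, ← two_mul, ← Finset.mul_sum] at h1 h2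
  rw [Ind_apply, Res_triv le_rfl, Br.sum_cls (triv H), ← cent_V4, h.cardCW, ← h2, h1]
  simp only [triv_apply]
  push_cast; ring
end Ctx

end Cfsg.Agent.JR
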