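import Cfsg.Agent.JR.B

/-! The Janko-Ree case: arithmetic of the order formula. -/

set_option autoImplicit false
set_option linter.unusedSectionVars false

namespace Cfsg.Agent.JR

variable {p n m k : ℕ} {e : ℤ}

theorem j8_core {m k q e g A : ℤ} (he : e = 1 ∨ e = -1) (hq : q = 4 * m + e) (hk : k = 2 * m + e)
    (hm : 0 < m) (h2 : IsCoprime g (2 * m))
    (h3 : 8 * m * g * (A + e * q) ^ 2 = (8 * q * m * k) ^ 2 * (2 * k) * A * (1 + A))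
    (h4 : 2 * k * A ∣ 8 * m * g) (h5 : 2 * k ∣ A - 1) :
    ∃ f : ℤ, f ∣ q ∧ 8 * m * g * f ^ 2 =
      q ^ 2 * (q ^ 2 - 1) * ((q ^ 2 - 1) * f - e * q) * ((q + e) * f - e) := by
  have hee : e * e = 1 := by rcases he with rfl | rfl <;> norm_num
  have hk0 : k ≠ 0 := by rcases he with rfl | rfl <;> omega
  have hkm : IsCoprime k (2 * m) := ⟨e, -e, by rw [hk]; linear_combination hee⟩
  have hkm8 : IsCoprime k (8 * m) := by
    have := (hkm.pow_right (n := 3))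
    exact this.of_isCoprime_of_dvd_right ⟨m ^ 2, by ring⟩
  obtain ⟨g2, rfl⟩ : k ∣ g := hkm8.dvd_of_dvd_mul_left ((Dvd.intro (2 * A) (by ring)).trans h4)
  have h2' : IsCoprime g2 (2 * m) := h2.of_mul_left_right
  -- the equation in terms of `1 + A`
  have E1 : g2 * ((1 + A) + 4 * m * e) ^ 2 = 4 * k ^ 2 * q ^ 2 * A * (4 * m) * (1 + A) := by
    have h8 : 8 * m * k ≠ 0 := mul_ne_zero (by omega) hk0
    apply mul_left_cancel₀ h8
    have : A + e * q = (1 + A) + 4 * m * e := by rw [hq]; linear_combination hee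
    rw [this] at h3
    linear_combination h3
  obtain ⟨n1, M1, hc, hn, hM⟩ := Int.exists_gcd_one (m := 1 + A) (n := 4 * m)
    (Int.gcd_pos_of_ne_zero_right _ (by omega))
  set d : ℤ := (((1 + A).gcd (4 * m) : ℕ) : ℤ) with hd
  have hd0 : 0 < d := by
    rw [hd]; exact_mod_cast Int.gcd_pos_of_ne_zero_right _ (by omega)
  have E2 : g2 * (n1 + M1 * e) ^ 2 = 4 * k ^ 2 * q ^ 2 * A * M1 * n1 := by
    apply mul_left_cancel₀ (pow_ne_zero 2 hd0.ne')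
    rw [hn, hM] at E1
    linear_combination E1
  have hc' : IsCoprime n1 M1 := Int.isCoprime_iff_gcd_eq_one.2 hc
  have hM1 : IsCoprime M1 (g2 * (n1 + M1 * e) ^ 2) := by
    refine IsCoprime.mul_right ?_ (IsCoprime.pow_right ?_)
    · have := (h2'.pow_right (n := 2)).symm
      exact this.of_isCoprime_of_dvd_left ⟨d * m, by linear_combination m * hM⟩
    · exact hc'.symm.add_mul_left_right e
  have hu : IsUnit M1 := hM1.isUnit_of_dvd ⟨4 * k ^ 2 * q ^ 2 * A * n1, by rw [E2]; ring⟩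
  have hM0 : 0 < M1 := by
    by_contra h
    have : M1 * d ≤ 0 := mul_nonpos_of_nonpos_of_nonneg (by omega) hd0.le
    omega
  have hM2 : M1 = 1 := by
    rcases Int.isUnit_iff.1 hu with h | h
    · exact h
    · omega
  subst hM2
  have hd4 : d = 4 * m := by omega
  rw [hd4] at hn
  have hA : A = 4 * m * n1 - 1 := by linear_combination hn
  have hf : 2 * k ∣ n1 + e := by
    have h6 : (2 : ℤ) ∣ n1 + e := by
      have h7 : (2 : ℤ) ∣ g2 * (n1 + e) ^ 2 := ⟨2 * k ^ 2 * q ^ 2 * A * n1, by linear_combination E2⟩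
      have h8 : IsCoprime (2 : ℤ) g2 := h2'.of_mul_right_left.symm
      exact Int.prime_two.dvd_of_dvd_pow (h8.dvd_of_dvd_mul_left h7)
    have h9 : k ∣ n1 + e := by
      obtain ⟨c, hc⟩ := h5
      refine hkm.dvd_of_dvd_mul_left ⟨c + e, ?_⟩
      have : 2 * (2 * m * (n1 + e)) = 2 * (k * (c + e)) := by
        rw [hA] at hc
        linear_combination hc - 2 * e * hk - 2 * hee
      omega
    exact IsCoprime.mul_dvd hkm.of_mul_right_left.symm h6 h9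
  obtain ⟨f, hf⟩ := hf
  have E3 : g2 * f ^ 2 = q ^ 2 * A * n1 := by
    have h0 : 4 * k ^ 2 ≠ 0 := by positivity
    apply mul_left_cancel₀ h0
    rw [one_mul, hf] at E2
    linear_combination E2
  have hA0 : A ≠ 0 := fun h0 => by
    have : 4 * (m * n1) = 1 := by linear_combination h0 - hA
    omega
  have hAg : A ∣ g2 := by
    have h6 : 2 * k * A ∣ 2 * k * (4 * m * g2) := by
      convert h4 using 1; ring
    have h7 : A ∣ 4 * m * g2 := (mul_dvd_mul_iff_left (by omega : 2 * k ≠ 0)).1 h6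
    have h8 : IsCoprime A (4 * m) := ⟨-1, n1, by rw [hA]; ring⟩
    exact h8.dvd_of_dvd_mul_left h7
  obtain ⟨h, rfl⟩ := hAg
  have E4 : h * f ^ 2 = q ^ 2 * n1 := by
    apply mul_left_cancel₀ hA0
    linear_combination E3
  have hfn : IsCoprime f n1 := ⟨2 * k * e, -e, by linear_combination -e * hf + hee⟩
  have h10 : f ^ 2 ∣ q ^ 2 :=
    (hfn.pow_left (m := 2)).dvd_of_dvd_mul_right ⟨h, by linear_combination -E4⟩
  refine ⟨f, (Int.pow_dvd_pow_iff two_ne_zero).1 h10, ?_⟩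
  have hn1 : n1 = (q + e) * f - e := by rw [hq]; rw [hk] at hf; linear_combination hf
  have hA' : A = (q ^ 2 - 1) * f - e * q := by
    rw [hA, hn1, hq]; linear_combination (1 - f) * hee
  have h8 : 8 * m * k = q ^ 2 - 1 := by rw [hq, hk]; linear_combination -hee
  rw [← hA', ← hn1, ← h8]
  linear_combination (8 * m * k * A) * E4

theorem J8 (ha : Ar p n m k e) {g g' : ℕ} (h1 : g = 8 * m * g') (h2 : g'.Coprime (2 * m)) {A : ℤ}
    (h3 : (g : ℤ) * (A + e * (p ^ n : ℕ)) ^ 2 = ((8 * p ^ n * m * k : ℕ) : ℤ) ^ 2 * (2 * k) * A * (1 + A))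
    (h4 : 2 * k * A ∣ (g : ℤ)) (h5 : (2 * k : ℤ) ∣ A - 1) :
    ∃ f : ℤ, f ∣ (p ^ n : ℕ) ∧ OF g (p ^ n) e f := by
  subst h1
  have hm : (0 : ℤ) < m := by exact_mod_cast ha.odd.pos
  obtain ⟨f, hf, h⟩ := j8_core (g := g') (A := A) ha.he ha.hq ha.facts.2.2.1 hm
    (by exact_mod_cast Nat.isCoprime_iff_coprime.2 h2) (by push_cast at h3 ⊢; exact h3)
    (by push_cast at h4; exact h4) h5
  exact ⟨f, hf, by unfold OF; push_cast at h ⊢; exact h⟩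

theorem of_N (ha : Ar p n m k e) {g N : ℕ} {f h : ℤ} (h1 : ((p ^ n : ℕ) : ℤ) = f * h)
    (h2 : OF g (p ^ n) e f) (h4 : g = 8 * p ^ n * m * k * N) :
    (N : ℤ) = h * (((p ^ n : ℕ) : ℤ) ^ 2 - 1 - e * h) * ((((p ^ n : ℕ) : ℤ) + e) * f - e) ∧
      (8 * m * k : ℤ) = ((p ^ n : ℕ) : ℤ) ^ 2 - 1 := by
  have hee : e * e = 1 := by rcases ha.he with rfl | rfl <;> norm_num
  have hq := ha.hq
  have hk := ha.facts.2.2.1
  have h3 := ha.q3
  unfold OF at h2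
  rw [h4] at h2
  set q : ℤ := ((p ^ n : ℕ) : ℤ) with hq'
  have hq3 : 3 < q := by rw [hq']; exact_mod_cast h3
  have h8 : (8 * m * k : ℤ) = q ^ 2 - 1 := by rw [hq, hk]; linear_combination -hee
  refine ⟨?_, h8⟩
  have hf : f ≠ 0 := by rintro rfl; omega
  have h0 : q * (q ^ 2 - 1) * f ^ 2 ≠ 0 := by
    have : 0 < q ^ 2 - 1 := by nlinarith
    positivity
  apply mul_left_cancel₀ h0
  have e1 : ((8 * p ^ n * m * k * N : ℕ) : ℤ) = q * (q ^ 2 - 1) * N := by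
    rw [← h8, hq']; push_cast; ring
  rw [e1] at h2
  have e2 : q ^ 2 * (q ^ 2 - 1) * ((q ^ 2 - 1) * f - e * q) * ((q + e) * f - e) =
      q * (q ^ 2 - 1) * ((q + e) * f - e) * (q * ((q ^ 2 - 1) * f - e * q)) := by ring
  have e3 : q * ((q ^ 2 - 1) * f - e * q) = f ^ 2 * (h * (q ^ 2 - 1 - e * h)) := by
    linear_combination ((q ^ 2 - 1) * f - e * q - e * f * h) * h1
  rw [e2, e3] at h2
  linear_combination h2

theorem not_neg_one (ha : Ar p n m k e) (hm : 1 < m) {N : ℕ}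
    (h5 : ∀ r : ℕ, r.Prime → r ∣ m → N ≡ 3 [MOD r]) (h : (m : ℤ) ∣ N + 1) : False := by
  obtain ⟨r, hr, hrm⟩ := Nat.exists_prime_and_dvd hm.ne'
  have h1 : (r : ℤ) ∣ (3 : ℕ) - (N : ℤ) := (h5 r hr hrm).dvd
  have h2 : (r : ℤ) ∣ N + 1 := (Int.natCast_dvd_natCast.2 hrm).trans h
  have h3 : (r : ℤ) ∣ ((2 ^ 2 : ℕ) : ℤ) := by
    have := dvd_add h1 h2
    have e4 : ((3 : ℕ) : ℤ) - N + (N + 1) = ((2 ^ 2 : ℕ) : ℤ) := by push_cast; ring
    rwa [e4] at this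
  have h4 : r ∣ 2 := hr.dvd_of_dvd_pow (Int.natCast_dvd_natCast.1 h3)
  have h6 : r = 2 := (Nat.prime_dvd_prime_iff_eq hr Nat.prime_two).1 h4
  subst h6
  exact (Nat.not_even_iff_odd.2 ha.odd) (even_iff_two_dvd.2 hrm)

theorem J8a (ha : Ar p n m k 1) (hm : 1 < m) {g N : ℕ} {f : ℤ} (h1 : f ∣ (p ^ n : ℕ)) (h2 : OF g (p ^ n) 1 f)
    (h3 : ¬ p * p ^ n ∣ g) (h4 : g = 8 * p ^ n * m * k * N)
    (h5 : ∀ r : ℕ, r.Prime → r ∣ m → N ≡ 3 [MOD r]) : False := by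
  obtain ⟨h, hh⟩ := h1
  obtain ⟨hN, -⟩ := of_N ha hh h2 h4
  have hpN : ¬ (p : ℤ) ∣ N := fun hd => h3 (by
    obtain ⟨c, hc⟩ := Int.natCast_dvd_natCast.1 hd
    exact ⟨8 * m * k * c, by rw [h4, hc]; ring⟩)
  have hpq : (p : ℤ) ∣ ((p ^ n : ℕ) : ℤ) := Int.natCast_dvd_natCast.2 (dvd_pow_self p ha.facts.2.2.2.2.2.2.1.ne')
  have hq := ha.hq
  have hph : ¬ (p : ℤ) ∣ h := fun hd => hpN (by rw [hN, mul_assoc]; exact hd.mul_right _)
  have hp : Prime (p : ℤ) := Nat.prime_iff_prime_int.1 ha.pp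
  have hu : IsUnit h := by
    have hc : IsCoprime h ((p : ℤ) ^ n) := ((hp.coprime_iff_not_dvd.2 hph).symm).pow_right
    exact hc.isUnit_of_dvd (by rw [← Nat.cast_pow, hh]; exact Dvd.intro_left _ rfl)
  set q : ℤ := ((p ^ n : ℕ) : ℤ)
  rcases Int.isUnit_iff.1 hu with rfl | rfl
  · have hf : f = q := by omega
    subst hf
    refine not_neg_one ha hm h5 ⟨4 * (q ^ 3 + 2 * q ^ 2 - q - 3), ?_⟩
    rw [hN]
    have : (4 * m : ℤ) = q - 1 := by omega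
    linear_combination (-(q ^ 3 + 2 * q ^ 2 - q - 3)) * this
  · apply hpN
    rw [hN]
    exact (hpq.mul_right (-q * ((q + 1) * f - 1))).trans (dvd_of_eq (by ring))

theorem pow3_eq {a i : ℕ} {u v : ℤ} (hu : ¬ (3 : ℤ) ∣ u) (hv : ¬ (3 : ℤ) ∣ v)
    (h : 3 ^ a * u = 3 ^ i * v) : a = i := by
  have key : ∀ {a i : ℕ} {u v : ℤ}, ¬ (3 : ℤ) ∣ u → 3 ^ a * u = 3 ^ i * v → i ≤ a := by
    intro a i u v hu h
    by_contra hl
    obtain ⟨c, rfl⟩ : ∃ c, i = a + (c + 1) := ⟨i - a - 1, by omega⟩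
    apply hu
    have : (3 : ℤ) ^ a * u = 3 ^ a * (3 * (3 ^ c * v)) := by rw [h]; ring
    exact ⟨_, mul_left_cancel₀ (by positivity) this⟩
  exact le_antisymm (key hv h.symm) (key hu h)

theorem J8b (ha : Ar 3 n m k (-1)) (hm : 1 < m) {g N y g' : ℕ} {f : ℤ} (h1 : f ∣ (3 ^ n : ℕ))
    (h2 : OF g (3 ^ n) (-1) f) (h4 : g = 8 * 3 ^ n * m * k * N)
    (h5 : ∀ r : ℕ, r.Prime → r ∣ m → N ≡ 3 [MOD r]) (h6 : g = 3 ^ n * y * g') (h7 : ¬ 3 ∣ g')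
    (h8 : ∃ a, y = 3 ^ a) (h9 : y = 1 ∨ 3 ^ n ≤ y) :
    (y = 3 ^ n ∧ (g : ℤ) = ((3 : ℤ) ^ n) ^ 2 * ((3 ^ n) ^ 2 - 1) * ((3 ^ n) ^ 2 - 3 ^ n - 1) * (3 ^ n - 2)) ∨
    (y = (3 ^ n) ^ 2 ∧ (g : ℤ) = ((3 : ℤ) ^ n) ^ 3 * (3 ^ n - 1) * ((3 ^ n) ^ 3 + 1)) := by
  obtain ⟨h, hh⟩ := h1
  obtain ⟨hN, h88⟩ := of_N ha hh h2 h4
  obtain ⟨a, rfl⟩ := h8
  have hn := ha.facts.2.2.2.2.2.2.1
  have hq := ha.hq
  have hqq : ((3 ^ n : ℕ) : ℤ) = 3 ^ n := by push_cast; rfl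
  have hq3 : (3 : ℤ) ∣ 3 ^ n := dvd_pow_self 3 hn.ne'
  rw [hqq] at hh hN h88 hq
  have hg : (g : ℤ) = 3 ^ n * ((3 ^ n) ^ 2 - 1) * N := by rw [h4, ← h88]; push_cast; ring
  have hy : (3 : ℤ) ^ a * g' = ((3 ^ n) ^ 2 - 1) * N := by
    apply mul_left_cancel₀ (by positivity : (3 : ℤ) ^ n ≠ 0)
    rw [← mul_assoc, ← mul_assoc, ← hg, h6]; push_cast; ring
  have h7' : ¬ (3 : ℤ) ∣ g' := fun hd => h7 (Int.natCast_dvd_natCast.1 hd)
  have hp : Prime (3 : ℤ) := Int.prime_three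
  have key : ∀ (i : ℕ) (u : ℤ), (N : ℤ) = 3 ^ i * u → ¬ 3 ∣ u → a = i := by
    intro i u hu h3
    refine pow3_eq (v := ((3 ^ n) ^ 2 - 1) * u) h7' (fun hd => ?_) (by rw [hy, hu]; ring)
    rcases hp.dvd_or_dvd hd with h | h
    · obtain ⟨c, hc⟩ := hq3
      rw [hc] at h
      have : (3 : ℤ) ∣ (3 * c) ^ 2 := ⟨3 * c ^ 2, by ring⟩
      omega
    · exact h3 h
  obtain ⟨i, hi, hs⟩ : ∃ i ≤ n, Associated h (3 ^ i) :=
    (dvd_prime_pow hp n).1 (by rw [hh]; exact Dvd.intro_left _ rfl)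
  obtain ⟨j, rfl⟩ : ∃ j, n = j + i := ⟨n - i, by omega⟩
  have hs' : (h = 3 ^ i ∧ f = 3 ^ j) ∨ (h = -3 ^ i ∧ f = -3 ^ j) := by
    have h0 : (3 : ℤ) ^ i ≠ 0 := by positivity
    rcases Int.associated_iff.1 hs with rfl | rfl
    · exact Or.inl ⟨rfl, mul_right_cancel₀ h0 (by rw [← hh]; ring)⟩
    · exact Or.inr ⟨rfl, mul_right_cancel₀ h0 (by linear_combination hh - pow_add (3 : ℤ) j i)⟩
  have h4m : (4 * m : ℤ) = 3 ^ (j + i) + 1 := by omega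
  obtain ⟨c, hc⟩ := hq3
  rcases i with _ | i
  · simp only [add_zero, pow_zero] at *
    rcases hs' with ⟨rfl, rfl⟩ | ⟨rfl, rfl⟩
    · right
      have := key (2 * j) ((3 ^ j) ^ 2 - 3 ^ j + 1) (by rw [hN]; ring) (by
        rw [hc]
        have : (3 : ℤ) ∣ (3 * c) ^ 2 := ⟨3 * c ^ 2, by ring⟩
        omega)
      subst this
      exact ⟨by ring, by rw [hg, hN]; ring⟩
    · exfalso
      refine not_neg_one ha hm h5 ⟨4 * ((3 ^ j) ^ 3 - 2 * (3 ^ j) ^ 2 - 3 ^ j + 3), ?_⟩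
      rw [hN]
      linear_combination (-((3 ^ j) ^ 3 - 2 * (3 ^ j) ^ 2 - 3 ^ j + 3)) * h4m
  rcases j with _ | j
  · simp only [zero_add, pow_zero] at *
    rcases hs' with ⟨rfl, rfl⟩ | ⟨rfl, rfl⟩
    · exfalso
      refine not_neg_one ha hm h5 ⟨4 * ((3 ^ (i + 1)) ^ 3 - 3 ^ (i + 1) + 1), ?_⟩
      rw [hN]
      linear_combination (-((3 ^ (i + 1)) ^ 3 - 3 ^ (i + 1) + 1)) * h4m
    · left
      have := key (i + 1) (((3 ^ (i + 1)) ^ 2 - 3 ^ (i + 1) - 1) * (3 ^ (i + 1) - 2))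
        (by rw [hN]; ring) (fun hd => by
        rw [hc] at hd
        have : (3 : ℤ) ∣ (3 * c) ^ 2 := ⟨3 * c ^ 2, by ring⟩
        rcases hp.dvd_or_dvd hd with h | h <;> omega)
      subst this
      exact ⟨rfl, by rw [hg, hN]; ring⟩
  exfalso
  have e1 : (3 : ℤ) ∣ (3 ^ (j + 1 + (i + 1))) ^ 2 := ⟨3 * c ^ 2, by rw [hc]; ring⟩
  have e2 : (3 : ℤ) ∣ 3 ^ (i + 1) := dvd_pow_self 3 (by omega)
  have e3 : (3 : ℤ) ∣ (3 ^ (j + 1 + (i + 1)) + -1) * 3 ^ (j + 1) :=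
    (dvd_pow_self 3 (by omega)).mul_left _
  have hai : a = i + 1 := by
    rcases hs' with ⟨rfl, rfl⟩ | ⟨rfl, rfl⟩
    · refine key (i + 1) _ (by rw [hN, mul_assoc]) (fun hd => ?_)
      rcases hp.dvd_or_dvd hd with h | h <;> omega
    · refine key (i + 1) (-(((3 ^ (j + 1 + (i + 1))) ^ 2 - 1 - 3 ^ (i + 1)) *
        (-((3 ^ (j + 1 + (i + 1)) + -1) * 3 ^ (j + 1)) + 1))) (by rw [hN]; ring) (fun hd => ?_)
      rcases hp.dvd_or_dvd (dvd_neg.1 hd) with h | h <;> omega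
  subst hai
  rcases h9 with h | h
  · have := Nat.one_lt_pow (n := i + 1) (a := 3) (by omega) (by norm_num)
    omega
  · have := (Nat.pow_le_pow_iff_right (a := 3) (by norm_num)).1 h
    omega

end Cfsg.Agent.JR
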