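import Cfsg.Agent.JR.J9c
import Cfsg.Agent.JR.J8
import Cfsg.Agent.JR.J6

/-! Janko-Ree case, piece J9b: the Ree configuration. -/

set_option autoImplicit false
set_option linter.unusedSectionVars false

namespace Cfsg.Agent.JR

open Subgroup Cfsg.Agent.FT
open scoped Classical

universe u
variable {G : Type u} [Group G] [Finite G] {n m k : ℕ}

theorem b9_ti {U : Subgroup G} {r : ℕ} [Fact r.Prime] (hU : Syl r U ⊤)
    (hti : ∀ g : G, U ⊓ cj g U ≠ ⊥ → g ∈ 𝐍(U)) : ∃ a : ℕ, (𝐍(U)).index = 1 + ♯U * a := by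
  have hUB : U ≤ 𝐍(U) := le_normalizer
  have hti' : ∀ u ∈ U, u ≠ 1 → ∀ g ∈ (⊤ : Subgroup G), g * u * g⁻¹ ∈ 𝐍(U) → g ∈ 𝐍(U) :=
    fun u hu h1 g _ hg => by
    refine hti g fun e => ?_
    have h2 : IsPGroup r (zpowers (g * u * g⁻¹)) :=
      ((hU.cj g).isPGroup.to_le (zpowers_le.2 (conj_mem_cj hu)))
    have : g * u * g⁻¹ ∈ U ⊓ cj g U :=
      ⟨Syl.le_of_nrm (hU.of_le hUB le_top) le_rfl h2 (zpowers_le.2 hg) (mem_zpowers _), conj_mem_cj hu⟩
    rw [e, mem_bot] at this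
    exact conj_ne_one h1 this
  obtain ⟨c, hc⟩ := dot_char_nat (Res_mem_Char (le_top (a := U))
    (Ind_mem_Char le_top (triv_mem_Char 𝐍(U)))) (triv_mem_Char U)
  rw [dot_Res_left, dot_triv_right, sum_els_sharp, Ind_one le_top, triv_one, relIndex_top_right,
    Finset.sum_congr rfl (g := fun _ => 1) fun u hu =>
      ind1 le_top (hUB (mem_els.1 hu).1) (hti' u (mem_els.1 hu).1 (mem_els.1 hu).2),
    Finset.sum_const, card_els', nsmul_eq_mul, mul_one, mul_one,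
    inv_mul_eq_iff_eq_mul₀ (cardC_ne_zero U)] at hc
  have e1 : (sharp U).ncard + (𝐍(U)).index = ♯U * c := by exact_mod_cast hc
  have e2 := ncard_sharp U
  have e3 : 0 < (𝐍(U)).index := Nat.pos_of_ne_zero index_ne_zero_of_finite
  rcases c with _ | c
  · omega
  · exact ⟨c, by rw [mul_add] at e1; omega⟩

theorem b9_ar1 {q a κ : ℤ} (hq : 5 ≤ q) (h3 : 3 ∣ q) (ha : 1 ≤ a) (hκ : 0 ≤ κ)
    (h : (1 + q ^ 2 * a) * κ = (q + 1) * (q ^ 2 - q - 1) * (q - 2)) : False := by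
  have h1 : κ - (3 * q + 2) = q ^ 2 * (q ^ 2 - 2 * q - 2 - a * κ) := by linear_combination h
  have h2 : κ < q ^ 2 := by
    by_contra hl
    have a1 : q ^ 2 * q ^ 2 ≤ (1 + q ^ 2 * a) * κ :=
      mul_le_mul (by nlinarith) (by omega) (by positivity) (by positivity)
    nlinarith
  have h4 : q ^ 2 - 2 * q - 2 - a * κ = 0 := by
    by_contra h0
    rcases lt_or_gt_of_ne h0 with l | l <;> nlinarith
  have h5 : κ = 3 * q + 2 := by rw [h4] at h1; omega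
  subst h5
  have h6 : (3 * q + 2) * (9 * a - 3 * q + 8) = -2 := by linear_combination (-9) * h4
  rcases lt_trichotomy (9 * a - 3 * q + 8) 0 with l | l | l
  · nlinarith
  · rw [l] at h6; omega
  · nlinarith

theorem b9_ar2 {Q a κ : ℕ} (hp : 0 < Q) (ha : 1 ≤ a) (h : (1 + Q * a) * κ = Q + 1) : κ = 1 ∧ a = 1 := by
  rcases κ with _ | _ | κ
  · simp at h
  · exact ⟨rfl, by nlinarith⟩
  · nlinarith [Nat.zero_le (Q * a * κ)]

theorem J9b (h : JR G 3 n m k (-1)) (h3 : ¬ 3 ∣ m) (hx : CX G) (hT : TTI G k) {f : ℤ}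
    (h1 : f ∣ (3 ^ n : ℕ)) (h2 : OF (Nat.card G) (3 ^ n) (-1) f) : False := by
  haveI := h.simple
  haveI : Fact (Nat.Prime 3) := ⟨Nat.prime_three⟩
  obtain ⟨t, w, T, U, Y, hTT, hU, hc, hTU, htU, hY, hTY, htY, hUY, hf, hH, hNt, hti⟩ := J6c h hT
  obtain ⟨-, N, hN, hN3⟩ := J6d h h3 hx
  have hk : 3 ^ n - 1 = 2 * k := h.ar.facts.2.2.2.2.2.2.2.2.2.2 rfl
  have hq := h.ar.q3
  have hm := h.m1
  have hq4 := h.ar.hq
  have hHU : zpowers t ⊔ T ≤ 𝐍(U) := sup_le (zpowers_le.2 htU) hTU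
  have hHY : zpowers t ⊔ T ≤ 𝐍(Y) := sup_le (zpowers_le.2 htY) hTY
  have hd := SemiReg.card_dvd (K := Y) hf hHY
  rw [hH] at hd
  obtain ⟨b, hb⟩ := (hU.isPGroup.to_le hY).exists_card_eq
  have hg : Nat.card G = 3 ^ n * ♯Y * U.index := by rw [← hUY, card_mul_index]
  have h7 : ¬ 3 ∣ U.index := by rw [← relIndex_top_right]; exact hU.not_dvd
  have h9 : ♯Y = 1 ∨ 3 ^ n ≤ ♯Y := by
    have := card_pos' Y
    rcases Nat.eq_zero_or_pos (♯Y - 1) with e | e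
    · omega
    · have := Nat.le_of_dvd e hd
      omega
  have hJ := J8b h.ar hm h1 h2 hN hN3 hg h7 ⟨b, hb⟩ h9
  have hY0 : Y ≠ ⊥ := by
    rintro rfl
    rw [card_bot] at hJ
    rcases hJ with ⟨e, -⟩ | ⟨e, -⟩ <;> nlinarith
  obtain ⟨a, ha⟩ := b9_ti hU (hti hY0)
  have ha0 : 1 ≤ a := by
    by_contra h0
    have e : a = 0 := by omega
    rw [e, mul_zero, add_zero, index_eq_one, normalizer_eq_top_iff] at ha
    rcases ha.eq_bot_or_eq_top with e | e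
    · exact hY0 (le_bot_iff.1 (e ▸ hY))
    · have := hc t (e ▸ mem_top t)
      have h2' : IsPGroup 3 (zpowers t) := hU.isPGroup.to_le (e ▸ le_top)
      obtain ⟨c, hc⟩ := h2'.exists_card_eq
      rw [Nat.card_zpowers, hTT.fg.t2] at hc
      have : Odd (3 ^ c) := Odd.pow (by decide)
      rw [← hc] at this
      exact absurd this (by decide)
  have hco : (♯U).Coprime (2 * k) := by
    rw [hUY, hb, ← pow_add]
    exact Nat.Coprime.pow_left _ (Nat.Coprime.mul_right (by norm_num) h.ar.facts.2.2.2.2.2.1)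
  obtain ⟨κ, hκ⟩ : ♯U * (2 * k) ∣ ♯𝐍(U) :=
    hco.mul_dvd_of_dvd_of_dvd (card_dvd_of_le' le_normalizer) (hH ▸ card_dvd_of_le' hHU)
  have hG : (Nat.card G : ℤ) = (♯U : ℕ) * ((3 : ℤ) ^ n - 1) * ((1 + (♯U : ℕ) * a) * κ) := by
    have e : (3 : ℤ) ^ n - 1 = 2 * k := by
      have : ((3 ^ n : ℕ) : ℤ) = 2 * k + 1 := by omega
      push_cast at this; omega
    rw [← card_mul_index 𝐍(U), hκ, ha, e]; push_cast; ring
  have hq' : (5 : ℤ) ≤ 3 ^ n := by push_cast at hq4; omega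
  rcases hJ with ⟨e, e'⟩ | ⟨e, e'⟩
  · rw [e] at hUY
    rw [hUY] at hG
    push_cast at hG
    refine b9_ar1 (a := a) (κ := κ) hq' (dvd_pow_self 3 h.ar.facts.2.2.2.2.2.2.1.ne')
      (by exact_mod_cast ha0) (by positivity) ?_
    have h0 : ((3 : ℤ) ^ n) ^ 2 * (3 ^ n - 1) ≠ 0 := mul_ne_zero (by positivity) (by omega)
    apply mul_left_cancel₀ h0
    linear_combination e' - hG
  · rw [e] at hUY
    have hU3 : ♯U = (3 ^ n) ^ 3 := by rw [hUY]; ring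
    rw [hU3] at hG
    push_cast at hG
    have e1 : (1 + ((3 : ℤ) ^ n) ^ 3 * a) * κ = (3 ^ n) ^ 3 + 1 := by
      have h0 : ((3 : ℤ) ^ n) ^ 3 * (3 ^ n - 1) ≠ 0 := mul_ne_zero (by positivity) (by omega)
      apply mul_left_cancel₀ h0
      linear_combination e' - hG
    have e2 : (1 + (3 ^ n) ^ 3 * a) * κ = (3 ^ n) ^ 3 + 1 := by exact_mod_cast e1
    have hp : 0 < (3 ^ n) ^ 3 := by positivity
    have e3 : κ = 1 ∧ a = 1 := b9_ar2 hp ha0 e2
    obtain ⟨rfl, rfl⟩ := e3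
    refine J9c hc (hti hY0) (by rw [ha]; ring) hHU (by rw [hκ, hH, mul_one]) (hH ▸ hco)
      (by rw [hH]; exact Dvd.intro _ rfl) (by rw [hH]; have := Nat.odd_iff.1 h.oddk; omega) ?_ hY hY0 hHY hf
    rw [hH, hU3, show 2 * k + 1 = 3 ^ n by omega]
    exact Nat.pow_lt_pow_right (by omega) (by norm_num)

end Cfsg.Agent.JR
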