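import Cfsg.Agent.JR.G1
import Cfsg.Agent.JR.J7b

/-! Janko-Ree case, piece J9c: a doubly transitive configuration with abelian root group. -/

set_option autoImplicit false
set_option linter.unusedSectionVars false

namespace Cfsg.Agent.JR

open Subgroup Cfsg.Agent.FT
open scoped Classical ComplexConjugate

universe u
variable {G : Type u} [Group G] [Finite G]
variable {U B X Y H : Subgroup G} {φ ψ χ : G → ℂ} {x : G}

theorem c9_ind (hψ : ψ ∈ FT.CF B) (hx : x ∈ B) (h : ∀ g, g * x * g⁻¹ ∈ B → g ∈ B) :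
    Ind B ⊤ ψ x = ψ x := by
  rw [Ind_apply, ← sum_els_subset (A := B) (B := (⊤ : Subgroup G)) (fun _ _ => mem_top _) _
    fun g _ h1 => Res_of_not_mem _ fun e => h1 (h g e),
    Finset.sum_congr rfl (g := fun _ => ψ x) fun g hg => by
      have := mul_mem (mul_mem (mem_els.1 hg) hx) (inv_mem (mem_els.1 hg))
      rw [Res_of_mem _ this, cfJ hψ (mem_els.1 hg)], sum_els_const]
  have := cardC_ne_zero B
  field_simp

/-- multiplicities grow under restriction -/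
theorem c9_res (hU : U ≤ B) (hχ : χ ∈ Char B) (hσ : ψ ∈ Irr B) (h1 : ∀ u ∈ U, ψ u = 1) :
    ∃ a c : ℕ, dot B χ ψ = a ∧ dot U χ (triv U) = c ∧ a ≤ c := by
  obtain ⟨a, ha⟩ := dot_char_irr hχ hσ
  have h2 := sub_smul_mem_Char hχ hσ
  obtain ⟨b, hb⟩ := dot_char_nat (Res_mem_Char hU h2) (triv_mem_Char U)
  have h3 : dot U ψ (triv U) = 1 := by
    rw [← dot_triv_triv U]
    exact dot_congr (fun u hu => by rw [h1 u hu, triv_of_mem hu]) fun _ _ => rfl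
  rw [dot_Res_left, dot_sub_left, dot_smul_left, h3, ha] at hb
  exact ⟨a, a + b, ha, by push_cast; linear_combination hb, by omega⟩

theorem c9_ge (hc : IsMulCommutative U) (hχ : χ ∈ Char U) : (deg χ : ℝ) ≤ nrm U χ := by
  have h1 : ∀ ξ : G → ℂ, ∃ n : ℕ, ξ ∈ Irr U → dot U χ ξ = n := fun ξ => by
    by_cases h : ξ ∈ Irr U
    · obtain ⟨n, hn⟩ := dot_char_irr hχ h
      exact ⟨n, fun _ => hn⟩
    · exact ⟨0, fun h' => absurd h' h⟩
  choose m hm using h1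
  have h2 : (deg χ : ℂ) = ((∑ ξ ∈ Irr U, m ξ : ℕ) : ℂ) := by
    rw [← char_one hχ]
    conv_lhs => rw [cf_sum_irr (char_CF hχ)]
    rw [Finset.sum_apply]
    push_cast
    exact Finset.sum_congr rfl fun ξ h => by
      rw [Pi.smul_apply, hm ξ h, (lin_of_comm hc h).one, smul_eq_mul, mul_one]
  have h3 : deg χ = ∑ ξ ∈ Irr U, m ξ := by exact_mod_cast h2
  rw [nrm_eq_sum_irr (char_CF hχ), h3]
  push_cast
  refine Finset.sum_le_sum fun ξ h => ?_
  rw [hm ξ h, Complex.norm_natCast]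
  exact_mod_cast Nat.le_self_pow two_ne_zero (m ξ)

theorem c9_ti (hc : IsMulCommutative U) (hB : U ≤ B) (hBU : B ≤ 𝐍(U))
    (h : ∀ u ∈ U, u ≠ 1 → ∀ g, g * u * g⁻¹ ∈ B → g ∈ B) (hφ : φ ∈ Irr (⊤ : Subgroup G)) :
    deg φ * ♯U ≤ ♯B + deg φ ^ 2 := by
  set ψ : G → ℂ := fun x => if x ∈ U ∧ x ≠ 1 then φ x else 0 with hψ
  have s1 : ψ ∈ supp (sharp U) := fun x hx => if_neg fun e => hx ⟨e.1, e.2⟩
  have s2 : ψ ∈ FT.CF B := mem_CF'.2 ⟨fun x hx => if_neg fun e => hx (hB e.1), fun g hg x _ => by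
    have e1 : g * x * g⁻¹ ∈ U ↔ x ∈ U := (mem_normalizer_iff.1 (hBU hg) x).symm
    have e2 : g * x * g⁻¹ ≠ 1 ↔ x ≠ 1 := by simp [conj_eq_one_iff]
    simp only [hψ, e1, e2, cfJ (irr_CF hφ) (mem_top g)]⟩
  have s3 : ∀ x ∈ sharp U, ψ x = φ x := fun x hx => if_pos ⟨hx.1, hx.2⟩
  have d1 : dot ⊤ (Ind B ⊤ ψ) φ = nrm B ψ := by
    rw [dot_Ind_left le_top _ (irr_CF hφ), ← dot_self]
    exact dot_congr_supp s1 fun x hx => (s3 x hx).symm
  have d2 : nrm ⊤ (Ind B ⊤ ψ) = nrm B ψ := by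
    apply nrm_eq_of_dot
    rw [dot_Ind_left le_top _ (Ind_mem_CF le_top _), ← dot_self]
    exact dot_congr_supp s1 fun x hx => c9_ind s2 (hB hx.1) (h x hx.1 hx.2)
  have d3 := normSq_dot_le ⊤ (Ind B ⊤ ψ) φ
  rw [d1, d2, nrm_irr hφ, Complex.norm_real, Real.norm_eq_abs, sq_abs] at d3
  have d4 : nrm B ψ ≤ 1 := by nlinarith [nrm_nonneg B ψ]
  have d5 : ∑ x ∈ els (B : Set G), ‖ψ x‖ ^ 2 = ∑ x ∈ els (sharp U), ‖φ x‖ ^ 2 := by
    rw [← sum_els_subset (A := sharp U) (B := B) (fun x hx => hB hx.1) _ fun x _ hx => by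
      rw [s1 x hx]; simp]
    exact Finset.sum_congr rfl fun x hx => by rw [s3 x (mem_els.1 hx)]
  have d6 := c9_ge hc (Res_mem_Char (le_top (a := U)) (irr_char hφ))
  rw [deg_Res, nrm_Res, nrm_eq, sum_els_sharp, irr_one hφ, Complex.norm_natCast] at d6
  rw [nrm_eq, d5] at d4
  have p1 := cardR_pos U
  have p2 := cardR_pos B
  rw [inv_mul_le_iff₀ p2] at d4
  rw [le_inv_mul_iff₀ p1] at d6
  have : (deg φ : ℝ) * ♯U ≤ ♯B + deg φ ^ 2 := by linarith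
  exact_mod_cast this

theorem c9_sum (hYH : Y ⊓ H = ⊥) (hHY : H ≤ 𝐍(Y)) (f : G → ℂ) :
    ∑ x ∈ els ((Y ⊔ H : Subgroup G) : Set G), f x =
      ∑ a ∈ els (H : Set G), ∑ y ∈ els (Y : Set G), f (y * a) := by
  rw [← Finset.sum_product']
  symm
  refine Finset.sum_bij (fun p _ => p.2 * p.1) (fun p hp => ?_) (fun p hp p' hp' e => ?_)
    (fun x hx => ?_) fun _ _ => rfl
  · rw [Finset.mem_product] at hp
    exact mem_els.2 (mul_mem (mem_sup_left (mem_els.1 hp.2)) (mem_sup_right (mem_els.1 hp.1)))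
  · rw [Finset.mem_product] at hp hp'
    have e1 : p'.2⁻¹ * p.2 = p'.1 * p.1⁻¹ := by
      have e' : p.2 * p.1 = p'.2 * p'.1 := e
      calc p'.2⁻¹ * p.2 = p'.2⁻¹ * (p.2 * p.1) * p.1⁻¹ := by group
        _ = _ := by rw [e']; group
    have e2 : p'.2⁻¹ * p.2 ∈ Y ⊓ H := ⟨Y.mul_mem (Y.inv_mem (mem_els.1 hp'.2)) (mem_els.1 hp.2),
      e1 ▸ H.mul_mem (mem_els.1 hp'.1) (H.inv_mem (mem_els.1 hp.1))⟩
    rw [hYH, mem_bot] at e2
    have e3 : p'.1 * p.1⁻¹ = 1 := e1 ▸ e2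
    exact Prod.ext (mul_inv_eq_one.1 e3).symm (inv_mul_eq_one.1 e2).symm
  · obtain ⟨y, hy, a, ha, rfl⟩ := (H1.mem_sup_iff_of_le_normalizer' hHY).1 (mem_els.1 hx)
    exact ⟨(a, y), Finset.mem_product.2 ⟨mem_els.2 ha, mem_els.2 hy⟩, rfl⟩

theorem c9_part (hHY : H ≤ 𝐍(Y)) (hf : ∀ a ∈ H, a ≠ 1 → Y ⊓ 𝐂[a] = ⊥) (hYH : Y ⊓ H = ⊥)
    (hφ : φ ∈ Char (⊤ : Subgroup G)) {c : ℕ} (hc : dot Y φ (triv Y) = c) :
    (♯H : ℤ) ∣ deg φ - c := by
  obtain ⟨a, ha⟩ := dot_char_nat (Res_mem_Char (le_top (a := H)) hφ) (triv_mem_Char H)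
  obtain ⟨b, hb⟩ := dot_char_nat (Res_mem_Char (le_top (a := Y ⊔ H)) hφ) (triv_mem_Char _)
  rw [dot_Res_left, dot_triv_right] at ha hb
  rw [dot_triv_right] at hc
  have h1 : ∀ d ∈ els (sharp H), ∑ y ∈ els (Y : Set G), φ (y * d) = ♯Y * φ d := fun d hd => by
    have hd := mem_els.1 hd
    have m1 : ∀ z ∈ els (Y : Set G), z * d * z⁻¹ * d⁻¹ ∈ els (Y : Set G) := fun z hz => by
      have := (mem_normalizer_iff.1 (hHY hd.1) z⁻¹).1 (inv_mem (mem_els.1 hz))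
      exact mem_els.2 (by simpa [mul_assoc] using mul_mem (mem_els.1 hz) this)
    have m2 : ∀ z ∈ els (Y : Set G), ∀ z' ∈ els (Y : Set G),
        z * d * z⁻¹ * d⁻¹ = z' * d * z'⁻¹ * d⁻¹ → z = z' := fun z hz z' hz' e => by
      have e1 : z'⁻¹ * z ∈ Y ⊓ 𝐂[d] := ⟨Y.mul_mem (Y.inv_mem (mem_els.1 hz')) (mem_els.1 hz),
        mem_centralizer_singleton_iff.2 (by
          have e2 : z * d * z⁻¹ = z' * d * z'⁻¹ := mul_right_cancel e
          calc z'⁻¹ * z * d = z'⁻¹ * (z * d * z⁻¹) * z := by group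
            _ = _ := by rw [e2]; group)⟩
      rw [hf d hd.1 hd.2, mem_bot] at e1
      exact (inv_mul_eq_one.1 e1).symm
    rw [← sum_els_const]
    symm
    refine Finset.sum_bij (fun z _ => z * d * z⁻¹ * d⁻¹) m1 m2 (fun y hy => ?_) fun z _ => ?_
    · obtain ⟨z, hz, e⟩ := Finset.surj_on_of_inj_on_of_card_le (fun z _ => z * d * z⁻¹ * d⁻¹) m1
        (fun z z' hz hz' e => m2 z hz z' hz' e) le_rfl y hy
      exact ⟨z, hz, e.symm⟩
    · rw [inv_mul_cancel_right, cfJ (char_CF hφ) (mem_top z)]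
  rw [c9_sum hYH hHY, sum_els_sharp, Finset.sum_congr rfl h1, ← Finset.mul_sum,
    card_sup_of_inf_eq_bot hHY hYH] at hb
  rw [sum_els_sharp] at ha
  simp only [mul_one] at hb
  have p1 := cardC_ne_zero Y
  have p2 := cardC_ne_zero H
  rw [char_one hφ] at ha
  have e : ((deg φ : ℂ) - c) = ♯H * (a - b) := by
    rw [← ha, ← hb, ← hc]
    push_cast
    field_simp
    ring
  exact ⟨a - b, by exact_mod_cast e⟩

theorem c9_fin [IsSimpleGroup G] (hB : U ≤ B) (hY : Y ≤ U) (hY0 : Y ≠ ⊥) (hHY : H ≤ 𝐍(Y))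
    (hf : ∀ a ∈ H, a ≠ 1 → Y ⊓ 𝐂[a] = ⊥) (hYH : Y ⊓ H = ⊥) (hσ : ψ ∈ Irr B) (h1 : ∀ u ∈ U, ψ u = 1)
    (hφ : φ ∈ Irr (⊤ : Subgroup G)) (h2 : dot B φ ψ = 1) (h3 : φ ≠ triv ⊤) : ♯H < deg φ := by
  by_contra hD
  obtain ⟨a, c, e1, e2, e3⟩ := c9_res (hY.trans hB) (Res_mem_Char (le_top (a := B)) (irr_char hφ)) hσ
    fun u hu => h1 u (hY hu)
  rw [dot_Res_left, h2] at e1
  rw [dot_Res_left' (hY.trans hB)] at e2
  have e4 : a = 1 := by exact_mod_cast e1.symm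
  have k1 := c9_part hHY hf hYH (irr_char hφ) e2
  have k2 := sub_smul_mem_Char (Res_mem_Char (le_top (a := Y)) (irr_char hφ)) (triv_mem_Irr Y)
  rw [dot_Res_left, e2] at k2
  have k3 := char_one k2
  rw [Pi.sub_apply, Pi.smul_apply, Res_one, triv_one, irr_one hφ, smul_eq_mul, mul_one] at k3
  have k4 : (deg φ : ℤ) - c = deg (Res Y φ - (c : ℂ) • triv Y) := by exact_mod_cast k3
  have k5 : deg (Res Y φ - (c : ℂ) • triv Y) = 0 := by
    rw [k4] at k1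
    exact Nat.eq_zero_of_dvd_of_lt (Int.natCast_dvd_natCast.1 k1) (by omega)
  have k6 := sub_eq_zero.1 (eq_zero_of_deg k2 k5)
  have k7 : Y ≤ cker φ := (le_cker_iff (irr_char hφ) le_top).2 fun y hy => by
    have a1 := congrFun k6 y
    have a2 := congrFun k6 1
    rw [Res_of_mem _ hy, Pi.smul_apply, triv_of_mem hy] at a1
    rw [Res_one, Pi.smul_apply, triv_one] at a2
    rw [a1, a2]
  have k8 : (cker φ).Normal := normalizer_eq_top_iff.1 (top_le_iff.1 (le_normalizer_cker (irr_CF hφ)))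
  rcases k8.eq_bot_or_eq_top with h | h
  · exact hY0 (le_bot_iff.1 (h ▸ k7))
  · exact h3 ((irr_eq_triv_iff hφ).2 h.ge)

theorem c9_ar {h N D E : ℕ} (h1 : h < D) (h2 : D ≤ E) (h3 : D + E = N + 1) (h4 : (h + 1) ^ 2 < N)
    (h5 : D * N ≤ N * h + D ^ 2) : False := by
  obtain ⟨x, rfl⟩ : ∃ x, D = h + 1 + x := ⟨D - (h + 1), by omega⟩
  obtain ⟨y, rfl⟩ : ∃ y, N = h + 1 + x + (h + x) + y := ⟨N - (h + 1 + x + (h + x)), by omega⟩
  nlinarith [Nat.zero_le (x * y), Nat.le_self_pow two_ne_zero x]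

theorem J9c [IsSimpleGroup G] {U Y H : Subgroup G} (hc : ∀ x ∈ U, ∀ y ∈ U, x * y = y * x)
    (hti : ∀ g : G, U ⊓ cj g U ≠ ⊥ → g ∈ 𝐍(U)) (hi : (𝐍(U)).index = ♯U + 1) (hH : H ≤ 𝐍(U))
    (hN : ♯𝐍(U) = ♯U * ♯H) (hco : (♯U).Coprime ♯H) (h2 : 2 ∣ ♯H) (h4 : ¬ 4 ∣ ♯H)
    (hb : (♯H + 1) ^ 2 < ♯U) (hY : Y ≤ U) (hY0 : Y ≠ ⊥) (hHY : H ≤ 𝐍(Y))
    (hf : ∀ a ∈ H, a ≠ 1 → Y ⊓ 𝐂[a] = ⊥) : False := by
  have hUH : U ⊓ H = ⊥ := (disjoint_of_coprime_natCard hco).eq_bot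
  have hcm : IsMulCommutative U := ⟨⟨fun x y => Subtype.ext (hc _ x.2 _ y.2)⟩⟩
  have hUB : U ≤ 𝐍(U) := le_normalizer
  have hB : U ⊔ H = 𝐍(U) := eq_of_le_of_card_le (sup_le hUB hH)
    (by rw [card_sup_of_inf_eq_bot hH hUH, hN])
  have ho : Odd ♯U := by
    rw [← Nat.coprime_two_right]
    exact hco.coprime_dvd_right h2
  have hin : ∀ x ∈ 𝐍(U), orderOf x ∣ ♯U → x ∈ U := fun x hx h => by
    obtain ⟨u, hu, a, ha, rfl⟩ := (H1.mem_sup_iff_of_le_normalizer' hH).1 (hB ▸ hx)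
    have k : ∀ n : ℕ, (u * a) ^ n * (a ^ n)⁻¹ ∈ U := fun n => by
      induction n with
      | zero => simp
      | succ n ih =>
        have := mul_mem hu ((mem_normalizer_iff.1 (hH ha) _).1 ih)
        convert this using 1
        rw [pow_succ', pow_succ']; group
    have k1 := k ♯U
    rw [orderOf_dvd_iff_pow_eq_one.1 h, one_mul, inv_mem_iff] at k1
    have k2 : a ^ ♯U ∈ U ⊓ H := ⟨k1, pow_mem ha _⟩
    rw [hUH, mem_bot] at k2
    have k3 : orderOf a = 1 := Nat.eq_one_of_dvd_coprimes hco (orderOf_dvd_of_pow_eq_one k2)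
      (orderOf_dvd_natCard _ ha)
    rw [orderOf_eq_one_iff.1 k3, mul_one]; exact hu
  have hti' : ∀ u ∈ U, u ≠ 1 → ∀ g, g * u * g⁻¹ ∈ 𝐍(U) → g ∈ 𝐍(U) := fun u hu h1 g hg => by
    refine hti g fun e => ?_
    have : g * u * g⁻¹ ∈ U ⊓ cj g U :=
      ⟨hin _ hg (by rw [orderOf_cj]; exact orderOf_dvd_natCard _ hu), conj_mem_cj hu⟩
    rw [e, mem_bot] at this
    exact conj_ne_one h1 this
  obtain ⟨t, htH, ht⟩ : ∃ t ∈ H, orderOf t = 2 := by
    obtain ⟨t, ht⟩ := exists_prime_orderOf_dvd_card' (G := H) 2 h2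
    exact ⟨t, t.2, by rw [orderOf_coe, ht]⟩
  have h4' : ¬ 4 ∣ ♯𝐍(U) := fun h => h4 (by
    rw [hN] at h
    exact (Nat.Coprime.pow_left 2 (Nat.coprime_two_left.2 ho)).dvd_of_dvd_mul_left h)
  obtain ⟨K, hKB, hK, hn, k1, k2, -⟩ := OD h4' ht (hH htH)
  have htK : t ∉ K := not_mem_of_odd hK ht
  set s : G → ℂ := fun g => if Odd (orderOf g) then 1 else -1 with hs
  have s1 : s ∈ FT.CF ⊤ := mem_CF'.2 ⟨fun x hx => absurd (mem_top x) hx, fun g _ x _ => by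
    simp only [hs, orderOf_cj]⟩
  have s2 : ∀ x ∈ K, s x = 1 := fun x hx => if_pos (odd_orderOf hK hx)
  have s3 : ∀ x ∈ 𝐍(U), x ∉ K → s x = -1 := fun x hx h => if_neg fun e => h (k2 x hx e)
  have s4 : ∀ x ∈ K, s (x * t) = -1 := fun x hx => s3 _ (mul_mem (hKB hx) (hH htH)) fun e =>
    htK (by simpa using mul_mem (inv_mem hx) e)
  have tt : t * t = 1 := sq_of_two ht
  have hnK : 𝐍(U) ≤ 𝐍(K) := le_normalizer.trans hn
  have hσ : Lin 𝐍(U) (Res 𝐍(U) s) := lin_of_hom (Res_supp _ _) (by rw [Res_one]; exact s2 1 (one_mem K))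
    fun x hx y hy => by
      rw [Res_of_mem _ hx, Res_of_mem _ hy, Res_of_mem _ (mul_mem hx hy)]
      by_cases a : x ∈ K <;> by_cases b : y ∈ K
      · rw [s2 _ a, s2 _ b, s2 _ (mul_mem a b), mul_one]
      · rw [s2 _ a, s3 _ hy b, s3 _ (mul_mem hx hy) fun e => b (by simpa using mul_mem (inv_mem a) e),
          one_mul]
      · rw [s2 _ b, s3 _ hx a, s3 _ (mul_mem hx hy) fun e => a (by simpa using mul_mem e (inv_mem b)),
          mul_one]
      · have a' := (k1 x hx).resolve_left a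
        have b' := (mem_normalizer_iff.1 (hnK (hH htH)) _).1 ((k1 y hy).resolve_left b)
        have : x * y ∈ K := by
          have e : x * y = x * t * (t * (y * t) * t⁻¹) := by
            rw [mul_assoc x t, ← mul_assoc t y t, mul_inv_cancel_right, ← mul_assoc t t y, tt, one_mul]
          rw [e]; exact mul_mem a' b'
        rw [s3 _ hx a, s3 _ hy b, s2 _ this]; norm_num
  have hUK : U ≤ K := fun u hu => k2 u (hUB hu) (odd_orderOf ho hu)
  have σ1 : ∀ u ∈ U, Res 𝐍(U) s u = 1 := fun u hu => by rw [Res_of_mem _ (hUB hu), s2 u (hUK hu)]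
  set P := Ind 𝐍(U) ⊤ (Res 𝐍(U) s) with hP
  set π := Ind 𝐍(U) ⊤ (triv 𝐍(U)) with hπ
  have P1 : P ∈ Char (⊤ : Subgroup G) := Ind_mem_Char le_top hσ.char
  have π1 : π ∈ Char (⊤ : Subgroup G) := Ind_mem_Char le_top (triv_mem_Char _)
  have P2 : P = π * s := by rw [hP, Ind_Res, Ind_eq_Ind_triv_mul _ s1]
  have P3 : P 1 = (♯U + 1 : ℕ) := by
    rw [hP, Ind_one le_top, hσ.one, relIndex_top_right, hi, mul_one]
  have π3 : π 1 = (♯U + 1 : ℕ) := by
    rw [hπ, Ind_one le_top, triv_one, relIndex_top_right, hi, mul_one]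
  have n1 : dot ⊤ P P = dot ⊤ π π := by
    rw [P2, dot_mul_left, mul_assoc]
    refine dot_congr (fun _ _ => rfl) fun x _ => ?_
    rw [Pi.mul_apply, Pi.mul_apply, star_apply']
    by_cases a : Odd (orderOf x) <;> simp [hs, a]
  have n2 : 2 ≤ nrm ⊤ π := by
    have a1 : dot ⊤ π (triv ⊤) = 1 := by
      rw [hπ, dot_Ind_left le_top _ (triv_mem_CF _), ← dot_triv_triv 𝐍(U)]
      exact dot_congr (fun _ _ => rfl) fun x hx => by rw [triv_of_mem hx, triv_of_mem (mem_top x)]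
    have a2 := sub_smul_mem_Char π1 (triv_mem_Irr ⊤)
    rw [a1, one_smul] at a2
    have a3 := one_le_nrm_char a2 fun e => by
      have := congrFun e 1
      rw [Pi.sub_apply, π3, triv_one, Pi.zero_apply] at this
      push_cast at this
      exact cardC_ne_zero U (by linear_combination this)
    rw [nrm_sub, a1, nrm_irr (triv_mem_Irr ⊤)] at a3
    norm_num at a3
    linarith
  have n3 : dot ⊤ P P = (2 : ℕ) := by
    obtain ⟨a, c, e1, e2, e3⟩ := c9_res hUB (Res_mem_Char le_top P1) hσ.irr σ1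
    rw [dot_Res_left, ← dot_Ind_right le_top (char_CF P1)] at e1
    rw [dot_Res_left' hUB, dot_triv_right, sum_els_sharp, P3,
      Finset.sum_congr rfl (g := fun _ => 1) fun u hu => by
        rw [hP, c9_ind hσ.cf (hUB (mem_els.1 hu).1) (hti' u (mem_els.1 hu).1 (mem_els.1 hu).2),
          σ1 u (mem_els.1 hu).1], Finset.sum_const, card_els', nsmul_eq_mul, mul_one] at e2
    have e4 : ((sharp U).ncard : ℂ) + 1 = ♯U := by exact_mod_cast ncard_sharp U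
    have e5 : (c : ℂ) = 2 := by
      have := cardC_ne_zero U
      rw [← e2]; push_cast; field_simp; linear_combination e4
    have e6 : c = 2 := by exact_mod_cast e5
    have e7 : nrm ⊤ π = a := nrm_eq_of_dot_nat (by rw [← n1]; exact e1)
    have e8 : 2 ≤ a := by rw [e7] at n2; exact_mod_cast n2
    rw [show 2 = a by omega]; exact e1
  obtain ⟨α, β, h5, h6, h7, h8⟩ := vchar_nrm_two (char_vchar P1) (by simpa using nrm_eq_of_dot_nat n3)
  have d1 : dot ⊤ P α = 1 := by rw [h8, dot_sub_left, h5.dot_self, dot_symm_zero h7, sub_zero]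
  have d2 : dot ⊤ P (-β) = 1 := by rw [h8, dot_neg_right, dot_sub_left, h6.dot_self, h7]; ring
  have i1 := h5.irr_of_dot P1 (by rw [d1]; norm_num)
  have i2 := h6.neg.irr_of_dot P1 (by rw [d2]; norm_num)
  have d0 : dot ⊤ P (triv ⊤) = 0 := by
    rw [hP, dot_Ind_left le_top _ (triv_mem_CF _), ← dot_Res_right, Res_triv le_top]
    refine dot_irr_triv hσ.irr fun e => ?_
    have := congrFun e t
    rw [Res_of_mem _ (hH htH), triv_of_mem (hH htH), s3 t (hH htH) htK] at this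
    norm_num at this
  have key : ∀ φ ∈ Irr (⊤ : Subgroup G), dot ⊤ P φ = 1 →
      ♯H < deg φ ∧ deg φ * ♯U ≤ ♯U * ♯H + deg φ ^ 2 := fun φ hφ h => by
    refine ⟨c9_fin hUB hY hY0 hHY hf (le_bot_iff.1 (hUH ▸ inf_le_inf_right _ hY)) hσ.irr σ1 hφ ?_
      fun e => ?_, hN ▸ c9_ti hcm hUB le_rfl hti' hφ⟩
    · rw [← dot_Ind_right le_top (irr_CF hφ)]; exact dot_symm_one h
    · rw [e, d0] at h; exact zero_ne_one h
  obtain ⟨a1, a2⟩ := key _ i1 d1
  obtain ⟨b1, b2⟩ := key _ i2 d2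
  have hs : deg α + deg (-β) = ♯U + 1 := by
    rw [← deg_add (irr_char i1) (irr_char i2), ← sub_eq_add_neg, ← h8, deg_eq P3]
  rcases le_total (deg α) (deg (-β)) with l | l
  · exact c9_ar a1 l hs hb a2
  · exact c9_ar b1 l (by omega) hb b2

end Cfsg.Agent.JR
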